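import Mathlib
import Cfsg.Prelude.Def_Transfer

/-! Burnside's normal complement theorem through a count of fixed points. -/

set_option autoImplicit false

namespace Cfsg.Agent.H01

open Cfsg

variable {G : Type*} [Group G] {p : ℕ} [hpf : Fact p.Prime]

/-- An automorphism of prime order `r` of a `p`-group whose order minus the order of any proper
subgroup is not divisible by `r` is trivial. -/
theorem aut_trivial_of_count {P : Type*} [Group P] [Finite P] {r : ℕ} [hr : Fact r.Prime]
    (hP : IsPGroup p P) (hcount : ∀ j : ℕ, p ^ j < Nat.card P → ¬ r ∣ Nat.card P - p ^ j)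
    (σ : MulAut P) (hσ : σ ^ r = 1) : σ = 1 := by
  classical
  have hpr : p.Prime := hpf.out
  by_contra hne
  have hord : orderOf σ = r := orderOf_eq_prime hσ hne
  let R : Subgroup (MulAut P) := Subgroup.zpowers σ
  have hR : IsPGroup r R := by
    intro x
    refine ⟨1, ?_⟩
    apply Subtype.ext
    obtain ⟨k, hk⟩ := Subgroup.mem_zpowers_iff.mp x.2
    show ((x : MulAut P)) ^ r ^ 1 = 1
    rw [pow_one, ← hk, ← zpow_natCast, ← zpow_mul, mul_comm, zpow_mul, zpow_natCast, hσ, one_zpow]
  have hmod := hR.card_modEq_card_fixedPoints P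
  -- the fixed points form a subgroup
  let F : Subgroup P :=
    { carrier := {x | σ x = x}
      mul_mem' := by
        intro a b ha hb
        show σ (a * b) = a * b
        rw [map_mul, ha, hb]
      one_mem' := map_one σ
      inv_mem' := by
        intro a ha
        show σ a⁻¹ = a⁻¹
        rw [map_inv, ha] }
  have hfix : ∀ x : P, x ∈ MulAction.fixedPoints R P ↔ x ∈ F := by
    intro x
    constructor
    · intro h
      exact h ⟨σ, Subgroup.mem_zpowers σ⟩
    · intro (h : σ x = x) y
      obtain ⟨k, hk⟩ := Subgroup.mem_zpowers_iff.mp y.2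
      have hσk : ∀ k : ℤ, (σ ^ k) x = x := by
        intro k
        have hstab : σ ∈ MulAction.stabilizer (MulAut P) x := h
        exact (MulAction.stabilizer (MulAut P) x).zpow_mem hstab k
      show (y : MulAut P) x = x
      rw [← hk]
      exact hσk k
  have hcardF : Nat.card (MulAction.fixedPoints R P) = Nat.card F := by
    apply Nat.card_congr
    exact Equiv.subtypeEquivRight hfix
  rw [hcardF] at hmod
  obtain ⟨j, -, hj⟩ := (Nat.dvd_prime_pow hpr).mp
    (show Nat.card F ∣ p ^ (Classical.choose (IsPGroup.iff_card.mp hP)) by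
      rw [← Classical.choose_spec (IsPGroup.iff_card.mp hP)]
      exact Subgroup.card_subgroup_dvd_card F)
  have hFle : Nat.card F ≤ Nat.card P := Subgroup.card_le_card_group F
  by_cases hlt : Nat.card F < Nat.card P
  · apply hcount j (by rw [← hj]; exact hlt)
    rw [← hj]
    exact (Nat.modEq_iff_dvd' hFle).mp hmod.symm
  · have hFtop : F = ⊤ := Subgroup.eq_top_of_card_eq F (le_antisymm hFle (not_lt.mp hlt))
    apply hne
    apply MulEquiv.ext
    intro x
    have : x ∈ F := by rw [hFtop]; trivial
    exact this

/-- Burnside's theorem for an abelian Sylow subgroup with the count condition. -/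
theorem normalizer_le_centralizer_of_count [Finite G] (P : Sylow p G)
    (hab : IsMulCommutative (P : Subgroup G))
    (hcount : ∀ r : ℕ, r.Prime → r ≠ p → r ∣ Nat.card G → ∀ j : ℕ, p ^ j < Nat.card (P : Subgroup G) →
      ¬ r ∣ Nat.card (P : Subgroup G) - p ^ j) :
    Subgroup.normalizer ((P : Subgroup G) : Set G) ≤ Subgroup.centralizer ((P : Subgroup G) : Set G) := by
  classical
  have hpr : p.Prime := hpf.out
  set N := Subgroup.normalizer ((P : Subgroup G) : Set G) with hN
  set C := Subgroup.centralizer ((P : Subgroup G) : Set G) with hC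
  have hPC : (P : Subgroup G) ≤ C := by
    intro x hx
    rw [hC, Subgroup.mem_centralizer_iff]
    intro y hy
    have := hab.is_comm.comm (⟨y, hy⟩ : (P : Subgroup G)) ⟨x, hx⟩
    exact congrArg (fun z : (P : Subgroup G) => (z : G)) this
  have hact : ∀ g ∈ N, ∀ x ∈ (P : Subgroup G), g * x * g⁻¹ ∈ (P : Subgroup G) := fun g hg x hx =>
    (Subgroup.mem_normalizer_iff.mp hg x).mp hx
  -- the conjugation action of `N`
  let φ : N →* MulAut (P : Subgroup G) :=
    { toFun := fun g =>
        { toFun := fun x => ⟨(g : G) * x * (g : G)⁻¹, hact g g.2 x x.2⟩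
          invFun := fun x => ⟨(g : G)⁻¹ * x * (g : G), by
            have := hact _ (N.inv_mem g.2) x x.2
            simpa using this⟩
          left_inv := fun x => Subtype.ext (by simp [mul_assoc])
          right_inv := fun x => Subtype.ext (by simp [mul_assoc])
          map_mul' := fun x y => Subtype.ext (by simp [mul_assoc]) }
      map_one' := by
        apply MulEquiv.ext
        intro x
        apply Subtype.ext
        simp
      map_mul' := fun a b => by
        apply MulEquiv.ext
        intro x
        apply Subtype.ext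
        simp [mul_assoc] }
  have hφ : ∀ (g : N) (x : (P : Subgroup G)), ((φ g x : (P : Subgroup G)) : G) = g * x * (g : G)⁻¹ :=
    fun _ _ => rfl
  have hker : ∀ g : N, φ g = 1 → (g : G) ∈ C := by
    intro g hg
    rw [hC, Subgroup.mem_centralizer_iff]
    intro y hy
    have h1 := hφ g ⟨y, hy⟩
    rw [hg] at h1
    have h2 : y = g * y * (g : G)⁻¹ := h1
    calc y * (g : G) = (g * y * (g : G)⁻¹) * g := by rw [← h2]
      _ = g * y := by group
  -- elements of the range have trivial prime order
  have hrange : φ.range = ⊥ := by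
    by_contra hne
    haveI : Nontrivial φ.range := (Subgroup.nontrivial_iff_ne_bot _).mpr hne
    obtain ⟨r, hr, hrd⟩ := Nat.exists_prime_and_dvd (Finite.one_lt_card (α := φ.range)).ne'
    haveI : Fact r.Prime := ⟨hr⟩
    have hPker : ((P : Subgroup G).subgroupOf N) ≤ φ.ker := by
      intro x hx
      rw [MonoidHom.mem_ker]
      apply MulEquiv.ext
      intro y
      apply Subtype.ext
      have hxP : (x : G) ∈ (P : Subgroup G) := hx
      have := hab.is_comm.comm (⟨x, hxP⟩ : (P : Subgroup G)) y
      have h2 : (x : G) * y = y * x := congrArg (fun z : (P : Subgroup G) => (z : G)) this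
      show (x : G) * y * (x : G)⁻¹ = y
      rw [h2]; group
    have h1 : Nat.card φ.range = φ.ker.index := by
      rw [Subgroup.index_ker]
    have h2 : φ.ker.index ∣ ((P : Subgroup G).subgroupOf N).index :=
      Subgroup.index_dvd_of_le hPker
    have h3 : ((P : Subgroup G).subgroupOf N).index ∣ (P : Subgroup G).index :=
      Subgroup.relIndex_dvd_index_of_le (Subgroup.le_normalizer)
    have hrI : r ∣ (P : Subgroup G).index := hrd.trans (by rw [h1]; exact h2.trans h3)
    have hrG : r ∣ Nat.card G := hrI.trans (Subgroup.index_dvd_card _)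
    have hrp : r ≠ p := by
      rintro rfl
      exact P.not_dvd_index hrI
    obtain ⟨τ, hτ⟩ := exists_prime_orderOf_dvd_card' r hrd
    have hτr : ((τ : φ.range) : MulAut (P : Subgroup G)) ^ r = 1 := by
      have := pow_orderOf_eq_one τ
      rw [hτ] at this
      exact congrArg Subtype.val this
    have hτ1 := aut_trivial_of_count (p := p) (r := r) (P := (P : Subgroup G)) P.isPGroup'
      (hcount r hr hrp hrG) _ hτr
    have : τ = 1 := Subtype.ext hτ1
    rw [this, orderOf_one] at hτ
    exact hr.one_lt.ne hτ
  intro g hg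
  apply hker ⟨g, hg⟩
  have : φ ⟨g, hg⟩ ∈ φ.range := ⟨_, rfl⟩
  rw [hrange] at this
  exact this

end Cfsg.Agent.H01

namespace Cfsg.Agent.H01

open Cfsg

variable {G : Type*} [Group G] {p : ℕ} [hpf : Fact p.Prime]

theorem hasNormalPComplement_of_normalizer_le [Finite G] (P : Sylow p G)
    (h : Subgroup.normalizer ((P : Subgroup G) : Set G) ≤
      Subgroup.centralizer ((P : Subgroup G) : Set G)) : HasNormalPComplement p G :=
  ⟨P, _, MonoidHom.normal_ker _, MonoidHom.ker_transferSylow_isComplement' P h⟩

theorem hasNormalPComplement_of_count [Finite G] (P : Sylow p G)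
    (hab : IsMulCommutative (P : Subgroup G))
    (hcount : ∀ r : ℕ, r.Prime → r ≠ p → r ∣ Nat.card G → ∀ j : ℕ, p ^ j < Nat.card (P : Subgroup G) →
      ¬ r ∣ Nat.card (P : Subgroup G) - p ^ j) : HasNormalPComplement p G :=
  hasNormalPComplement_of_normalizer_le P (normalizer_le_centralizer_of_count P hab hcount)

end Cfsg.Agent.H01
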