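import Mathlib
import Cfsg.Prelude.Def_Chevalley

/-! Transport of Chevalley groups along field isomorphisms. -/

set_option autoImplicit false
open Matrix

namespace Cfsg.Agent.H01.ChevT
open Cfsg.Lie

variable (D : ChevalleyDatum) {F K : Type*} [Field F] [Field K]

lemma xMat_map (e : F ≃+* K) (r : Fin D.nroots) (t : F) :
    (D.xMat F r t).map e = D.xMat K r (e t) := by
  ext row col
  simp only [Matrix.map_apply, ChevalleyDatum.xMat, Matrix.of_apply]
  rcases col with i | s
  · rcases row with i' | u
    · simp only
      split_ifs <;> simp
    · simp only
      split_ifs <;> simp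
  · rcases row with i | u
    · simp only
      split_ifs <;> simp
    · simp only
      split_ifs
      · simp
      · simp
      · simp
      · simp
      · simp
      · rw [map_add, map_list_sum, List.map_map]
        congr 1
        · simp
        · congr 1
          apply List.map_congr_left
          intro km _
          simp
      · rw [map_add, map_list_sum, List.map_map]
        congr 1
        · simp
        · congr 1
          apply List.map_congr_left
          intro km _
          simp

/-- The isomorphism of general linear groups. -/
def glMap {ι : Type*} [Fintype ι] [DecidableEq ι] (e : F ≃+* K) : GL ι F ≃* GL ι K :=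
  Units.mapEquiv (e.mapMatrix (m := ι)).toMulEquiv

lemma glMap_val {ι : Type*} [Fintype ι] [DecidableEq ι] (e : F ≃+* K) (g : GL ι F) : (glMap e g).val = g.val.map e := rfl

theorem group_equiv (e : F ≃+* K) : Nonempty (↥(D.group F) ≃* ↥(D.group K)) := by
  have h : (D.group F).map (glMap e).toMonoidHom = D.group K := by
    unfold ChevalleyDatum.group
    rw [MonoidHom.map_closure]
    congr 1
    ext g
    constructor
    · rintro ⟨g₀, ⟨r, t, hg⟩, rfl⟩
      refine ⟨r, e t, ?_⟩
      show (glMap e g₀).val = _
      rw [glMap_val, hg, xMat_map]
    · rintro ⟨r, t, hg⟩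
      refine ⟨(glMap e).symm g, ⟨r, e.symm t, ?_⟩, by simp⟩
      have h1 : g = glMap e ((glMap e).symm g) := by simp
      have h2 : ((glMap e).symm g).val.map e = g.val := by
        rw [← glMap_val, ← h1]
      have h3 : ((D.xMat F r (e.symm t)).map e) = D.xMat K r t := by
        rw [xMat_map]
        simp
      apply Matrix.map_injective e.injective
      show ((glMap e).symm g).val.map e = (D.xMat F r (e.symm t)).map e
      rw [h2, h3, hg]
  exact ⟨((glMap e).subgroupMap _).trans (MulEquiv.subgroupCongr h)⟩

end Cfsg.Agent.H01.ChevT
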