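import Mathlib
import Cfsg.Agent.Lib.H13.CoprimeGen
import Cfsg.Agent.Lib.H13.Weak
import Cfsg.Agent.Lib.H01.Coprime3
import Cfsg.Agent.Lib.H18.Prod
import Cfsg.Agent.Lib.H18.Syl
import Cfsg.Agent.Lib.H16.TwoTrans2

/-!
Factorizations `K = XY` from factorizations of centralizers under a noncyclic elementary abelian
group acting coprimely.
-/

namespace Cfsg.Agent.H01.CF

open Subgroup
open scoped Pointwise

variable {G : Type*} [Group G] [Finite G]

theorem comm_of {p : ℕ} {A : Subgroup G} (hA : Cfsg.IsElementaryAbelian p A) {a b : G} (ha : a ∈ A)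
    (hb : b ∈ A) : a * b = b * a :=
  congrArg Subtype.val (hA.1.is_comm.comm ⟨a, ha⟩ ⟨b, hb⟩)

/-- Generation by centralizers. -/
theorem le_of_centralizers {p : ℕ} [hp : Fact p.Prime] {A Z T : Subgroup G}
    (hA : Cfsg.IsElementaryAbelian p A) (hA2 : p ^ 2 ≤ Nat.card A) (hZ : (Nat.card Z).Coprime p)
    (hAZ : A ≤ normalizer (Z : Set G))
    (hT : ∀ a ∈ A, a ≠ 1 → Z ⊓ centralizer ({a} : Set G) ≤ T) : Z ≤ T := by
  classical
  have hpp : p.Prime := hp.out
  have h4 : 1 < Nat.card A := lt_of_lt_of_le (Nat.one_lt_pow (by norm_num) hpp.one_lt) hA2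
  haveI : Nontrivial A := Finite.one_lt_card_iff_nontrivial.mp h4
  obtain ⟨⟨b, hb⟩, hb1⟩ := exists_ne (1 : A)
  have hb1' : b ≠ 1 := fun h => hb1 (Subtype.ext h)
  have hbp : b ^ p = 1 := hA.2 b hb
  have hcardb : Nat.card (zpowers b) ≤ p := by
    rw [Nat.card_zpowers]
    exact Nat.le_of_dvd hpp.pos (orderOf_dvd_of_pow_eq_one hbp)
  obtain ⟨a, ha, hab⟩ : ∃ a ∈ A, a ∉ zpowers b := by
    by_contra hcon
    push Not at hcon
    have : Nat.card A ≤ Nat.card (zpowers b) := Subgroup.card_le_of_le (fun x hx => hcon x hx)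
    have h5 : p < p ^ 2 := by
      calc p = p ^ 1 := (pow_one p).symm
        _ < p ^ 2 := Nat.pow_lt_pow_right hpp.one_lt (by norm_num)
    omega
  have hfix := Cfsg.Agent.H13.fixGen_eq (p := p) (R := Z) hZ (a := a) (b := b)
    (comm_of hA ha hb) (hA.2 a ha) hbp (hAZ ha) (hAZ hb)
  rw [← hfix]
  apply iSup_le
  rintro ⟨x, hx⟩
  rcases hx with rfl | ⟨i, -, rfl⟩
  · exact hT _ hb hb1'
  · apply hT _ (A.mul_mem ha (A.pow_mem hb i))
    intro h
    apply hab
    have : a = (b ^ i)⁻¹ := eq_inv_of_mul_eq_one_left h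
    rw [this]
    exact inv_mem (pow_mem (mem_zpowers b) i)

theorem relIdx_pos (H K : Subgroup G) : 0 < H.relIndex K :=
  Nat.pos_of_ne_zero Subgroup.index_ne_zero_of_finite

/-- The nilpotent case. -/
theorem nilp_case {p : ℕ} [hp : Fact p.Prime] {A : Subgroup G}
    (hA : Cfsg.IsElementaryAbelian p A) (hA2 : p ^ 2 ≤ Nat.card A) (n : ℕ) :
    ∀ (R X Y : Subgroup G), Group.IsNilpotent R → (Nat.card R).Coprime p →
      A ≤ normalizer (R : Set G) → X ≤ R → Y ≤ R → A ≤ normalizer (X : Set G) →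
      A ≤ normalizer (Y : Set G) →
      R ⊓ centralizer (A : Set G) ≤ normalizer (X : Set G) →
      (∀ a ∈ A, a ≠ 1 → ∀ c ∈ R ⊓ centralizer ({a} : Set G),
        ∃ x ∈ X ⊓ centralizer ({a} : Set G), ∃ y ∈ Y ⊓ centralizer ({a} : Set G), c = x * y) →
      X.relIndex R = n → ∀ c ∈ R, ∃ x ∈ X, ∃ y ∈ Y, c = x * y := by
  induction n using Nat.strong_induction_on with
  | _ n ih =>
    intro R X Y hnil hcop hAR hXR hYR hAX hAY hCX hfac hn c hc
    by_cases hXeq : X = R
    · exact ⟨c, hXeq ▸ hc, 1, Y.one_mem, by simp⟩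
    set N : Subgroup G := R ⊓ normalizer (X : Set G) with hN
    have hXN : X ≤ N := le_inf hXR Subgroup.le_normalizer
    have hNR : N ≤ R := inf_le_left
    have hXlt : X < N := by
      have hne : X.subgroupOf R ≠ ⊤ := by
        intro h
        apply hXeq
        apply le_antisymm hXR
        intro r hr
        have : (⟨r, hr⟩ : R) ∈ X.subgroupOf R := by rw [h]; trivial
        exact this
      have hlt := normalizerCondition_of_isNilpotent (G := R) (X.subgroupOf R)
        (lt_top_iff_ne_top.mpr hne)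
      obtain ⟨y, hy, hyX⟩ := SetLike.exists_of_lt hlt
      refine lt_of_le_of_ne hXN ?_
      intro h
      apply hyX
      have hyN : (y : G) ∈ N := by
        refine ⟨y.2, ?_⟩
        show (y : G) ∈ normalizer (X : Set G)
        rw [mem_normalizer_iff]
        intro g
        constructor
        · intro hg
          have hgR := hXR hg
          have := (mem_normalizer_iff.mp hy ⟨g, hgR⟩).mp hg
          exact this
        · intro hg
          have hgR : g ∈ R := by
            have h1 := hXR hg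
            have h2 : g = (y : G)⁻¹ * ((y : G) * g * (y : G)⁻¹) * y := by group
            rw [h2]
            exact R.mul_mem (R.mul_mem (R.inv_mem y.2) h1) y.2
          exact (mem_normalizer_iff.mp hy ⟨g, hgR⟩).mpr hg
      rw [← h] at hyN
      exact hyN
    have hAN : A ≤ normalizer (N : Set G) := fun a ha =>
      Cfsg.Agent.H13.mem_normalizer_inf (hAR ha) (Subgroup.le_normalizer (hAX ha))
    have hlt : N.relIndex R < n := by
      rw [← hn, ← Subgroup.relIndex_mul_relIndex X N R hXN hNR]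
      have h1 : 0 < N.relIndex R := relIdx_pos _ _
      have h2 : X.relIndex N ≠ 1 := by
        intro h
        rw [Subgroup.relIndex_eq_one] at h
        exact absurd (le_antisymm hXN h) hXlt.ne
      have h3 : 0 < X.relIndex N := relIdx_pos _ _
      nlinarith [show 2 ≤ X.relIndex N by omega]
    obtain ⟨m, hm, y₁, hy₁, hce⟩ := ih _ hlt R N Y hnil hcop hAR hNR hYR hAN hAY
      (fun z hz => Subgroup.le_normalizer ⟨hz.1, hCX hz⟩)
      (fun a ha ha1 z hz => by
        obtain ⟨x, hx, y, hy, rfl⟩ := hfac a ha ha1 z hz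
        exact ⟨x, ⟨hXN hx.1, hx.2⟩, y, hy, rfl⟩) rfl c hc
    -- `N = X (Y ∩ N)`
    have hYNX : Y ⊓ N ≤ normalizer (X : Set G) := fun z hz => hz.2.2
    have hNT : N ≤ X ⊔ (Y ⊓ N) := by
      apply le_of_centralizers hA hA2
        (Nat.Coprime.coprime_dvd_left (Subgroup.card_dvd_of_le hNR) hcop) hAN
      intro a ha ha1 z hz
      obtain ⟨x, hx, y, hy, rfl⟩ := hfac a ha ha1 z ⟨hNR hz.1, hz.2⟩
      have hyN : y ∈ N := by
        have : y = x⁻¹ * (x * y) := by group
        rw [this]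
        exact N.mul_mem (N.inv_mem (hXN hx.1)) hz.1
      exact Subgroup.mul_mem _ (mem_sup_left hx.1) (mem_sup_right ⟨hy.1, hyN⟩)
    obtain ⟨x, hx, y₂, hy₂, hme⟩ := Cfsg.Agent.H01.exists_mul_of_mem_sup hYNX (hNT hm)
    refine ⟨x, hx, y₂ * y₁, Y.mul_mem hy₂.1 hy₁, ?_⟩
    rw [hce, hme, mul_assoc]

/-- `U` is a Sylow `r`-subgroup of `V`. -/
def SylIn (r : ℕ) (U V : Subgroup G) : Prop := U ≤ V ∧ IsPGroup r U ∧ ¬ r ∣ U.relIndex V

theorem SylIn.mono {r : ℕ} {U V W : Subgroup G} (h : SylIn r U V) (hUW : U ≤ W) (hWV : W ≤ V)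
    (hW : IsPGroup r W) : SylIn r W V :=
  ⟨hWV, hW, fun hd => h.2.2 (hd.trans (Subgroup.relIndex_dvd_of_le_left V hUW))⟩

theorem sylIn_of_sylow {r : ℕ} [Fact r.Prime] {K : Subgroup G} (P : Sylow r K) :
    SylIn r ((P : Subgroup K).map K.subtype) K := by
  refine ⟨Subgroup.map_subtype_le _, P.2.map _, ?_⟩
  have : ((P : Subgroup K).map K.subtype).subgroupOf K = P :=
    Subgroup.comap_map_eq_self_of_injective K.subtype_injective _
  rw [Subgroup.relIndex, this]
  exact P.not_dvd_index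

theorem SylIn.to_sylow {r : ℕ} [Fact r.Prime] {U K : Subgroup G} (h : SylIn r U K) :
    ∃ P : Sylow r K, (P : Subgroup K).map K.subtype = U := by
  have hp : IsPGroup r (U.subgroupOf K) := Cfsg.Agent.H13.isPGroup_subgroupOf h.2.1
  refine ⟨hp.toSylow h.2.2, ?_⟩
  exact Subgroup.map_subgroupOf_eq_of_le h.1

theorem SylIn.card {r : ℕ} [hr : Fact r.Prime] {U K : Subgroup G} (h : SylIn r U K) :
    Nat.card U = r ^ (Nat.card K).factorization r := by
  obtain ⟨v, hv⟩ := IsPGroup.iff_card.mp h.2.1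
  have h1 := Cfsg.Agent.H16.card_mul_relIndex' h.1
  have hne : U.relIndex K ≠ 0 := (relIdx_pos _ _).ne'
  have h2 : (Nat.card K).factorization r = v := by
    rw [← h1, hv, Nat.factorization_mul (pow_ne_zero _ hr.out.ne_zero) hne, Finsupp.add_apply,
      hr.out.factorization_pow, Finsupp.single_eq_same,
      Nat.factorization_eq_zero_of_not_dvd h.2.2, add_zero]
  rw [h2, hv]

/-- Centralizers of invariant Sylow subgroups are Sylow subgroups of centralizers. -/
theorem sylIn_centralizer {p r : ℕ} [hp : Fact p.Prime] [hr : Fact r.Prime] {K R : Subgroup G} {a : G}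
    (ha : a ∈ normalizer (K : Set G)) (hap : a ^ p = 1) (hK : (Nat.card K).Coprime p)
    (hR : SylIn r R K) (haR : a ∈ normalizer (R : Set G)) :
    SylIn r (R ⊓ centralizer ({a} : Set G)) (K ⊓ centralizer ({a} : Set G)) := by
  classical
  have hpp : p.Prime := hp.out
  set A₁ := zpowers a with hA₁
  have hA₁K : A₁ ≤ normalizer (K : Set G) := (zpowers_le).2 ha
  have hcop : (Nat.card A₁).Coprime (Nat.card K) := by
    have h1 : Nat.card A₁ ∣ p := by
      rw [Nat.card_zpowers]; exact orderOf_dvd_of_pow_eq_one hap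
    exact Nat.Coprime.coprime_dvd_left h1 hK.symm
  have hsolv : Group.IsSolvable A₁ := isSolvable_of_comm (fun ⟨x, hx⟩ ⟨y, hy⟩ => Subtype.ext (by
    obtain ⟨i, rfl⟩ := mem_zpowers_iff.mp hx
    obtain ⟨j, rfl⟩ := mem_zpowers_iff.mp hy
    exact ((Commute.refl a).zpow_zpow i j).eq))
  obtain ⟨P₁, hP₁⟩ := hR.to_sylow
  -- a Sylow subgroup of the centralizer containing `R ∩ C(a)`
  set M := K ⊓ centralizer ({a} : Set G) with hM
  have hRCp : IsPGroup r (R ⊓ centralizer ({a} : Set G) : Subgroup G) := hR.2.1.to_le inf_le_left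
  obtain ⟨D, hD⟩ := Cfsg.Agent.H13.exists_sylow_subgroup_le (K := M)
    (A := R ⊓ centralizer ({a} : Set G)) (inf_le_inf_right _ hR.1) hRCp
  have hDs := sylIn_of_sylow D
  set D' := (D : Subgroup M).map M.subtype with hD'
  have hD'M : D' ≤ M := hDs.1
  have hA₁D : A₁ ≤ normalizer (D' : Set G) := by
    rw [hA₁, zpowers_le]
    apply Cfsg.Agent.H13.centralizer_le_normalizer_of_le
    rw [mem_centralizer_iff]
    intro t ht
    have : t ∈ centralizer ({a} : Set G) := (hD'M ht).2
    rw [mem_centralizer_singleton_iff] at this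
    exact this
  obtain ⟨P₂, hP₂, hP₂n⟩ := Cfsg.Agent.H01.invariant_subgroup_le_invariant_sylow hA₁K hcop
    (Or.inl hsolv) r D' (hD'M.trans inf_le_left) hDs.2.1 hA₁D
  have hRn : A₁ ≤ normalizer (((P₁ : Subgroup K).map K.subtype : Subgroup G) : Set G) := by
    rw [hP₁, hA₁, zpowers_le]; exact haR
  obtain ⟨c, hc, hce⟩ := Cfsg.Agent.H01.conj_invariant_sylow hA₁K hcop (Or.inl hsolv) r P₂ P₁ hP₂n hRn
  -- conjugating `D'` by `c` puts it inside `R ∩ C(a)`
  have hcD : D'.map (MulAut.conj (c : G)).toMonoidHom ≤ R ⊓ centralizer ({a} : Set G) := by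
    rintro _ ⟨d, hd, rfl⟩
    have hca : (c : G) * a = a * c := by
      have := (mem_centralizer_iff.mp hc) a (mem_zpowers a)
      exact this.symm
    have hda : d ∈ centralizer ({a} : Set G) := (hD'M hd).2
    rw [mem_centralizer_singleton_iff] at hda
    constructor
    · obtain ⟨t, ht, rfl⟩ := hP₂ hd
      rw [← hP₁]
      refine ⟨MulAut.conj c • t, ?_, rfl⟩
      have : MulAut.conj c • t ∈ MulAut.conj c • (P₂ : Subgroup K) := smul_mem_pointwise_smul _ _ _ ht
      rw [← Sylow.pointwise_smul_def, hce] at this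
      exact this
    · show (c : G) * d * (c : G)⁻¹ ∈ centralizer ({a} : Set G)
      rw [mem_centralizer_singleton_iff]
      have h4 : (c : G)⁻¹ * a = a * (c : G)⁻¹ := by
        rw [inv_mul_eq_iff_eq_mul, ← mul_assoc, hca, mul_assoc, mul_inv_cancel, mul_one]
      calc (c : G) * d * (c : G)⁻¹ * a = (c : G) * d * ((c : G)⁻¹ * a) := by group
        _ = (c : G) * d * (a * (c : G)⁻¹) := by rw [h4]
        _ = (c : G) * (d * a) * (c : G)⁻¹ := by group
        _ = (c : G) * (a * d) * (c : G)⁻¹ := by rw [hda]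
        _ = ((c : G) * a) * d * (c : G)⁻¹ := by group
        _ = (a * c) * d * (c : G)⁻¹ := by rw [hca]
        _ = _ := by group
  have hcard : Nat.card (D' : Subgroup G) ≤ Nat.card (R ⊓ centralizer ({a} : Set G) : Subgroup G) := by
    have h1 : Nat.card (D'.map (MulAut.conj (c : G)).toMonoidHom) = Nat.card D' :=
      Subgroup.card_map_of_injective (MulEquiv.injective _)
    rw [← h1]
    exact Subgroup.card_le_of_le hcD
  have heq : R ⊓ centralizer ({a} : Set G) = D' := Subgroup.eq_of_le_of_card_ge hD hcard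
  rw [heq]
  exact hDs

/-- Sylow subgroups of factorized groups. -/
theorem fact_sylow {r : ℕ} [hr : Fact r.Prime] {T X' Y' P : Subgroup G}
    (hT : (T : Set G) = (X' : Set G) * (Y' : Set G)) (hP : SylIn r P T)
    (hU : SylIn r (P ⊓ X') X') (hV : SylIn r (P ⊓ Y') Y') :
    ∀ c ∈ P, ∃ x ∈ P ⊓ X', ∃ y ∈ P ⊓ Y', c = x * y := by
  classical
  have hrp : r.Prime := hr.out
  have h1 := Cfsg.Agent.H18.card_set_mul_mul_card_inf X' Y'
  rw [← hT] at h1
  have h1' : Nat.card T * Nat.card (X' ⊓ Y' : Subgroup G) = Nat.card X' * Nat.card Y' := h1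
  have hv : (Nat.card T * Nat.card (X' ⊓ Y' : Subgroup G)).factorization r =
      (Nat.card X' * Nat.card Y').factorization r := by rw [h1']
  rw [Nat.factorization_mul (Nat.card_pos.ne') (Nat.card_pos.ne'),
    Nat.factorization_mul (Nat.card_pos.ne') (Nat.card_pos.ne')] at hv
  simp only [Finsupp.add_apply] at hv
  set U := P ⊓ X' with hUd
  set V := P ⊓ Y' with hVd
  have h2 := Cfsg.Agent.H18.card_set_mul_mul_card_inf U V
  have hUVp : IsPGroup r (U ⊓ V : Subgroup G) := hU.2.1.to_le inf_le_left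
  obtain ⟨t, ht⟩ := IsPGroup.iff_card.mp hUVp
  have hUVle : U ⊓ V ≤ X' ⊓ Y' := inf_le_inf inf_le_right inf_le_right
  have htle : t ≤ (Nat.card (X' ⊓ Y' : Subgroup G)).factorization r := by
    have hd := Subgroup.card_dvd_of_le hUVle
    rw [ht] at hd
    exact (hrp.pow_dvd_iff_le_factorization (Nat.card_pos.ne')).mp hd
  rw [hU.card, hV.card, ht] at h2
  set S : Set G := (U : Set G) * (V : Set G) with hS
  have hSP : S ⊆ (P : Set G) := by
    rintro _ ⟨u, hu, v, hv', rfl⟩
    exact P.mul_mem hu.1 hv'.1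
  have hPc := hP.card
  have hcard : Nat.card P ≤ Nat.card S := by
    rw [hPc]
    have h3 : Nat.card S * r ^ t = r ^ ((Nat.card T).factorization r +
        (Nat.card (X' ⊓ Y' : Subgroup G)).factorization r) := by
      rw [hv, pow_add]; exact h2
    obtain ⟨e, he⟩ := Nat.exists_eq_add_of_le htle
    rw [he, ← add_assoc, pow_add, pow_add] at h3
    have h3' : Nat.card S * r ^ t = (r ^ (Nat.card T).factorization r * r ^ e) * r ^ t := by
      rw [h3]; ring
    have h4 := Nat.eq_of_mul_eq_mul_right (pow_pos hrp.pos t) h3'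
    rw [h4]
    exact Nat.le_mul_of_pos_right _ (pow_pos hrp.pos e)
  have hSeq : S = (P : Set G) := by
    apply Set.eq_of_subset_of_ncard_le hSP
    rw [← Nat.card_coe_set_eq, ← Nat.card_coe_set_eq]
    exact hcard
  intro c hc
  have : c ∈ S := by rw [hSeq]; exact hc
  obtain ⟨x, hx, y, hy, rfl⟩ := this
  exact ⟨x, hx, y, hy, rfl⟩

/-- The main factorization theorem. -/
theorem main_fact {p : ℕ} [hp : Fact p.Prime] (A K X Y : Subgroup G)
    (hA : Cfsg.IsElementaryAbelian p A) (hA2 : p ^ 2 ≤ Nat.card A) (hK : ¬ p ∣ Nat.card K)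
    (hAK : A ≤ normalizer (K : Set G)) (hX : X ≤ K) (hY : Y ≤ K)
    (hAX : A ≤ normalizer (X : Set G)) (hAY : A ≤ normalizer (Y : Set G))
    (hCX : K ⊓ centralizer (A : Set G) ≤ normalizer (X : Set G))
    (hfac : ∀ a ∈ A, a ≠ 1 → ((K ⊓ centralizer {a} : Subgroup G) : Set G) =
      ((X ⊓ centralizer {a} : Subgroup G) : Set G) * ((Y ⊓ centralizer {a} : Subgroup G) : Set G)) :
    (K : Set G) = (X : Set G) * (Y : Set G) := by
  classical
  have hpp : p.Prime := hp.out
  have hKc : (Nat.card K).Coprime p := ((Nat.Prime.coprime_iff_not_dvd hpp).mpr hK).symm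
  have hAp : IsPGroup p A := by
    intro a
    refine ⟨1, ?_⟩
    ext
    simpa using hA.2 a a.2
  have hAsolv : Group.IsSolvable A := isSolvable_of_comm (fun a b => hA.1.is_comm.comm a b)
  have hAcop : ∀ {Z : Subgroup G}, Z ≤ K → (Nat.card A).Coprime (Nat.card Z) := by
    intro Z hZ
    obtain ⟨n, hn⟩ := IsPGroup.iff_card.mp hAp
    rw [hn]
    exact Nat.Coprime.pow_left n (Nat.Coprime.coprime_dvd_right (Subgroup.card_dvd_of_le hZ) hKc.symm)
  have hprime : ∀ (r : ℕ), r.Prime →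
      (Nat.card K).factorization r + (Nat.card (X ⊓ Y : Subgroup G)).factorization r ≤
        (Nat.card X).factorization r + (Nat.card Y).factorization r := by
    intro r hr
    haveI : Fact r.Prime := ⟨hr⟩
    have hAXY : A ≤ normalizer ((X ⊓ Y : Subgroup G) : Set G) := fun a ha =>
      Cfsg.Agent.H13.mem_normalizer_inf (hAX ha) (hAY ha)
    obtain ⟨Z, hZ⟩ := Cfsg.Agent.H01.exists_invariant_sylow hAXY (hAcop (inf_le_left.trans hX)) (Or.inl hAsolv) r
    have hZs := sylIn_of_sylow Z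
    obtain ⟨Yr, hYr, hYrn⟩ := Cfsg.Agent.H01.invariant_subgroup_le_invariant_sylow hAY (hAcop hY)
      (Or.inl hAsolv) r _ (hZs.1.trans inf_le_right) hZs.2.1 hZ
    have hYs := sylIn_of_sylow Yr
    obtain ⟨Rr, hRr, hRrn⟩ := Cfsg.Agent.H01.invariant_subgroup_le_invariant_sylow hAK (hAcop le_rfl)
      (Or.inl hAsolv) r _ (hYs.1.trans hY) hYs.2.1 hYrn
    have hRs := sylIn_of_sylow Rr
    set R := (Rr : Subgroup K).map K.subtype with hR
    have hRK : R ≤ K := hRs.1
    have hRp : IsPGroup r R := hRs.2.1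
    have hRY : SylIn r (R ⊓ Y) Y :=
      hYs.mono (le_inf hRr hYs.1) inf_le_right (hRp.to_le inf_le_left)
    have hRXY : SylIn r (R ⊓ (X ⊓ Y)) (X ⊓ Y) :=
      hZs.mono (le_inf (hYr.trans hRr) hZs.1) inf_le_right (hRp.to_le inf_le_left)
    -- `R ∩ X` is Sylow in `X`
    have hRX : SylIn r (R ⊓ X) X := by
      obtain ⟨Xr, hXr⟩ := Cfsg.Agent.H01.exists_invariant_sylow hAX (hAcop hX) (Or.inl hAsolv) r
      have hXs := sylIn_of_sylow Xr
      obtain ⟨R₀, hR₀, hR₀n⟩ := Cfsg.Agent.H01.invariant_subgroup_le_invariant_sylow hAK (hAcop le_rfl)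
        (Or.inl hAsolv) r _ (hXs.1.trans hX) hXs.2.1 hXr
      obtain ⟨c, hc, hce⟩ := Cfsg.Agent.H01.conj_invariant_sylow hAK (hAcop le_rfl) (Or.inl hAsolv) r
        R₀ Rr hR₀n hRrn
      set X₀ := (Xr : Subgroup X).map X.subtype with hX₀
      set U' := X₀.map (MulAut.conj (c : G)).toMonoidHom with hU'
      have hcn : (c : G) ∈ normalizer (X : Set G) := hCX ⟨c.2, hc⟩
      have hU'X : U' ≤ X := by
        rintro _ ⟨d, hd, rfl⟩
        exact (mem_normalizer_iff.mp hcn d).mp (hXs.1 hd)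
      have hU'R : U' ≤ R := by
        rintro _ ⟨d, hd, rfl⟩
        obtain ⟨t, ht, rfl⟩ := hR₀ hd
        refine ⟨MulAut.conj c • t, ?_, rfl⟩
        have : MulAut.conj c • t ∈ MulAut.conj c • (R₀ : Subgroup K) := smul_mem_pointwise_smul _ _ _ ht
        rw [← Sylow.pointwise_smul_def, hce] at this
        exact this
      have hcard : Nat.card U' = Nat.card X₀ := Subgroup.card_map_of_injective (MulEquiv.injective _)
      have hU's : SylIn r U' X := by
        refine ⟨hU'X, hRp.to_le hU'R, ?_⟩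
        have h1 := Cfsg.Agent.H16.card_mul_relIndex' hU'X
        have h2 := Cfsg.Agent.H16.card_mul_relIndex' hXs.1
        rw [hcard] at h1
        have h3 : U'.relIndex X = X₀.relIndex X :=
          Nat.eq_of_mul_eq_mul_left Nat.card_pos (h1.trans h2.symm)
        rw [h3]
        exact hXs.2.2
      exact hU's.mono (le_inf hU'R hU'X) inf_le_right (hRp.to_le inf_le_left)
    have hAR : A ≤ normalizer (R : Set G) := hRrn
    have hARX : A ≤ normalizer ((R ⊓ X : Subgroup G) : Set G) := fun a ha =>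
      Cfsg.Agent.H13.mem_normalizer_inf (hAR ha) (hAX ha)
    have hARY : A ≤ normalizer ((R ⊓ Y : Subgroup G) : Set G) := fun a ha =>
      Cfsg.Agent.H13.mem_normalizer_inf (hAR ha) (hAY ha)
    haveI hnil : Group.IsNilpotent R := hRp.isNilpotent
    have hRc : (Nat.card R).Coprime p := Nat.Coprime.coprime_dvd_left (Subgroup.card_dvd_of_le hRK) hKc
    have hfacR := nilp_case hA hA2 _ R (R ⊓ X) (R ⊓ Y) hnil hRc hAR inf_le_left inf_le_left hARX hARY
      (fun z hz => Cfsg.Agent.H13.mem_normalizer_inf (Subgroup.le_normalizer hz.1) (hCX ⟨hRK hz.1, hz.2⟩))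
      (fun a ha ha1 c hc => by
        have hap := hA.2 a ha
        have h1 := sylIn_centralizer (hAK ha) hap hKc hRs (hAR ha)
        have h2 := sylIn_centralizer (p := p) (hAX ha) hap
          (Nat.Coprime.coprime_dvd_left (Subgroup.card_dvd_of_le hX) hKc) hRX (hARX ha)
        have h3 := sylIn_centralizer (p := p) (hAY ha) hap
          (Nat.Coprime.coprime_dvd_left (Subgroup.card_dvd_of_le hY) hKc) hRY (hARY ha)
        rw [inf_inf_distrib_right] at h2 h3
        obtain ⟨x, hx, y, hy, he⟩ := fact_sylow (hfac a ha ha1) h1 h2 h3 c hc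
        exact ⟨x, ⟨⟨hx.1.1, hx.2.1⟩, hx.2.2⟩, y, ⟨⟨hy.1.1, hy.2.1⟩, hy.2.2⟩, he⟩) rfl
    have hset : (R : Set G) = ((R ⊓ X : Subgroup G) : Set G) * ((R ⊓ Y : Subgroup G) : Set G) := by
      ext c
      constructor
      · intro hc
        obtain ⟨x, hx, y, hy, rfl⟩ := hfacR c hc
        exact Set.mul_mem_mul hx hy
      · rintro ⟨x, hx, y, hy, rfl⟩
        exact R.mul_mem hx.1 hy.1
    have hcards := Cfsg.Agent.H18.card_set_mul_mul_card_inf (R ⊓ X) (R ⊓ Y)
    rw [← hset] at hcards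
    have hinf : (R ⊓ X) ⊓ (R ⊓ Y) = R ⊓ (X ⊓ Y) := (inf_inf_distrib_left R X Y).symm
    rw [hinf] at hcards
    have hcards' : Nat.card R * Nat.card (R ⊓ (X ⊓ Y) : Subgroup G) =
        Nat.card (R ⊓ X : Subgroup G) * Nat.card (R ⊓ Y : Subgroup G) := hcards
    rw [hRs.card, hRXY.card, hRX.card, hRY.card, ← pow_add, ← pow_add] at hcards'
    exact (Nat.pow_right_injective hr.two_le hcards').le
  have hdvd : Nat.card K * Nat.card (X ⊓ Y : Subgroup G) ∣ Nat.card X * Nat.card Y := by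
    rw [← Nat.factorization_prime_le_iff_dvd (mul_ne_zero Nat.card_pos.ne' Nat.card_pos.ne')
      (mul_ne_zero Nat.card_pos.ne' Nat.card_pos.ne')]
    intro r hr
    rw [Nat.factorization_mul (Nat.card_pos.ne') (Nat.card_pos.ne'),
      Nat.factorization_mul (Nat.card_pos.ne') (Nat.card_pos.ne')]
    simpa only [Finsupp.add_apply] using hprime r hr
  have hcardXY := Cfsg.Agent.H18.card_set_mul_mul_card_inf X Y
  rw [← hcardXY] at hdvd
  have hdvd2 : Nat.card K ∣ Nat.card ((X : Set G) * (Y : Set G) : Set G) :=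
    Nat.dvd_of_mul_dvd_mul_right Nat.card_pos hdvd
  have hne : ((X : Set G) * (Y : Set G)).Nonempty := ⟨1 * 1, Set.mul_mem_mul X.one_mem Y.one_mem⟩
  haveI : Nonempty ↑((X : Set G) * (Y : Set G)) := hne.to_subtype
  have hle : Nat.card K ≤ Nat.card ((X : Set G) * (Y : Set G) : Set G) :=
    Nat.le_of_dvd Nat.card_pos hdvd2
  have hsub : (X : Set G) * (Y : Set G) ⊆ (K : Set G) := by
    rintro _ ⟨x, hx, y, hy, rfl⟩
    exact K.mul_mem (hX hx) (hY hy)
  symm
  apply Set.eq_of_subset_of_ncard_le hsub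
  rw [← Nat.card_coe_set_eq, ← Nat.card_coe_set_eq]
  exact hle

end Cfsg.Agent.H01.CF
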