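import Mathlib
import Cfsg.Agent.Lib.H13.ExtraBound2
import Cfsg.Agent.Lib.H13.Basic
import Cfsg.Agent.Lib.H18.ExtraCard
import Cfsg.Agent.Lib.H01.Basic
import Cfsg.Prelude.Def_Transfer

/-! Isomorphisms of extraspecial groups via graphs. -/

set_option autoImplicit false

namespace Cfsg.Agent.H01

open Cfsg.Agent.H13

universe u v

section Graph

variable {G₁ : Type u} {G₂ : Type v} [Group G₁] [Group G₂]

/-- A subgroup of the product which is the graph of an isomorphism between two subgroups. -/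
structure IsoGraph (Γ : Subgroup (G₁ × G₂)) (E₁ : Subgroup G₁) (E₂ : Subgroup G₂) : Prop where
  fst_mem : ∀ p ∈ Γ, p.1 ∈ E₁
  snd_mem : ∀ p ∈ Γ, p.2 ∈ E₂
  fst_surj : ∀ e ∈ E₁, ∃ f, (e, f) ∈ Γ
  snd_surj : ∀ f ∈ E₂, ∃ e, (e, f) ∈ Γ
  fst_inj : ∀ f, ((1 : G₁), f) ∈ Γ → f = 1
  snd_inj : ∀ e, (e, (1 : G₂)) ∈ Γ → e = 1

theorem IsoGraph.bot : IsoGraph (⊥ : Subgroup (G₁ × G₂)) ⊥ ⊥ where
  fst_mem := fun p hp => by
    rw [Subgroup.mem_bot] at hp ⊢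
    rw [hp]; rfl
  snd_mem := fun p hp => by
    rw [Subgroup.mem_bot] at hp ⊢
    rw [hp]; rfl
  fst_surj := fun e he => ⟨1, by
    rw [Subgroup.mem_bot] at he ⊢
    rw [he]; rfl⟩
  snd_surj := fun f hf => ⟨1, by
    rw [Subgroup.mem_bot] at hf ⊢
    rw [hf]; rfl⟩
  fst_inj := fun f hf => by
    rw [Subgroup.mem_bot] at hf
    exact congrArg Prod.snd hf
  snd_inj := fun e he => by
    rw [Subgroup.mem_bot] at he
    exact congrArg Prod.fst he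

/-- A graph of the whole groups gives an isomorphism. -/
theorem IsoGraph.nonempty_equiv {Γ : Subgroup (G₁ × G₂)} (h : IsoGraph Γ ⊤ ⊤) : Nonempty (G₁ ≃* G₂) := by
  let f₁ : Γ →* G₁ := (MonoidHom.fst G₁ G₂).comp Γ.subtype
  let f₂ : Γ →* G₂ := (MonoidHom.snd G₁ G₂).comp Γ.subtype
  have hf₁ : Function.Bijective f₁ := by
    constructor
    · rw [injective_iff_map_eq_one]
      rintro ⟨⟨a, b⟩, hp⟩ h1
      have h2 : a = 1 := h1
      subst h2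
      have := h.fst_inj b hp
      subst this
      rfl
    · intro e
      obtain ⟨f, hf⟩ := h.fst_surj e trivial
      exact ⟨⟨(e, f), hf⟩, rfl⟩
  have hf₂ : Function.Bijective f₂ := by
    constructor
    · rw [injective_iff_map_eq_one]
      rintro ⟨⟨a, b⟩, hp⟩ h1
      have h2 : b = 1 := h1
      subst h2
      have := h.snd_inj a hp
      subst this
      rfl
    · intro f
      obtain ⟨e, he⟩ := h.snd_surj f trivial
      exact ⟨⟨(e, f), he⟩, rfl⟩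
  exact ⟨(MulEquiv.ofBijective f₁ hf₁).symm.trans (MulEquiv.ofBijective f₂ hf₂)⟩

variable {A : Type*} [Group A]

/-- Elements of `Γ ⊔ ⟨α⟩` for `α` normalizing `Γ`. -/
theorem mem_sup_zpowers {Γ : Subgroup A} {α : A} (hα : α ∈ Subgroup.normalizer (Γ : Set A)) {p : A}
    (hp : p ∈ Γ ⊔ Subgroup.zpowers α) : ∃ γ ∈ Γ, ∃ i : ℤ, p = γ * α ^ i := by
  have hconj : ∀ (i : ℤ), ∀ γ ∈ Γ, α ^ i * γ * (α ^ i)⁻¹ ∈ Γ := by
    intro i γ hγ
    exact (Subgroup.mem_normalizer_iff.mp (Subgroup.zpow_mem _ hα i) γ).mp hγ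
  let D : Subgroup A :=
    { carrier := {p | ∃ γ ∈ Γ, ∃ i : ℤ, p = γ * α ^ i}
      one_mem' := ⟨1, Γ.one_mem, 0, by simp⟩
      mul_mem' := by
        rintro _ _ ⟨γ, hγ, i, rfl⟩ ⟨δ, hδ, j, rfl⟩
        refine ⟨γ * (α ^ i * δ * (α ^ i)⁻¹), Γ.mul_mem hγ (hconj i δ hδ), i + j, ?_⟩
        rw [zpow_add]
        group
      inv_mem' := by
        rintro _ ⟨γ, hγ, i, rfl⟩
        refine ⟨α ^ (-i) * γ⁻¹ * (α ^ (-i))⁻¹, hconj (-i) _ (Γ.inv_mem hγ), -i, ?_⟩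
        group }
  have hle : Γ ⊔ Subgroup.zpowers α ≤ D := by
    refine sup_le (fun γ hγ => ⟨γ, hγ, 0, by simp⟩) ?_
    rw [Subgroup.zpowers_le]
    exact ⟨1, Γ.one_mem, 1, by simp⟩
  exact hle hp

/-- Extending a graph by one generator. -/
theorem IsoGraph.step {Γ : Subgroup (G₁ × G₂)} {K₁ E₁ : Subgroup G₁} {K₂ E₂ : Subgroup G₂}
    (h : IsoGraph Γ K₁ K₂) (α : G₁ × G₂) (hα : α ∈ Subgroup.normalizer (Γ : Set (G₁ × G₂))) (n : ℕ)
    (hαn : α ^ n ∈ Γ) (hK₁ : K₁ ≤ E₁) (hK₂ : K₂ ≤ E₂) (ha₁ : α.1 ∈ E₁) (ha₂ : α.2 ∈ E₂)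
    (hE₁ : ∀ e ∈ E₁, ∃ i : ℤ, e * (α.1 ^ i)⁻¹ ∈ K₁) (hE₂ : ∀ e ∈ E₂, ∃ i : ℤ, e * (α.2 ^ i)⁻¹ ∈ K₂)
    (hp₁ : ∀ i : ℤ, α.1 ^ i ∈ K₁ → (n : ℤ) ∣ i) (hp₂ : ∀ i : ℤ, α.2 ^ i ∈ K₂ → (n : ℤ) ∣ i) :
    IsoGraph (Γ ⊔ Subgroup.zpowers α) E₁ E₂ := by
  have hmem : ∀ (γ : G₁ × G₂) (i : ℤ), γ ∈ Γ → γ * α ^ i ∈ Γ ⊔ Subgroup.zpowers α := fun γ i hγ =>
    Subgroup.mul_mem_sup hγ (Subgroup.zpow_mem_zpowers α i)
  have hzp : ∀ i : ℤ, (n : ℤ) ∣ i → α ^ i ∈ Γ := by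
    rintro _ ⟨k, rfl⟩
    rw [zpow_mul, zpow_natCast]
    exact Subgroup.zpow_mem _ hαn k
  refine ⟨?_, ?_, ?_, ?_, ?_, ?_⟩
  · intro p hp
    obtain ⟨γ, hγ, i, rfl⟩ := mem_sup_zpowers hα hp
    show γ.1 * α.1 ^ i ∈ E₁
    exact E₁.mul_mem (hK₁ (h.fst_mem γ hγ)) (E₁.zpow_mem ha₁ i)
  · intro p hp
    obtain ⟨γ, hγ, i, rfl⟩ := mem_sup_zpowers hα hp
    show γ.2 * α.2 ^ i ∈ E₂
    exact E₂.mul_mem (hK₂ (h.snd_mem γ hγ)) (E₂.zpow_mem ha₂ i)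
  · intro e he
    obtain ⟨i, hi⟩ := hE₁ e he
    obtain ⟨f, hf⟩ := h.fst_surj _ hi
    refine ⟨f * α.2 ^ i, ?_⟩
    have := hmem _ i hf
    have e2 : (e, f * α.2 ^ i) = (e * (α.1 ^ i)⁻¹, f) * α ^ i := by
      apply Prod.ext
      · show e = e * (α.1 ^ i)⁻¹ * α.1 ^ i
        group
      · rfl
    rw [e2]
    exact this
  · intro e he
    obtain ⟨i, hi⟩ := hE₂ e he
    obtain ⟨f, hf⟩ := h.snd_surj _ hi
    refine ⟨f * α.1 ^ i, ?_⟩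
    have := hmem _ i hf
    have e2 : (f * α.1 ^ i, e) = (f, e * (α.2 ^ i)⁻¹) * α ^ i := by
      apply Prod.ext
      · rfl
      · show e = e * (α.2 ^ i)⁻¹ * α.2 ^ i
        group
    rw [e2]
    exact this
  · intro f hf
    obtain ⟨γ, hγ, i, hγi⟩ := mem_sup_zpowers hα hf
    have h1 : (1 : G₁) = γ.1 * α.1 ^ i := congrArg Prod.fst hγi
    have h2 : α.1 ^ i ∈ K₁ := by
      have h3 : α.1 ^ i = γ.1⁻¹ := eq_inv_of_mul_eq_one_right h1.symm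
      rw [h3]
      exact K₁.inv_mem (h.fst_mem γ hγ)
    have h4 := hzp i (hp₁ i h2)
    exact h.fst_inj f (hγi ▸ Γ.mul_mem hγ h4)
  · intro e he
    obtain ⟨γ, hγ, i, hγi⟩ := mem_sup_zpowers hα he
    have h1 : (1 : G₂) = γ.2 * α.2 ^ i := congrArg Prod.snd hγi
    have h2 : α.2 ^ i ∈ K₂ := by
      have h3 : α.2 ^ i = γ.2⁻¹ := eq_inv_of_mul_eq_one_right h1.symm
      rw [h3]
      exact K₂.inv_mem (h.snd_mem γ hγ)
    have h4 := hzp i (hp₂ i h2)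
    exact h.snd_inj e (hγi ▸ Γ.mul_mem hγ h4)

end Graph


section Ext

open Cfsg.Agent.H13.ExtraBound

variable {G₁ : Type u} {G₂ : Type v} [Group G₁] [Group G₂]

theorem mem_normalizer_of_conj_mem {A : Type*} [Group A] [Finite A] {Q : Subgroup A} {g : A}
    (h : ∀ x ∈ Q, g * x * g⁻¹ ∈ Q) : g ∈ Subgroup.normalizer (Q : Set A) := by
  apply Cfsg.Agent.H13.mem_normalizer_of_map_conj_le
  rintro _ ⟨x, hx, rfl⟩
  exact h x hx

theorem comm_zpow_of_central {G : Type*} [Group G] {a b z : G} (hab : a * b * a⁻¹ * b⁻¹ = z)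
    (hza : a * z = z * a) (hzb : b * z = z * b) (j : ℤ) : a * b ^ j * a⁻¹ * (b ^ j)⁻¹ = z ^ j := by
  have h1 : a * b * a⁻¹ = z * b := by
    rw [← hab]; group
  have h2 : a * b ^ j * a⁻¹ = (z * b) ^ j := by
    rw [← h1, conj_zpow]
  have hc : Commute z b := (show Commute b z from hzb).symm
  rw [h2, hc.mul_zpow]
  group

section OneSide

variable {G : Type*} [Group G] [Finite G] {p : ℕ} [Fact p.Prime] {w : ℕ} {E : Subgroup G} {z a b : G}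

theorem side_facts (h : ExtC p E z (w + 1)) (ha : a ∈ E) (hb : b ∈ E)
    (hc : a * b * a⁻¹ * b⁻¹ = z) :
    (∀ e ∈ E ⊓ Subgroup.centralizer ({b} : Set G), ∃ i : ℤ, e * (b ^ i)⁻¹ ∈
        E ⊓ Subgroup.centralizer ({b} : Set G) ⊓ Subgroup.centralizer ({a} : Set G)) ∧
    (∀ e ∈ E, ∃ i : ℤ, e * (a ^ i)⁻¹ ∈ E ⊓ Subgroup.centralizer ({b} : Set G)) ∧
    (∀ i : ℤ, b ^ i ∈ E ⊓ Subgroup.centralizer ({b} : Set G) ⊓ Subgroup.centralizer ({a} : Set G) →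
      (p : ℤ) ∣ i) ∧
    (∀ i : ℤ, a ^ i ∈ E ⊓ Subgroup.centralizer ({b} : Set G) → (p : ℤ) ∣ i) := by
  have hzo : orderOf z = p := orderOf_eq_prime h.zp h.z1
  have hne : a * b * a⁻¹ * b⁻¹ ≠ 1 := by
    rw [hc]; exact h.z1
  have hne' : b * a * b⁻¹ * a⁻¹ ≠ 1 := by
    have : b * a * b⁻¹ * a⁻¹ = (a * b * a⁻¹ * b⁻¹)⁻¹ := by group
    rw [this, hc]
    exact inv_ne_one.mpr h.z1
  obtain ⟨-, h1d⟩ := index_step (p := p) (K := E) (g := b) (y := a) hzo h.zc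
    (fun x hx => h.comm x hx b hb) ha hne
  have hbK : b ∈ E ⊓ Subgroup.centralizer ({b} : Set G) := by
    refine Subgroup.mem_inf.2 ⟨hb, Subgroup.mem_centralizer_iff.2 ?_⟩
    intro w hw
    rw [Set.mem_singleton_iff.1 hw]
  obtain ⟨-, h2d⟩ := index_step (p := p) (K := E ⊓ Subgroup.centralizer ({b} : Set G)) (g := a) (y := b) hzo
    (fun x hx => h.zc x (Subgroup.mem_inf.1 hx).1)
    (fun x hx => h.comm x (Subgroup.mem_inf.1 hx).1 a ha) hbK hne'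
  have hza := h.zc a ha
  have hzb := h.zc b hb
  refine ⟨?_, ?_, ?_, ?_⟩
  · intro e he
    obtain ⟨k, hk⟩ := h2d e he
    refine ⟨k, Subgroup.mem_inf.2 ⟨?_, ?_⟩⟩
    · rw [zpow_natCast]
      exact Subgroup.mul_mem _ he (Subgroup.inv_mem _ (Subgroup.pow_mem _ hbK k))
    · rw [zpow_natCast]
      exact hk
  · intro e he
    obtain ⟨k, hk⟩ := h1d e he
    refine ⟨k, Subgroup.mem_inf.2 ⟨?_, ?_⟩⟩
    · rw [zpow_natCast]
      exact E.mul_mem he (E.inv_mem (E.pow_mem ha k))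
    · rw [zpow_natCast]
      exact hk
  · intro i hi
    have h1 := comm_zpow_of_central hc hza hzb i
    have h2 : a * b ^ i = b ^ i * a := by
      exact (mem_C_iff.1 (Subgroup.mem_inf.1 hi).2)
    rw [h2] at h1
    have h3 : z ^ i = 1 := by
      rw [← h1]; group
    have := orderOf_dvd_iff_zpow_eq_one.2 h3
    rwa [hzo] at this
  · intro i hi
    have hc' : b * a * b⁻¹ * a⁻¹ = z⁻¹ := by
      rw [← hc]; group
    have hza' : b * z⁻¹ = z⁻¹ * b := by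
      have : Commute b z := hzb
      exact (this.inv_right).eq
    have hzb' : a * z⁻¹ = z⁻¹ * a := by
      have : Commute a z := hza
      exact (this.inv_right).eq
    have h1 := comm_zpow_of_central hc' hza' hzb' i
    have h2 : b * a ^ i = a ^ i * b := by
      exact (mem_C_iff.1 (Subgroup.mem_inf.1 hi).2)
    rw [h2] at h1
    have h3 : z⁻¹ ^ i = 1 := by
      rw [← h1]; group
    have := orderOf_dvd_iff_zpow_eq_one.2 h3
    rwa [orderOf_inv, hzo] at this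

/-- Any extraspecial datum of positive width has a pair with commutator the generator. -/
theorem exists_pair (h : ExtC p E z (w + 1)) : ∃ a ∈ E, ∃ b ∈ E, a * b * a⁻¹ * b⁻¹ = z := by
  have hpr : p.Prime := Fact.out
  have hzo : orderOf z = p := orderOf_eq_prime h.zp h.z1
  by_cases hab : ∃ a ∈ E, ∃ b ∈ E, a * b ≠ b * a
  · obtain ⟨a, ha, b, hb, hne⟩ := hab
    have hc1 := h.comm a ha b hb
    have hc : a * b * a⁻¹ * b⁻¹ ≠ 1 := by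
      intro h1
      apply hne
      have : a * b * a⁻¹ = b := by
        rw [mul_inv_eq_one] at h1
        exact h1
      rw [mul_inv_eq_iff_eq_mul] at this
      exact this
    have hzc := zpowers_eq_of_ne_one (p := p) hzo hc1 hc
    obtain ⟨l, hl⟩ := Subgroup.mem_zpowers_iff.1 hzc
    refine ⟨a, ha, b ^ l, E.zpow_mem hb l, ?_⟩
    have h2 := comm_zpow_of_central (a := a) (b := b) (z := a * b * a⁻¹ * b⁻¹) rfl
      (comm_of_mem_zpowers h.zc hc1 ha) (comm_of_mem_zpowers h.zc hc1 hb) l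
    rw [h2, hl]
  · exfalso
    push Not at hab
    have hle : E ≤ Subgroup.zpowers z := fun x hx => h.cen x hx (fun y hy => hab x hx y hy)
    have h1 := Subgroup.card_le_of_le hle
    rw [h.card, Nat.card_zpowers, hzo] at h1
    have h2 : p ^ 1 < p ^ (2 * (w + 1) + 1) := Nat.pow_lt_pow_right hpr.one_lt (by omega)
    rw [pow_one] at h2
    omega

end OneSide

variable [Finite G₁] [Finite G₂]

theorem hyp_extend {p : ℕ} [Fact p.Prime] {w : ℕ} {E₁ : Subgroup G₁} {E₂ : Subgroup G₂} {z₁ : G₁} {z₂ : G₂}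
    (h₁ : ExtC p E₁ z₁ (w + 1)) (h₂ : ExtC p E₂ z₂ (w + 1))
    {a₁ b₁ : G₁} {a₂ b₂ : G₂} (ha₁ : a₁ ∈ E₁) (hb₁ : b₁ ∈ E₁) (ha₂ : a₂ ∈ E₂) (hb₂ : b₂ ∈ E₂)
    (hc₁ : a₁ * b₁ * a₁⁻¹ * b₁⁻¹ = z₁) (hc₂ : a₂ * b₂ * a₂⁻¹ * b₂⁻¹ = z₂)
    {Γ₀ : Subgroup (G₁ × G₂)}
    (hΓ₀ : IsoGraph Γ₀ (E₁ ⊓ Subgroup.centralizer ({b₁} : Set G₁) ⊓ Subgroup.centralizer ({a₁} : Set G₁))
      (E₂ ⊓ Subgroup.centralizer ({b₂} : Set G₂) ⊓ Subgroup.centralizer ({a₂} : Set G₂)))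
    (hz : (z₁, z₂) ∈ Γ₀) (m n : ℕ)
    (ham₁ : a₁ ^ p = z₁ ^ m) (ham₂ : a₂ ^ p = z₂ ^ m) (hbn₁ : b₁ ^ p = z₁ ^ n) (hbn₂ : b₂ ^ p = z₂ ^ n) :
    ∃ Γ : Subgroup (G₁ × G₂), IsoGraph Γ E₁ E₂ ∧ (z₁, z₂) ∈ Γ := by
  obtain ⟨s₁, t₁, u₁, v₁⟩ := side_facts h₁ ha₁ hb₁ hc₁
  obtain ⟨s₂, t₂, u₂, v₂⟩ := side_facts h₂ ha₂ hb₂ hc₂
  let β : G₁ × G₂ := (b₁, b₂)
  let α : G₁ × G₂ := (a₁, a₂)
  have hbK₁ : b₁ ∈ E₁ ⊓ Subgroup.centralizer ({b₁} : Set G₁) :=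
    Subgroup.mem_inf.2 ⟨hb₁, mem_C_iff.2 rfl⟩
  have hbK₂ : b₂ ∈ E₂ ⊓ Subgroup.centralizer ({b₂} : Set G₂) :=
    Subgroup.mem_inf.2 ⟨hb₂, mem_C_iff.2 rfl⟩
  have hβnorm : β ∈ Subgroup.normalizer (Γ₀ : Set (G₁ × G₂)) := by
    apply mem_normalizer_of_conj_mem
    intro x hx
    have e : β * x * β⁻¹ = x := by
      have h1 : b₁ * x.1 = x.1 * b₁ :=
        mem_C_iff.1 (Subgroup.mem_inf.1 (Subgroup.mem_inf.1 (hΓ₀.fst_mem x hx)).1).2
      have h2 : b₂ * x.2 = x.2 * b₂ :=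
        mem_C_iff.1 (Subgroup.mem_inf.1 (Subgroup.mem_inf.1 (hΓ₀.snd_mem x hx)).1).2
      apply Prod.ext
      · show b₁ * x.1 * b₁⁻¹ = x.1
        rw [h1]; group
      · show b₂ * x.2 * b₂⁻¹ = x.2
        rw [h2]; group
    rw [e]
    exact hx
  have hβp : β ^ p ∈ Γ₀ := by
    have e : β ^ p = (z₁, z₂) ^ n := by
      apply Prod.ext
      · show b₁ ^ p = z₁ ^ n
        exact hbn₁
      · show b₂ ^ p = z₂ ^ n
        exact hbn₂
    rw [e]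
    exact Γ₀.pow_mem hz n
  have hstep1 := hΓ₀.step β hβnorm p hβp
    (K₁ := E₁ ⊓ Subgroup.centralizer ({b₁} : Set G₁) ⊓ Subgroup.centralizer ({a₁} : Set G₁))
    (K₂ := E₂ ⊓ Subgroup.centralizer ({b₂} : Set G₂) ⊓ Subgroup.centralizer ({a₂} : Set G₂))
    (E₁ := E₁ ⊓ Subgroup.centralizer ({b₁} : Set G₁)) (E₂ := E₂ ⊓ Subgroup.centralizer ({b₂} : Set G₂))
    inf_le_left inf_le_left hbK₁ hbK₂ s₁ s₂ u₁ u₂
  have hαnorm : α ∈ Subgroup.normalizer ((Γ₀ ⊔ Subgroup.zpowers β : Subgroup (G₁ × G₂)) : Set (G₁ × G₂)) := by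
    apply mem_normalizer_of_conj_mem
    have hle : Γ₀ ⊔ Subgroup.zpowers β ≤
        (Γ₀ ⊔ Subgroup.zpowers β).comap (MulAut.conj α).toMonoidHom := by
      refine sup_le ?_ ?_
      · intro x hx
        show α * x * α⁻¹ ∈ Γ₀ ⊔ Subgroup.zpowers β
        have e : α * x * α⁻¹ = x := by
          have h1 : a₁ * x.1 = x.1 * a₁ :=
            mem_C_iff.1 (Subgroup.mem_inf.1 (hΓ₀.fst_mem x hx)).2
          have h2 : a₂ * x.2 = x.2 * a₂ :=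
            mem_C_iff.1 (Subgroup.mem_inf.1 (hΓ₀.snd_mem x hx)).2
          apply Prod.ext
          · show a₁ * x.1 * a₁⁻¹ = x.1
            rw [h1]; group
          · show a₂ * x.2 * a₂⁻¹ = x.2
            rw [h2]; group
        rw [e]
        exact Subgroup.mem_sup_left hx
      · rw [Subgroup.zpowers_le]
        show α * β * α⁻¹ ∈ Γ₀ ⊔ Subgroup.zpowers β
        have e : α * β * α⁻¹ = (z₁, z₂) * β := by
          apply Prod.ext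
          · show a₁ * b₁ * a₁⁻¹ = z₁ * b₁
            rw [← hc₁]; group
          · show a₂ * b₂ * a₂⁻¹ = z₂ * b₂
            rw [← hc₂]; group
        rw [e]
        exact Subgroup.mul_mem_sup hz (Subgroup.mem_zpowers β)
    exact fun x hx => hle hx
  have hαp : α ^ p ∈ Γ₀ ⊔ Subgroup.zpowers β := by
    have e : α ^ p = (z₁, z₂) ^ m := by
      apply Prod.ext
      · show a₁ ^ p = z₁ ^ m
        exact ham₁
      · show a₂ ^ p = z₂ ^ m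
        exact ham₂
    rw [e]
    exact Subgroup.mem_sup_left (Γ₀.pow_mem hz m)
  have hstep2 := hstep1.step α hαnorm p hαp (E₁ := E₁) (E₂ := E₂)
    inf_le_left inf_le_left ha₁ ha₂ t₁ t₂ v₁ v₂
  exact ⟨_, hstep2, Subgroup.mem_sup_left (Subgroup.mem_sup_left hz)⟩

theorem base_side {G : Type*} [Group G] [Finite G] {p : ℕ} [Fact p.Prime] {E : Subgroup G} {z : G}
    (h : ExtC p E z 0) :
    (∀ e ∈ E, ∃ i : ℤ, e * (z ^ i)⁻¹ ∈ (⊥ : Subgroup G)) ∧ ∀ i : ℤ, z ^ i ∈ (⊥ : Subgroup G) → (p : ℤ) ∣ i := by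
  have hzo : orderOf z = p := orderOf_eq_prime h.zp h.z1
  constructor
  · intro e he
    have hle : Subgroup.zpowers z ≤ E := (Subgroup.zpowers_le).2 h.zE
    have heq : Subgroup.zpowers z = E := by
      apply Subgroup.eq_of_le_of_card_ge hle
      rw [h.card, Nat.card_zpowers, hzo]
      simp
    rw [← heq] at he
    obtain ⟨i, hi⟩ := Subgroup.mem_zpowers_iff.1 he
    refine ⟨i, ?_⟩
    rw [hi, mul_inv_cancel]
    exact Subgroup.one_mem _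
  · intro i hi
    have h3 : z ^ i = 1 := Subgroup.mem_bot.1 hi
    have := orderOf_dvd_iff_zpow_eq_one.2 h3
    rwa [hzo] at this

/-- The base of the induction. -/
theorem base_graph {p : ℕ} [Fact p.Prime] {E₁ : Subgroup G₁} {E₂ : Subgroup G₂} {z₁ : G₁} {z₂ : G₂}
    (h₁ : ExtC p E₁ z₁ 0) (h₂ : ExtC p E₂ z₂ 0) :
    ∃ Γ : Subgroup (G₁ × G₂), IsoGraph Γ E₁ E₂ ∧ (z₁, z₂) ∈ Γ := by
  obtain ⟨k₁, l₁⟩ := base_side h₁
  obtain ⟨k₂, l₂⟩ := base_side h₂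
  let α : G₁ × G₂ := (z₁, z₂)
  have hα1 : α ∈ Subgroup.normalizer ((⊥ : Subgroup (G₁ × G₂)) : Set (G₁ × G₂)) := by
    apply mem_normalizer_of_conj_mem
    intro x hx
    rw [Subgroup.mem_bot] at hx ⊢
    rw [hx]; group
  have hαp : α ^ p ∈ (⊥ : Subgroup (G₁ × G₂)) := by
    rw [Subgroup.mem_bot]
    apply Prod.ext
    · exact h₁.zp
    · exact h₂.zp
  have := IsoGraph.bot.step (G₁ := G₁) (G₂ := G₂) α hα1 p hαp (E₁ := E₁) (E₂ := E₂) bot_le bot_le h₁.zE h₂.zE k₁ k₂ l₁ l₂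
  exact ⟨_, this, Subgroup.mem_sup_right (Subgroup.mem_zpowers α)⟩

end Ext

/-- From the definition of extraspecial groups to the data. -/
theorem extC_of_extraspecial {E : Type u} [Group E] [Finite E] {p : ℕ} [Fact p.Prime]
    (hE : Cfsg.IsExtraspecial p E) :
    ∃ (z : E) (w : ℕ), Nat.card E = p ^ (2 * w + 1) ∧ Cfsg.Agent.H13.ExtraBound.ExtC p (⊤ : Subgroup E) z w := by
  have hpr : p.Prime := Fact.out
  obtain ⟨m, -, hm⟩ := Cfsg.Agent.H18.extraspecial_card hE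
  obtain ⟨⟨hP, hfr, hcomm⟩, hZ⟩ := hE
  haveI := isCyclic_of_prime_card hZ
  obtain ⟨z', hz'⟩ := IsCyclic.exists_generator (α := Subgroup.center E)
  have hzc : Subgroup.center E = Subgroup.zpowers (z' : E) := by
    apply le_antisymm
    · intro x hx
      obtain ⟨i, hi⟩ := Subgroup.mem_zpowers_iff.1 (hz' ⟨x, hx⟩)
      exact Subgroup.mem_zpowers_iff.2 ⟨i, congrArg Subtype.val hi⟩
    · rw [Subgroup.zpowers_le]
      exact z'.2
  have hzone : (z' : E) ≠ 1 := by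
    intro h
    have h1 : Subgroup.zpowers (z' : E) = ⊥ := by
      rw [Subgroup.zpowers_eq_bot]; exact h
    rw [hzc, h1, Subgroup.card_bot] at hZ
    exact hpr.one_lt.ne hZ
  refine ⟨z', m, hm, ?_⟩
  refine ⟨Subgroup.mem_top _, hzone, ?_, ?_, ?_, ?_, ?_, ?_⟩
  · have := pow_card_eq_one' (x := z')
    rw [hZ] at this
    exact congrArg Subtype.val this
  · intro x _
    exact ((Subgroup.mem_center_iff).1 z'.2 x)
  · intro x _ y _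
    rw [← hzc, ← hcomm]
    have := Subgroup.commutator_mem_commutator (Subgroup.mem_top x) (Subgroup.mem_top y)
    rwa [commutatorElement_def] at this
  · intro x _
    rw [← hzc, ← hfr]
    exact Cfsg.Agent.H01.pow_mem_frattini_of_isPGroup hP x
  · intro x _ hx
    rw [← hzc, Subgroup.mem_center_iff]
    intro g
    exact (hx g (Subgroup.mem_top g)).symm
  · rw [Subgroup.card_top]
    exact hm

section Final

open Cfsg.Agent.H13.ExtraBound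

section Two

variable {G : Type*} [Group G] [Finite G] {E : Subgroup G} {z : G} {w : ℕ}

theorem hyper_of_inv [Fact (Nat.Prime 2)] (h : ExtC 2 E z w) {a b : G} (ha : a ∈ E) (hb : b ∈ E) (ha2 : a ^ 2 = 1)
    (hc : a * b * a⁻¹ * b⁻¹ = z) : ∃ b' ∈ E, a * b' * a⁻¹ * b'⁻¹ = z ∧ b' ^ 2 = 1 := by
  rcases mem_zpowers_two h.zp (h.pow b hb) with hb2 | hb2
  · exact ⟨b, hb, hc, hb2⟩
  · refine ⟨a * b, E.mul_mem ha hb, ?_, ?_⟩
    · have hza := h.zc a ha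
      have e : a * (a * b) * a⁻¹ * (a * b)⁻¹ = a * (a * b * a⁻¹ * b⁻¹) * a⁻¹ := by group
      rw [e, hc, hza]
      group
    · have e1 : a * b = z * (b * a) := by
        rw [← hc]; group
      have hzz : z * z = 1 := by rw [← pow_two]; exact h.zp
      have hab : b * (a * a) * b = b * b := by
        rw [← pow_two a, ha2, mul_one]
      calc (a * b) ^ 2 = (a * b) * (a * b) := pow_two _
        _ = (z * (b * a)) * (a * b) := by rw [← e1]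
        _ = z * (b * (a * a) * b) := by group
        _ = z * (b * b) := by rw [hab]
        _ = z * z := by rw [← pow_two b, hb2]
        _ = 1 := hzz

/-- Each datum of positive width has a pair of a definite type. -/
theorem pair_type [Fact (Nat.Prime 2)] (h : ExtC 2 E z (w + 1)) :
    ∃ m : ℕ, m ≤ 1 ∧ ∃ a ∈ E, ∃ b ∈ E, a * b * a⁻¹ * b⁻¹ = z ∧ a ^ 2 = z ^ m ∧ b ^ 2 = z ^ m := by
  obtain ⟨a, ha, b, hb, hc⟩ := exists_pair h
  have hzz : z⁻¹ = z := by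
    rw [inv_eq_iff_mul_eq_one, ← pow_two]; exact h.zp
  rcases mem_zpowers_two h.zp (h.pow a ha) with ha2 | ha2
  · obtain ⟨b', hb', hc', hb2⟩ := hyper_of_inv h ha hb ha2 hc
    exact ⟨0, by omega, a, ha, b', hb', hc', by simpa using ha2, by simpa using hb2⟩
  · rcases mem_zpowers_two h.zp (h.pow b hb) with hb2 | hb2
    · have hc' : b * a * b⁻¹ * a⁻¹ = z := by
        rw [← hzz, ← hc]; group
      obtain ⟨b', hb', hc'', hb2'⟩ := hyper_of_inv h hb ha hb2 hc'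
      exact ⟨0, by omega, b, hb, b', hb', hc'', by simpa using hb2, by simpa using hb2'⟩
    · exact ⟨1, le_rfl, a, ha, b, hb, hc, by simpa using ha2, by simpa using hb2⟩

/-- With width at least two there is a hyperbolic pair. -/
theorem exists_hyper [Fact (Nat.Prime 2)] (h : ExtC 2 E z (w + 2)) :
    ∃ a ∈ E, ∃ b ∈ E, a * b * a⁻¹ * b⁻¹ = z ∧ a ^ 2 = 1 ∧ b ^ 2 = 1 := by
  obtain ⟨a, ha, b, hb, hc⟩ := exists_pair h
  have hab : a * b ≠ b * a := by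
    intro h1
    apply h.z1
    rw [← hc, h1]; group
  have hF := ExtC.reduce h ha hb hab
  obtain ⟨c, hcF, d, hdF, hcd⟩ := exists_pair hF
  have hcE : c ∈ E := (Subgroup.mem_inf.1 (Subgroup.mem_inf.1 hcF).1).1
  have hdE : d ∈ E := (Subgroup.mem_inf.1 (Subgroup.mem_inf.1 hdF).1).1
  have hcb : b * c = c * b := mem_C_iff.1 (Subgroup.mem_inf.1 (Subgroup.mem_inf.1 hcF).1).2
  have hca : a * c = c * a := mem_C_iff.1 (Subgroup.mem_inf.1 hcF).2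
  rcases mem_zpowers_two h.zp (h.pow a ha) with ha2 | ha2
  · obtain ⟨b', hb', hc', hb2⟩ := hyper_of_inv h ha hb ha2 hc
    exact ⟨a, ha, b', hb', hc', ha2, hb2⟩
  · rcases mem_zpowers_two h.zp (h.pow c hcE) with hc2 | hc2
    · obtain ⟨b', hb', hc', hb2⟩ := hyper_of_inv h hcE hdE hc2 hcd
      exact ⟨c, hcE, b', hb', hc', hc2, hb2⟩
    · have hx2 : (a * c) ^ 2 = 1 := by
        have hcomm : Commute a c := hca
        rw [hcomm.mul_pow, ha2, hc2, ← pow_two]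
        exact h.zp
      have hxc : (a * c) * b * (a * c)⁻¹ * b⁻¹ = z := by
        have e : (a * c) * b = a * b * c := by
          rw [mul_assoc, mul_assoc, hcb]
        rw [e, ← hc]
        group
      obtain ⟨b', hb', hc', hb2⟩ := hyper_of_inv h (E.mul_mem ha hcE) hb hx2 hxc
      exact ⟨a * c, E.mul_mem ha hcE, b', hb', hc', hx2, hb2⟩

end Two

variable {G₁ : Type u} {G₂ : Type v} {G₃ : Type*} [Group G₁] [Group G₂] [Group G₃] [Finite G₁] [Finite G₂] [Finite G₃]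

/-- Width-induction for groups all of whose elements have order dividing `p`. -/
theorem graph_of_exp {p : ℕ} [Fact p.Prime] : ∀ (w : ℕ) (E₁ : Subgroup G₁) (E₂ : Subgroup G₂) (z₁ : G₁) (z₂ : G₂),
    ExtC p E₁ z₁ w → ExtC p E₂ z₂ w → (∀ x ∈ E₁, x ^ p = 1) → (∀ x ∈ E₂, x ^ p = 1) →
    ∃ Γ : Subgroup (G₁ × G₂), IsoGraph Γ E₁ E₂ ∧ (z₁, z₂) ∈ Γ := by
  intro w
  induction w with
  | zero =>
    intro E₁ E₂ z₁ z₂ h₁ h₂ _ _
    exact base_graph h₁ h₂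
  | succ w ih =>
    intro E₁ E₂ z₁ z₂ h₁ h₂ e₁ e₂
    obtain ⟨a₁, ha₁, b₁, hb₁, hc₁⟩ := exists_pair h₁
    obtain ⟨a₂, ha₂, b₂, hb₂, hc₂⟩ := exists_pair h₂
    have hab₁ : a₁ * b₁ ≠ b₁ * a₁ := by
      intro h1
      apply h₁.z1
      rw [← hc₁, h1]; group
    have hab₂ : a₂ * b₂ ≠ b₂ * a₂ := by
      intro h1
      apply h₂.z1
      rw [← hc₂, h1]; group
    obtain ⟨Γ₀, hΓ₀, hz⟩ := ih _ _ _ _ (ExtC.reduce h₁ ha₁ hb₁ hab₁) (ExtC.reduce h₂ ha₂ hb₂ hab₂)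
      (fun x hx => e₁ x (Subgroup.mem_inf.1 (Subgroup.mem_inf.1 hx).1).1)
      (fun x hx => e₂ x (Subgroup.mem_inf.1 (Subgroup.mem_inf.1 hx).1).1)
    exact hyp_extend h₁ h₂ ha₁ hb₁ ha₂ hb₂ hc₁ hc₂ hΓ₀ hz 0 0 (by rw [pow_zero]; exact e₁ _ ha₁)
      (by rw [pow_zero]; exact e₂ _ ha₂) (by rw [pow_zero]; exact e₁ _ hb₁) (by rw [pow_zero]; exact e₂ _ hb₂)

/-- Width-induction for `p = 2` with three groups. -/
theorem graph_of_three [Fact (Nat.Prime 2)] : ∀ (w : ℕ) (E₁ : Subgroup G₁) (E₂ : Subgroup G₂) (E₃ : Subgroup G₃)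
    (z₁ : G₁) (z₂ : G₂) (z₃ : G₃),
    ExtC 2 E₁ z₁ w → ExtC 2 E₂ z₂ w → ExtC 2 E₃ z₃ w →
    (∃ Γ : Subgroup (G₁ × G₂), IsoGraph Γ E₁ E₂ ∧ (z₁, z₂) ∈ Γ) ∨
    (∃ Γ : Subgroup (G₂ × G₃), IsoGraph Γ E₂ E₃ ∧ (z₂, z₃) ∈ Γ) ∨
    (∃ Γ : Subgroup (G₁ × G₃), IsoGraph Γ E₁ E₃ ∧ (z₁, z₃) ∈ Γ) := by
  intro w
  induction w using Nat.strong_induction_on with
  | _ w ih =>
    intro E₁ E₂ E₃ z₁ z₂ z₃ h₁ h₂ h₃
    match w, ih, h₁, h₂, h₃ with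
    | 0, _, h₁, h₂, h₃ => exact Or.inl (base_graph h₁ h₂)
    | 1, _, h₁, h₂, h₃ =>
      obtain ⟨m₁, hm₁, a₁, ha₁, b₁, hb₁, hc₁, ha₁2, hb₁2⟩ := pair_type h₁
      obtain ⟨m₂, hm₂, a₂, ha₂, b₂, hb₂, hc₂, ha₂2, hb₂2⟩ := pair_type h₂
      obtain ⟨m₃, hm₃, a₃, ha₃, b₃, hb₃, hc₃, ha₃2, hb₃2⟩ := pair_type h₃
      have hab₁ : a₁ * b₁ ≠ b₁ * a₁ := by
        intro h1
        apply h₁.z1
        rw [← hc₁, h1]; group
      have hab₂ : a₂ * b₂ ≠ b₂ * a₂ := by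
        intro h1
        apply h₂.z1
        rw [← hc₂, h1]; group
      have hab₃ : a₃ * b₃ ≠ b₃ * a₃ := by
        intro h1
        apply h₃.z1
        rw [← hc₃, h1]; group
      have f₁ := ExtC.reduce h₁ ha₁ hb₁ hab₁
      have f₂ := ExtC.reduce h₂ ha₂ hb₂ hab₂
      have f₃ := ExtC.reduce h₃ ha₃ hb₃ hab₃
      by_cases e12 : m₁ = m₂
      · subst e12
        obtain ⟨Γ₀, hΓ₀, hz⟩ := base_graph f₁ f₂
        exact Or.inl (hyp_extend h₁ h₂ ha₁ hb₁ ha₂ hb₂ hc₁ hc₂ hΓ₀ hz m₁ m₁ ha₁2 ha₂2 hb₁2 hb₂2)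
      · by_cases e23 : m₂ = m₃
        · subst e23
          obtain ⟨Γ₀, hΓ₀, hz⟩ := base_graph f₂ f₃
          exact Or.inr (Or.inl (hyp_extend h₂ h₃ ha₂ hb₂ ha₃ hb₃ hc₂ hc₃ hΓ₀ hz m₂ m₂ ha₂2 ha₃2 hb₂2 hb₃2))
        · have e13 : m₁ = m₃ := by omega
          subst e13
          obtain ⟨Γ₀, hΓ₀, hz⟩ := base_graph f₁ f₃
          exact Or.inr (Or.inr (hyp_extend h₁ h₃ ha₁ hb₁ ha₃ hb₃ hc₁ hc₃ hΓ₀ hz m₁ m₁ ha₁2 ha₃2 hb₁2 hb₃2))
    | w + 2, ih, h₁, h₂, h₃ =>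
      obtain ⟨a₁, ha₁, b₁, hb₁, hc₁, ha₁2, hb₁2⟩ := exists_hyper h₁
      obtain ⟨a₂, ha₂, b₂, hb₂, hc₂, ha₂2, hb₂2⟩ := exists_hyper h₂
      obtain ⟨a₃, ha₃, b₃, hb₃, hc₃, ha₃2, hb₃2⟩ := exists_hyper h₃
      have hab₁ : a₁ * b₁ ≠ b₁ * a₁ := by
        intro h1
        apply h₁.z1
        rw [← hc₁, h1]; group
      have hab₂ : a₂ * b₂ ≠ b₂ * a₂ := by
        intro h1
        apply h₂.z1
        rw [← hc₂, h1]; group
      have hab₃ : a₃ * b₃ ≠ b₃ * a₃ := by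
        intro h1
        apply h₃.z1
        rw [← hc₃, h1]; group
      have f₁ := ExtC.reduce h₁ ha₁ hb₁ hab₁
      have f₂ := ExtC.reduce h₂ ha₂ hb₂ hab₂
      have f₃ := ExtC.reduce h₃ ha₃ hb₃ hab₃
      rcases ih (w + 1) (by omega) _ _ _ _ _ _ f₁ f₂ f₃ with ⟨Γ₀, hΓ₀, hz⟩ | ⟨Γ₀, hΓ₀, hz⟩ | ⟨Γ₀, hΓ₀, hz⟩
      · exact Or.inl (hyp_extend h₁ h₂ ha₁ hb₁ ha₂ hb₂ hc₁ hc₂ hΓ₀ hz 0 0 (by simpa using ha₁2) (by simpa using ha₂2) (by simpa using hb₁2) (by simpa using hb₂2))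
      · exact Or.inr (Or.inl (hyp_extend h₂ h₃ ha₂ hb₂ ha₃ hb₃ hc₂ hc₃ hΓ₀ hz 0 0 (by simpa using ha₂2) (by simpa using ha₃2) (by simpa using hb₂2) (by simpa using hb₃2)))
      · exact Or.inr (Or.inr (hyp_extend h₁ h₃ ha₁ hb₁ ha₃ hb₃ hc₁ hc₃ hΓ₀ hz 0 0 (by simpa using ha₁2) (by simpa using ha₃2) (by simpa using hb₁2) (by simpa using hb₃2)))

end Final

end Cfsg.Agent.H01
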