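import Mathlib
import Cfsg.Agent.Lib.H01.Hall
import Cfsg.Agent.S0007

/-!
Sylow systems in finite solvable groups.
-/

namespace Cfsg.Agent.H01

open Subgroup
open scoped Pointwise

universe u

section

variable {G : Type u} [Group G] [Finite G]

/-- The `p`-part of `|G|`. -/
noncomputable def pPart (G : Type u) [Group G] (q : ℕ) : ℕ := q ^ (Nat.card G).factorization q

/-- Product of the `q`-parts over `s`. -/
noncomputable def pPartProd (G : Type u) [Group G] (s : Finset ℕ) : ℕ := ∏ q ∈ s, pPart G q

theorem pPartProd_primeFactors : pPartProd G (Nat.card G).primeFactors = Nat.card G := by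
  have h : Nat.card G ≠ 0 := Nat.card_pos.ne'
  have := Nat.factorization_prod_pow_eq_self h
  rw [Nat.prod_factorization_eq_prod_primeFactors] at this
  exact this

theorem pPartProd_erase (s : Finset ℕ) (p : ℕ)
    (h : p ∉ s → (Nat.card G).factorization p = 0) :
    pPartProd G s = pPartProd G (s.erase p) * pPart G p := by
  by_cases hp : p ∈ s
  · rw [pPartProd, pPartProd, ← Finset.prod_erase_mul _ _ hp]
  · rw [Finset.erase_eq_of_notMem hp, pPart, h hp]
    simp

theorem coprime_pPart_prod (s : Finset ℕ) (p : ℕ) (hs : ∀ q ∈ s, q.Prime) (hp : p.Prime)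
    (hps : p ∉ s) : (pPart G p).Coprime (pPartProd G s) := by
  rw [pPartProd]
  apply Nat.Coprime.prod_right
  intro q hq
  apply Nat.Coprime.pow
  rw [Nat.coprime_primes hp (hs q hq)]
  rintro rfl
  exact hps hq

/-- Existence of a Hall `q'`-subgroup. -/
theorem exists_hall_complement [Group.IsSolvable G] (q : ℕ) (hq : q.Prime) :
    ∃ H : Subgroup G, H.index = pPart G q := by
  have h0 : Nat.card G ≠ 0 := Nat.card_pos.ne'
  have hc : (Nat.card G / q ^ (Nat.card G).factorization q).Coprime (pPart G q) := by
    apply Nat.Coprime.pow_right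
    have := Nat.coprime_ordCompl hq h0
    exact this.symm
  have hG : Nat.card G = (Nat.card G / q ^ (Nat.card G).factorization q) * pPart G q := by
    rw [pPart, mul_comm]
    exact (Nat.ordProj_mul_ordCompl_eq_self _ _).symm
  obtain ⟨H, hH, -⟩ := hall_containment _ G rfl _ _ hG hc ⊥ (by simp)
  refine ⟨H, ?_⟩
  have h1 := H.card_mul_index
  rw [hH] at h1
  have hpos : 0 < Nat.card G / q ^ (Nat.card G).factorization q := by
    rw [← hH]; exact Nat.card_pos
  apply Nat.eq_of_mul_eq_mul_left hpos
  rw [h1]
  exact hG

/-- Intersection of subgroups of given coprime indices. -/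
theorem index_finset_inf (H : ℕ → Subgroup G) (hH : ∀ q, q.Prime → (H q).index = pPart G q)
    (s : Finset ℕ) (hs : ∀ q ∈ s, q.Prime) :
    (s.inf H).index = pPartProd G s := by
  induction s using Finset.induction_on with
  | empty => simp [pPartProd]
  | insert p s hps ih =>
    have hs' : ∀ q ∈ s, q.Prime := fun q hq => hs q (Finset.mem_insert_of_mem hq)
    have hp : p.Prime := hs p (Finset.mem_insert_self _ _)
    have ih' := ih hs'
    rw [Finset.inf_insert]
    have hc : (H p).index.Coprime (s.inf H).index := by
      rw [hH p hp, ih']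
      exact coprime_pPart_prod s p hs' hp hps
    rw [(Cfsg.Agent.S0007.result (H p) (s.inf H) hc).1, hH p hp, ih', pPartProd, pPartProd,
      Finset.prod_insert hps]

theorem card_finset_inf (H : ℕ → Subgroup G) (hH : ∀ q, q.Prime → (H q).index = pPart G q)
    (s : Finset ℕ) (hs : ∀ q ∈ s, q.Prime) :
    Nat.card (s.inf H : Subgroup G) * pPartProd G s = Nat.card G := by
  rw [← index_finset_inf H hH s hs]
  exact Subgroup.card_mul_index _

/-- Subgroups with coprime orders whose orders multiply to the order of an overgroup multiply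
to this overgroup. -/
theorem mul_set_eq_of_card {X Y T : Subgroup G} (hX : X ≤ T) (hY : Y ≤ T)
    (hcard : Nat.card X * Nat.card Y = Nat.card T) (hcop : (Nat.card X).Coprime (Nat.card Y)) :
    (X : Set G) * (Y : Set G) = (T : Set G) := by
  apply Set.Subset.antisymm
  · rintro _ ⟨x, hx, y, hy, rfl⟩
    exact T.mul_mem (hX hx) (hY hy)
  · intro t ht
    have hc : (X.subgroupOf T).IsComplement' (Y.subgroupOf T) := by
      apply Subgroup.isComplement'_of_coprime
      · rw [card_subgroupOf_of_le hX, card_subgroupOf_of_le hY]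
        exact hcard
      · rw [card_subgroupOf_of_le hX, card_subgroupOf_of_le hY]
        exact hcop
    obtain ⟨⟨x, y⟩, hxy⟩ := hc.2 ⟨t, ht⟩
    have h1 : (x : T).1 * (y : T).1 = t := congrArg Subtype.val hxy
    exact ⟨x.1.1, Subgroup.mem_subgroupOf.mp x.2, y.1.1, Subgroup.mem_subgroupOf.mp y.2, h1⟩

/-- Given Hall `q'`-subgroups for every prime `q`, one gets a Sylow system. -/
theorem sylow_system_of_hall (H : ℕ → Subgroup G) (hH : ∀ q, q.Prime → (H q).index = pPart G q) :
    ∃ T : ℕ → Subgroup G, (∀ p, p.Prime → Nat.card (T p) = pPart G p) ∧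
      (∀ p q, p.Prime → q.Prime → (T p : Set G) * (T q : Set G) = (T q : Set G) * (T p : Set G)) := by
  set F := (Nat.card G).primeFactors with hF
  have hFp : ∀ q ∈ F, q.Prime := fun q hq => Nat.prime_of_mem_primeFactors hq
  have hFz : ∀ q, q ∉ F → (Nat.card G).factorization q = 0 := by
    intro q hq
    rw [hF, ← Nat.support_factorization] at hq
    exact Finsupp.notMem_support_iff.mp hq
  have hFep : ∀ p, ∀ q ∈ F.erase p, q.Prime := fun p q hq => hFp q (Finset.mem_of_mem_erase hq)
  have hTcard : ∀ p, p.Prime → Nat.card ((F.erase p).inf H : Subgroup G) = pPart G p := by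
    intro p _
    have h1 := card_finset_inf H hH (F.erase p) (hFep p)
    have h2 : Nat.card G = pPartProd G (F.erase p) * pPart G p := by
      conv_lhs => rw [← pPartProd_primeFactors (G := G)]
      exact pPartProd_erase F p (hFz p)
    have hpos : 0 < pPartProd G (F.erase p) := by
      by_contra h
      have h3 : pPartProd G (F.erase p) = 0 := by omega
      rw [h3, mul_zero] at h1
      exact Nat.card_pos.ne h1
    apply Nat.eq_of_mul_eq_mul_right hpos
    rw [h1, h2, mul_comm]
  refine ⟨fun p => (F.erase p).inf H, hTcard, ?_⟩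
  intro p q hp hq
  by_cases hpq : p = q
  · subst hpq; rfl
  set U := ((F.erase p).erase q).inf H with hU
  have hXU : (F.erase p).inf H ≤ U := Finset.inf_mono (Finset.erase_subset _ _)
  have hYU : (F.erase q).inf H ≤ U := by
    apply Finset.inf_mono
    intro r hr
    rw [Finset.mem_erase, Finset.mem_erase] at hr
    rw [Finset.mem_erase]
    exact ⟨hr.1, hr.2.2⟩
  have hUcard : Nat.card U = pPart G p * pPart G q := by
    have h1 := card_finset_inf H hH ((F.erase p).erase q)
      (fun r hr => hFp r (Finset.mem_of_mem_erase (Finset.mem_of_mem_erase hr)))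
    have h2 : Nat.card G = pPartProd G (F.erase p) * pPart G p := by
      conv_lhs => rw [← pPartProd_primeFactors (G := G)]
      exact pPartProd_erase F p (hFz p)
    have h3 : pPartProd G (F.erase p) = pPartProd G ((F.erase p).erase q) * pPart G q := by
      apply pPartProd_erase
      intro hq'
      apply hFz
      intro hqF
      exact hq' (Finset.mem_erase.mpr ⟨fun h => hpq h.symm, hqF⟩)
    rw [h3] at h2
    have hpos : 0 < pPartProd G ((F.erase p).erase q) := by
      by_contra h
      have h4 : pPartProd G ((F.erase p).erase q) = 0 := by omega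
      rw [h4, mul_zero] at h1
      exact Nat.card_pos.ne h1
    apply Nat.eq_of_mul_eq_mul_right hpos
    rw [h1, h2]
    ring
  have hc : (pPart G p).Coprime (pPart G q) := by
    apply Nat.Coprime.pow
    exact (Nat.coprime_primes hp hq).mpr hpq
  have h1 := mul_set_eq_of_card hXU hYU (by rw [hTcard p hp, hTcard q hq, hUcard])
    (by rw [hTcard p hp, hTcard q hq]; exact hc)
  have h2 := mul_set_eq_of_card hYU hXU (by rw [hTcard p hp, hTcard q hq, hUcard, mul_comm])
    (by rw [hTcard p hp, hTcard q hq]; exact hc.symm)
  show (((F.erase p).inf H : Subgroup G) : Set G) * (((F.erase q).inf H : Subgroup G) : Set G) =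
    (((F.erase q).inf H : Subgroup G) : Set G) * (((F.erase p).inf H : Subgroup G) : Set G)
  rw [h1, h2]

end

end Cfsg.Agent.H01
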