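import Mathlib
import Cfsg.Agent.Lib.H01.SylowSystem
import Cfsg.Agent.Lib.H01.Maximal
import Cfsg.Agent.Lib.Lead.Burnside
import Cfsg.Agent.Lib.H01.Coprime

/-!
Converse of Hall's theorem: `p`-complements for all primes imply solvability.
-/

namespace Cfsg.Agent.H01

open Subgroup
open scoped Pointwise

universe u

/-- Group has Hall `p'`-subgroups for all primes. -/
def HasHallComplements (G : Type u) [Group G] : Prop :=
  ∀ p : ℕ, p.Prime → ∃ H : Subgroup G, (∃ k : ℕ, H.index = p ^ k) ∧ ¬ p ∣ Nat.card H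

section

variable {G : Type u} [Group G] [Finite G]

theorem hasHallComplements_quotient (hG : HasHallComplements G) (L : Subgroup G) [L.Normal] :
    HasHallComplements (G ⧸ L) := by
  intro p hp
  obtain ⟨H, ⟨k, hk⟩, hpH⟩ := hG p hp
  refine ⟨H.map (QuotientGroup.mk' L), ?_, ?_⟩
  · have h1 := Subgroup.index_map_dvd H (QuotientGroup.mk'_surjective L)
    rw [hk] at h1
    obtain ⟨j, -, hj⟩ := (Nat.dvd_prime_pow hp).mp h1
    exact ⟨j, hj⟩
  · intro h
    exact hpH (h.trans (card_map_mk_dvd L H))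

theorem index_eq_of_coprime_indices {H K : Subgroup G} (hc : H.index.Coprime K.index) :
    (H.subgroupOf K).index = H.index := by
  have h1 : (H ⊓ K).index = H.index * K.index := by
    apply Nat.le_antisymm Subgroup.index_inf_le
    apply Nat.le_of_dvd (Nat.pos_of_ne_zero Subgroup.index_ne_zero_of_finite)
    exact hc.mul_dvd_of_dvd_of_dvd (Subgroup.index_dvd_of_le inf_le_left)
      (Subgroup.index_dvd_of_le inf_le_right)
  have h2 : (H ⊓ K).index = (H ⊓ K).relIndex K * K.index :=
    (Subgroup.relIndex_mul_index inf_le_right).symm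
  rw [Subgroup.inf_relIndex_right] at h2
  have hK0 : 0 < K.index := Nat.pos_of_ne_zero Subgroup.index_ne_zero_of_finite
  apply Nat.eq_of_mul_eq_mul_right hK0
  rw [← h1, h2]
  rfl

/-- Subgroups of prime power index inherit the property. -/
theorem hasHallComplements_subgroup (hG : HasHallComplements G) (K : Subgroup G) (p k : ℕ)
    (hp : p.Prime) (hK : K.index = p ^ k) (hpK : ¬ p ∣ Nat.card K) :
    HasHallComplements K := by
  intro q hq
  by_cases hqp : q = p
  · subst hqp
    refine ⟨⊤, ⟨0, by simp⟩, ?_⟩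
    rw [Subgroup.card_top]
    exact hpK
  · obtain ⟨H, ⟨j, hj⟩, hqH⟩ := hG q hq
    refine ⟨H.subgroupOf K, ⟨j, ?_⟩, ?_⟩
    · rw [index_eq_of_coprime_indices, hj]
      rw [hj, hK]
      apply Nat.Coprime.pow
      exact (Nat.coprime_primes hq hp).mpr hqp
    · intro h
      apply hqH
      exact h.trans (card_subgroupOf_dvd H K)

end


theorem le_of_coprime_index {A : Type*} [Group A] [Finite A] (J R : Subgroup A) [R.Normal]
    (h : (Nat.card R).Coprime J.index) : R ≤ J :=
  le_of_card_of_coprime _ _ J.card_mul_index.symm J R rfl h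

theorem isSolvable_of_two_primes {G : Type u} [Group G] [Finite G]
    (hF : (Nat.card G).primeFactors.card ≤ 2) : Group.IsSolvable G := by
  classical
  have hne : Nat.card G ≠ 0 := Nat.card_pos.ne'
  have hprod : ∏ q ∈ (Nat.card G).primeFactors, q ^ (Nat.card G).factorization q = Nat.card G := by
    have := Nat.factorization_prod_pow_eq_self hne
    rw [Nat.prod_factorization_eq_prod_primeFactors] at this
    exact this
  have hcases : (Nat.card G).primeFactors.card = 0 ∨ (Nat.card G).primeFactors.card = 1 ∨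
      (Nat.card G).primeFactors.card = 2 := by omega
  rcases hcases with h | h | h
  · rw [Finset.card_eq_zero] at h
    rw [h] at hprod
    apply Cfsg.Agent.Lead.burnside_two_prime 2 3 0 0 Nat.prime_two Nat.prime_three
    simpa using hprod.symm
  · obtain ⟨p, hp⟩ := Finset.card_eq_one.mp h
    rw [hp, Finset.prod_singleton] at hprod
    have hpp : p.Prime := by
      have : p ∈ (Nat.card G).primeFactors := by rw [hp]; exact Finset.mem_singleton_self p
      exact Nat.prime_of_mem_primeFactors this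
    apply Cfsg.Agent.Lead.burnside_two_prime p 2 ((Nat.card G).factorization p) 0 hpp Nat.prime_two
    simpa using hprod.symm
  · obtain ⟨p, q, hpq, hpq'⟩ := Finset.card_eq_two.mp h
    rw [hpq', Finset.prod_pair hpq] at hprod
    have hpp : p.Prime := by
      have : p ∈ (Nat.card G).primeFactors := by rw [hpq']; simp
      exact Nat.prime_of_mem_primeFactors this
    have hqq : q.Prime := by
      have : q ∈ (Nat.card G).primeFactors := by rw [hpq']; simp
      exact Nat.prime_of_mem_primeFactors this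
    exact Cfsg.Agent.Lead.burnside_two_prime p q _ _ hpp hqq hprod.symm

theorem isSolvable_of_hasHallComplements : ∀ (n : ℕ) (G : Type u) [Group G] [Finite G],
    Nat.card G = n → HasHallComplements G → Group.IsSolvable G := by
  intro n
  induction n using Nat.strong_induction_on with
  | _ n ih =>
  intro G _ _ hn hG
  classical
  by_cases hF : 2 < (Nat.card G).primeFactors.card
  swap
  · exact isSolvable_of_two_primes (by omega)
  obtain ⟨p₁, h1, p₂, h2, p₃, h3, h12, h13, h23⟩ := Finset.two_lt_card.mp hF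
  have hpp : ∀ p ∈ (Nat.card G).primeFactors, p.Prime := fun p hp => Nat.prime_of_mem_primeFactors hp
  have hpd : ∀ p ∈ (Nat.card G).primeFactors, p ∣ Nat.card G := fun p hp => Nat.dvd_of_mem_primeFactors hp
  -- Hall complements of dividing primes are solvable
  have hsolvH : ∀ p ∈ (Nat.card G).primeFactors, ∀ (H : Subgroup G) (k : ℕ), H.index = p ^ k →
      ¬ p ∣ Nat.card H → Group.IsSolvable H := by
    intro p hp H k hk hpH
    have hlt : Nat.card H < n := by
      rw [← hn]
      apply lt_of_le_of_ne (Nat.le_of_dvd Nat.card_pos (Subgroup.card_subgroup_dvd_card H))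
      intro h
      have h9 := hpd p hp
      rw [← h] at h9
      exact hpH h9
    exact ih _ hlt H rfl (hasHallComplements_subgroup hG H p k (hpp p hp) hk hpH)
  obtain ⟨H₁, ⟨k₁, hk₁⟩, hp₁H₁⟩ := hG p₁ (hpp _ h1)
  have hH₁s := hsolvH p₁ h1 H₁ k₁ hk₁ hp₁H₁
  have hH₁card : Nat.card H₁ * p₁ ^ k₁ = Nat.card G := by
    rw [← hk₁]; exact H₁.card_mul_index
  haveI hH₁nt : Nontrivial H₁ := by
    rw [← Finite.one_lt_card_iff_nontrivial]
    by_contra hle
    have hc : Nat.card H₁ = 1 := by
      have : 0 < Nat.card H₁ := Nat.card_pos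
      omega
    rw [hc, one_mul] at hH₁card
    have h5 : p₂ ∣ p₁ ^ k₁ := hH₁card ▸ hpd p₂ h2
    have h6 := (Nat.prime_dvd_prime_iff_eq (hpp _ h2) (hpp _ h1)).mp ((hpp _ h2).dvd_of_dvd_pow h5)
    exact h12 h6.symm
  obtain ⟨R, r, hRn, hRbot, hr, hRab, hRpow⟩ := exists_elementary_abelian_normal (G := H₁)
  haveI := Fact.mk hr
  have hRpg : IsPGroup r R := fun x => ⟨1, by
    apply Subtype.ext
    simpa using hRpow x x.2⟩
  obtain ⟨j, hj⟩ := IsPGroup.iff_card.mp hRpg
  -- the prime `q`
  obtain ⟨q, hqF, hqr, hqp₁⟩ : ∃ q ∈ (Nat.card G).primeFactors, q ≠ r ∧ q ≠ p₁ := by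
    by_cases hr2 : r = p₂
    · exact ⟨p₃, h3, fun h => h23 (hr2 ▸ h.symm), fun h => h13 h.symm⟩
    · exact ⟨p₂, h2, fun h => hr2 h.symm, fun h => h12 h.symm⟩
  have hq := hpp q hqF
  obtain ⟨Hq, ⟨kq, hkq⟩, hqHq⟩ := hG q hq
  have hHqs := hsolvH q hqF Hq kq hkq hqHq
  have hcop : Hq.index.Coprime H₁.index := by
    rw [hkq, hk₁]
    apply Nat.Coprime.pow
    exact (Nat.coprime_primes hq (hpp _ h1)).mpr hqp₁
  -- `R ≤ Hq`
  have hRHq : R ≤ Hq.subgroupOf H₁ := by
    apply le_of_coprime_index
    rw [hj, index_eq_of_coprime_indices hcop, hkq]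
    apply Nat.Coprime.pow
    exact (Nat.coprime_primes hr hq).mpr (fun h => hqr h.symm)
  set N := R.map H₁.subtype with hN
  have hNbot : N ≠ ⊥ := by
    intro h
    apply hRbot
    rwa [hN, Subgroup.map_eq_bot_iff_of_injective _ H₁.subtype_injective] at h
  have hNHq : N ≤ Hq := by
    rintro _ ⟨x, hx, rfl⟩
    exact Subgroup.mem_subgroupOf.mp (hRHq hx)
  have hfact := (Cfsg.Agent.S0007.result Hq H₁ hcop).2
  set L := Subgroup.normalClosure (N : Set G) with hL
  have hLHq : L ≤ Hq := by
    rw [hL, Subgroup.normalClosure, Subgroup.closure_le]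
    intro y hy
    rw [Group.mem_conjugatesOfSet_iff] at hy
    obtain ⟨a, ha, hay⟩ := hy
    rw [isConj_iff] at hay
    obtain ⟨c, rfl⟩ := hay
    obtain ⟨h, hh, j', hj', rfl⟩ := hfact c
    have ha' : a ∈ N := ha
    obtain ⟨x, hx, rfl⟩ := ha'
    have h4 : (⟨j', hj'⟩ : H₁) * x * (⟨j', hj'⟩ : H₁)⁻¹ ∈ R := hRn.conj_mem x hx _
    have h5 := hNHq (Subgroup.mem_map_of_mem H₁.subtype h4)
    have h6 : h * j' * (H₁.subtype x) * (h * j')⁻¹ =
        h * (H₁.subtype ((⟨j', hj'⟩ : H₁) * x * (⟨j', hj'⟩ : H₁)⁻¹)) * h⁻¹ := by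
      simp
      group
    show h * j' * (H₁.subtype x) * (h * j')⁻¹ ∈ Hq
    rw [h6]
    exact Hq.mul_mem (Hq.mul_mem hh h5) (Hq.inv_mem hh)
  haveI hLn : L.Normal := Subgroup.normalClosure_normal
  have hLbot : L ≠ ⊥ := by
    intro h
    apply hNbot
    rw [eq_bot_iff, ← h]
    exact Subgroup.subset_normalClosure
  have hLs : Group.IsSolvable L := isSolvable_of_le hLHq hHqs
  have hLgt : 1 < Nat.card L := by
    have hne : Nat.card L ≠ 1 := by
      intro h
      exact hLbot ((Subgroup.card_eq_one).mp h)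
    have : 0 < Nat.card L := Nat.card_pos
    omega
  have hQcard := card_quotient_mul L
  have hQlt : Nat.card (G ⧸ L) < n := by
    rw [← hn, ← hQcard]
    have hQpos : 0 < Nat.card (G ⧸ L) := Nat.card_pos
    nlinarith
  haveI hQs : Group.IsSolvable (G ⧸ L) :=
    ih _ hQlt (G ⧸ L) rfl (hasHallComplements_quotient hG L)
  apply solvable_of_ker_le_range L.subtype (QuotientGroup.mk' L)
  rw [QuotientGroup.ker_mk', Subgroup.range_subtype]

end Cfsg.Agent.H01
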