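import Cfsg.Agent.Lib.H01.OmEven2
/-! Orthogonal transvections over the field with two elements: a generating class of 3-transpositions. -/
set_option autoImplicit false
set_option linter.unusedSimpArgs false
set_option linter.style.haveILetI false
set_option linter.unusedSectionVars false
set_option linter.unusedVariables false
namespace Cfsg.Agent.H01.Om
open Matrix Cfsg.Agent.Lead.Ortho Cfsg.Agent.Lead.Omega

section Gen
variable {F : Type*} [Field F] [Fintype F] {ι : Type} [Fintype ι] [DecidableEq ι]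
variable {Q : (ι → F) → F} {B : (ι → F) → (ι → F) → F}

/-- a non-singular vector in the complement of a small frame -/
lemma exists_aniso (h : QF Q B) (hnd : ND B (⊤ : Submodule F (ι → F))) {k : ℕ} {t : Fin k → (ι → F) × (ι → F)} (ht : IsHF Q B t)
    (hk : 2 * k < Fintype.card ι) : ∃ y ∈ perpOf h t, Q y ≠ 0 := by
  obtain ⟨e1, -⟩ := cnt_top h ht 0
  have e2 : Nat.card (⊤ : Submodule F (ι → F)) = Fintype.card F ^ Fintype.card ι := by
    rw [Nat.card_congr Submodule.topEquiv.toEquiv, Nat.card_eq_fintype_card, Fintype.card_fun]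
  have hq : 1 < Fintype.card F := Fintype.one_lt_card
  have e3 : 1 < Nat.card (perpOf h t) := by
    by_contra hc
    have e4 : Nat.card (perpOf h t) ≤ 1 := not_lt.1 hc
    rw [e2] at e1
    have e5 : Fintype.card F ^ Fintype.card ι ≤ Fintype.card F ^ (2 * k) := by
      rw [e1]
      calc _ ≤ Fintype.card F ^ (2 * k) * 1 := Nat.mul_le_mul_left _ e4
        _ = _ := mul_one _
    have e6 := Nat.pow_lt_pow_right hq hk
    omega
  haveI : Nontrivial (perpOf h t) := Finite.one_lt_card_iff_nontrivial.1 e3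
  obtain ⟨y, hy⟩ := exists_ne (0 : perpOf h t)
  have hy0 : (y : ι → F) ≠ 0 := fun e => hy (Subtype.ext e)
  obtain ⟨z, hz, hyz⟩ := ND_perpOf h hnd t ht y y.2 hy0
  by_contra hcon
  push Not at hcon
  have e7 := h.add y z
  rw [hcon _ y.2, hcon _ hz, hcon _ (Submodule.add_mem _ y.2 hz)] at e7
  apply hyz
  simpa using e7.symm

lemma E_mem_aux (h : QF Q B) {u a : ι → F} (hA : Adm Q B u a) (ha : Q a ≠ 0) : E h hA ∈ RS h ⊤ := by
  obtain ⟨b, hb⟩ : ∃ b, b = (-(Q a)⁻¹) • a := ⟨_, rfl⟩
  have hQb : Q b = (Q a)⁻¹ := by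
    rw [hb, h.smul]
    field_simp
  have hb0 : Q b ≠ 0 := by
    rw [hQb]
    exact inv_ne_zero ha
  have Bbu : B b u = 0 := by rw [hb, h.smul_left, hA.au, mul_zero]
  have hw : Q u = 0 := hA.uu
  have hadd : Q (b + u) = Q b := by
    rw [h.add, hw, Bbu]
    ring
  have hb1 : Q (b + u) ≠ 0 := by rw [hadd]; exact hb0
  have e2 : (-(Q b)⁻¹) • b = a := by
    rw [hQb, inv_inv, hb, smul_smul]
    have : -Q a * -(Q a)⁻¹ = 1 := by field_simp
    rw [this, one_smul]
  have hA' : Adm Q B u ((-(Q b)⁻¹) • b) := ⟨hw, by rw [e2]; exact hA.au⟩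
  have e3 := R_mul_R h hb0 hw Bbu hb1 hA'
  have e4 : E h hA = E h hA' := E_congr h _ _ rfl e2.symm
  rw [e4, ← e3]
  exact Subgroup.mul_mem _ (R_mem_RS h hb1 Submodule.mem_top) (R_mem_RS h hb0 Submodule.mem_top)

/-- Siegel maps are products of reflections -/
lemma E_mem_RS (h : QF Q B) (hnd : ND B (⊤ : Submodule F (ι → F))) (hcard : 4 < Fintype.card ι) {u a : ι → F} (hA : Adm Q B u a) :
    E h hA ∈ RS h ⊤ := by
  by_cases ha : Q a = 0
  · by_cases hu0 : u = 0
    · subst hu0
      rw [E_zero_left]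
      exact Subgroup.one_mem _
    by_cases hc : ∃ c : F, a = c • u
    · obtain ⟨c, rfl⟩ := hc
      rw [E_self]
      exact Subgroup.one_mem _
    · push Not at hc
      have hI : Ind2 u a := ind2_of_not_mult hu0 hc
      have hs := fun x y => h.symm x y
      have Bua : B u a = 0 := by rw [hs]; exact hA.au
      have Buu' := Buu h hA.uu
      have Baa := Buu h ha
      obtain ⟨t, ht1, ht2, -⟩ := exists_frame (k := 2) h hnd ![u, a] (fun _ => Submodule.mem_top)
        (by
          intro i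
          fin_cases i
          · exact hA.uu
          · exact ha)
        (by
          intro i j
          fin_cases i <;> fin_cases j
          · exact Buu'
          · exact Bua
          · exact hA.au
          · exact Baa)
        (ind2_iff.1 hI)
      obtain ⟨w, hw, Qw⟩ := exists_aniso h hnd ht1 (by omega)
      have hu1 : (t 0).1 = u := ht2 0
      have ha1 : (t 1).1 = a := ht2 1
      have Bwu : B w u = 0 := by
        have e1 := (hw 0).1
        rwa [hu1] at e1
      have Bwa : B w a = 0 := by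
        have e1 := (hw 1).1
        rwa [ha1] at e1
      have Qaw : Q (a + w) = Q w := by
        rw [h.add, ha, hs, Bwa]
        ring
      have Qnw : Q (-w) = Q w := by
        have := h.smul (-1) w
        simpa using this
      have A1 : Adm Q B u (a + w) := adm_add h hA ⟨hA.uu, Bwu⟩
      have A2 : Adm Q B u (-w) := adm_neg h ⟨hA.uu, Bwu⟩
      have e1 : E h hA = E h A1 * E h A2 := by
        rw [E_mul]
        exact E_congr h _ _ rfl (by abel)
      rw [e1]
      exact Subgroup.mul_mem _ (E_mem_aux h A1 (by rw [Qaw]; exact Qw))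
        (E_mem_aux h A2 (by rw [Qnw]; exact Qw))
  · exact E_mem_aux h hA ha

/-- the isometry group is generated by reflections -/
theorem RS_eq_top (h : QF Q B) (hnd : ND B (⊤ : Submodule F (ι → F))) (hcard : 4 < Fintype.card ι) {m' : ℕ}
    {t₀ : Fin (m' + 1) → (ι → F) × (ι → F)} (ht₀ : IsHF Q B t₀) (hanis : ∀ w ∈ perpOf h t₀, Q w = 0 → w = 0) :
    RS h (⊤ : Submodule F (ι → F)) = ⊤ := by
  rw [eq_top_iff]
  intro g _
  have e1 := all_good h hnd ht₀ hanis g
  refine (sup_le ?_ ?_ : SS h ⊔ RS h (perpOf h (Fin.tail t₀)) ≤ RS h ⊤) e1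
  · rw [SS, Subgroup.closure_le]
    rintro _ ⟨u, a, hA, rfl⟩
    exact E_mem_RS h hnd hcard hA
  · rw [RS, Subgroup.closure_le]
    rintro _ ⟨a, ha, -, rfl⟩
    exact R_mem_RS h ha Submodule.mem_top

end Gen

section Two
variable {ι : Type} [Fintype ι] [DecidableEq ι] {Q : (ι → ZMod 2) → ZMod 2} {B : (ι → ZMod 2) → (ι → ZMod 2) → ZMod 2}

lemma z2_ne {z : ZMod 2} (hz : z ≠ 0) : z = 1 := by
  revert z
  decide

lemma z2_cases (z : ZMod 2) : z = 0 ∨ z = 1 := by
  revert z
  decide

lemma z2_eq_of_add {y z : ZMod 2} (hz : y + z = 0) : z = y := by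
  revert y z
  decide

lemma vec_add_self (a : ι → ZMod 2) : a + a = 0 := by
  funext k
  exact CharTwo.add_self_eq_zero (a k)

lemma vec_sub (x a : ι → ZMod 2) : x - a = x + a := by
  funext k
  exact CharTwo.sub_eq_add (x k) (a k)

lemma act_R_two (h : QF Q B) {a : ι → ZMod 2} (ha : Q a ≠ 0) (x : ι → ZMod 2) : act (R h a ha) x = x + B x a • a := by
  rw [act_R, z2_ne ha, div_one, vec_sub]

lemma B_self_two (h : QF Q B) (a : ι → ZMod 2) : B a a = 0 := by
  rw [h.self]
  have : (2 : ZMod 2) = 0 := by decide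
  rw [this, zero_mul]

lemma mulVec_sub_one (g : OG (ZMod 2) Q) (x : ι → ZMod 2) :
    (((g : GL ι (ZMod 2)) : Matrix ι ι (ZMod 2)) - 1).mulVecLin x = act g x - x := by
  simp [Matrix.sub_mulVec, act]

/-- the elements of rank one are the reflections -/
lemma mem_D_iff (h : QF Q B) (hnd : ND B (⊤ : Submodule (ZMod 2) (ι → ZMod 2))) (g : OG (ZMod 2) Q) :
    (((g : GL ι (ZMod 2)) : Matrix ι ι (ZMod 2)) - 1).rank = 1 ↔ ∃ a, ∃ ha : Q a ≠ 0, g = R h a ha := by
  constructor
  · intro hr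
    unfold Matrix.rank at hr
    obtain ⟨⟨a, x₀, hx₀⟩, hv0, hv⟩ := finrank_eq_one_iff'.1 hr
    have ha0 : a ≠ 0 := fun e => hv0 (Subtype.ext e)
    have hT : ∀ x, act g x = x ∨ act g x = x + a := by
      intro x
      obtain ⟨c, hc⟩ := hv ⟨_, ⟨x, rfl⟩⟩
      have hc' : c • a = act g x - x := by
        rw [← mulVec_sub_one]
        exact congrArg Subtype.val hc
      rcases z2_cases c with rfl | rfl
      · left
        rw [zero_smul] at hc'
        exact (sub_eq_zero.1 hc'.symm)
      · right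
        rw [one_smul] at hc'
        rw [hc']
        abel
    have hx₀' : act g x₀ = x₀ + a := by
      rw [mulVec_sub_one] at hx₀
      rw [← hx₀]
      abel
    have hQ1 : ∀ x, act g x = x + a → B x a = Q a := by
      intro x hx
      have e1 := Q_act (Q := Q) g x
      rw [hx, h.add] at e1
      have e2 : Q a + B x a = 0 := by linear_combination e1
      exact z2_eq_of_add e2
    have hQ0 : ∀ y, act g y = y → B y a = 0 := by
      intro y hy
      have e1 : act g (y + x₀) = (y + x₀) + a := by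
        rw [act_add, hy, hx₀', add_assoc]
      have e2 := hQ1 _ e1
      rw [h.add_left, hQ1 _ hx₀'] at e2
      exact add_eq_right.1 e2
    have ha : Q a ≠ 0 := by
      intro e0
      obtain ⟨z, -, hz⟩ := hnd a trivial ha0
      apply hz
      rw [h.symm]
      rcases hT z with e | e
      · exact hQ0 z e
      · rw [hQ1 z e, e0]
    refine ⟨a, ha, og_ext fun y => ?_⟩
    rw [act_R_two]
    rcases hT y with e | e
    · rw [e, hQ0 y e, zero_smul, add_zero]
    · rw [e, hQ1 y e, z2_ne ha, one_smul]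
  · rintro ⟨a, ha, rfl⟩
    unfold Matrix.rank
    rw [finrank_eq_one_iff']
    have ha0 : a ≠ 0 := by
      rintro rfl
      apply ha
      have := h.smul 0 (0 : ι → ZMod 2)
      simpa using this
    obtain ⟨z, -, hz⟩ := hnd a trivial ha0
    have hz' : B z a = 1 := z2_ne (by rwa [h.symm])
    have hmv : ∀ x, (((R h a ha : OG (ZMod 2) Q) : GL ι (ZMod 2)) - 1 : Matrix ι ι (ZMod 2)).mulVecLin x = B x a • a := by
      intro x
      rw [mulVec_sub_one, act_R_two]
      abel
    refine ⟨⟨a, z, by rw [hmv, hz', one_smul]⟩, ?_, ?_⟩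
    · intro e
      exact ha0 (congrArg Subtype.val e)
    · rintro ⟨_, x, rfl⟩
      exact ⟨B x a, Subtype.ext (hmv x).symm⟩

lemma R_ne_one' (h : QF Q B) (hnd : ND B (⊤ : Submodule (ZMod 2) (ι → ZMod 2))) {a : ι → ZMod 2} (ha : Q a ≠ 0) : R h a ha ≠ 1 := by
  intro e
  have ha0 : a ≠ 0 := by
    rintro rfl
    apply ha
    have := h.smul 0 (0 : ι → ZMod 2)
    simpa using this
  obtain ⟨z, -, hz⟩ := hnd a trivial ha0
  have hz' : B z a = 1 := z2_ne (by rwa [h.symm])
  have e1 := act_R_two h ha z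
  rw [e, act_one, hz', one_smul] at e1
  exact ha0 (by simpa using e1.symm)

/-- the reflection sending a vector to another -/
lemma swap_refl (h : QF Q B) {a b : ι → ZMod 2} (Qa : Q a ≠ 0) (Qb : Q b ≠ 0) (hab : B a b ≠ 0) : ∃ g : OG (ZMod 2) Q, act g a = b := by
  have e1 : Q (a + b) = 1 := by
    rw [h.add, z2_ne Qa, z2_ne Qb, z2_ne hab]
    decide
  have e2 : Q (a + b) ≠ 0 := by
    rw [e1]
    decide
  refine ⟨R h (a + b) e2, ?_⟩
  rw [act_R_two, h.add_right, B_self_two h, zero_add, z2_ne hab, one_smul, ← add_assoc, vec_add_self, zero_add]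

/-- transitivity on the non-singular vectors -/
lemma exists_trans_two (h : QF Q B) (hnd : ND B (⊤ : Submodule (ZMod 2) (ι → ZMod 2))) (hcard : 4 < Fintype.card ι) {a b : ι → ZMod 2}
    (Qa : Q a ≠ 0) (Qb : Q b ≠ 0) : ∃ g : OG (ZMod 2) Q, act g a = b := by
  by_cases hab : a = b
  · exact ⟨1, by rw [act_one, hab]⟩
  by_cases hB : B a b = 0
  swap
  · exact swap_refl h Qa Qb hB
  suffices hc : ∃ c, Q c ≠ 0 ∧ B a c ≠ 0 ∧ B c b ≠ 0 by
    obtain ⟨c, Qc, h1, h2⟩ := hc
    obtain ⟨g₁, hg₁⟩ := swap_refl h Qa Qc h1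
    obtain ⟨g₂, hg₂⟩ := swap_refl h Qc Qb h2
    exact ⟨g₂ * g₁, by rw [act_mul, hg₁, hg₂]⟩
  have hs := fun x y => h.symm x y
  obtain ⟨u, hu⟩ : ∃ u, u = a + b := ⟨_, rfl⟩
  have hu0 : u ≠ 0 := by
    intro e
    rw [e] at hu
    apply hab
    have e2 := congrArg (fun x => x + b) hu
    simp only [zero_add, add_assoc, vec_add_self, add_zero] at e2
    exact e2.symm
  have Qu : Q u = 0 := by
    rw [hu, h.add, z2_ne Qa, z2_ne Qb, hB]
    decide
  have Bau : B a u = 0 := by
    rw [hu, h.add_right, B_self_two h, hB, add_zero]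
  have Bbu : B b u = 0 := by
    rw [hu, h.add_right, B_self_two h, hs, hB, add_zero]
  obtain ⟨v, -, Qv, Bvu⟩ := exists_partner h hnd Submodule.mem_top hu0 Qu
  have Buv : B u v = 1 := by rw [hs]; exact Bvu
  obtain ⟨α, hα⟩ : ∃ α, α = B a v := ⟨_, rfl⟩
  obtain ⟨w, hw⟩ : ∃ w, w = a + α • u := ⟨_, rfl⟩
  have Bwu : B w u = 0 := by
    rw [hw, h.add_left, h.smul_left, Bau, Buu h Qu, mul_zero, add_zero]
  have Bwv : B w v = 0 := by
    rw [hw, h.add_left, h.smul_left, ← hα, Buv, mul_one]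
    exact CharTwo.add_self_eq_zero α
  have Qw : Q w = Q a := by
    rw [hw, h.add, h.smul, Qu, mul_zero, add_zero, hs, h.smul_left, hs, Bau, mul_zero, add_zero]
  have hw0 : w ≠ 0 := by
    rintro e
    rw [e] at Qw
    apply Qa
    rw [← Qw]
    have := h.smul 0 (0 : ι → ZMod 2)
    simpa using this
  let t1 : Fin 1 → (ι → ZMod 2) × (ι → ZMod 2) := fun _ => (u, v)
  have ht1 : IsHF Q B t1 := by
    intro i j
    have : i = j := Subsingleton.elim _ _
    subst this
    exact ⟨by simpa [t1] using Buv, fun hne => absurd rfl hne, Qu, Qv⟩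
  have hwW : w ∈ perpOf h t1 := fun _ => ⟨Bwu, Bwv⟩
  obtain ⟨x, hx, hxw⟩ := ND_perpOf h hnd t1 ht1 w hwW hw0
  have Bxw : B x w = 1 := z2_ne (by rwa [hs])
  have Bxu : B x u = 0 := (hx 0).1
  have Bxv : B x v = 0 := (hx 0).2
  have key : ∀ c, B c u = 0 → B c w = 1 → B a c ≠ 0 ∧ B c b ≠ 0 := by
    intro c h1 h2
    have e1 : B c a = 1 := by
      have e2 : a = w + α • u := by
        rw [hw, add_assoc, ← two_smul (ZMod 2), smul_smul]
        have : (2 : ZMod 2) * α = 0 := by
          rw [show (2 : ZMod 2) = 0 by decide, zero_mul]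
        rw [this, zero_smul, add_zero]
      rw [e2, h.add_right, h.smul_right, h1, h2, mul_zero, add_zero]
    have e2 : b = a + u := by
      rw [hu, ← add_assoc, vec_add_self, zero_add]
    constructor
    · rw [hs, e1]
      decide
    · rw [e2, h.add_right, e1, h1, add_zero]
      decide
  by_cases Qx : Q x = 0
  · -- a second pair
    have Qwx : Q (w + x) = 0 := by
      rw [h.add, Qw, z2_ne Qa, Qx, hs, Bxw]
      decide
    let t2 : Fin 2 → (ι → ZMod 2) × (ι → ZMod 2) := ![(u, v), (x, w + x)]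
    have Buw : B u w = 0 := by rw [hs]; exact Bwu
    have Buwx : B u (w + x) = 0 := by
      rw [h.add_right, Buw, hs, Bxu, add_zero]
    have Bvwx : B v (w + x) = 0 := by
      rw [h.add_right, hs, Bwv, hs, Bxv, add_zero]
    have Bxwx : B x (w + x) = 1 := by
      rw [h.add_right, Bxw, B_self_two h, add_zero]
    have ht2 : IsHF Q B t2 := by
      intro i j
      fin_cases i <;> fin_cases j
      · exact ⟨by simpa [t2] using Buv, fun hne => absurd rfl hne, Qu, Qv⟩
      · refine ⟨by simpa [t2] using Buwx, fun _ => ⟨by simp [t2]; rw [hs]; exact Bxu, by simpa [t2] using Bvwx⟩, Qu, Qv⟩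
      · refine ⟨by simpa [t2] using Bxv, fun _ => ⟨by simpa [t2] using Bxu, by simp [t2]; rw [hs]; exact Bvwx⟩, Qx, Qwx⟩
      · exact ⟨by simpa [t2] using Bxwx, fun hne => absurd rfl hne, Qx, Qwx⟩
    obtain ⟨y, hy, Qy⟩ := exists_aniso h hnd ht2 (by omega)
    have Byu : B y u = 0 := (hy 0).1
    have Byx : B y x = 0 := (hy 1).1
    have Bywx : B y (w + x) = 0 := (hy 1).2
    have Byw : B y w = 0 := by
      rw [h.add_right, Byx, add_zero] at Bywx
      exact Bywx
    have Qc : Q (x + y) ≠ 0 := by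
      rw [h.add, Qx, hs, Byx, add_zero, zero_add]
      exact Qy
    obtain ⟨k1, k2⟩ := key (x + y) (by rw [h.add_left, Bxu, Byu, add_zero]) (by rw [h.add_left, Bxw, Byw, add_zero])
    exact ⟨x + y, Qc, k1, k2⟩
  · obtain ⟨k1, k2⟩ := key x Bxu Bxw
    exact ⟨x, Qx, k1, k2⟩

/-- **The reflections form a generating class of 3-transpositions.** -/
theorem three_class (h : QF Q B) (hnd : ND B (⊤ : Submodule (ZMod 2) (ι → ZMod 2))) (hcard : 4 < Fintype.card ι) {m' : ℕ}
    {t₀ : Fin (m' + 1) → (ι → ZMod 2) × (ι → ZMod 2)} (ht₀ : IsHF Q B t₀) (hanis : ∀ w ∈ perpOf h t₀, Q w = 0 → w = 0) :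
    Cfsg.IsThreeTranspositionClass {g : OG (ZMod 2) Q | (((g : GL ι (ZMod 2)) : Matrix ι ι (ZMod 2)) - 1).rank = 1} := by
  have hmem := mem_D_iff h hnd
  refine ⟨⟨?_, ?_⟩, ?_, ?_⟩
  · intro d hd
    obtain ⟨a, ha, rfl⟩ := (hmem d).1 hd
    exact orderOf_eq_prime (by rw [sq, R_mul_self]) (R_ne_one' h hnd ha)
  · intro d hd e he
    obtain ⟨a, ha, rfl⟩ := (hmem d).1 hd
    obtain ⟨b, hb, rfl⟩ := (hmem e).1 he
    have hconj : ∀ {x y : ι → ZMod 2} (hx : Q x ≠ 0) (hy : Q y ≠ 0) (hz : Q (act (R h x hx) y) ≠ 0),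
        R h x hx * R h y hy * R h x hx = R h (act (R h x hx) y) hz := by
      intro x y hx hy hz
      have := R_conj h (R h x hx) hy hz
      rwa [R_inv] at this
    have Q' : ∀ (x y : ι → ZMod 2) (hx : Q x ≠ 0) (hy : Q y ≠ 0), Q (act (R h x hx) y) ≠ 0 := fun x y hx hy => by
      rw [Q_act (Q := Q)]
      exact hy
    rcases z2_cases (B a b) with hB | hB
    · left
      have e1 : act (R h a ha) b = b := by
        rw [act_R_two, h.symm, hB, zero_smul, add_zero]
      have e2 := hconj ha hb (Q' a b ha hb)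
      rw [R_congr h (Q' a b ha hb) hb e1] at e2
      rw [sq, ← mul_assoc, e2, R_mul_self]
    · right
      have e1 : act (R h a ha) b = a + b := by
        rw [act_R_two, h.symm, hB, one_smul, add_comm]
      have e2 : act (R h b hb) a = a + b := by
        rw [act_R_two, hB, one_smul]
      have hab : Q (a + b) ≠ 0 := by
        rw [← e1]
        exact Q' a b ha hb
      have e3 := hconj ha hb (Q' a b ha hb)
      rw [R_congr h (Q' a b ha hb) hab e1] at e3
      have e4 := hconj hb ha (Q' b a hb ha)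
      rw [R_congr h (Q' b a hb ha) hab e2] at e4
      calc (R h a ha * R h b hb) ^ 3 = (R h a ha * R h b hb * R h a ha) * (R h b hb * R h a ha * R h b hb) := by
            simp only [pow_succ, pow_zero, one_mul, mul_assoc]
        _ = 1 := by rw [e3, e4, R_mul_self]
  · obtain ⟨a₀, -, Qa₀⟩ := exists_aniso (k := 0) h hnd (t := Fin.elim0) (fun i => i.elim0) (by omega)
    refine ⟨R h a₀ Qa₀, (hmem _).2 ⟨a₀, Qa₀, rfl⟩, ?_⟩
    ext g
    constructor
    · intro hg
      obtain ⟨b, hb, rfl⟩ := (hmem g).1 hg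
      obtain ⟨c, hc⟩ := exists_trans_two h hnd hcard Qa₀ hb
      refine isConj_iff.2 ⟨c, ?_⟩
      rw [R_conj h c Qa₀ (by rw [Q_act (Q := Q)]; exact Qa₀)]
      exact R_congr h _ _ hc
    · intro hg
      obtain ⟨c, hc⟩ := isConj_iff.1 hg
      refine (hmem g).2 ⟨act c a₀, by rw [Q_act (Q := Q)]; exact Qa₀, ?_⟩
      rw [← hc]
      exact R_conj h c Qa₀ _
  · rw [eq_top_iff, ← RS_eq_top h hnd hcard ht₀ hanis, RS, Subgroup.closure_le]
    rintro _ ⟨a, ha, -, rfl⟩
    exact Subgroup.subset_closure ((hmem _).2 ⟨a, ha, rfl⟩)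

end Two

end Cfsg.Agent.H01.Om
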