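import Mathlib
/-! Recognizing `C₂ × C_{2f}` and `D₈ × C_f` from generators. -/
set_option autoImplicit false
set_option linter.unusedSimpArgs false
set_option linter.style.haveILetI false
set_option linter.unusedSectionVars false
set_option linter.unusedVariables false
namespace Cfsg.Agent.H01.Om

variable {G : Type*} [Group G]

lemma pow_val_add {n : ℕ} [NeZero n] {g : G} (hg : g ^ n = 1) (i j : ZMod n) : g ^ (i + j).val = g ^ i.val * g ^ j.val := by
  rw [ZMod.val_add, ← pow_add]
  exact (pow_eq_pow_mod _ hg).symm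

/-- recognition of `C₂ × C_{2f}` -/
theorem iso_of_gens_abelian {f : ℕ} (hf : 0 < f) (x y : G) (hcard : Nat.card G = 4 * f) (hx : orderOf x = 2 * f) (hy : y ^ 2 = 1)
    (hxy : Commute x y) (hny : ∀ j : ℕ, y ≠ x ^ j) : Nonempty (G ≃* Multiplicative (ZMod 2 × ZMod (2 * f))) := by
  haveI : NeZero (2 * f) := ⟨by omega⟩
  haveI : Finite G := Nat.finite_of_card_ne_zero (by omega)
  have hx1 : x ^ (2 * f) = 1 := by
    rw [← hx]
    exact pow_orderOf_eq_one x
  let Φ : Multiplicative (ZMod 2 × ZMod (2 * f)) →* G :=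
    MonoidHom.mk' (fun p => y ^ (Multiplicative.toAdd p).1.val * x ^ (Multiplicative.toAdd p).2.val) (by
      intro p p'
      simp only [toAdd_mul, Prod.fst_add, Prod.snd_add]
      rw [pow_val_add hy, pow_val_add hx1]
      have hc : Commute (x ^ (Multiplicative.toAdd p).2.val) (y ^ (Multiplicative.toAdd p').1.val) := hxy.pow_pow _ _
      calc _ = y ^ (Multiplicative.toAdd p).1.val * (y ^ (Multiplicative.toAdd p').1.val * x ^ (Multiplicative.toAdd p).2.val) * x ^ (Multiplicative.toAdd p').2.val := by
            simp only [mul_assoc]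
        _ = y ^ (Multiplicative.toAdd p).1.val * (x ^ (Multiplicative.toAdd p).2.val * y ^ (Multiplicative.toAdd p').1.val) * x ^ (Multiplicative.toAdd p').2.val := by
            rw [hc.eq]
        _ = _ := by simp only [mul_assoc])
  have hinj : Function.Injective Φ := by
    rw [injective_iff_map_eq_one]
    intro p hp
    have hp' : y ^ (Multiplicative.toAdd p).1.val * x ^ (Multiplicative.toAdd p).2.val = 1 := hp
    have hi : (Multiplicative.toAdd p).1.val < 2 := ZMod.val_lt _
    have hj : (Multiplicative.toAdd p).2.val < 2 * f := ZMod.val_lt _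
    have hi0 : (Multiplicative.toAdd p).1.val = 0 := by
      by_contra hne
      have hi1 : (Multiplicative.toAdd p).1.val = 1 := by omega
      rw [hi1, pow_one] at hp'
      apply hny (2 * f - (Multiplicative.toAdd p).2.val)
      have e1 : x ^ (2 * f - (Multiplicative.toAdd p).2.val) * x ^ (Multiplicative.toAdd p).2.val = 1 := by
        rw [← pow_add, Nat.sub_add_cancel hj.le, hx1]
      exact mul_right_cancel (hp'.trans e1.symm)
    rw [hi0, pow_zero, one_mul] at hp'
    have hj0 : (Multiplicative.toAdd p).2.val = 0 := by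
      have e1 := orderOf_dvd_of_pow_eq_one hp'
      rw [hx] at e1
      exact Nat.eq_zero_of_dvd_of_lt e1 hj
    apply Multiplicative.toAdd.injective
    apply Prod.ext
    · exact (ZMod.val_injective 2) (by rw [hi0]; simp)
    · exact (ZMod.val_injective (2 * f)) (by rw [hj0]; simp)
  have hbij : Function.Bijective Φ := by
    refine (Nat.bijective_iff_injective_and_card Φ).2 ⟨hinj, ?_⟩
    rw [hcard, Nat.card_congr Multiplicative.toAdd, Nat.card_prod, Nat.card_zmod, Nat.card_zmod]
    ring
  exact ⟨(MulEquiv.ofBijective Φ hbij).symm⟩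

/-- recognition of `D₈ × C_f` -/
theorem iso_of_gens_dihedral {f : ℕ} (hf : 0 < f) {H : Type*} [Group H] (χ : G →* H) (a b ψ : G) (hcard : Nat.card G = 8 * f)
    (ha4 : a ^ 4 = 1) (ha2 : a ^ 2 ≠ 1) (hb2 : b ^ 2 = 1) (hba : b * a * b⁻¹ = a⁻¹) (hψf : ψ ^ f = 1) (hψa : Commute ψ a)
    (hψb : Commute ψ b) (hb1 : b ≠ 1) (hba2 : b ≠ a ^ 2) (hχa : χ a = 1) (hχb : χ b = 1) (hχψ : ∀ k, χ ψ ^ k = 1 → f ∣ k) :
    Nonempty (G ≃* DihedralGroup 4 × Multiplicative (ZMod f)) := by
  haveI : NeZero f := ⟨by omega⟩
  haveI : Finite G := Nat.finite_of_card_ne_zero (by omega)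
  have hbb : b * b = 1 := by rw [← sq, hb2]
  have hb' : a * b = b * a⁻¹ := by
    have e2 : b⁻¹ = b := inv_eq_of_mul_eq_one_left hbb
    have e4 : a⁻¹ = b * a * b⁻¹ := hba.symm
    rw [e4, e2]
    calc a * b = (b * b) * a * b := by rw [hbb, one_mul]
      _ = _ := by group
  -- the rotations
  let A : ZMod 4 → G := fun i => a ^ i.val
  have hA : ∀ i j, A (i + j) = A i * A j := fun i j => pow_val_add ha4 i j
  have hA0 : A 0 = 1 := by
    simp [A]
  have hAneg : ∀ i, A (-i) = (A i)⁻¹ := by
    intro i
    have e1 := hA i (-i)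
    rw [add_neg_cancel, hA0] at e1
    exact (inv_eq_of_mul_eq_one_right e1.symm).symm
  have hcomm : ∀ n : ℕ, a ^ n * b = b * (a⁻¹) ^ n := by
    intro n
    induction n with
    | zero => simp
    | succ k ih =>
      rw [pow_succ, mul_assoc, hb', ← mul_assoc, ih, mul_assoc, pow_succ]
  have hAb : ∀ i, A i * b = b * A (-i) := by
    intro i
    rw [hAneg]
    change a ^ i.val * b = b * (a ^ i.val)⁻¹
    rw [hcomm, inv_pow]
  let Φ₀ : DihedralGroup 4 → G := fun g => match g with
    | .r i => A i
    | .sr i => b * A i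
  have hΦ₀ : ∀ g g', Φ₀ (g * g') = Φ₀ g * Φ₀ g' := by
    rintro (i | i) (j | j)
    · exact hA i j
    · change b * A (j - i) = A i * (b * A j)
      rw [← mul_assoc, hAb, sub_eq_neg_add, hA, mul_assoc]
    · change b * A (i + j) = b * A i * A j
      rw [hA, mul_assoc]
    · change A (j - i) = b * A i * (b * A j)
      rw [mul_assoc b, ← mul_assoc (A i), hAb, sub_eq_neg_add, hA]
      simp only [← mul_assoc]
      rw [hbb, one_mul]
  have hψ1 : ∀ g, Commute ψ (Φ₀ g) := by
    rintro (i | i)
    · exact hψa.pow_right _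
    · exact hψb.mul_right (hψa.pow_right _)
  let Φ : DihedralGroup 4 × Multiplicative (ZMod f) →* G :=
    MonoidHom.mk' (fun p => Φ₀ p.1 * ψ ^ (Multiplicative.toAdd p.2).val) (by
      rintro ⟨g, k⟩ ⟨g', k'⟩
      simp only [Prod.mk_mul_mk, toAdd_mul]
      rw [hΦ₀, pow_val_add hψf]
      have hc : Commute (ψ ^ (Multiplicative.toAdd k).val) (Φ₀ g') := (hψ1 g').pow_left _
      calc _ = Φ₀ g * (Φ₀ g' * ψ ^ (Multiplicative.toAdd k).val) * ψ ^ (Multiplicative.toAdd k').val := by
            simp only [mul_assoc]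
        _ = Φ₀ g * (ψ ^ (Multiplicative.toAdd k).val * Φ₀ g') * ψ ^ (Multiplicative.toAdd k').val := by
            rw [hc.eq]
        _ = _ := by simp only [mul_assoc])
  have hχΦ₀ : ∀ g, χ (Φ₀ g) = 1 := by
    rintro (i | i)
    · change χ (a ^ i.val) = 1
      rw [map_pow, hχa, one_pow]
    · change χ (b * a ^ i.val) = 1
      rw [map_mul, map_pow, hχa, hχb, one_pow, one_mul]
  have hinj : Function.Injective Φ := by
    rw [injective_iff_map_eq_one]
    rintro ⟨g, k⟩ hp
    have hp' : Φ₀ g * ψ ^ (Multiplicative.toAdd k).val = 1 := hp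
    have e1 := congrArg χ hp'
    rw [map_mul, hχΦ₀, one_mul, map_pow, map_one] at e1
    have e2 := hχψ _ e1
    have hk : (Multiplicative.toAdd k).val = 0 := Nat.eq_zero_of_dvd_of_lt e2 (ZMod.val_lt _)
    rw [hk, pow_zero, mul_one] at hp'
    have hk' : k = 1 := by
      apply Multiplicative.toAdd.injective
      exact (ZMod.val_injective f) (by rw [hk]; simp)
    subst hk'
    have ha1 : a ≠ 1 := by
      rintro rfl
      simp at ha2
    have ha3 : a ^ 3 ≠ 1 := by
      intro e
      apply ha1
      have : a ^ 4 = a ^ 3 * a := pow_succ a 3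
      rw [ha4, e, one_mul] at this
      exact this.symm
    rcases g with i | i
    · have hi : i.val < 4 := ZMod.val_lt _
      have hp2 : a ^ i.val = 1 := hp'
      have hi0 : i.val = 0 := by
        by_contra hne
        have : i.val = 1 ∨ i.val = 2 ∨ i.val = 3 := by omega
        rcases this with e | e | e
        · rw [e, pow_one] at hp2
          exact ha1 hp2
        · rw [e] at hp2
          exact ha2 hp2
        · rw [e] at hp2
          exact ha3 hp2
      have : i = 0 := (ZMod.val_injective 4) (by rw [hi0]; simp)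
      subst this
      rfl
    · exfalso
      have hi : i.val < 4 := ZMod.val_lt _
      have hp2 : b * a ^ i.val = 1 := hp'
      have hbinv : b = (a ^ i.val)⁻¹ := eq_inv_of_mul_eq_one_left hp2
      have hval : i.val = 0 ∨ i.val = 1 ∨ i.val = 2 ∨ i.val = 3 := by omega
      rcases hval with e | e | e | e
      · rw [e, pow_zero, inv_one] at hbinv
        exact hb1 hbinv
      · rw [e, pow_one] at hbinv
        apply ha2
        have : b ^ 2 = (a ^ 2)⁻¹ := by
          rw [hbinv]
          group
        rw [hb2] at this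
        exact (inv_eq_one.1 this.symm)
      · rw [e] at hbinv
        apply hba2
        rw [hbinv]
        apply inv_eq_of_mul_eq_one_left
        rw [← pow_add]
        exact ha4
      · rw [e] at hbinv
        apply ha2
        have e3 : (a ^ 3)⁻¹ = a := by
          apply inv_eq_of_mul_eq_one_left
          rw [← pow_succ']
          exact ha4
        rw [e3] at hbinv
        rw [← hbinv]
        exact hb2
  have hbij : Function.Bijective Φ := by
    refine (Nat.bijective_iff_injective_and_card Φ).2 ⟨hinj, ?_⟩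
    rw [hcard, Nat.card_prod, Nat.card_congr (Multiplicative.toAdd (α := ZMod f)), Nat.card_zmod, DihedralGroup.nat_card]
  exact ⟨(MulEquiv.ofBijective Φ hbij).symm⟩

end Cfsg.Agent.H01.Om
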