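import Cfsg.Agent.Lib.H01.OmFrobLift
import Cfsg.Agent.Lib.H01.OmGrp
/-! Classes of reflections modulo `Ω`, and the map from the outer automorphism group to the field automorphisms. -/
set_option autoImplicit false
set_option linter.unusedSimpArgs false
set_option linter.style.haveILetI false
set_option linter.unusedSectionVars false
set_option linter.unusedVariables false
namespace Cfsg.Agent.H01.Om
open Matrix Cfsg.Agent.Lead.Ortho Cfsg.Agent.Lead.Omega
open scoped commutatorElement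

variable {F : Type*} [Field F] [Fintype F] {ι : Type} [Fintype ι] [DecidableEq ι]
variable {Q : (ι → F) → F} {B : (ι → F) → (ι → F) → F}

/-- `SS` is normal -/
instance SS_normal_inst (h : QF Q B) : (SS h).Normal := SS_normal h

/-- the quotient map -/
noncomputable def piS (h : QF Q B) : OG F Q →* OG F Q ⧸ SS h := QuotientGroup.mk' (SS h)

lemma piS_eq_one (h : QF Q B) {g : OG F Q} : piS h g = 1 ↔ g ∈ SS h := QuotientGroup.eq_one_iff g

lemma piS_R_sq (h : QF Q B) {a : ι → F} (ha : Q a ≠ 0) : piS h (R h a ha) * piS h (R h a ha) = 1 := by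
  rw [← map_mul, R_mul_self, map_one]

section Cls
variable {h : QF Q B} {hnd : ND B (⊤ : Submodule F (ι → F))} {m' : ℕ} {t₀ : Fin (m' + 1 + 1) → (ι → F) × (ι → F)}

lemma piS_comm (h : QF Q B) (hnd : ND B (⊤ : Submodule F (ι → F))) (ht₀ : IsHF Q B t₀) (hanis : ∀ w ∈ perpOf h t₀, Q w = 0 → w = 0)
    (x y : OG F Q ⧸ SS h) : x * y = y * x := by
  obtain ⟨x, rfl⟩ := QuotientGroup.mk_surjective x
  obtain ⟨y, rfl⟩ := QuotientGroup.mk_surjective y
  rw [← QuotientGroup.mk_mul, ← QuotientGroup.mk_mul, QuotientGroup.eq]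
  apply comm_le_SS h hnd ht₀ hanis
  have e : (x * y)⁻¹ * (y * x) = ⁅y⁻¹, x⁻¹⁆ := by
    simp only [commutatorElement_def]
    group
  rw [e, commutator_def]
  exact Subgroup.commutator_mem_commutator (Subgroup.mem_top _) (Subgroup.mem_top _)

/-- reflections in vectors of the same norm agree modulo `SS` -/
lemma piS_R_eq (h : QF Q B) (hnd : ND B (⊤ : Submodule F (ι → F))) (ht₀ : IsHF Q B t₀) (hanis : ∀ w ∈ perpOf h t₀, Q w = 0 → w = 0)
    (h2 : (2 : F) ≠ 0) {a a' : ι → F} (ha : Q a ≠ 0) (ha' : Q a' ≠ 0) (e : Q a' = Q a) :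
    piS h (R h a' ha') = piS h (R h a ha) := by
  have hcomm := piS_comm h hnd ht₀ hanis
  have hconj : ∀ (g : OG F Q) (k : OG F Q), piS h (g * k * g⁻¹) = piS h k := by
    intro g k
    rw [map_mul, map_mul, map_inv, hcomm (piS h g), mul_inv_cancel_right]
  have Bsym := fun x y => h.symm x y
  by_cases hc : Q (a' - a) = 0
  · -- the case of a singular difference
    have e1 : Q (a' - a) = Q a' + Q a - B a' a := Q_sub h a' a
    have e2 : B a' a = 2 * Q a := by
      rw [hc, e] at e1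
      linear_combination e1
    have e3 : Q (a' + a) = 4 * Q a := by
      rw [h.add, e, e2]
      ring
    have h4 : (4 : F) ≠ 0 := by
      have : (4 : F) = 2 * 2 := by norm_num
      rw [this]
      exact mul_ne_zero h2 h2
    have hc' : Q (a' + a) ≠ 0 := by
      rw [e3]
      exact mul_ne_zero h4 ha
    have e4 : act (R h (a' + a) hc') a = (-1 : F) • a' := by
      rw [act_R, h.add_right, Bsym a a', e2, h.self, e3]
      have : (2 * Q a + 2 * Q a) / (4 * Q a) = 1 := by
        field_simp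
        ring
      rw [this, one_smul, neg_one_smul]
      abel
    have e5 : Q (act (R h (a' + a) hc') a) ≠ 0 := by
      rw [Q_act (Q := Q)]
      exact ha
    have e6 := R_conj h (R h (a' + a) hc') ha e5
    have e7 : Q ((-1 : F) • a') ≠ 0 := by
      rw [h.smul]
      simpa using ha'
    rw [← hconj (R h (a' + a) hc') (R h a ha), e6, R_congr h e5 e7 e4, R_scale h (by norm_num) ha' e7]
  · have e1 : Q (a' - a) = Q a' + Q a - B a' a := Q_sub h a' a
    have e4 : act (R h (a' - a) hc) a = a' := by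
      rw [act_R, h.sub_right, Bsym a a', h.self, e1, e]
      have e7 : 2 * Q a - B a' a ≠ 0 := by
        rw [e1, e] at hc
        intro e8
        apply hc
        linear_combination e8
      have : (B a' a - 2 * Q a) / (Q a + Q a - B a' a) = -1 := by
        have e9 : Q a + Q a - B a' a = 2 * Q a - B a' a := by ring
        rw [e9, div_eq_iff e7]
        ring
      rw [this, neg_one_smul]
      abel
    have e5 : Q (act (R h (a' - a) hc) a) ≠ 0 := by
      rw [Q_act (Q := Q)]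
      exact ha
    have e6 := R_conj h (R h (a' - a) hc) ha e5
    rw [← hconj (R h (a' - a) hc) (R h a ha), e6, R_congr h e5 ha' e4]

/-- reflections with norms in the same square class agree modulo `SS` -/
lemma piS_R_class (h : QF Q B) (hnd : ND B (⊤ : Submodule F (ι → F))) (ht₀ : IsHF Q B t₀) (hanis : ∀ w ∈ perpOf h t₀, Q w = 0 → w = 0)
    (h2 : (2 : F) ≠ 0) {a a' : ι → F} (ha : Q a ≠ 0) (ha' : Q a' ≠ 0) (hs : IsSquare (Q a' * Q a)) :
    piS h (R h a' ha') = piS h (R h a ha) := by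
  obtain ⟨d, hd, e⟩ := eq_sq_mul ha' ha hs
  have e2 : Q (d • a) ≠ 0 := by
    rw [h.smul, ← e]
    exact ha'
  rw [piS_R_eq h hnd ht₀ hanis h2 e2 ha' (by rw [h.smul, e]), R_scale h hd ha e2]

lemma sq_trans {x y z : F} (hy : y ≠ 0) (h1 : IsSquare (x * y)) (h2 : IsSquare (z * y)) : IsSquare (x * z) := by
  obtain ⟨r, hr⟩ := h1
  obtain ⟨s, hs⟩ := h2
  refine ⟨r * s / y, ?_⟩
  field_simp
  linear_combination (z * y) * hr + (r * r) * hs

/-- the product of two reflections with norms in the different square classes -/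
lemma piS_RR (h : QF Q B) (hnd : ND B (⊤ : Submodule F (ι → F))) (ht₀ : IsHF Q B t₀) (hanis : ∀ w ∈ perpOf h t₀, Q w = 0 → w = 0)
    (h2 : (2 : F) ≠ 0) {a₁ a₂ b₁ b₂ : ι → F} (ha₁ : Q a₁ ≠ 0) (ha₂ : Q a₂ ≠ 0) (hb₁ : Q b₁ ≠ 0) (hb₂ : Q b₂ ≠ 0)
    (hns : ¬ IsSquare (Q a₁ * Q a₂)) (hns' : ¬ IsSquare (Q b₁ * Q b₂)) :
    piS h (R h b₁ hb₁) * piS h (R h b₂ hb₂) = piS h (R h a₁ ha₁) * piS h (R h a₂ ha₂) := by
  classical
  have hcl := fun {a a'} (ha : Q a ≠ 0) (ha' : Q a' ≠ 0) hs => piS_R_class h hnd ht₀ hanis h2 (a := a) (a' := a') ha ha' hs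
  have hcomm := piS_comm h hnd ht₀ hanis
  rcases square_class ha₁ ha₂ hb₁ hns with H | H
  · rcases square_class ha₁ ha₂ hb₂ hns with H' | H'
    · exact absurd (sq_trans ha₁ H H') hns'
    · rw [hcl ha₁ hb₁ H, hcl ha₂ hb₂ H']
  · rcases square_class ha₁ ha₂ hb₂ hns with H' | H'
    · rw [hcl ha₂ hb₁ H, hcl ha₁ hb₂ H', hcomm]
    · exact absurd (sq_trans ha₂ H H') hns'

lemma piS_RR_sq (h : QF Q B) (hnd : ND B (⊤ : Submodule F (ι → F))) (ht₀ : IsHF Q B t₀) (hanis : ∀ w ∈ perpOf h t₀, Q w = 0 → w = 0)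
    (h2 : (2 : F) ≠ 0) {b₁ b₂ : ι → F} (hb₁ : Q b₁ ≠ 0) (hb₂ : Q b₂ ≠ 0) (hs : IsSquare (Q b₁ * Q b₂)) :
    piS h (R h b₁ hb₁) * piS h (R h b₂ hb₂) = 1 := by
  rw [piS_R_class h hnd ht₀ hanis h2 hb₂ hb₁ hs, piS_R_sq]

end Cls

section Chi
variable {m : ℕ} {t₀ : Fin m → (ι → F) × (ι → F)} (C : Cx Q B t₀)
include C

/-- scalars in `cc` -/
lemma Cx.cc_mem_inn_iff (s : OG F Q) :
    cc Q s ∈ Cfsg.Inn (Cfsg.POmega F Q) ↔ s ∈ Cfsg.Omega F Q ∨ negO C.h * s ∈ Cfsg.Omega F Q := by
  have h := C.h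
  have e5 : negO h * negO h = (1 : OG F Q) := by
    apply og_ext
    intro x
    rw [act_mul, act_negO, act_negO, act_one, neg_neg]
  constructor
  · rintro ⟨x, hx⟩
    obtain ⟨t, rfl⟩ := QuotientGroup.mk_surjective x
    have e1 : MulAut.conj (QuotientGroup.mk t : Cfsg.POmega F Q) = cc Q (t : OG F Q) := conj_mk_eq C t
    have e2 : cc Q ((t : OG F Q)⁻¹ * s) = 1 := by
      rw [map_mul, map_inv, ← hx]
      have e3 : (MulAut.conj (QuotientGroup.mk t : Cfsg.POmega F Q) : MulAut _) = MulAut.conj ((t : Cfsg.POmega F Q)) := rfl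
      rw [← e3, e1, inv_mul_cancel]
    obtain ⟨α, hα⟩ := C.scalar_of_cc _ e2
    rcases C.scalar_pm hα with e3 | e3
    · left
      have : s = (t : OG F Q) := by
        have := congrArg (fun g => (t : OG F Q) * g) e3
        simpa using this
      rw [this]
      exact t.2
    · right
      have e4 : s = (t : OG F Q) * negO h := by
        have := congrArg (fun g => (t : OG F Q) * g) e3
        simpa using this
      have e6 : negO h * s = (t : OG F Q) := by
        rw [e4]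
        apply og_ext
        intro x
        rw [act_mul, act_mul, act_negO, act_negO, act_neg, neg_neg]
      rw [e6]
      exact t.2
  · rintro (e | e)
    · exact ⟨QuotientGroup.mk ⟨s, e⟩, conj_mk_eq C ⟨s, e⟩⟩
    · refine ⟨QuotientGroup.mk ⟨_, e⟩, ?_⟩
      refine (conj_mk_eq C ⟨_, e⟩).trans ?_
      change cc Q (negO h * s) = _
      rw [map_mul]
      have e7 : cc Q (negO h) = 1 := cc_of_scalar (α := -1) (fun x => by rw [act_negO]; simp)
      rw [e7, one_mul]

/-- similarities which are scalar multiples of isometries -/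
lemma Cx.Th_of_scalar {T : GS Q} {c : F} {s : OG F Q} (hc : c ≠ 0) (H : ∀ x, (T : Equiv.Perm (ι → F)) x = c • act s x) :
    Th C.h C.nd T = cc Q s := by
  have e1 : T = C.scalarG (Units.mk0 c hc) * ofO s := by
    apply Subtype.ext
    ext1 x
    rw [H]
    rfl
  rw [e1, map_mul, C.Th_scalar, one_mul, Th_ofO]

/-- the field automorphism of a similarity -/
noncomputable def Cx.rhoG : GS Q →* (F ≃+* F) :=
  MonoidHom.mk' (fun T => T.2.choose) (by
    intro T T'
    obtain ⟨κ, H⟩ := T.2.choose_spec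
    obtain ⟨κ', H'⟩ := T'.2.choose_spec
    obtain ⟨κ'', H''⟩ := (T * T').2.choose_spec
    exact (C.semi_unique H'' (H.mul H')).1)

lemma Cx.rhoG_eq {T : GS Q} {σ : F ≃+* F} {κ : F} (H : IsSemi Q (T : Equiv.Perm (ι → F)) σ κ) : C.rhoG T = σ := by
  obtain ⟨κ', H'⟩ := T.2.choose_spec
  exact (C.semi_unique H' H).1

/-- **The map from the outer automorphism group to the field automorphisms.** -/
theorem Cx.exists_chi (hΓ : Cfsg.gammaPOmega F Q = ⊤) :
    ∃ χ : Cfsg.Out (Cfsg.POmega F Q) →* (F ≃+* F), ∀ (T : GS Q) {σ : F ≃+* F} {κ : F},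
      IsSemi Q (T : Equiv.Perm (ι → F)) σ κ → χ (QuotientGroup.mk (Th C.h C.nd T)) = σ := by
  have hsurj : Function.Surjective (Th C.h C.nd) := by
    intro α
    have : α ∈ (Th C.h C.nd).range := by
      apply gamma_le_range C.h C.nd
      rw [hΓ]
      exact Subgroup.mem_top α
    exact this
  have hker : (Th C.h C.nd).ker ≤ (C.rhoG).ker := by
    intro T hT
    obtain ⟨α, hα, hT'⟩ := C.scalar_of_Th T hT
    have e1 : T = C.scalarG (Units.mk0 α hα) := by
      apply Subtype.ext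
      ext1 x
      rw [hT']
      rfl
    rw [MonoidHom.mem_ker, e1]
    exact C.rhoG_eq (isSemi_scalar C (Units.mk0 α hα))
  let χ₀ : MulAut (Cfsg.POmega F Q) →* (F ≃+* F) := (Th C.h C.nd).liftOfSurjective hsurj ⟨C.rhoG, hker⟩
  have hχ₀ : ∀ T, χ₀ (Th C.h C.nd T) = C.rhoG T := fun T => (Th C.h C.nd).liftOfRightInverse_comp_apply _ _ _ T
  have hinn : Cfsg.Inn (Cfsg.POmega F Q) ≤ χ₀.ker := by
    rintro _ ⟨x, rfl⟩
    obtain ⟨t, rfl⟩ := QuotientGroup.mk_surjective x
    rw [MonoidHom.mem_ker]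
    have e1 : MulAut.conj (QuotientGroup.mk t : Cfsg.POmega F Q) = Th C.h C.nd (ofO (t : OG F Q)) := C.conj_mk t
    have e3 : (MulAut.conj (QuotientGroup.mk t : Cfsg.POmega F Q) : MulAut _) = MulAut.conj ((t : Cfsg.POmega F Q)) := rfl
    rw [← e3, e1, hχ₀]
    exact C.rhoG_eq (isSemi_permO (t : OG F Q))
  refine ⟨QuotientGroup.lift _ χ₀ (fun x hx => hinn hx), ?_⟩
  intro T σ κ H
  change χ₀ (Th C.h C.nd T) = σ
  rw [hχ₀]
  exact C.rhoG_eq H

end Chi

end Cfsg.Agent.H01.Om
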