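import Cfsg.Agent.Lib.H01.OmCls
/-! The similarities coming from the quadratic extension. -/
set_option autoImplicit false
set_option linter.unusedSimpArgs false
set_option linter.style.haveILetI false
set_option linter.unusedSectionVars false
set_option linter.unusedVariables false
namespace Cfsg.Agent.H01.Om
open Matrix Cfsg.Agent.Lead.Ortho Cfsg.Agent.Lead.Omega

variable {F : Type*} [Field F] [Fintype F]

section Delta
variable (a b : F) [hirr : Fact (Irreducible (fP a b))]

lemma cK_cK (x : KK a b) : cK a b (cK a b x) = x := by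
  obtain ⟨z, rfl⟩ := iK_surj a b x
  rw [← iK_cj, ← iK_cj]
  congr 1
  funext j
  fin_cases j
  · simp [cj]
  · simp [cj]

lemma cK_ne_zero {x : KK a b} (hx : x ≠ 0) : cK a b x ≠ 0 := by
  intro e
  apply hx
  rw [← cK_cK a b x, e, map_zero]

/-- the norm of a unit -/
noncomputable def normK (W : (KK a b)ˣ) : Fˣ :=
  Units.mk0 (Nm a b ((iE a b).symm W)) (by
    intro e
    have e1 := of_Nm a b ((iE a b).symm W)
    rw [e, map_zero, iK_symm] at e1
    exact mul_ne_zero W.ne_zero (cK_ne_zero a b W.ne_zero) e1.symm)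

lemma of_normK (W : (KK a b)ˣ) : ofK a b (normK a b W : F) = W * cK a b W := by
  have e1 := of_Nm a b ((iE a b).symm W)
  rw [iK_symm] at e1
  exact e1

/-- the norm as a homomorphism -/
noncomputable def normH : (KK a b)ˣ →* Fˣ :=
  MonoidHom.mk' (normK a b) (by
    intro W W'
    apply Units.ext
    apply ofK_inj a b
    rw [Units.val_mul, map_mul, of_normK, of_normK, of_normK, Units.val_mul, map_mul]
    ring)

lemma normH_apply (W : (KK a b)ˣ) : normH a b W = normK a b W := rfl

lemma Nm_of_normK (W : (KK a b)ˣ) (z : Fin 2 → F) (h : iK a b z = W) : Nm a b z = normK a b W := by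
  apply ofK_inj a b
  rw [of_Nm, h, of_normK]

/-- multiplication as a permutation of the plane -/
noncomputable def mulP (W : (KK a b)ˣ) : Equiv.Perm (Fin 2 → F) where
  toFun z := (iE a b).symm (W * iK a b z)
  invFun z := (iE a b).symm (((W⁻¹ : (KK a b)ˣ) : KK a b) * iK a b z)
  left_inv z := by
    apply iK_inj a b
    rw [iK_symm, iK_symm, ← mul_assoc]
    simp
  right_inv z := by
    apply iK_inj a b
    rw [iK_symm, iK_symm, ← mul_assoc]
    simp

lemma iK_mulP (W : (KK a b)ˣ) (z : Fin 2 → F) : iK a b (mulP a b W z) = W * iK a b z := iK_symm a b _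

lemma mulP_mul (W W' : (KK a b)ˣ) : mulP a b (W * W') = mulP a b W * mulP a b W' := by
  ext1 z
  apply iK_inj a b
  rw [Equiv.Perm.mul_apply, iK_mulP, iK_mulP, iK_mulP, Units.val_mul, mul_assoc]

/-- multiplication by a scalar as a permutation of the field -/
def scaleP (c : Fˣ) : Equiv.Perm F := Units.mulLeft c

lemma scaleP_apply (c : Fˣ) (x : F) : scaleP c x = c * x := rfl

lemma scaleP_mul (c d : Fˣ) : scaleP (c * d) = scaleP c * scaleP d := by
  ext1 x
  simp [scaleP_apply, mul_assoc]

variable {n : ℕ}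

/-- the similarity of a unit of the extension -/
noncomputable def deltaP (n : ℕ) (W : (KK a b)ˣ) : Equiv.Perm ((Fin n ⊕ Fin n) ⊕ Fin 2 → F) :=
  glueP (scaleP (normK a b W)) 1 (mulP a b W)

lemma deltaP_mul (W W' : (KK a b)ˣ) : deltaP a b n (W * W') = deltaP a b n W * deltaP a b n W' := by
  unfold deltaP
  rw [glueP_mul, mulP_mul, mul_one]
  congr 1
  rw [← scaleP_mul]
  congr 1
  exact map_mul (normH a b) W W'

lemma isSemi_delta (W : (KK a b)ˣ) : IsSemi (Cfsg.quadFormMinus n F a b) (deltaP a b n W) 1 (normK a b W) := by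
  apply isSemi_glue (normK a b W).ne_zero
  · intro x y
    simp [scaleP_apply, mul_add]
  · intro x y
    rfl
  · intro z z'
    apply iK_inj a b
    rw [iK_add, iK_mulP, iK_mulP, iK_mulP, iK_add, mul_add]
  · intro c x
    simp only [scaleP_apply]
    change _ = c * _
    ring
  · intro c x
    rfl
  · intro c z
    apply iK_inj a b
    change iK a b (mulP a b W (c • z)) = iK a b (c • mulP a b W z)
    rw [iK_smul, iK_mulP, iK_mulP, iK_smul]
    ring
  · intro x y
    simp only [scaleP_apply]
    change _ * x * y = _ * (x * y)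
    ring
  · intro z
    apply ofK_inj a b
    change ofK a b (Nm a b (mulP a b W z)) = ofK a b (_ * Nm a b z)
    rw [of_Nm, iK_mulP, map_mul, map_mul, of_normK, of_Nm]
    ring

/-- the similarity as an element of the group -/
noncomputable def deltaG (n : ℕ) : (KK a b)ˣ →* GS (Cfsg.quadFormMinus n F a b) :=
  MonoidHom.mk' (fun W => ⟨deltaP a b n W, _, _, isSemi_delta a b W⟩) (by
    intro W W'
    exact Subtype.ext (deltaP_mul a b W W'))

lemma deltaG_val (W : (KK a b)ˣ) : ((deltaG a b n W : GS (Cfsg.quadFormMinus n F a b)) : Equiv.Perm _) = deltaP a b n W := rfl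

section Frob
variable (p : ℕ) [hp : Fact p.Prime] [hc : CharP F p]
  (hab : ∀ z₁ z₂ : F, z₁ ^ 2 + a * z₁ * z₂ + b * z₂ ^ 2 = 0 → z₁ = 0 ∧ z₂ = 0)

lemma iK_tauP (z : Fin 2 → F) : iK a b (tauP p hab z) = (iK a b z) ^ p := iK_tau a b p z

/-- the relation between the Frobenius lift and the similarities -/
lemma frob_delta (W : (KK a b)ˣ) : frobT p hab n * deltaP a b n W = deltaP a b n (W ^ p) * frobT p hab n := by
  have hN : ((normK a b (W ^ p) : Fˣ) : F) = (normK a b W : F) ^ p := by
    have e1 := map_pow (normH a b) W p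
    rw [normH_apply, normH_apply] at e1
    rw [e1, Units.val_pow_eq_pow_val]
  ext1 v
  funext k
  rcases k with ⟨i | i⟩ | j
  · change phiF (F := F) p ((normK a b W : F) * v (.inl (.inl i))) = ((normK a b (W ^ p) : Fˣ) : F) * phiF (F := F) p (v (.inl (.inl i)))
    rw [map_mul, hN, phiF_apply]
  · rfl
  · change tauP p hab (mulP a b W (resP v)) j = mulP a b (W ^ p) (tauP p hab (resP v)) j
    refine congrFun (?_ : tauP p hab (mulP a b W (resP v)) = mulP a b (W ^ p) (tauP p hab (resP v))) j
    apply iK_inj a b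
    rw [iK_tauP, iK_mulP, iK_mulP, iK_tauP, mul_pow, Units.val_pow_eq_pow_val]

end Frob

/-! ### Reflections in the plane -/

/-- vectors of the plane -/
def vecV (n : ℕ) (y : Fin 2 → F) : (Fin n ⊕ Fin n) ⊕ Fin 2 → F := Sum.elim (fun _ => 0) y

lemma Q_vecV (y : Fin 2 → F) : Cfsg.quadFormMinus n F a b (vecV n y) = Nm a b y := by
  simp [Cfsg.quadFormMinus, vecV, Nm]

lemma polar_vecV (v : (Fin n ⊕ Fin n) ⊕ Fin 2 → F) (y : Fin 2 → F) :
    polarMinus n F a b v (vecV n y) = Pol a b (resP v) y := by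
  simp [polarMinus, vecV, Pol, resP]

/-- the reflection of the plane -/
noncomputable def rP (y z : Fin 2 → F) : Fin 2 → F := z - (Pol a b z y / Nm a b y) • y

lemma act_R_vecV {y : Fin 2 → F} (hy : Cfsg.quadFormMinus n F a b (vecV n y) ≠ 0) (v : (Fin n ⊕ Fin n) ⊕ Fin 2 → F) :
    act (R (qfMinus n a b) (vecV n y) hy) v = glueFun id id (rP a b y) v := by
  rw [act_R, polar_vecV, Q_vecV]
  funext k
  rcases k with ⟨i | i⟩ | j
  · simp [vecV]
  · simp [vecV]
  · simp [vecV, rP, resP]

lemma of_Pol (z y : Fin 2 → F) : ofK a b (Pol a b z y) = iK a b z * cK a b (iK a b y) + cK a b (iK a b z) * iK a b y := by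
  simp only [iK, Pol, map_add, map_mul, cK_of, cK_th, map_ofNat]
  linear_combination (2 * ofK a b (z 1) * ofK a b (y 1)) * th_rel a b

lemma iK_rP {y : Fin 2 → F} (hy : Nm a b y ≠ 0) (z : Fin 2 → F) :
    iK a b (rP a b y z) = - cK a b (iK a b z) * iK a b y / cK a b (iK a b y) := by
  have e1 : ofK a b (Nm a b y) ≠ 0 := fun e => hy ((map_eq_zero _).1 e)
  have e2 : iK a b y ≠ 0 := by
    intro e
    rw [of_Nm, e, zero_mul] at e1
    exact e1 rfl
  have e3 := cK_ne_zero a b e2
  have e4 : iK a b (z - (Pol a b z y / Nm a b y) • y) = iK a b z - ofK a b (Pol a b z y / Nm a b y) * iK a b y := by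
    have e5 := iK_add a b (z - (Pol a b z y / Nm a b y) • y) ((Pol a b z y / Nm a b y) • y)
    rw [sub_add_cancel, iK_smul] at e5
    rw [e5]
    ring
  unfold rP
  rw [e4, map_div₀, of_Pol, of_Nm]
  field_simp
  ring

/-- the product of two plane reflections is a multiplication -/
lemma iK_rot {w : Fin 2 → F} (hw : Nm a b w ≠ 0) (z : Fin 2 → F) :
    iK a b (rP a b w (rP a b ![1, 0] z)) = iK a b z * iK a b w / cK a b (iK a b w) := by
  have he : Nm a b (![1, 0] : Fin 2 → F) ≠ 0 := by
    simp [Nm]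
  have e1 : iK a b (![1, 0] : Fin 2 → F) = 1 := by
    simp [iK]
  rw [iK_rP a b hw, iK_rP a b he, e1]
  simp only [map_one, mul_one, div_one, map_neg, neg_neg, cK_cK]

end Delta

end Cfsg.Agent.H01.Om
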