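import Cfsg.Agent.Lib.H01.OmDelta
/-! The class of the square of a similarity with non-square multiplier. -/
set_option autoImplicit false
set_option linter.unusedSimpArgs false
set_option linter.style.haveILetI false
set_option linter.unusedSectionVars false
set_option linter.unusedVariables false
namespace Cfsg.Agent.H01.Om
open Matrix Cfsg.Agent.Lead.Ortho Cfsg.Agent.Lead.Omega

variable {F : Type*} [Field F] [Fintype F]

section Hyp
variable {a b : F} {n : ℕ}

/-- the vectors `e_i - c f_i` -/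
def aV (i : Fin n) (c : F) : (Fin n ⊕ Fin n) ⊕ Fin 2 → F := Pi.single (.inl (.inl i)) 1 - c • Pi.single (.inl (.inr i)) 1

lemma aV_x (i j : Fin n) (c : F) : aV i c (.inl (.inl j)) = if j = i then 1 else 0 := by
  simp [aV, Pi.single_apply]

lemma aV_y (i j : Fin n) (c : F) : aV i c (.inl (.inr j)) = if j = i then -c else 0 := by
  simp [aV, Pi.single_apply]
  split_ifs <;> simp

lemma aV_z (i : Fin n) (c : F) (j : Fin 2) : aV i c (.inr j) = 0 := by
  simp [aV, Pi.single_apply]

lemma Q_aV (i : Fin n) (c : F) : Cfsg.quadFormMinus n F a b (aV i c) = -c := by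
  simp only [Cfsg.quadFormMinus, aV_x, aV_y, aV_z]
  simp

lemma polar_aV (v : (Fin n ⊕ Fin n) ⊕ Fin 2 → F) (i : Fin n) (c : F) :
    polarMinus n F a b v (aV i c) = v (.inl (.inr i)) - c * v (.inl (.inl i)) := by
  have h := qfMinus (F := F) n a b
  unfold aV
  rw [h.sub_right, h.smul_right, polarMinus_inl, polarMinus_inr]

lemma ne_aV {c : F} (hc : c ≠ 0) (i : Fin n) : Cfsg.quadFormMinus n F a b (aV i c) ≠ 0 := by
  rw [Q_aV]
  exact neg_ne_zero.2 hc

lemma act_R_aV_x {c : F} (hc : c ≠ 0) (i : Fin n) (v : (Fin n ⊕ Fin n) ⊕ Fin 2 → F) (j : Fin n) :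
    act (R (qfMinus n a b) (aV i c) (ne_aV hc i)) v (.inl (.inl j)) =
      if j = i then v (.inl (.inr i)) / c else v (.inl (.inl j)) := by
  rw [act_R, polar_aV, Q_aV]
  simp only [Pi.sub_apply, Pi.smul_apply, smul_eq_mul, aV_x]
  split_ifs with hj
  · subst hj
    field_simp
    ring
  · ring

lemma act_R_aV_y {c : F} (hc : c ≠ 0) (i : Fin n) (v : (Fin n ⊕ Fin n) ⊕ Fin 2 → F) (j : Fin n) :
    act (R (qfMinus n a b) (aV i c) (ne_aV hc i)) v (.inl (.inr j)) =
      if j = i then c * v (.inl (.inl i)) else v (.inl (.inr j)) := by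
  rw [act_R, polar_aV, Q_aV]
  simp only [Pi.sub_apply, Pi.smul_apply, smul_eq_mul, aV_y]
  split_ifs with hj
  · subst hj
    field_simp
    ring
  · ring

lemma act_R_aV_z {c : F} (hc : c ≠ 0) (i : Fin n) (v : (Fin n ⊕ Fin n) ⊕ Fin 2 → F) (j : Fin 2) :
    act (R (qfMinus n a b) (aV i c) (ne_aV hc i)) v (.inr j) = v (.inr j) := by
  rw [act_R]
  simp only [Pi.sub_apply, Pi.smul_apply, smul_eq_mul, aV_z]
  ring

open Classical in
/-- scaling the coordinates in a set of hyperbolic planes -/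
noncomputable def gS (S : Finset (Fin n)) (c : F) (v : (Fin n ⊕ Fin n) ⊕ Fin 2 → F) : (Fin n ⊕ Fin n) ⊕ Fin 2 → F :=
  Sum.elim (Sum.elim (fun i => if i ∈ S then c * v (.inl (.inl i)) else v (.inl (.inl i)))
    (fun i => if i ∈ S then c⁻¹ * v (.inl (.inr i)) else v (.inl (.inr i)))) (resP v)

/-- the scaling map is a product of reflections -/
theorem exists_D (hab : ∀ z₁ z₂ : F, z₁ ^ 2 + a * z₁ * z₂ + b * z₂ ^ 2 = 0 → z₁ = 0 ∧ z₂ = 0) {m' : ℕ} (hn : n = m' + 1 + 1)
    (h2 : (2 : F) ≠ 0) {c : F} (hc : c ≠ 0) (hns : ¬ IsSquare c)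
    {A₁ A₂ : (Fin n ⊕ Fin n) ⊕ Fin 2 → F} (hA₁ : Cfsg.quadFormMinus n F a b A₁ ≠ 0) (hA₂ : Cfsg.quadFormMinus n F a b A₂ ≠ 0)
    (hA : ¬ IsSquare (Cfsg.quadFormMinus n F a b A₁ * Cfsg.quadFormMinus n F a b A₂)) (S : Finset (Fin n)) :
    ∃ s : OG F (Cfsg.quadFormMinus n F a b), (∀ v, act s v = gS S c v) ∧
      piS (qfMinus n a b) s = (piS (qfMinus n a b) (R (qfMinus n a b) A₁ hA₁) * piS (qfMinus n a b) (R (qfMinus n a b) A₂ hA₂)) ^ S.card := by
  classical
  subst hn
  have h := qfMinus (F := F) (m' + 1 + 1) a b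
  have hnd := ndMinus (F := F) (m' + 1 + 1) a b hab
  have ht₀ := frameMinus_HF (F := F) a b (m' + 1 + 1)
  have hanis := frameMinus_anis (F := F) a b hab (m' + 1 + 1)
  induction S using Finset.induction_on with
  | empty =>
    refine ⟨1, ?_, by simp⟩
    intro v
    rw [act_one]
    funext k
    rcases k with ⟨i | i⟩ | j <;> simp [gS, resP]
  | insert i S hi ih =>
    obtain ⟨s, hs, hπ⟩ := ih
    have hR1 := ne_aV (F := F) (a := a) (b := b) (one_ne_zero (α := F)) i
    have hRc := ne_aV (F := F) (a := a) (b := b) hc i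
    refine ⟨R (qfMinus _ a b) (aV i 1) hR1 * R (qfMinus _ a b) (aV i c) hRc * s, ?_, ?_⟩
    · intro v
      rw [act_mul, act_mul, hs]
      funext k
      rcases k with ⟨j | j⟩ | j
      · rw [act_R_aV_x one_ne_zero, act_R_aV_y hc]
        by_cases hj : j = i
        · subst hj
          simp [gS, hi]
        · simp [gS, hj]
          rw [act_R_aV_x hc]
          simp [hj, gS]
      · rw [act_R_aV_y one_ne_zero, act_R_aV_x hc]
        by_cases hj : j = i
        · subst hj
          simp [gS, hi]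
          field_simp
        · simp [gS, hj]
          rw [act_R_aV_y hc]
          simp [hj, gS]
      · rw [act_R_aV_z one_ne_zero, act_R_aV_z hc]
        simp [gS, resP]
    · rw [map_mul, map_mul, Finset.card_insert_of_notMem hi, pow_succ', hπ]
      congr 1
      apply piS_RR _ hnd ht₀ hanis h2 _ _ _ _ hA
      rw [Q_aV, Q_aV]
      simpa using hns

end Hyp

section Main
variable {a b : F} [hirr : Fact (Irreducible (fP a b))]
  (hab : ∀ z₁ z₂ : F, z₁ ^ 2 + a * z₁ * z₂ + b * z₂ ^ 2 = 0 → z₁ = 0 ∧ z₂ = 0)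
  {n : ℕ}

include hab in
/-- **The square of the similarity.** -/
theorem delta_sq {m' : ℕ} (hn : n = m' + 1 + 1) (h2 : (2 : F) ≠ 0) {w : Fin 2 → F} {W : (KK a b)ˣ} (hW : iK a b w = W)
    (hns : ¬ IsSquare (normK a b W : F))
    (hA₁ : Cfsg.quadFormMinus n F a b (vecV n w) ≠ 0) (hA₂ : Cfsg.quadFormMinus n F a b (vecV n ![1, 0]) ≠ 0) :
    ∃ s : OG F (Cfsg.quadFormMinus n F a b),
      (∀ v, deltaP a b n (W ^ 2) v = (normK a b W : F) • act s v) ∧
      piS (qfMinus n a b) s = (piS (qfMinus n a b) (R (qfMinus n a b) (vecV n w) hA₁) * piS (qfMinus n a b) (R (qfMinus n a b) (vecV n ![1, 0]) hA₂)) ^ (n + 1) := by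
  classical
  have hNw : Nm a b w = normK a b W := Nm_of_normK a b W w hW
  have hν := (normK a b W).ne_zero
  have hA : ¬ IsSquare (Cfsg.quadFormMinus n F a b (vecV n w) * Cfsg.quadFormMinus n F a b (vecV n ![1, 0])) := by
    rw [Q_vecV, Q_vecV, hNw]
    have : Nm a b (![1, 0] : Fin 2 → F) = 1 := by simp [Nm]
    rw [this, mul_one]
    exact hns
  obtain ⟨D, hD, hπ⟩ := exists_D hab hn h2 hν hns hA₁ hA₂ hA Finset.univ
  refine ⟨D * (R (qfMinus n a b) (vecV n w) hA₁ * R (qfMinus n a b) (vecV n ![1, 0]) hA₂), ?_, ?_⟩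
  · intro v
    rw [act_mul, hD, act_mul, act_R_vecV, act_R_vecV]
    have hN2 : ((normK a b (W ^ 2) : Fˣ) : F) = (normK a b W : F) ^ 2 := by
      have e1 := map_pow (normH a b) W 2
      rw [normH_apply, normH_apply] at e1
      rw [e1, Units.val_pow_eq_pow_val]
    funext k
    rcases k with ⟨i | i⟩ | j
    · change ((normK a b (W ^ 2) : Fˣ) : F) * v (.inl (.inl i)) = _
      rw [hN2]
      simp [gS]
      ring
    · change v (.inl (.inr i)) = _
      simp [gS, hν]
    · change mulP a b (W ^ 2) (resP v) j = _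
      have e2 : mulP a b (W ^ 2) (resP v) = (normK a b W : F) • rP a b w (rP a b ![1, 0] (resP v)) := by
        apply iK_inj a b
        have hw0 : Nm a b w ≠ 0 := by rw [hNw]; exact hν
        rw [iK_mulP, iK_smul, iK_rot a b hw0, of_normK, hW, Units.val_pow_eq_pow_val]
        have e3 := cK_ne_zero a b W.ne_zero
        field_simp
      rw [e2]
      simp [gS, resP, glueFun]
      rfl
  · rw [map_mul, map_mul, hπ, Finset.card_univ, Fintype.card_fin, pow_succ]

end Main

end Cfsg.Agent.H01.Om
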