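import Cfsg.Agent.Lib.H01.OmPGO5
/-! Subgroups between `PSO` and `PGO`: the quotient by the inner automorphisms. -/
set_option autoImplicit false
set_option linter.unusedSimpArgs false
set_option linter.style.haveILetI false
set_option linter.unusedSectionVars false
set_option linter.unusedVariables false
namespace Cfsg.Agent.H01.Om
open Matrix Cfsg.Agent.Lead.Ortho Cfsg.Agent.Lead.Omega

section GroupLemmas

lemma e4_sq (z : Multiplicative (ZMod 2 × ZMod 2)) : z * z = 1 := by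
  revert z
  decide

theorem c2_of_card {G : Type*} [Group G] (hcard : Nat.card G = 2) : Nonempty (G ≃* Multiplicative (ZMod 2)) := by
  haveI : Fact (Nat.Prime 2) := ⟨Nat.prime_two⟩
  exact ⟨mulEquivOfPrimeCardEq hcard (by rw [Nat.card_congr Multiplicative.toAdd, Nat.card_zmod])⟩

theorem c4_of_card {G : Type*} [Group G] (hcard : Nat.card G = 4) (a : G) (ha : a ^ 2 ≠ 1) :
    Nonempty (G ≃* Multiplicative (ZMod 4)) := by
  haveI : Finite G := Nat.finite_of_card_ne_zero (by omega)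
  have h4 : a ^ 4 = 1 := by
    rw [← hcard]
    exact pow_card_eq_one'
  have hord : orderOf a = 4 := by
    have h1 : orderOf a ∣ 2 ^ 2 := orderOf_dvd_of_pow_eq_one h4
    obtain ⟨k, hk, e⟩ := (Nat.dvd_prime_pow Nat.prime_two).1 h1
    interval_cases k
    · exfalso
      apply ha
      have := orderOf_dvd_iff_pow_eq_one.1 (show orderOf a ∣ 2 by rw [e]; norm_num)
      exact this
    · exfalso
      apply ha
      have := orderOf_dvd_iff_pow_eq_one.1 (show orderOf a ∣ 2 by rw [e]; norm_num)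
      exact this
    · rw [e]; norm_num
  have hc : IsCyclic G := isCyclic_of_orderOf_eq_card a (by rw [hord, hcard])
  have e := zmodCyclicMulEquiv hc
  rw [hcard] at e
  exact ⟨e.symm⟩

theorem e4_of_card {G : Type*} [Group G] (hcard : Nat.card G = 4) (a b : G) (ha1 : a ≠ 1) (hb1 : b ≠ 1) (hab : a ≠ b)
    (ha2 : a ^ 2 = 1) (hb2 : b ^ 2 = 1) : Nonempty (G ≃* Multiplicative (ZMod 2 × ZMod 2)) := by
  haveI : Fact (Nat.Prime 2) := ⟨Nat.prime_two⟩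
  have hcomm : ∀ x y : G, x * y = y * x := by
    have hp : IsPGroup 2 G := IsPGroup.of_card (n := 2) (by rw [hcard]; norm_num)
    have := IsPGroup.commutative_of_card_eq_prime_sq (G := G) (p := 2) (by rw [hcard]; norm_num)
    exact this
  have hord : orderOf a = 2 * 1 := by
    rw [mul_one]
    exact orderOf_eq_prime ha2 ha1
  obtain ⟨e⟩ := iso_of_gens_abelian (f := 1) one_pos a b (by rw [hcard]) hord hb2 (hcomm a b) (by
    intro j e
    rcases Nat.even_or_odd' j with ⟨k, rfl | rfl⟩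
    · rw [pow_mul, ha2, one_pow] at e
      exact hb1 e
    · rw [pow_succ, pow_mul, ha2, one_pow, one_mul] at e
      exact hab e.symm)
  exact ⟨e⟩

end GroupLemmas

variable {F : Type*} [Field F] [Fintype F] {ι : Type} [Fintype ι] [DecidableEq ι]
variable {Q : (ι → F) → F} {B : (ι → F) → (ι → F) → F}
variable {m' : ℕ} {t₀ : Fin (m' + 1 + 1) → (ι → F) × (ι → F)}
variable {C : Cx Q B t₀} {a₁ a₂ : ι → F} {Qa₁ : Q a₁ ≠ 0} {Qa₂ : Q a₂ ≠ 0} {D : GS Q} {ν : F} {s₀ : OG F Q} {k : ℕ}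

/-- the cover by a similarity of non-square multiplier -/
lemma cover_of (C : Cx Q B t₀) {D₁ : GS Q} {ν₁ : F} (H₁ : IsSemi Q (D₁ : Equiv.Perm (ι → F)) 1 ν₁) (hν₁ : ¬ IsSquare ν₁) {T : GS Q} {κ : F}
    (H : IsSemi Q (T : Equiv.Perm (ι → F)) 1 κ) :
    ∃ s, Th C.h C.nd T = cc Q s ∨ Th C.h C.nd T = cc Q s * Th C.h C.nd D₁ := by
  classical
  by_cases hκ : IsSquare κ
  · obtain ⟨s, hs⟩ := C.exists_cc_of_sq H hκ
    exact ⟨s, Or.inl hs⟩
  · have hν0 : ν₁ ≠ 0 := H₁.hκ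
    have e0 : ¬ IsSquare (ν₁ * 1) := by
      rw [mul_one]
      exact hν₁
    have H' := H.mul H₁.inv
    rcases square_class hν0 one_ne_zero H.hκ e0 with e | e
    · have H'' : IsSemi Q ((T * D₁⁻¹ : GS Q) : Equiv.Perm (ι → F)) 1 (κ * ν₁⁻¹) := by
        simpa using H'
      have e2 : IsSquare (κ * ν₁⁻¹) := by
        obtain ⟨c, hc⟩ := e
        exact ⟨c * ν₁⁻¹, by rw [show κ * ν₁⁻¹ = (κ * ν₁) * (ν₁⁻¹ * ν₁⁻¹) by field_simp, hc]; ring⟩
      obtain ⟨s, hs⟩ := C.exists_cc_of_sq H'' e2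
      refine ⟨s, Or.inr ?_⟩
      rw [← hs, map_mul, map_inv, inv_mul_cancel_right]
    · rw [mul_one] at e
      exact absurd e hκ

section
variable (X : PD C Qa₁ Qa₂ D ν s₀ k)
include X

/-- **A subgroup between `PSO` and `PGO` of index two.** -/
theorem PD.relIndex_of_gens {G : Set (MulAut (Cfsg.POmega F Q))} {x : MulAut (Cfsg.POmega F Q)}
    (hxP : x ∈ Cfsg.pgoAut F Q) (hxn : x ∉ Cfsg.psoAut F Q) (hx : x ∈ Subgroup.closure G)
    (hG : ∀ β ∈ G, β ∈ Cfsg.psoAut F Q ∨ β * x⁻¹ ∈ Cfsg.psoAut F Q) :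
    (Cfsg.psoAut F Q).relIndex (Subgroup.closure G) = 2 := by
  obtain ⟨φ, hφ, hk⟩ := X.pgo_pso
  have hker : ∀ (β : MulAut (Cfsg.POmega F Q)) (hβ : β ∈ Cfsg.pgoAut F Q), φ ⟨β, hβ⟩ = 1 ↔ β ∈ Cfsg.psoAut F Q := by
    intro β hβ
    rw [← MonoidHom.mem_ker, hk, Subgroup.mem_subgroupOf]
  have hle := X.pso_le_pgo
  have hGP : ∀ β ∈ G, β ∈ Cfsg.pgoAut F Q := by
    intro β hβ
    rcases hG β hβ with e | e
    · exact hle e
    · have := Subgroup.mul_mem _ (hle e) hxP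
      simpa using this
  have hcl : ∀ β ∈ Subgroup.closure G, ∃ hβ : β ∈ Cfsg.pgoAut F Q, φ ⟨β, hβ⟩ = 1 ∨ φ ⟨β, hβ⟩ = φ ⟨x, hxP⟩ := by
    intro β hβ
    induction hβ using Subgroup.closure_induction with
    | mem β hβ =>
      refine ⟨hGP β hβ, ?_⟩
      rcases hG β hβ with e | e
      · exact Or.inl ((hker _ _).2 e)
      · right
        have e2 := (hker _ (hle e)).2 e
        have e3 : (⟨β * x⁻¹, hle e⟩ : ↥(Cfsg.pgoAut F Q)) = ⟨β, hGP β hβ⟩ * (⟨x, hxP⟩ : ↥(Cfsg.pgoAut F Q))⁻¹ := rfl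
        rw [e3, map_mul, map_inv] at e2
        exact mul_inv_eq_one.1 e2
    | one =>
      exact ⟨Subgroup.one_mem _, Or.inl (map_one φ)⟩
    | mul a b _ _ ha hb =>
      obtain ⟨h1, e1⟩ := ha
      obtain ⟨h2, e2⟩ := hb
      refine ⟨Subgroup.mul_mem _ h1 h2, ?_⟩
      have e3 : φ ⟨a * b, Subgroup.mul_mem _ h1 h2⟩ = φ ⟨a, h1⟩ * φ ⟨b, h2⟩ := map_mul φ ⟨a, h1⟩ ⟨b, h2⟩
      rw [e3]
      rcases e1 with e1 | e1 <;> rcases e2 with e2 | e2 <;> rw [e1, e2]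
      · left; rw [one_mul]
      · right; rw [one_mul]
      · right; rw [mul_one]
      · left; exact e4_sq _
    | inv a _ ha =>
      obtain ⟨h1, e1⟩ := ha
      refine ⟨Subgroup.inv_mem _ h1, ?_⟩
      have e3 : φ ⟨a⁻¹, Subgroup.inv_mem _ h1⟩ = (φ ⟨a, h1⟩)⁻¹ := map_inv φ ⟨a, h1⟩
      rw [e3]
      rcases e1 with e1 | e1
      · left; rw [e1, inv_one]
      · right; rw [e1]
        exact inv_eq_of_mul_eq_one_left (e4_sq _)
  have hene : φ ⟨x, hxP⟩ ≠ 1 := fun e => hxn ((hker _ _).1 e)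
  unfold Subgroup.relIndex
  rw [Subgroup.index_eq_two_iff]
  refine ⟨⟨x, hx⟩, ?_⟩
  rintro ⟨b, hb⟩
  simp only [Subgroup.mem_subgroupOf]
  change Xor' (b * x ∈ _) (b ∈ _)
  obtain ⟨hbP, e⟩ := hcl b hb
  have e3 : φ ⟨b * x, Subgroup.mul_mem _ hbP hxP⟩ = φ ⟨b, hbP⟩ * φ ⟨x, hxP⟩ := map_mul φ ⟨b, hbP⟩ ⟨x, hxP⟩
  rw [← hker (b * x) (Subgroup.mul_mem _ hbP hxP), ← hker b hbP, e3]
  rcases e with e | e
  · rw [e, one_mul]
    right
    exact ⟨rfl, hene⟩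
  · rw [e]
    left
    exact ⟨e4_sq _, hene⟩

end

/-- data for the quotient -/
structure KD (X : PD C Qa₁ Qa₂ D ν s₀ k) (G : Set (MulAut (Cfsg.POmega F Q))) (x : MulAut (Cfsg.POmega F Q)) : Prop where
  hxP : x ∈ Cfsg.pgoAut F Q
  hxn : x ∉ Cfsg.psoAut F Q
  hx : x ∈ Subgroup.closure G
  hG : ∀ β ∈ G, β ∈ Cfsg.psoAut F Q ∨ β * x⁻¹ ∈ Cfsg.psoAut F Q
  hle : Cfsg.psoAut F Q ≤ Subgroup.closure G

variable {X : PD C Qa₁ Qa₂ D ν s₀ k} {G : Set (MulAut (Cfsg.POmega F Q))} {x : MulAut (Cfsg.POmega F Q)}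

lemma KD.quot_card (Y : KD X G x) (I : ℕ) (hI : (Cfsg.Inn (Cfsg.POmega F Q)).relIndex (Cfsg.psoAut F Q) = I) :
    Nat.card (↥(Subgroup.closure G) ⧸ (Cfsg.Inn (Cfsg.POmega F Q)).subgroupOf (Subgroup.closure G)) = I * 2 := by
  have e := Subgroup.relIndex_mul_relIndex (Cfsg.Inn (Cfsg.POmega F Q)) (Cfsg.psoAut F Q) (Subgroup.closure G) X.inn_le_pso Y.hle
  rw [hI, X.relIndex_of_gens Y.hxP Y.hxn Y.hx Y.hG] at e
  exact e.symm

/-- The quotient has order two if `-1` is not in `Ω`. -/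
theorem KD.final_c2 (Y : KD X G x) (hn : negO C.h ∉ SS C.h) :
    ∃ φ : ↥(Subgroup.closure G) →* Multiplicative (ZMod 2), Function.Surjective φ ∧
      φ.ker = (Cfsg.Inn (Cfsg.POmega F Q)).subgroupOf (Subgroup.closure G) := by
  haveI : ((Cfsg.Inn (Cfsg.POmega F Q)).subgroupOf (Subgroup.closure G)).Normal := Subgroup.Normal.subgroupOf inferInstance _
  obtain ⟨e⟩ := c2_of_card (G := ↥(Subgroup.closure G) ⧸ (Cfsg.Inn (Cfsg.POmega F Q)).subgroupOf (Subgroup.closure G)) (by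
    rw [Y.quot_card 1 (X.pso_index_one hn)])
  exact hom_of_quot _ e

/-- The quotient is cyclic of order four if `x²` is not inner. -/
theorem KD.final_c4 (Y : KD X G x) (hn : negO C.h ∈ SS C.h) (hx2 : x ^ 2 ∉ Cfsg.Inn (Cfsg.POmega F Q)) :
    ∃ φ : ↥(Subgroup.closure G) →* Multiplicative (ZMod 4), Function.Surjective φ ∧
      φ.ker = (Cfsg.Inn (Cfsg.POmega F Q)).subgroupOf (Subgroup.closure G) := by
  haveI : ((Cfsg.Inn (Cfsg.POmega F Q)).subgroupOf (Subgroup.closure G)).Normal := Subgroup.Normal.subgroupOf inferInstance _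
  obtain ⟨e⟩ := c4_of_card (G := ↥(Subgroup.closure G) ⧸ (Cfsg.Inn (Cfsg.POmega F Q)).subgroupOf (Subgroup.closure G)) (by
    rw [Y.quot_card 2 (X.pso_index_two hn)]) (QuotientGroup.mk (⟨x, Y.hx⟩ : ↥(Subgroup.closure G))) (by
      rw [← QuotientGroup.mk_pow, Ne, QuotientGroup.eq_one_iff, Subgroup.mem_subgroupOf]
      exact hx2)
  exact hom_of_quot _ e

/-- The quotient is a four-group if `x²` is inner. -/
theorem KD.final_e4 (Y : KD X G x) (hn : negO C.h ∈ SS C.h) (hx2 : x ^ 2 ∈ Cfsg.Inn (Cfsg.POmega F Q)) :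
    ∃ φ : ↥(Subgroup.closure G) →* Multiplicative (ZMod 2 × ZMod 2), Function.Surjective φ ∧
      φ.ker = (Cfsg.Inn (Cfsg.POmega F Q)).subgroupOf (Subgroup.closure G) := by
  haveI : ((Cfsg.Inn (Cfsg.POmega F Q)).subgroupOf (Subgroup.closure G)).Normal := Subgroup.Normal.subgroupOf inferInstance _
  have hcardI := Y.quot_card 2 (X.pso_index_two hn)
  -- the element of `PSO` outside `Inn`
  have hρ : cc Q (R C.h a₁ Qa₁ * R C.h a₂ Qa₂) ∈ Cfsg.psoAut F Q := (X.cc_mem_pso_iff _).2 X.detU_rr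
  have hρ2 : (cc Q (R C.h a₁ Qa₁ * R C.h a₂ Qa₂)) ^ 2 ∈ Cfsg.Inn (Cfsg.POmega F Q) := by
    rw [← map_pow, C.cc_inn_iff]
    left
    rw [← piS_eq_one, map_pow, map_mul, sq]
    exact X.rr
  have hρn : cc Q (R C.h a₁ Qa₁ * R C.h a₂ Qa₂) ∉ Cfsg.Inn (Cfsg.POmega F Q) := by
    rw [C.cc_inn_iff]
    have hnS : ∀ t, negO C.h * t ∈ SS C.h ↔ t ∈ SS C.h := by
      intro t
      exact ⟨fun e => by simpa using Subgroup.mul_mem _ (Subgroup.inv_mem _ hn) e, Subgroup.mul_mem _ hn⟩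
    rw [hnS, or_self, ← piS_eq_one, map_mul]
    exact X.hr1
  have hle := X.inn_le_pso
  obtain ⟨e⟩ := e4_of_card (G := ↥(Subgroup.closure G) ⧸ (Cfsg.Inn (Cfsg.POmega F Q)).subgroupOf (Subgroup.closure G)) hcardI
    (QuotientGroup.mk (⟨x, Y.hx⟩ : ↥(Subgroup.closure G))) (QuotientGroup.mk (⟨_, Y.hle hρ⟩ : ↥(Subgroup.closure G)))
    (by
      rw [Ne, QuotientGroup.eq_one_iff, Subgroup.mem_subgroupOf]
      exact fun e => Y.hxn (hle e))
    (by
      rw [Ne, QuotientGroup.eq_one_iff, Subgroup.mem_subgroupOf]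
      exact hρn)
    (by
      rw [Ne, QuotientGroup.eq, Subgroup.mem_subgroupOf]
      intro e
      have e1 := hle e
      have e2 : x⁻¹ * cc Q (R C.h a₁ Qa₁ * R C.h a₂ Qa₂) ∈ Cfsg.psoAut F Q := e1
      have e3 := Subgroup.mul_mem _ hρ (Subgroup.inv_mem _ e2)
      apply Y.hxn
      have e4 : cc Q (R C.h a₁ Qa₁ * R C.h a₂ Qa₂) * (x⁻¹ * cc Q (R C.h a₁ Qa₁ * R C.h a₂ Qa₂))⁻¹ = x := by group
      rwa [e4] at e3)
    (by
      rw [← QuotientGroup.mk_pow, QuotientGroup.eq_one_iff, Subgroup.mem_subgroupOf]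
      exact hx2)
    (by
      rw [← QuotientGroup.mk_pow, QuotientGroup.eq_one_iff, Subgroup.mem_subgroupOf]
      exact hρ2)
  exact hom_of_quot _ e

end Cfsg.Agent.H01.Om
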