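import Cfsg.Agent.Lib.H01.OmDiagA
import Cfsg.Agent.Lib.H11.MTS8
/-! Parity of maximal totally singular subspaces under similarities. -/
set_option autoImplicit false
set_option linter.unusedSimpArgs false
set_option linter.style.haveILetI false
set_option linter.unusedSectionVars false
set_option linter.unusedVariables false
namespace Cfsg.Agent.H01.Om
open Matrix Module
open Cfsg.Agent.H11 (IsMTS Rf Pb triangle finrank_orth finrank_inf_orth finrank_inf_refl finrank_map_inj gl_injective)

section Par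
variable {ι : Type} [Fintype ι] [DecidableEq ι] {L : Type*} [Field L] {Q₀ : QuadraticForm L (ι → L)} {n : ℕ}

/-- image of a subspace -/
noncomputable abbrev imL (g : GL ι L) (U : Submodule L (ι → L)) : Submodule L (ι → L) :=
  U.map (Matrix.mulVecLin (g : Matrix ι ι L))

/-- dimension of the intersection with the image -/
noncomputable abbrev MgL (g : GL ι L) (U : Submodule L (ι → L)) : ℕ :=
  finrank L ↥(U ⊓ imL g U : Submodule L (ι → L))

lemma imL_mul (g h : GL ι L) (U : Submodule L (ι → L)) : imL (g * h) U = imL g (imL h U) := by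
  ext x
  simp only [Submodule.mem_map, Matrix.mulVecLin_apply]
  constructor
  · rintro ⟨y, hy, rfl⟩
    refine ⟨_, ⟨y, hy, rfl⟩, ?_⟩
    rw [Matrix.mulVec_mulVec]
    rfl
  · rintro ⟨_, ⟨y, hy, rfl⟩, rfl⟩
    refine ⟨y, hy, ?_⟩
    rw [Matrix.mulVec_mulVec]
    rfl

lemma imL_one (U : Submodule L (ι → L)) : imL (1 : GL ι L) U = U := by
  ext x
  simp only [Submodule.mem_map, Matrix.mulVecLin_apply]
  constructor
  · rintro ⟨y, hy, rfl⟩
    simpa using hy
  · intro hx
    exact ⟨x, hx, by simp⟩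

lemma finrank_imL_inf (g : GL ι L) (U W : Submodule L (ι → L)) :
    finrank L ↥(imL g U ⊓ imL g W : Submodule L (ι → L)) = finrank L ↥(U ⊓ W : Submodule L (ι → L)) := by
  have h := Submodule.map_inf (p := U) (q := W) (Matrix.mulVecLin (g : Matrix ι ι L)) (gl_injective _)
  change finrank L ↥(U.map _ ⊓ W.map _ : Submodule L (ι → L)) = _
  rw [← h]
  exact finrank_map_inj _ (gl_injective _) _

/-- the similarity group of the quadratic form -/
abbrev SGL (Q₀ : QuadraticForm L (ι → L)) : Subgroup (GL ι L) := Cfsg.Geo.quadSimilarityGroup (⇑Q₀)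

lemma mts_sim {g : GL ι L} (hg : g ∈ SGL Q₀) {U : Submodule L (ι → L)} (hU : IsMTS Q₀ n U) : IsMTS Q₀ n (imL g U) := by
  obtain ⟨c, hc⟩ := hg
  refine ⟨by rw [imL, finrank_map_inj _ (gl_injective _)]; exact hU.card, ?_⟩
  rintro _ ⟨u, hu, rfl⟩
  rw [Matrix.mulVecLin_apply, hc, hU.sing u hu, mul_zero]

lemma imL_smul {g h : GL ι L} {c : L} (hc : c ≠ 0) (e : g.val = c • h.val) (U : Submodule L (ι → L)) : imL g U = imL h U := by
  ext x
  simp only [Submodule.mem_map, Matrix.mulVecLin_apply]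
  have e1 : ∀ y, g.val *ᵥ y = h.val *ᵥ (c • y) := by
    intro y
    rw [e, Matrix.smul_mulVec, Matrix.mulVec_smul]
  constructor
  · rintro ⟨y, hy, rfl⟩
    exact ⟨c • y, U.smul_mem _ hy, (e1 y).symm⟩
  · rintro ⟨y, hy, rfl⟩
    refine ⟨c⁻¹ • y, U.smul_mem _ hy, ?_⟩
    rw [e1, smul_smul, mul_inv_cancel₀ hc, one_smul]

lemma sim_of_smul {g h : GL ι L} {c : L} (hc : c ≠ 0) (e : g.val = c • h.val) (hh : h ∈ SGL Q₀) : g ∈ SGL Q₀ := by
  obtain ⟨d, hd⟩ := hh
  refine ⟨Units.mk0 c hc * Units.mk0 c hc * d, fun v => ?_⟩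
  rw [e, Matrix.smul_mulVec, QuadraticMap.map_smul, hd]
  simp [mul_assoc]

section dim
variable (hdim : Fintype.card ι = 2 * n) (hQ : (QuadraticMap.polarBilin Q₀).Nondegenerate)
include hdim hQ

lemma parity_indep {g : GL ι L} (hg : g ∈ SGL Q₀) {U V : Submodule L (ι → L)} (hU : IsMTS Q₀ n U) (hV : IsMTS Q₀ n V) :
    (MgL g U + MgL g V) % 2 = 0 := by
  have h1 := triangle hdim hQ hU (mts_sim hg hU) (mts_sim hg hV)
  have h2 := triangle hdim hQ hU hV (mts_sim hg hV)
  rw [finrank_imL_inf] at h1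
  unfold MgL
  omega

lemma parity_mul {g k : GL ι L} (hg : g ∈ SGL Q₀) (hk : k ∈ SGL Q₀) {U : Submodule L (ι → L)} (hU : IsMTS Q₀ n U) :
    (MgL (g * k) U + MgL g U + MgL k U + n) % 2 = 0 := by
  have h1 := triangle hdim hQ hU (mts_sim hg hU) (mts_sim hg (mts_sim hk hU))
  rw [finrank_imL_inf, ← imL_mul] at h1
  unfold MgL
  omega

lemma ts_finrank_le (W : Submodule L (ι → L)) (hW : Cfsg.Geo.IsTotallySingularQuad (⇑Q₀) W) : finrank L W ≤ n := by
  have h1 := finrank_orth hdim hQ W
  have h2 : W ≤ (Pb Q₀).orthogonal W := by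
    intro x hx y hy
    change QuadraticMap.polar (⇑Q₀) y x = 0
    unfold QuadraticMap.polar
    rw [hW _ (W.add_mem hy hx), hW _ hy, hW _ hx]
    simp
  have h3 := Submodule.finrank_mono h2
  omega

lemma mts_of_max {W₀ : Submodule L (ι → L)} (hW₀ : IsMTS Q₀ n W₀) {U : Submodule L (ι → L)}
    (hU : Cfsg.IsMaxTotallySingular (⇑Q₀) U) : IsMTS Q₀ n U := by
  refine ⟨?_, hU.1⟩
  apply le_antisymm (ts_finrank_le hdim hQ U hU.1)
  have h1 := finrank_inf_orth hdim hQ hW₀ U
  have h2 : (W₀ ⊓ (Pb Q₀).orthogonal U : Submodule L (ι → L)) ≤ W₀ ⊓ U := by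
    rintro x ⟨hx1, hx2⟩
    refine ⟨hx1, ?_⟩
    have hts : Cfsg.Geo.IsTotallySingularQuad (⇑Q₀) (U ⊔ Submodule.span L {x}) := by
      intro w hw
      obtain ⟨u, hu, y, hy, rfl⟩ := Submodule.mem_sup.1 hw
      obtain ⟨c, rfl⟩ := Submodule.mem_span_singleton.1 hy
      have e1 : QuadraticMap.polar (⇑Q₀) u x = 0 := hx2 u hu
      have e2 : Q₀ (u + c • x) = Q₀ u + Q₀ (c • x) + QuadraticMap.polar (⇑Q₀) u (c • x) := by
        unfold QuadraticMap.polar
        ring
      rw [e2, hU.1 u hu, QuadraticMap.map_smul, hW₀.sing x hx1, QuadraticMap.polar_smul_right, e1]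
      simp
    have e := hU.2 _ hts le_sup_left
    rw [← e]
    exact Submodule.mem_sup_right (Submodule.mem_span_singleton_self x)
  have h3 := Submodule.finrank_mono h2
  omega

lemma max_of_mts {U : Submodule L (ι → L)} (hU : IsMTS Q₀ n U) : Cfsg.IsMaxTotallySingular (⇑Q₀) U := by
  refine ⟨hU.sing, fun W hW hle => ?_⟩
  symm
  apply Submodule.eq_of_le_of_finrank_le hle
  rw [hU.card]
  exact ts_finrank_le hdim hQ W hW

/-- **Preservation of the classes is decided at one subspace.** -/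
theorem preserves_iff {W₀ : Submodule L (ι → L)} (hW₀ : IsMTS Q₀ n W₀) {g : GL ι L} (hg : g ∈ SGL Q₀) :
    Cfsg.PreservesSingularClasses (⇑Q₀) (g : Matrix ι ι L) ↔ (n + MgL g W₀) % 2 = 0 := by
  have hle : ∀ {U : Submodule L (ι → L)}, IsMTS Q₀ n U → MgL g U ≤ n := by
    intro U hU
    have := Submodule.finrank_mono (inf_le_left : (U ⊓ imL g U : Submodule L (ι → L)) ≤ U)
    rw [hU.card] at this
    exact this
  have himg : ∀ U : Submodule L (ι → L), Cfsg.imageSubmodule (g : Matrix ι ι L) U = imL g U := by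
    intro U
    rfl
  constructor
  · intro H
    have h1 := H W₀ (max_of_mts hdim hQ hW₀)
    unfold Cfsg.SameParityClass at h1
    rw [himg, hW₀.card] at h1
    have h2 := hle hW₀
    obtain ⟨j, hj⟩ := h1
    change n - MgL g W₀ = _ at hj
    omega
  · intro H U hU
    have hU' := mts_of_max hdim hQ hW₀ hU
    unfold Cfsg.SameParityClass
    rw [himg, hU'.card]
    have h2 := hle hU'
    have h3 := parity_indep hdim hQ hg hU' hW₀
    refine ⟨(n - MgL g U) / 2, ?_⟩
    change n - MgL g U = _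
    omega

/-- a reflection drops the intersection by one -/
lemma Mg_refl {a : ι → L} (ha : Q₀ a ≠ 0) {g : GL ι L} (hgR : ∀ x, g.val *ᵥ x = Rf Q₀ a x) {U : Submodule L (ι → L)} (hU : IsMTS Q₀ n U) :
    MgL g U + 1 = n := by
  have e' : Matrix.mulVecLin g.val = Rf Q₀ a := LinearMap.ext fun x => hgR x
  have e : imL g U = U.map (Rf Q₀ a) := by
    rw [imL, e']
  have h := finrank_inf_refl hdim hQ ha hU hU
  rw [inf_idem, hU.card] at h
  have h4 := Submodule.finrank_mono (inf_le_left : (U ⊓ U.map (Rf Q₀ a) : Submodule L (ι → L)) ≤ U)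
  rw [hU.card] at h4
  rw [MgL, e]
  omega

end dim

end Par

section Tr
variable {F : Type*} [Field F] {ι : Type} [Fintype ι] [DecidableEq ι] {L : Type*} [Field L] [Algebra F L]

/-- the vector over the extension -/
def embV (L : Type*) [Field L] [Algebra F L] (x : ι → F) : ι → L := fun i => algebraMap F L (x i)

/-- the matrix over the extension -/
noncomputable def embG (L : Type*) [Field L] [Algebra F L] : GL ι F →* GL ι L := Matrix.GeneralLinearGroup.map (algebraMap F L)

lemma embG_val (g : GL ι F) : (embG L g).val = g.val.map (algebraMap F L) := rfl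

lemma embG_mulVec (g : GL ι F) (x : ι → F) : (embG L g).val *ᵥ embV L x = embV L (g.val *ᵥ x) := by
  funext i
  exact (RingHom.map_mulVec (algebraMap F L) g.val x i).symm

lemma embV_add (x y : ι → F) : embV L (x + y) = embV L x + embV L y := by
  funext i
  simp [embV]

lemma embV_sub (x y : ι → F) : embV L (x - y) = embV L x - embV L y := by
  funext i
  simp [embV]

lemma embV_smul (c : F) (x : ι → F) : embV L (c • x) = algebraMap F L c • embV L x := by
  funext i
  simp [embV]

lemma embV_single (i : ι) : embV L (Pi.single i (1 : F)) = (Pi.single i (1 : L) : ι → L) := by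
  funext j
  simp only [embV, Pi.single_apply]
  split_ifs <;> simp

/-- two linear maps agreeing on rational vectors are the same -/
lemma linear_ext_embV {f g : (ι → L) →ₗ[L] (ι → L)} (H : ∀ x : ι → F, f (embV L x) = g (embV L x)) : f = g := by
  apply LinearMap.pi_ext'
  intro i
  apply LinearMap.ext_ring
  simp only [LinearMap.comp_apply, LinearMap.single_apply]
  rw [← embV_single (F := F)]
  exact H _

end Tr

end Cfsg.Agent.H01.Om
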