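import Cfsg.Agent.Lib.H01.OmDiagB
/-! Parity of maximal totally singular subspaces: the transfer from a subfield. -/
set_option autoImplicit false
set_option linter.unusedSimpArgs false
set_option linter.style.haveILetI false
set_option linter.unusedSectionVars false
set_option linter.unusedVariables false
namespace Cfsg.Agent.H01.Om
open Matrix Module Cfsg.Agent.Lead.Ortho Cfsg.Agent.Lead.Omega
open Cfsg.Agent.H11 (IsMTS Rf Pb Rf_apply Rf_isom)

variable {F : Type*} [Field F] [Fintype F] {ι : Type} [Fintype ι] [DecidableEq ι] {L : Type*} [Field L] [Algebra F L]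
variable {Q : (ι → F) → F} {B : (ι → F) → (ι → F) → F} {Q₀ : QuadraticForm L (ι → L)} {n : ℕ} {W₀ : Submodule L (ι → L)}

/-- the data of a form over an extension, with a maximal totally singular subspace of half the dimension -/
structure LD (h : QF Q B) (Q₀ : QuadraticForm L (ι → L)) (n : ℕ) (W₀ : Submodule L (ι → L)) : Prop where
  hdim : Fintype.card ι = 2 * n
  hQ : (QuadraticMap.polarBilin Q₀).Nondegenerate
  hW₀ : IsMTS Q₀ n W₀
  hQL : ∀ x : ι → F, Q₀ (embV L x) = algebraMap F L (Q x)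

variable {h : QF Q B}

lemma LD.polar (Y : LD h Q₀ n W₀) (x y : ι → F) :
    QuadraticMap.polar (⇑Q₀) (embV L x) (embV L y) = algebraMap F L (B x y) := by
  unfold QuadraticMap.polar
  rw [← embV_add, Y.hQL, Y.hQL, Y.hQL, h.add, map_add, map_add]
  ring

lemma LD.Q_ne (Y : LD h Q₀ n W₀) {a : ι → F} (ha : Q a ≠ 0) : Q₀ (embV L a) ≠ 0 := by
  rw [Y.hQL]
  exact (map_ne_zero _).2 ha

lemma LD.embG_R (Y : LD h Q₀ n W₀) {a : ι → F} (ha : Q a ≠ 0) (z : ι → L) :
    (embG L ((R h a ha : OG F Q) : GL ι F)).val *ᵥ z = Rf Q₀ (embV L a) z := by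
  have e : Matrix.mulVecLin (embG L ((R h a ha : OG F Q) : GL ι F)).val = Rf Q₀ (embV L a) := by
    apply linear_ext_embV (F := F)
    intro x
    rw [Matrix.mulVecLin_apply, embG_mulVec, Rf_apply, Y.hQL, Y.polar]
    change embV L (act (R h a ha) x) = _
    rw [act_R, embV_sub, embV_smul, map_div₀, h.symm, div_eq_inv_mul]
  exact congrFun (congrArg DFunLike.coe e) z

/-- **The parity of an isometry is its determinant.** -/
theorem LD.parity (Y : LD h Q₀ n W₀) (hnd : ND B (⊤ : Submodule F (ι → F))) (hcard : 4 < Fintype.card ι) {m' : ℕ}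
    {t₀ : Fin (m' + 1) → (ι → F) × (ι → F)} (ht₀ : IsHF Q B t₀) (hanis : ∀ w ∈ perpOf h t₀, Q w = 0 → w = 0) (s : OG F Q) :
    embG L (s : GL ι F) ∈ SGL Q₀ ∧ ((detU Q s = 1 ∧ (n + MgL (embG L (s : GL ι F)) W₀) % 2 = 0) ∨
      (detU Q s = -1 ∧ (n + MgL (embG L (s : GL ι F)) W₀) % 2 = 1)) := by
  have hs : s ∈ RS h (⊤ : Submodule F (ι → F)) := by
    rw [RS_eq_top h hnd hcard ht₀ hanis]
    trivial
  have hn : MgL (1 : GL ι L) W₀ = n := by
    rw [MgL, imL_one, inf_idem, Y.hW₀.card]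
  have hn' : ∀ {g : GL ι L}, MgL (g * g⁻¹) W₀ = n := by
    intro g
    rw [mul_inv_cancel, hn]
  induction hs using Subgroup.closure_induction with
  | mem s hs =>
    obtain ⟨a, ha, -, rfl⟩ := hs
    have hR := Y.embG_R ha
    have hQa := Y.Q_ne ha
    refine ⟨⟨1, fun v => ?_⟩, Or.inr ⟨detU_R h ha, ?_⟩⟩
    · rw [hR, Rf_isom Q₀ _ hQa]
      simp
    · have := Cfsg.Agent.H01.Om.Mg_refl Y.hdim Y.hQ hQa hR Y.hW₀
      omega
  | one =>
    refine ⟨?_, Or.inl ⟨map_one _, ?_⟩⟩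
    · change embG L (1 : GL ι F) ∈ _
      rw [map_one]
      exact Subgroup.one_mem _
    · change (n + MgL (embG L (1 : GL ι F)) W₀) % 2 = 0
      rw [map_one, hn]
      omega
  | mul x y _ _ hx hy =>
    obtain ⟨h1, e1⟩ := hx
    obtain ⟨h2, e2⟩ := hy
    have eg : embG L ((x * y : OG F Q) : GL ι F) = embG L (x : GL ι F) * embG L (y : GL ι F) := map_mul _ _ _
    have ep := Cfsg.Agent.H01.Om.parity_mul Y.hdim Y.hQ h1 h2 Y.hW₀
    rw [eg]
    refine ⟨Subgroup.mul_mem _ h1 h2, ?_⟩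
    rw [map_mul]
    rcases e1 with ⟨d1, p1⟩ | ⟨d1, p1⟩ <;> rcases e2 with ⟨d2, p2⟩ | ⟨d2, p2⟩ <;> rw [d1, d2]
    · left
      exact ⟨one_mul 1, by omega⟩
    · right
      exact ⟨by simp, by omega⟩
    · right
      exact ⟨by simp, by omega⟩
    · left
      exact ⟨by simp, by omega⟩
  | inv x _ hx =>
    obtain ⟨h1, e1⟩ := hx
    have eg : embG L ((x⁻¹ : OG F Q) : GL ι F) = (embG L (x : GL ι F))⁻¹ := map_inv _ _
    have h2 := Subgroup.inv_mem _ h1
    have ep := Cfsg.Agent.H01.Om.parity_mul Y.hdim Y.hQ h1 h2 Y.hW₀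
    rw [hn'] at ep
    rw [eg]
    refine ⟨h2, ?_⟩
    rw [map_inv]
    rcases e1 with ⟨d1, p1⟩ | ⟨d1, p1⟩ <;> rw [d1]
    · left
      exact ⟨by simp, by omega⟩
    · right
      exact ⟨by simp, by omega⟩

section Pgo
variable {m' : ℕ} {t₀ : Fin (m' + 1 + 1) → (ι → F) × (ι → F)}
variable {C : Cx Q B t₀} {a₁ a₂ : ι → F} {Qa₁ : Q a₁ ≠ 0} {Qa₂ : Q a₂ ≠ 0} {D : GS Q} {ν : F} {s₀ : OG F Q} {k : ℕ}
  (X : PD C Qa₁ Qa₂ D ν s₀ k)
include X

/-- the isometries of determinant one preserve the classes -/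
theorem PD.pres_of_so (Y : LD C.h Q₀ n W₀) (hcard : 4 < Fintype.card ι) {s : OG F Q} (hs : detU Q s = 1) :
    Cfsg.PreservesSingularClasses (⇑Q₀) (embG L (s : GL ι F)).val := by
  obtain ⟨h1, e1⟩ := Y.parity C.nd hcard C.ht X.hanis s
  rw [preserves_iff Y.hdim Y.hQ Y.hW₀ h1]
  rcases e1 with ⟨-, e⟩ | ⟨d, -⟩
  · exact e
  · rw [hs] at d
    exact absurd d.symm (neg_units_ne X.h2)

/-- **The generators of the inner-diagonal group.** -/
theorem PD.of_pres (Y : LD C.h Q₀ n W₀) (hcard : 4 < Fintype.card ι) {D₁ : GS Q} {g₁ : GL ι F} {ν₁ : F}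
    (H₁ : IsSemi Q (D₁ : Equiv.Perm (ι → F)) 1 ν₁) (hν₁ : ¬ IsSquare ν₁) (hg₁ : ∀ x, (D₁ : Equiv.Perm (ι → F)) x = g₁.val *ᵥ x)
    (hg₁L : embG L g₁ ∈ SGL Q₀) (hg₁P : (n + MgL (embG L g₁) W₀) % 2 = 0) {g : GL ι F}
    (hg : g ∈ Cfsg.Geo.quadSimilarityGroup Q) (hP : Cfsg.PreservesSingularClasses (⇑Q₀) (embG L g).val)
    {β : MulAut (Cfsg.POmega F Q)} (hi : Cfsg.IsInducedBySemilinearPOmega Q g (RingEquiv.refl F) β) :
    β ∈ Cfsg.psoAut F Q ∨ β * (Th C.h C.nd D₁)⁻¹ ∈ Cfsg.psoAut F Q := by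
  obtain ⟨c, hc⟩ := hg
  have H : SemiM Q g (RingEquiv.refl F) (c : F) := ⟨c.ne_zero, fun v => hc v⟩
  obtain ⟨T, hT⟩ : ∃ T : GS Q, T = ⟨permOfM H, _, _, isSemi_of_M H⟩ := ⟨_, rfl⟩
  have hTg : ∀ v, (T : Equiv.Perm (ι → F)) v = g.val *ᵥ v := by
    intro v
    rw [hT]
    rfl
  have hβ : β = Th C.h C.nd T := Th_eq_of_induced C.h C.nd H hi hTg
  have HT : IsSemi Q (T : Equiv.Perm (ι → F)) 1 (c : F) := by
    rw [hT]
    exact isSemi_of_M H
  have halg : ∀ {α : F}, α ≠ 0 → algebraMap F L α ≠ 0 := fun hα => (map_ne_zero _).2 hα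
  have hemb : ∀ (α : F) (M : GL ι F), g.val = α • M.val → (embG L g).val = algebraMap F L α • (embG L M).val := by
    intro α M e
    rw [embG_val, e, embG_val]
    ext i j
    simp
  obtain ⟨s, hs | hs⟩ := cover_of C H₁ hν₁ HT
  · have e1 : Th C.h C.nd ((ofO s)⁻¹ * T) = 1 := by
      rw [map_mul, map_inv, Th_ofO, hs, inv_mul_cancel]
    obtain ⟨α, hα, hs'⟩ := C.scalar_of_Th _ e1
    have e2 : ∀ v, g.val *ᵥ v = α • (((s : OG F Q) : GL ι F).val *ᵥ v) := by
      intro v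
      have e3 := hs' v
      have e4 : ((ofO s : GS Q) : Equiv.Perm (ι → F)) ((((ofO s)⁻¹ * T : GS Q) : Equiv.Perm (ι → F)) v) = (T : Equiv.Perm (ι → F)) v := by
        change ((ofO s * ((ofO s)⁻¹ * T) : GS Q) : Equiv.Perm (ι → F)) v = _
        rw [mul_inv_cancel_left]
      rw [e3, ofO_apply, act_smul, hTg] at e4
      exact e4.symm
    have e3 : g.val = α • ((s : OG F Q) : GL ι F).val := by
      apply Matrix.mulVec_injective
      funext v
      rw [e2, Matrix.smul_mulVec]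
    have e4 := hemb _ _ e3
    obtain ⟨hsL, hcases⟩ := Y.parity C.nd hcard C.ht X.hanis s
    have hgL := sim_of_smul (halg hα) e4 hsL
    have e5 := (preserves_iff Y.hdim Y.hQ Y.hW₀ hgL).1 hP
    rw [MgL, imL_smul (halg hα) e4] at e5
    have hdet : detU Q s = 1 := by
      rcases hcases with ⟨d, -⟩ | ⟨-, p⟩
      · exact d
      · rw [MgL] at p
        omega
    left
    rw [hβ, hs]
    exact (X.cc_mem_pso_iff s).2 hdet
  · have e1 : Th C.h C.nd ((ofO s * D₁)⁻¹ * T) = 1 := by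
      rw [map_mul, map_inv, map_mul, Th_ofO, hs, inv_mul_cancel]
    obtain ⟨α, hα, hs'⟩ := C.scalar_of_Th _ e1
    have e2 : ∀ v, g.val *ᵥ v = α • (((s : OG F Q) : GL ι F).val *ᵥ (g₁.val *ᵥ v)) := by
      intro v
      have e3 := hs' v
      have e4 : ((ofO s * D₁ : GS Q) : Equiv.Perm (ι → F)) ((((ofO s * D₁)⁻¹ * T : GS Q) : Equiv.Perm (ι → F)) v) = (T : Equiv.Perm (ι → F)) v := by
        change ((ofO s * D₁ * ((ofO s * D₁)⁻¹ * T) : GS Q) : Equiv.Perm (ι → F)) v = _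
        rw [mul_inv_cancel_left]
      rw [e3, hTg] at e4
      have e5 : ((ofO s * D₁ : GS Q) : Equiv.Perm (ι → F)) (α • v) = act s ((D₁ : Equiv.Perm (ι → F)) (α • v)) := rfl
      rw [e5, H₁.hsmul, act_smul] at e4
      rw [← e4]
      change α • act s _ = α • act s _
      rw [hg₁]
    have e3 : g.val = α • ((s : GL ι F) * g₁).val := by
      apply Matrix.mulVec_injective
      funext v
      rw [e2, Matrix.smul_mulVec, Units.val_mul, Matrix.mulVec_mulVec]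
    have e4 := hemb _ _ e3
    obtain ⟨hsL, hcases⟩ := Y.parity C.nd hcard C.ht X.hanis s
    have hmul : embG L ((s : GL ι F) * g₁) = embG L (s : GL ι F) * embG L g₁ := map_mul _ _ _
    have hhL : embG L ((s : GL ι F) * g₁) ∈ SGL Q₀ := by
      rw [hmul]
      exact Subgroup.mul_mem _ hsL hg₁L
    have hgL := sim_of_smul (halg hα) e4 hhL
    have e5 := (preserves_iff Y.hdim Y.hQ Y.hW₀ hgL).1 hP
    rw [MgL, imL_smul (halg hα) e4, hmul] at e5
    have e6 := Cfsg.Agent.H01.Om.parity_mul Y.hdim Y.hQ hsL hg₁L Y.hW₀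
    have hdet : detU Q s = 1 := by
      rcases hcases with ⟨d, -⟩ | ⟨-, p⟩
      · exact d
      · simp only [MgL] at p hg₁P e6
        omega
    right
    rw [hβ, hs, mul_inv_cancel_right]
    exact (X.cc_mem_pso_iff s).2 hdet

end Pgo

omit [Algebra F L] in
lemma cc_induced (hh : QF Q B) (hnd : ND B (⊤ : Submodule F (ι → F))) (s : OG F Q) :
    Cfsg.IsInducedBySemilinearPOmega Q (s : GL ι F) (RingEquiv.refl F) (cc Q s) := by
  rw [← Th_ofO hh hnd, Th_of_matrix hh hnd (semiM_one s) (T := ofO s) (fun x => rfl)]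
  exact cP_induced (semiM_one s)

end Cfsg.Agent.H01.Om
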