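import Cfsg.Agent.Lib.H01.OmDiagP
/-! The minus type form over a quadratic extension. -/
set_option autoImplicit false
set_option linter.unusedSimpArgs false
set_option linter.style.haveILetI false
set_option linter.unusedSectionVars false
set_option linter.unusedVariables false
namespace Cfsg.Agent.H01.Om
open Matrix Module Cfsg.Agent.Lead.Ortho Cfsg.Agent.Lead.Omega
open Cfsg.Agent.H11 (IsMTS Rf Pb Rf_apply Rf_isom minusForm minusForm_coe polar_minus' minus_pairs nondeg_of_left)

section L
variable {L : Type*} [Field L] {n : ℕ}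

lemma minus_nondeg2 (h2 : (2 : L) ≠ 0) (k : ℕ) (a b : L) (hΔ : 4 * b - a ^ 2 ≠ 0) :
    (QuadraticMap.polarBilin (minusForm k L a b)).Nondegenerate := by
  apply nondeg_of_left
  intro x h
  have H := minus_pairs (F := L) k a b
  have h0 : 2 * x (Sum.inr 0) + a * x (Sum.inr 1) = 0 := by
    have := h (Pi.single (Sum.inr 0) 1)
    rw [minusForm_coe, polar_minus'] at this
    simpa [Pi.single_apply] using this
  have h1 : a * x (Sum.inr 0) + 2 * b * x (Sum.inr 1) = 0 := by
    have := h (Pi.single (Sum.inr 1) 1)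
    rw [minusForm_coe, polar_minus'] at this
    simpa [Pi.single_apply] using this
  have hz1 : x (Sum.inr 1) = 0 := by
    apply (mul_eq_zero.1 (show (4 * b - a ^ 2) * x (Sum.inr 1) = 0 by linear_combination 2 * h1 - a * h0)).resolve_left hΔ
  have hz0 : x (Sum.inr 0) = 0 := by
    apply (mul_eq_zero.1 (show 2 * x (Sum.inr 0) = 0 by rw [← h0, hz1]; ring)).resolve_left h2
  funext i
  rcases i with (i | i) | i
  · have := h (Pi.single (Sum.inl (Sum.inr i)) 1)
    rw [QuadraticMap.polar_comm, H.pol_q] at this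
    exact this
  · have := h (Pi.single (Sum.inl (Sum.inl i)) 1)
    rw [QuadraticMap.polar_comm, H.pol_p] at this
    exact this
  · fin_cases i
    · exact hz0
    · exact hz1

/-- the equations of the subspace -/
def PhiL (n : ℕ) (r : L) : ((Fin n ⊕ Fin n) ⊕ Fin 2 → L) →ₗ[L] (Fin n ⊕ Unit → L) where
  toFun v := Sum.elim (fun i => v (.inl (.inr i))) (fun _ => v (.inr 0) - r * v (.inr 1))
  map_add' x y := by
    funext k
    rcases k with i | u
    · simp
    · simp only [Sum.elim_inr, Pi.add_apply]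
      ring
  map_smul' c x := by
    funext k
    rcases k with i | u
    · simp
    · simp only [Sum.elim_inr, Pi.smul_apply, smul_eq_mul, RingHom.id_apply]
      ring

/-- the subspace -/
def WW (n : ℕ) (r : L) : Submodule L ((Fin n ⊕ Fin n) ⊕ Fin 2 → L) := LinearMap.ker (PhiL n r)

lemma mem_WW (r : L) (v : (Fin n ⊕ Fin n) ⊕ Fin 2 → L) : v ∈ WW n r ↔ (∀ i, v (.inl (.inr i)) = 0) ∧ v (.inr 0) = r * v (.inr 1) := by
  unfold WW
  rw [LinearMap.mem_ker]
  constructor
  · intro h
    refine ⟨fun i => congrFun h (.inl i), ?_⟩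
    have := congrFun h (.inr ())
    exact sub_eq_zero.1 this
  · rintro ⟨h1, h2⟩
    funext k
    rcases k with i | u
    · exact h1 i
    · exact sub_eq_zero.2 h2

lemma finrank_WW (r : L) : finrank L (WW n r) = n + 1 := by
  have h1 := LinearMap.finrank_range_add_finrank_ker (PhiL n r)
  have h2 : LinearMap.range (PhiL n r) = ⊤ := by
    rw [LinearMap.range_eq_top]
    intro y
    refine ⟨Sum.elim (Sum.elim (fun _ => 0) (fun i => y (.inl i))) (fun j => if j = 0 then y (.inr ()) else 0), ?_⟩
    funext k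
    rcases k with i | u
    · rfl
    · change (if (0 : Fin 2) = 0 then y (.inr ()) else 0) - r * (if (1 : Fin 2) = 0 then y (.inr ()) else 0) = _
      simp
  rw [h2, finrank_top, finrank_fintype_fun_eq_card, finrank_fintype_fun_eq_card] at h1
  simp only [Fintype.card_sum, Fintype.card_fin, Fintype.card_unit] at h1
  unfold WW
  omega

lemma mts_WW (a b r : L) (hr : r ^ 2 + a * r + b = 0) : IsMTS (minusForm n L a b) (n + 1) (WW n r) where
  card := finrank_WW r
  sing := by
    intro u hu
    obtain ⟨h1, h2⟩ := (mem_WW r u).1 hu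
    rw [minusForm_coe]
    simp only [Cfsg.quadFormMinus, h1, h2, mul_zero, Finset.sum_const_zero, zero_add]
    linear_combination (u (.inr 1)) ^ 2 * hr

/-- the similarity over the extension -/
def dL (n : ℕ) (ν w0 w1 a b : L) : ((Fin n ⊕ Fin n) ⊕ Fin 2 → L) →ₗ[L] ((Fin n ⊕ Fin n) ⊕ Fin 2 → L) where
  toFun z := Sum.elim (Sum.elim (fun i => ν * z (.inl (.inl i))) (fun i => z (.inl (.inr i))))
    (fun j => ![w0 * z (.inr 0) - b * w1 * z (.inr 1), w0 * z (.inr 1) + w1 * z (.inr 0) + a * w1 * z (.inr 1)] j)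
  map_add' x y := by
    funext k
    rcases k with (i | i) | j
    · simp only [Sum.elim_inl, Pi.add_apply]
      ring
    · simp
    · fin_cases j
      · simp only [Sum.elim_inr, Pi.add_apply, Fin.zero_eta, Matrix.cons_val_zero]
        ring
      · simp only [Sum.elim_inr, Pi.add_apply, Fin.mk_one, Matrix.cons_val_one, Matrix.cons_val_zero]
        ring
  map_smul' c x := by
    funext k
    rcases k with (i | i) | j
    · simp only [Sum.elim_inl, Pi.smul_apply, smul_eq_mul, RingHom.id_apply]
      ring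
    · simp
    · fin_cases j
      · simp only [Sum.elim_inr, Pi.smul_apply, smul_eq_mul, RingHom.id_apply, Fin.zero_eta, Matrix.cons_val_zero]
        ring
      · simp only [Sum.elim_inr, Pi.smul_apply, smul_eq_mul, RingHom.id_apply, Fin.mk_one, Matrix.cons_val_one, Matrix.cons_val_zero]
        ring

lemma Q_dL (ν w0 w1 a b : L) (hν : ν = w0 ^ 2 + a * w0 * w1 + b * w1 ^ 2) (z : (Fin n ⊕ Fin n) ⊕ Fin 2 → L) :
    minusForm n L a b (dL n ν w0 w1 a b z) = ν * minusForm n L a b z := by
  rw [minusForm_coe]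
  simp only [Cfsg.quadFormMinus, dL, LinearMap.coe_mk, AddHom.coe_mk, Sum.elim_inl, Sum.elim_inr, Matrix.cons_val_zero, Matrix.cons_val_one, mul_add, Finset.mul_sum]
  congr 1
  · apply Finset.sum_congr rfl
    intro i _
    ring
  · rw [hν]
    ring

lemma dL_WW (ν w0 w1 a b r : L) (hr : r ^ 2 + a * r + b = 0) {z : (Fin n ⊕ Fin n) ⊕ Fin 2 → L} (hz : z ∈ WW n r) : dL n ν w0 w1 a b z ∈ WW n r := by
  obtain ⟨h1, h2⟩ := (mem_WW r z).1 hz
  refine (mem_WW r _).2 ⟨fun i => h1 i, ?_⟩
  change w0 * z (.inr 0) - b * w1 * z (.inr 1) = r * (w0 * z (.inr 1) + w1 * z (.inr 0) + a * w1 * z (.inr 1))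
  rw [h2]
  linear_combination (-(w1 * z (.inr 1))) * hr

/-- a subspace mapped into itself -/
lemma MgL_of_le {ι : Type} [Fintype ι] [DecidableEq ι] {Q₀ : QuadraticForm L (ι → L)} {N : ℕ} {U : Submodule L (ι → L)} (hU : IsMTS Q₀ N U) {g : GL ι L}
    (hg : ∀ u ∈ U, g.val *ᵥ u ∈ U) : MgL g U = N := by
  have hle : imL g U ≤ U := by
    rintro _ ⟨u, hu, rfl⟩
    exact hg u hu
  rw [MgL, inf_eq_right.2 hle, imL, Cfsg.Agent.H11.finrank_map_inj _ (Cfsg.Agent.H11.gl_injective _), hU.card]

end L

section Ext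
variable {F : Type*} [Field F] [Fintype F] {L : Type*} [Field L] [Algebra F L]

/-- every element of the field is a square in a quadratic extension -/
lemma isSquare_of_ext (hq : Odd (Fintype.card F)) (hfin : finrank F L = 2) (x : F) : IsSquare (algebraMap F L x) := by
  classical
  by_cases hx : x = 0
  · rw [hx, map_zero]
    exact IsSquare.zero
  haveI : Module.Finite F L := Module.finite_of_finrank_pos (by omega)
  haveI : Finite L := Module.finite_of_finite F
  haveI : Fintype L := Fintype.ofFinite L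
  have hcard : Fintype.card L = Fintype.card F ^ 2 := by
    rw [Module.card_eq_pow_finrank (K := F) (V := L), hfin]
  have h2 : (2 : F) ≠ 0 := two_ne_zero_of_odd rfl hq
  have h2L : (2 : L) ≠ 0 := by
    have := (map_ne_zero (algebraMap F L)).2 h2
    rwa [map_ofNat] at this
  have hchar : ringChar L ≠ 2 := by
    intro e
    apply h2L
    have := ringChar.Nat.cast_ringChar (R := L)
    rw [e] at this
    exact_mod_cast this
  rw [FiniteField.isSquare_iff hchar ((map_ne_zero _).2 hx), hcard, ← map_pow]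
  obtain ⟨j, hj⟩ := hq
  have e1 : Fintype.card F ^ 2 / 2 = (Fintype.card F - 1) * (j + 1) := by
    rw [hj]
    have : (2 * j + 1) ^ 2 = 2 * ((2 * j + 1 - 1) * (j + 1)) + 1 := by
      have e2 : 2 * j + 1 - 1 = 2 * j := by omega
      rw [e2]
      ring
    rw [this]
    omega
  rw [e1, pow_mul, FiniteField.pow_card_sub_one_eq_one x hx, one_pow, map_one]

/-- the equation has a root in a quadratic extension -/
lemma exists_root_ext (hq : Odd (Fintype.card F)) (hfin : finrank F L = 2) (a b : F) :
    ∃ r : L, r ^ 2 + algebraMap F L a * r + algebraMap F L b = 0 := by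
  have h2 : (2 : F) ≠ 0 := two_ne_zero_of_odd rfl hq
  have h2L : (2 : L) ≠ 0 := by
    have := (map_ne_zero (algebraMap F L)).2 h2
    rwa [map_ofNat] at this
  obtain ⟨s, hs⟩ := isSquare_of_ext (L := L) hq hfin (a ^ 2 - 4 * b)
  refine ⟨(s - algebraMap F L a) / 2, ?_⟩
  have e : algebraMap F L (a ^ 2 - 4 * b) = algebraMap F L a ^ 2 - 4 * algebraMap F L b := by
    rw [map_sub, map_pow, map_mul, map_ofNat]
  rw [e] at hs
  field_simp
  linear_combination -hs

end Ext

end Cfsg.Agent.H01.Om
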