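import Cfsg.Agent.Lib.H01.OmDiagM
/-! The inner-diagonal group of the minus type. -/
set_option autoImplicit false
set_option linter.unusedSimpArgs false
set_option linter.style.haveILetI false
set_option linter.unusedSectionVars false
set_option linter.unusedVariables false
namespace Cfsg.Agent.H01.Om
open Matrix Module Cfsg.Agent.Lead.Ortho Cfsg.Agent.Lead.Omega
open Cfsg.Agent.H11 (IsMTS Rf Pb Rf_apply Rf_isom minusForm minusForm_coe)

variable {F : Type*} [Field F] [Fintype F]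

set_option maxHeartbeats 4000000 in
/-- **The data for the minus type, with the similarity.** -/
theorem pd_minus2 {a b : F} [Fact (Irreducible (fP a b))] (hab : ∀ z₁ z₂ : F, z₁ ^ 2 + a * z₁ * z₂ + b * z₂ ^ 2 = 0 → z₁ = 0 ∧ z₂ = 0) (hq : Odd (Fintype.card F)) (m' : ℕ) (hm' : 1 ≤ m') :
    ∃ (C : Cx (Cfsg.quadFormMinus (m' + 1 + 1) F a b) (polarMinus (m' + 1 + 1) F a b) (frameMinus (m' + 1 + 1) F))
      (a₁ a₂ : (Fin (m' + 1 + 1) ⊕ Fin (m' + 1 + 1)) ⊕ Fin 2 → F) (Qa₁ : Cfsg.quadFormMinus (m' + 1 + 1) F a b a₁ ≠ 0) (Qa₂ : Cfsg.quadFormMinus (m' + 1 + 1) F a b a₂ ≠ 0)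
      (w : Fin 2 → F) (W : (KK a b)ˣ) (ν : F) (s₀ : OG F (Cfsg.quadFormMinus (m' + 1 + 1) F a b)),
      iK a b w = W ∧ Nm a b w = ν ∧ (normK a b W : F) = ν ∧
      PD C Qa₁ Qa₂ (deltaG a b (m' + 1 + 1) W) ν s₀ (m' + 1 + 1 + 1) ∧ (negO C.h ∈ SS C.h ↔ 4 ∣ Fintype.card F ^ (m' + 1 + 1 + 1) + 1) := by
  classical
  have h2 : (2 : F) ≠ 0 := two_ne_zero_of_odd rfl hq
  have hn3 : 3 ≤ m' + 1 + 1 := by omega
  have h := qfMinus (F := F) (m' + 1 + 1) a b
  have hnd := ndMinus (F := F) (m' + 1 + 1) a b hab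
  have ht₀ := frameMinus_HF (F := F) a b (m' + 1 + 1)
  have hanis := frameMinus_anis (F := F) a b hab (m' + 1 + 1)
  have C := mkCx h hnd ht₀ hm' hanis
  have hcι : Fintype.card ((Fin (m' + 1 + 1) ⊕ Fin (m' + 1 + 1)) ⊕ Fin 2) = 2 * (m' + 1 + 1) + 2 := by
    simp only [Fintype.card_sum, Fintype.card_fin]
    ring
  have hι : Even (Fintype.card ((Fin (m' + 1 + 1) ⊕ Fin (m' + 1 + 1)) ⊕ Fin 2)) := by
    rw [hcι]
    exact ⟨m' + 1 + 1 + 1, by ring⟩
  obtain ⟨ν, hν⟩ := exists_nonsq hq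
  have hν0 : ν ≠ 0 := by
    rintro rfl
    exact hν IsSquare.zero
  obtain ⟨w, hw⟩ := exists_norm hab hν0
  have hiw : iK a b w ≠ 0 := by
    intro e
    have e1 := of_Nm a b w
    rw [e, zero_mul, hw] at e1
    exact hν0 ((map_eq_zero _).1 e1)
  obtain ⟨W, hW⟩ : ∃ W : (KK a b)ˣ, W = Units.mk0 (iK a b w) hiw := ⟨_, rfl⟩
  have hW' : iK a b w = W := by rw [hW]; rfl
  have hnorm : (normK a b W : F) = ν := by
    rw [← Nm_of_normK a b W w hW', hw]
  have hA₁ : Cfsg.quadFormMinus (m' + 1 + 1) F a b (vecV (m' + 1 + 1) w) ≠ 0 := by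
    rw [Q_vecV, hw]
    exact hν0
  have hN1 : Nm a b (![1, 0] : Fin 2 → F) = 1 := by simp [Nm]
  have hA₂ : Cfsg.quadFormMinus (m' + 1 + 1) F a b (vecV (m' + 1 + 1) ![1, 0]) ≠ 0 := by
    rw [Q_vecV, hN1]
    exact one_ne_zero
  have hns : ¬ IsSquare (Cfsg.quadFormMinus (m' + 1 + 1) F a b (vecV (m' + 1 + 1) w) * Cfsg.quadFormMinus (m' + 1 + 1) F a b (vecV (m' + 1 + 1) ![1, 0])) := by
    rw [Q_vecV, Q_vecV, hw, hN1, mul_one]
    exact hν
  obtain ⟨s, hs1, hs2⟩ := delta_sq hab (n := m' + 1 + 1) rfl h2 hW' (by rw [hnorm]; exact hν) hA₁ hA₂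
  have HD : IsSemi (Cfsg.quadFormMinus (m' + 1 + 1) F a b) ((deltaG a b (m' + 1 + 1) W : GS _) : Equiv.Perm _) 1 ν := by
    rw [← hnorm]
    exact isSemi_delta a b W
  have hs : ∀ v, (((deltaG a b (m' + 1 + 1) W) ^ 2 : GS (Cfsg.quadFormMinus (m' + 1 + 1) F a b)) : Equiv.Perm _) v = (normK a b W : F) • act s v := by
    intro v
    rw [← map_pow]
    exact hs1 v
  obtain ⟨hr1, hneg⟩ := plane_cls C.h hnd ht₀ hm' hanis hq hι ht₀ (card_perp_plane C.h ht₀ hcι) (fun x hx i => hx i.succ)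
    (vecV_mem (m' + 1 + 1) w) (vecV_mem (m' + 1 + 1) ![1, 0]) hA₁ hA₂ hns
  obtain ⟨-, e2⟩ := minus_data a b hab hq hn3
  have hP : negO C.h ∈ SS C.h ↔ 4 ∣ Fintype.card F ^ (m' + 1 + 1 + 1) + 1 := by
    rw [← C.hΩ]
    exact e2
  refine ⟨C, _, _, hA₁, hA₂, w, W, ν, s, hW', hw, hnorm, ⟨hm', hanis, h2, hι, fun i => vecV_mem (m' + 1 + 1) w i.succ,
    fun i => vecV_mem (m' + 1 + 1) ![1, 0] i.succ, hns, hr1, hneg, HD, hν, ⟨_, (normK a b W).ne_zero, hs⟩, hs2⟩, hP⟩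

section Ld
variable {L : Type*} [Field L] [Algebra F L]

/-- the form over a quadratic extension -/
theorem minus_ld {a b : F} (hab : ∀ z₁ z₂ : F, z₁ ^ 2 + a * z₁ * z₂ + b * z₂ ^ 2 = 0 → z₁ = 0 ∧ z₂ = 0) (hq : Odd (Fintype.card F)) (n : ℕ)
    (hfin : finrank F L = 2) (h : QF (Cfsg.quadFormMinus n F a b) (polarMinus n F a b)) :
    ∃ r : L, r ^ 2 + algebraMap F L a * r + algebraMap F L b = 0 ∧
      LD h (minusForm n L (algebraMap F L a) (algebraMap F L b)) (n + 1) (WW n r) := by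
  obtain ⟨r, hr⟩ := exists_root_ext (L := L) hq hfin a b
  have h2 : (2 : F) ≠ 0 := two_ne_zero_of_odd rfl hq
  have h2L : (2 : L) ≠ 0 := by
    have := (map_ne_zero (algebraMap F L)).2 h2
    rwa [map_ofNat] at this
  have hΔ : 4 * algebraMap F L b - algebraMap F L a ^ 2 ≠ 0 := by
    have := (map_ne_zero (algebraMap F L)).2 (disc_ne hab)
    rwa [map_sub, map_pow, map_mul, map_ofNat] at this
  refine ⟨r, hr, ?_, minus_nondeg2 h2L n _ _ hΔ, mts_WW _ _ _ hr, ?_⟩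
  · simp only [Fintype.card_sum, Fintype.card_fin]
    ring
  · intro x
    rw [minusForm_coe]
    simp [Cfsg.quadFormMinus, embV, map_add, map_sum, map_mul, map_pow]

/-- the similarity over the quadratic extension -/
theorem delta_ld {a b : F} [Fact (Irreducible (fP a b))] {n : ℕ} {w : Fin 2 → F} {W : (KK a b)ˣ} {ν : F} (hiw : iK a b w = W) (hν : Nm a b w = ν)
    (hnorm : (normK a b W : F) = ν) {g₁ : GL ((Fin n ⊕ Fin n) ⊕ Fin 2) F}
    (hg₁ : ∀ x, ((deltaG a b n W : GS _) : Equiv.Perm _) x = g₁.val *ᵥ x) {r : L}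
    (hr : r ^ 2 + algebraMap F L a * r + algebraMap F L b = 0) :
    embG L g₁ ∈ SGL (minusForm n L (algebraMap F L a) (algebraMap F L b)) ∧
      (n + 1 + MgL (embG L g₁) (WW n r)) % 2 = 0 := by
  have hmul : ∀ z, mulP a b W z = Lw a b w z := by
    intro z
    apply iK_inj a b
    rw [iK_mulP, iK_Lw, hiw]
  have hν0 : ν ≠ 0 := by
    rw [← hnorm]
    exact (normK a b W).ne_zero
  have e : Matrix.mulVecLin (embG L g₁).val = dL n (algebraMap F L ν) (algebraMap F L (w 0)) (algebraMap F L (w 1)) (algebraMap F L a) (algebraMap F L b) := by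
    apply linear_ext_embV (F := F)
    intro x
    rw [Matrix.mulVecLin_apply, embG_mulVec, ← hg₁]
    funext k
    rcases k with (i | i) | j
    · change algebraMap F L ((normK a b W : F) * x (.inl (.inl i))) = _
      rw [hnorm, map_mul]
      rfl
    · rfl
    · change algebraMap F L (mulP a b W (resP x) j) = _
      rw [hmul]
      fin_cases j
      · change algebraMap F L (w 0 * x (.inr 0) - b * w 1 * x (.inr 1)) = _
        simp only [map_sub, map_mul]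
        rfl
      · change algebraMap F L (w 0 * x (.inr 1) + w 1 * x (.inr 0) + a * w 1 * x (.inr 1)) = _
        simp only [map_add, map_mul]
        rfl
  have e' : ∀ z, (embG L g₁).val *ᵥ z = dL n (algebraMap F L ν) (algebraMap F L (w 0)) (algebraMap F L (w 1)) (algebraMap F L a) (algebraMap F L b) z := fun z => by
    rw [← e]
    rfl
  have hνL : algebraMap F L ν = algebraMap F L (w 0) ^ 2 + algebraMap F L a * algebraMap F L (w 0) * algebraMap F L (w 1) + algebraMap F L b * algebraMap F L (w 1) ^ 2 := by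
    rw [← hν]
    simp only [Nm, map_add, map_mul, map_pow]
  refine ⟨⟨Units.mk0 _ ((map_ne_zero (algebraMap F L)).2 hν0), fun v => ?_⟩, ?_⟩
  · rw [e', Q_dL _ _ _ _ _ hνL]
    rfl
  · have := MgL_of_le (mts_WW (n := n) _ _ _ hr) (g := embG L g₁) (fun u hu => by
      rw [e']
      exact dL_WW _ _ _ _ _ _ hr hu)
    rw [this]
    omega

end Ld

lemma finrank_KK {a b : F} [hirr : Fact (Irreducible (fP a b))] : finrank F (KK a b) = 2 := by
  have e := (AdjoinRoot.powerBasis hirr.out.ne_zero).finrank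
  rw [AdjoinRoot.powerBasis_dim, fP_natDegree] at e
  exact e

set_option maxHeartbeats 8000000 in
/-- **The structure of `Inndiag/Inn`, minus type.** -/
theorem inndiag_minus_final (hq : Odd (Fintype.card F)) {m : ℕ} (hm : 3 ≤ m) (a b : F) (hab : (∀ z₁ z₂ : F, z₁ ^ 2 + a * z₁ * z₂ + b * z₂ ^ 2 = 0 → z₁ = 0 ∧ z₂ = 0)) :
    ((Even m ∧ Fintype.card F % 4 = 3) → (∃ φ : ↥(Cfsg.inndiagPOmegaMinus m F a b) →* Multiplicative (ZMod 4), Function.Surjective φ ∧ φ.ker = (Cfsg.Inn (Cfsg.POmega F (Cfsg.quadFormMinus m F a b))).subgroupOf (Cfsg.inndiagPOmegaMinus m F a b))) ∧ (¬ (Even m ∧ Fintype.card F % 4 = 3) → (∃ φ : ↥(Cfsg.inndiagPOmegaMinus m F a b) →* Multiplicative (ZMod 2), Function.Surjective φ ∧ φ.ker = (Cfsg.Inn (Cfsg.POmega F (Cfsg.quadFormMinus m F a b))).subgroupOf (Cfsg.inndiagPOmegaMinus m F a b))) := by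
  classical
  obtain ⟨m', rfl⟩ : ∃ m', m = m' + 1 + 1 := ⟨m - 2, by omega⟩
  have hm' : 1 ≤ m' := by omega
  haveI : Fact (Irreducible (fP a b)) := ⟨fP_irr hab⟩
  obtain ⟨C, a₁, a₂, Qa₁, Qa₂, w, W, ν, s₀, hiw, hν, hnorm, X, hP⟩ := pd_minus2 hab hq m' hm'
  have hnP := hP.trans (four_dvd_iff hq (m' + 1 + 1 + 1))
  have HD := X.HD
  obtain ⟨g₁, H₁', hg₁'⟩ := HD.matrix C.h C.nd
  have hg₁ : ∀ x, ((deltaG a b (m' + 1 + 1) W : GS _) : Equiv.Perm _) x = g₁.val *ᵥ x := fun x => hg₁' x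
  have hcard : 4 < Fintype.card ((Fin (m' + 1 + 1) ⊕ Fin (m' + 1 + 1)) ⊕ Fin 2) := by
    simp only [Fintype.card_sum, Fintype.card_fin]
    omega
  obtain ⟨r₁, hr₁, Y₁⟩ := minus_ld (L := KK a b) hab hq (m' + 1 + 1) finrank_KK C.h
  have hPsim : (g₁ : GL _ F) ∈ Cfsg.Geo.quadSimilarityGroup (Cfsg.quadFormMinus (m' + 1 + 1) F a b) :=
    ⟨Units.mk0 ν HD.hκ, fun v => H₁'.hQ v⟩
  have Y : KD X {β | Cfsg.IsInnerDiagonalAutPOmegaMinus (m' + 1 + 1) a b β} (Th C.h C.nd (deltaG a b (m' + 1 + 1) W)) := by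
    refine ⟨C.Th_mem_pgo HD, ?_, ?_, ?_, ?_⟩
    · rw [pso_eq C.h C.nd]
      rintro ⟨s, -, e⟩
      exact X.hν (C.sq_of_Th_eq HD e.symm)
    · apply Subgroup.subset_closure
      obtain ⟨hL, hpar⟩ := delta_ld hiw hν hnorm hg₁ hr₁
      have hpres := (preserves_iff Y₁.hdim Y₁.hQ Y₁.hW₀ hL).2 hpar
      rw [minusForm_coe] at hpres
      rw [Th_of_matrix C.h C.nd H₁' hg₁']
      exact ⟨g₁, hPsim, ⟨KK a b, inferInstance, inferInstance, finrank_KK, hpres⟩, cP_induced H₁'⟩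
    · rintro β ⟨g, hg, ⟨K, _, _, hfin, hP'⟩, hi⟩
      obtain ⟨r, hr, YK⟩ := minus_ld (L := K) hab hq (m' + 1 + 1) hfin C.h
      obtain ⟨hL, hpar⟩ := delta_ld hiw hν hnorm hg₁ hr
      refine X.of_pres YK hcard HD X.hν hg₁ hL hpar hg ?_ hi
      rw [minusForm_coe]
      exact hP'
    · rw [pso_eq C.h C.nd]
      rintro _ ⟨s, hs, rfl⟩
      apply Subgroup.subset_closure
      have hres := X.pres_of_so Y₁ hcard (s := s) hs
      rw [minusForm_coe] at hres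
      have hsim : (s : GL _ F) ∈ Cfsg.Geo.quadSimilarityGroup (Cfsg.quadFormMinus (m' + 1 + 1) F a b) := by
        refine ⟨1, fun v => ?_⟩
        have e1 := Q_act (Q := Cfsg.quadFormMinus (m' + 1 + 1) F a b) s v
        rw [Units.val_one, one_mul]
        exact e1
      have hind := cc_induced C.h C.nd s
      exact ⟨_, hsim, ⟨KK a b, inferInstance, inferInstance, finrank_KK, hres⟩, hind⟩
  constructor
  · rintro ⟨he, h3⟩
    have hn : negO C.h ∈ SS C.h := hnP.2 ⟨h3, he.add_one⟩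
    refine Y.final_c4 hn ?_
    rw [X.Th_sq, C.cc_inn_iff]
    have hnS : ∀ t, negO C.h * t ∈ SS C.h ↔ t ∈ SS C.h := by
      intro t
      exact ⟨fun e => by simpa using Subgroup.mul_mem _ (Subgroup.inv_mem _ hn) e, Subgroup.mul_mem _ hn⟩
    rw [hnS, or_self, ← piS_eq_one, X.hsr]
    obtain ⟨j, hj⟩ := he
    have e1 : m' + 1 + 1 + 1 = 2 * j + 1 := by omega
    rw [e1, pow_succ, pow_mul, sq, X.rr, one_pow, one_mul]
    exact X.hr1
  · intro hne
    refine Y.final_c2 (fun e => hne ?_)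
    obtain ⟨h3, ho⟩ := hnP.1 e
    exact ⟨by
      obtain ⟨j, hj⟩ := ho
      exact ⟨j, by omega⟩, h3⟩

end Cfsg.Agent.H01.Om
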