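import Cfsg.Agent.Lib.H01.OmDiagC
/-! The inner-diagonal group of the plus type. -/
set_option autoImplicit false
set_option linter.unusedSimpArgs false
set_option linter.style.haveILetI false
set_option linter.unusedSectionVars false
set_option linter.unusedVariables false
namespace Cfsg.Agent.H01.Om
open Matrix Module Cfsg.Agent.Lead.Ortho Cfsg.Agent.Lead.Omega
open Cfsg.Agent.H11 (IsMTS Rf Pb Rf_apply Rf_isom plusForm U0 U0_mts mem_U0 card_sum plus_nondeg')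

variable {F : Type*} [Field F] [Fintype F]

lemma embG_self {ι : Type} [Fintype ι] [DecidableEq ι] (g : GL ι F) : embG F g = g := by
  apply Units.ext
  rw [embG_val]
  ext i j
  simp

/-- the data of the plus form over the same field -/
lemma plusLD (m : ℕ) : LD (L := F) (qfPlus (F := F) m) (plusForm m F) m (U0 m F) where
  hdim := card_sum m
  hQ := plus_nondeg' m
  hW₀ := U0_mts m
  hQL := fun x => rfl

variable {m : ℕ}

/-- the swap meets the base trivially -/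
lemma swap_par (c : Fˣ) {g₁ : GL (Fin m ⊕ Fin m) F} (hg₁ : ∀ x, swapP m c x = g₁.val *ᵥ x) : MgL g₁ (U0 m F) = 0 := by
  have e : (U0 m F ⊓ imL g₁ (U0 m F) : Submodule F (Fin m ⊕ Fin m → F)) = ⊥ := by
    rw [eq_bot_iff]
    rintro x ⟨hx, u, hu, rfl⟩
    rw [Submodule.mem_bot]
    rw [Matrix.mulVecLin_apply, ← hg₁] at hx ⊢
    funext k
    rcases k with i | i
    · rw [swapP_inl, (mem_U0 u).1 hu i, mul_zero]
      rfl
    · exact (mem_U0 _).1 hx i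
  rw [MgL, e, finrank_bot]

section
variable {m' : ℕ} {C : Cx (Cfsg.quadFormPlus (m' + 1 + 1) F) (polarPlus (m' + 1 + 1) F) (framePlus (m' + 1 + 1) F)}
  {a₁ a₂ : Fin (m' + 1 + 1) ⊕ Fin (m' + 1 + 1) → F} {Qa₁ : Cfsg.quadFormPlus (m' + 1 + 1) F a₁ ≠ 0} {Qa₂ : Cfsg.quadFormPlus (m' + 1 + 1) F a₂ ≠ 0}
  {D : GS (Cfsg.quadFormPlus (m' + 1 + 1) F)} {ν : F} {s₀ : OG F (Cfsg.quadFormPlus (m' + 1 + 1) F)} {k : ℕ}

set_option maxHeartbeats 4000000 in
/-- **The generators of the inner-diagonal group of the plus type.** -/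
theorem plus_kd (X : PD C Qa₁ Qa₂ D ν s₀ k) {D₁ : GS (Cfsg.quadFormPlus (m' + 1 + 1) F)} {g₁ : GL (Fin (m' + 1 + 1) ⊕ Fin (m' + 1 + 1)) F} {ν₁ : F}
    (H₁ : IsSemi (Cfsg.quadFormPlus (m' + 1 + 1) F) (D₁ : Equiv.Perm _) 1 ν₁) (hν₁ : ¬ IsSquare ν₁) (hg₁ : ∀ x, (D₁ : Equiv.Perm _) x = g₁.val *ᵥ x)
    (hP : (m' + 1 + 1 + MgL g₁ (U0 (m' + 1 + 1) F)) % 2 = 0) :
    KD X {β | Cfsg.IsInnerDiagonalAutPOmegaPlus (m' + 1 + 1) β} (Th C.h C.nd D₁) := by
  have Y := plusLD (F := F) (m' + 1 + 1)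
  have Y' : LD C.h (plusForm (m' + 1 + 1) F) (m' + 1 + 1) (U0 (m' + 1 + 1) F) := Y
  have hcard : 4 < Fintype.card (Fin (m' + 1 + 1) ⊕ Fin (m' + 1 + 1)) := by
    have := X.hm
    simp only [Fintype.card_sum, Fintype.card_fin]
    omega
  have hg₁L : g₁ ∈ SGL (plusForm (m' + 1 + 1) F) := by
    refine ⟨Units.mk0 ν₁ H₁.hκ, fun v => ?_⟩
    rw [← hg₁]
    exact H₁.hQ v
  have hres : ∀ {g : GL (Fin (m' + 1 + 1) ⊕ Fin (m' + 1 + 1)) F}, Cfsg.PreservesSingularClasses (Cfsg.quadFormPlus (m' + 1 + 1) F) g.val →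
      Cfsg.PreservesSingularClasses (⇑(plusForm (m' + 1 + 1) F)) (embG F g).val := by
    intro g hg
    rw [embG_self]
    exact hg
  refine ⟨C.Th_mem_pgo H₁, ?_, ?_, ?_, ?_⟩
  · rw [pso_eq C.h C.nd]
    rintro ⟨s, -, e⟩
    exact hν₁ (C.sq_of_Th_eq H₁ e.symm)
  · apply Subgroup.subset_closure
    refine ⟨g₁, hg₁L, (preserves_iff Y.hdim Y.hQ Y.hW₀ hg₁L).2 hP, ?_⟩
    have H : SemiM (Cfsg.quadFormPlus (m' + 1 + 1) F) g₁ (RingEquiv.refl F) ν₁ := ⟨H₁.hκ, fun v => by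
      rw [← show ∀ x, _ = _ from hg₁]
      exact H₁.hQ v⟩
    rw [Th_of_matrix C.h C.nd H hg₁]
    exact cP_induced H
  · rintro β ⟨g, hg, hP', hi⟩
    refine X.of_pres Y' hcard H₁ hν₁ hg₁ ?_ ?_ hg (hres hP') hi
    · rw [embG_self]
      exact hg₁L
    · rw [embG_self]
      exact hP
  · rw [pso_eq C.h C.nd]
    rintro _ ⟨s, hs, rfl⟩
    apply Subgroup.subset_closure
    have hres' := X.pres_of_so Y' hcard (s := s) hs
    rw [embG_self] at hres'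
    have hsim : (s : GL (Fin (m' + 1 + 1) ⊕ Fin (m' + 1 + 1)) F) ∈ Cfsg.Geo.quadSimilarityGroup (Cfsg.quadFormPlus (m' + 1 + 1) F) := by
      refine ⟨1, fun v => ?_⟩
      have e1 := Q_act (Q := Cfsg.quadFormPlus (m' + 1 + 1) F) s v
      rw [Units.val_one, one_mul]
      exact e1
    have hind := cc_induced C.h C.nd s
    exact ⟨_, hsim, hres', hind⟩

end

end Cfsg.Agent.H01.Om
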