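import Cfsg.Agent.Lib.H01.OmOddFinal
/-! The order of `Ω` and its centre in even dimension. -/
set_option autoImplicit false
set_option linter.unusedSimpArgs false
set_option linter.style.haveILetI false
set_option linter.unusedSectionVars false
set_option linter.unusedVariables false
namespace Cfsg.Agent.H01.Om
open Matrix Cfsg.Agent.Lead.Ortho Cfsg.Agent.Lead.Omega
open scoped commutatorElement

variable {F : Type*} [Field F] [Fintype F] {ι : Type} [Fintype ι] [DecidableEq ι]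
variable {Q : (ι → F) → F} {B : (ι → F) → (ι → F) → F}

section Count
variable (h : QF Q B)
include h

/-- counting vectors through a frame -/
lemma cnt_frame : ∀ {k : ℕ} (t : Fin k → (ι → F) × (ι → F)), IsHF Q B t → ∀ {S : Submodule F (ι → F)},
    (∀ i, (t i).1 ∈ S ∧ (t i).2 ∈ S) → ∀ c : F,
    Nat.card S = Fintype.card F ^ (2 * k) * Nat.card ↥(S ⊓ perpOf h t) ∧
    (Fintype.card F : ℤ) * cntS Q S c = (Fintype.card F : ℤ) ^ (k + 1) * cntS Q (S ⊓ perpOf h t) c
       + (Fintype.card F : ℤ) ^ k * ((Fintype.card F : ℤ) ^ k - 1) * Nat.card ↥(S ⊓ perpOf h t) := by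
  intro k
  induction k with
  | zero =>
    intro t _ S _ c
    rw [perpOf_zero h, inf_top_eq]
    constructor
    · simp
    · simp
  | succ k ih =>
    intro t ht S hS c
    obtain ⟨h1, h2, h3, h4, h5, h6⟩ := cons_tail_HF h ht
    have c1 := card_pair h (hS 0).1 (hS 0).2 h4 h5 h6
    have c2 := cnt_rec h (hS 0).1 (hS 0).2 h4 h5 h6 c
    have hmem : ∀ i, (Fin.tail t i).1 ∈ perp2 h S (t 0).1 (t 0).2 ∧ (Fin.tail t i).2 ∈ perp2 h S (t 0).1 (t 0).2 := by
      intro i
      have hs := fun x y => h.symm x y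
      refine ⟨⟨(hS i.succ).1, ?_, ?_⟩, ⟨(hS i.succ).2, ?_, ?_⟩⟩
      · rw [hs]; exact (h2 i).1
      · rw [hs]; exact (h3 i).1
      · rw [hs]; exact (h2 i).2
      · rw [hs]; exact (h3 i).2
    obtain ⟨e3, e4⟩ := ih (Fin.tail t) h1 hmem c
    have hinf : perp2 h S (t 0).1 (t 0).2 ⊓ perpOf h (Fin.tail t) = S ⊓ perpOf h t := by
      rw [perpOf_eq_cons h t]
      ext x
      constructor
      · rintro ⟨⟨a1, a2, a3⟩, a4⟩
        exact ⟨a1, a4, a2, a3⟩
      · rintro ⟨a1, a4, a2, a3⟩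
        exact ⟨⟨a1, a2, a3⟩, a4⟩
    rw [hinf] at e3 e4
    constructor
    · rw [c1, e3, ← mul_assoc, ← pow_add]
      congr 2
      omega
    · have hq : 1 ≤ Fintype.card F := Fintype.card_pos
      have c2' : (cntS Q S c : ℤ) = (Fintype.card F : ℤ) * cntS Q (perp2 h S (t 0).1 (t 0).2) c +
          ((Fintype.card F : ℤ) - 1) * Nat.card (perp2 h S (t 0).1 (t 0).2) := by
        rw [c2]
        push_cast [Nat.cast_sub hq]
        ring
      have e3' : (Nat.card (perp2 h S (t 0).1 (t 0).2) : ℤ) = (Fintype.card F : ℤ) ^ (2 * k) * Nat.card ↥(S ⊓ perpOf h t) := by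
        rw [e3]
        push_cast
        ring
      rw [c2', e3']
      linear_combination (Fintype.card F : ℤ) * e4

/-- the perpendicular of a non-singular vector in a nondegenerate plane is a line -/
lemma plane_line (h2 : (2 : F) ≠ 0) {X : Submodule F (ι → F)} (hc : Nat.card X = Fintype.card F ^ 2) (hND : ND B X) {a : ι → F}
    (ha : a ∈ X) (Qa : Q a ≠ 0) :
    ∃ d ∈ X, B a d = 0 ∧ Q d ≠ 0 ∧ (∀ x ∈ X, B x a = 0 → ∃ s : F, x = s • d) ∧ (∀ x ∈ X, ∃ α β : F, x = α • a + β • d) := by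
  obtain ⟨d, hd, hd0, Bad⟩ := exists_ker h hc a
  have Baa : B a a = 2 * Q a := h.self a
  have hind : ∀ α β : F, α • a + β • d = 0 → α = 0 ∧ β = 0 := by
    intro α β e
    have e1 : B a (α • a + β • d) = 0 := by rw [e, h.zero_right]
    rw [h.add_right, h.smul_right, h.smul_right, Bad, Baa, mul_zero, add_zero] at e1
    have e2 : α = 0 := by
      rcases mul_eq_zero.1 e1 with e3 | e3
      · exact e3
      · exact absurd e3 (mul_ne_zero h2 Qa)
    refine ⟨e2, ?_⟩
    rw [e2, zero_smul, zero_add] at e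
    exact (smul_eq_zero.1 e).resolve_right hd0
  have hbasis := exists_basis hc ha hd hind
  refine ⟨d, hd, Bad, ?_, ?_, hbasis⟩
  · intro Qd
    obtain ⟨y, hy, hy0⟩ := hND d hd hd0
    obtain ⟨α, β, rfl⟩ := hbasis y hy
    apply hy0
    rw [h.add_right, h.smul_right, h.smul_right, h.symm d a, Bad, h.self d, Qd]
    ring
  · intro x hx Bxa
    obtain ⟨α, β, rfl⟩ := hbasis x hx
    rw [h.add_left, h.smul_left, h.smul_left, h.symm d a, Bad, Baa] at Bxa
    have e2 : α = 0 := by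
      have e3 : α * (2 * Q a) = 0 := by linear_combination Bxa
      rcases mul_eq_zero.1 e3 with e4 | e4
      · exact e4
      · exact absurd e4 (mul_ne_zero h2 Qa)
    exact ⟨β, by rw [e2, zero_smul, zero_add]⟩

omit h in
lemma cnt_line_zero {W : Submodule F (ι → F)} {d : ι → F} (h : QF Q B) (hW : ∀ x ∈ W, ∃ s : F, x = s • d) {c : F}
    (hns : ¬ IsSquare (c * Q d)) : cntS Q W c = 0 := by
  unfold cntS
  have : IsEmpty {x : ι → F // x ∈ W ∧ Q x = c} := by
    refine ⟨fun x => ?_⟩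
    obtain ⟨x, hx, hx1⟩ := x
    obtain ⟨s, rfl⟩ := hW x hx
    rw [h.smul] at hx1
    apply hns
    refine ⟨s * Q d, ?_⟩
    rw [← hx1]
    ring
  exact Nat.card_of_isEmpty

omit h in
lemma cnt_line_two {W : Submodule F (ι → F)} {d : ι → F} (h : QF Q B) (h2 : (2 : F) ≠ 0) (hd : d ∈ W) (Qd : Q d ≠ 0)
    (hW : ∀ x ∈ W, ∃ s : F, x = s • d) : cntS Q W (Q d) = 2 := by
  classical
  have hd0 : d ≠ 0 := by
    rintro rfl
    exact Qd h.Q_zero
  have hne : d ≠ -d := by
    intro e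
    have e4 : (2 : F) • d = 0 := by
      rw [two_smul]
      nth_rewrite 1 [e]
      simp
    exact hd0 ((smul_eq_zero.1 e4).resolve_left h2)
  have hset : {x : ι → F | x ∈ W ∧ Q x = Q d} = {d, -d} := by
    ext x
    simp only [Set.mem_setOf_eq, Set.mem_insert_iff, Set.mem_singleton_iff]
    constructor
    · rintro ⟨hx, hx1⟩
      obtain ⟨s, rfl⟩ := hW x hx
      rw [h.smul] at hx1
      have e1 : (s - 1) * (s + 1) = 0 := by
        have : (s ^ 2 - 1) * Q d = 0 := by linear_combination hx1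
        have e2 := (mul_eq_zero.1 this).resolve_right Qd
        linear_combination e2
      rcases mul_eq_zero.1 e1 with e2 | e2
      · left
        rw [sub_eq_zero.1 e2, one_smul]
      · right
        rw [eq_neg_of_add_eq_zero_left e2, neg_smul, one_smul]
    · rintro (rfl | rfl)
      · exact ⟨hd, rfl⟩
      · refine ⟨W.neg_mem hd, ?_⟩
        have := h.smul (-1) d
        simpa using this
  unfold cntS
  have e1 : Nat.card {x : ι → F // x ∈ W ∧ Q x = Q d} = Nat.card ↥{x : ι → F | x ∈ W ∧ Q x = Q d} := rfl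
  rw [e1, hset, Nat.card_coe_set_eq, Set.ncard_pair hne]

/-- two reflections with norms in different classes are separated by a sign character, given a plane -/
theorem sep_plane (hnd : ND B (⊤ : Submodule F (ι → F))) {k : ℕ} {t : Fin k → (ι → F) × (ι → F)} (ht : IsHF Q B t)
    (hq : Odd (Fintype.card F)) (hc : Nat.card (perpOf h t) = Fintype.card F ^ 2) {a₁ a₂ : ι → F}
    (ha₁ : a₁ ∈ perpOf h t) (ha₂ : a₂ ∈ perpOf h t) (Qa₁ : Q a₁ ≠ 0) (Qa₂ : Q a₂ ≠ 0) (hns : ¬ IsSquare (Q a₁ * Q a₂)) :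
    ∃ c : F, c ≠ 0 ∧ chiS Q c (R h a₁ Qa₁) ≠ chiS Q c (R h a₂ Qa₂) := by
  have h2 : (2 : F) ≠ 0 := two_ne_zero_of_odd rfl hq
  have hND := ND_perpOf h hnd t ht
  obtain ⟨d₁, hd₁, Bd₁, Qd₁, hl₁, hb₁⟩ := plane_line h h2 hc hND ha₁ Qa₁
  obtain ⟨d₂, hd₂, Bd₂, Qd₂, hl₂, -⟩ := plane_line h h2 hc hND ha₂ Qa₂
  refine ⟨Q d₁, Qd₁, ?_⟩
  have hsq : ¬ IsSquare (Q d₁ * Q d₂) := by
    obtain ⟨α, β, e1⟩ := hb₁ a₂ ha₂
    obtain ⟨γ, ε, e2⟩ := hb₁ d₂ hd₂
    have E1 : Q a₂ = α ^ 2 * Q a₁ + β ^ 2 * Q d₁ := by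
      rw [e1, h.add, h.smul, h.smul, h.smul_right, h.smul_left, Bd₁]
      ring
    have E2 : Q d₂ = γ ^ 2 * Q a₁ + ε ^ 2 * Q d₁ := by
      rw [e2, h.add, h.smul, h.smul, h.smul_right, h.smul_left, Bd₁]
      ring
    have E3 : 2 * (α * γ * Q a₁ + β * ε * Q d₁) = 0 := by
      have e3 := Bd₂
      rw [e1, e2] at e3
      simp only [h.add_left, h.add_right, h.smul_left, h.smul_right] at e3
      rw [h.self a₁, h.self d₁, h.symm d₁ a₁, Bd₁] at e3
      linear_combination e3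
    have E4 : α * γ * Q a₁ + β * ε * Q d₁ = 0 := (mul_eq_zero.1 E3).resolve_left h2
    rintro ⟨s, hs⟩
    have hs0 : s ≠ 0 := by
      rintro rfl
      rw [mul_zero] at hs
      exact mul_ne_zero Qd₁ Qd₂ hs
    apply hns
    refine ⟨Q a₁ * Q d₁ * (α * ε - β * γ) / s, ?_⟩
    have E5 : Q a₂ * Q d₂ = Q a₁ * Q d₁ * (α * ε - β * γ) ^ 2 := by
      rw [E1, E2]
      linear_combination (α * γ * Q a₁ + β * ε * Q d₁) * E4
    rw [div_mul_div_comm, eq_div_iff (mul_ne_zero hs0 hs0), ← hs]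
    linear_combination (Q a₁ * Q d₁) * E5
  have c1 : cntS Q (LinearMap.ker (Lf h a₁) ⊓ perpOf h t) (Q d₁) = 2 := by
    refine cnt_line_two h h2 (d := d₁) ⟨?_, hd₁⟩ Qd₁ ?_
    · change B d₁ a₁ = 0
      rw [h.symm]
      exact Bd₁
    · rintro x ⟨hx1, hx2⟩
      exact hl₁ x hx2 hx1
  have c2 : cntS Q (LinearMap.ker (Lf h a₂) ⊓ perpOf h t) (Q d₁) = 0 := by
    refine cnt_line_zero (d := d₂) h ?_ hsq
    rintro x ⟨hx1, hx2⟩
    exact hl₂ x hx2 hx1
  refine chiS_sep h hnd ht Qa₁ Qa₂ ha₁ ha₂ hq (Q d₁) (w := 1) (by decide) ?_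
  rw [c1, c2]
  norm_num

end Count

/-- involutions: the sign via half the number of moved points -/
lemma sign_invol {α : Type*} [Fintype α] [DecidableEq α] (ρ : Equiv.Perm α) (hρ : ρ ^ 2 = 1) :
    ∃ k, Fintype.card α = 2 * k + Nat.card (Function.fixedPoints ρ) ∧ Equiv.Perm.sign ρ = (-1) ^ k := by
  classical
  have e1 := Equiv.Perm.sign_of_pow_two_eq_one hρ
  have e2 := Equiv.Perm.card_fixedPoints ρ
  rw [Equiv.Perm.sum_cycleType] at e2
  obtain ⟨k, hk⟩ := Equiv.Perm.two_dvd_card_support hρ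
  have e3 : ρ.support.card ≤ Fintype.card α := Finset.card_le_univ _
  refine ⟨k, ?_, ?_⟩
  · rw [Nat.card_eq_fintype_card, e2]
    omega
  · rw [e1, e2]
    congr 1
    omega

/-- the sign of `-1` on vectors of a given non-zero norm -/
lemma chiS_neg (h : QF Q B) (h2 : (2 : F) ≠ 0) {c : F} (hc : c ≠ 0) :
    chiS Q c (negO h) = 1 ↔ 4 ∣ cntS Q ⊤ c := by
  classical
  have hρ : rhoS Q c (negO h) ^ 2 = 1 := by
    rw [← map_pow]
    have : (negO h : OG F Q) ^ 2 = 1 := by
      apply og_ext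
      intro x
      rw [sq, act_mul, act_negO, act_negO, act_one, neg_neg]
    rw [this, map_one]
  haveI : Fintype {x : ι → F // Q x = c} := Fintype.ofFinite _
  obtain ⟨k, e1, e2⟩ := sign_invol _ hρ
  have hfix : Nat.card (Function.fixedPoints (rhoS Q c (negO h))) = 0 := by
    have : IsEmpty (Function.fixedPoints (rhoS Q c (negO h))) := by
      refine ⟨fun x => ?_⟩
      obtain ⟨⟨x, hx⟩, hx1⟩ := x
      have e3 : act (negO h) x = x := congrArg Subtype.val hx1
      rw [act_negO] at e3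
      have e4 : (2 : F) • x = 0 := by
        rw [two_smul]
        nth_rewrite 1 [← e3]
        simp
      have e5 := (smul_eq_zero.1 e4).resolve_left h2
      rw [e5, h.Q_zero] at hx
      exact hc hx.symm
    exact Nat.card_of_isEmpty
  have e3 : cntS Q ⊤ c = Fintype.card {x : ι → F // Q x = c} := by
    rw [cntS_top, Nat.card_eq_fintype_card]
  have e4 : chiS Q c (negO h) = (-1) ^ k := by
    unfold chiS
    simp only [MonoidHom.comp_apply]
    convert e2
  rw [e3, e4, e1, hfix, add_zero]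
  constructor
  · intro e5
    rcases Nat.even_or_odd k with h5 | h5
    · obtain ⟨j, rfl⟩ := h5
      exact ⟨j, by ring⟩
    · rw [h5.neg_one_pow] at e5
      exact absurd e5 (by decide)
  · rintro ⟨j, hj⟩
    have : Even k := ⟨j, by omega⟩
    exact this.neg_one_pow

section Index
variable (h : QF Q B) (hnd : ND B (⊤ : Submodule F (ι → F))) {m' : ℕ} {t₀ : Fin (m' + 1 + 1) → (ι → F) × (ι → F)}
  (ht₀ : IsHF Q B t₀) (hm : 1 ≤ m') (hanis : ∀ w ∈ perpOf h t₀, Q w = 0 → w = 0)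

include hnd ht₀ hanis in
/-- the quotient by `SS` is generated by two reflections -/
theorem gen_four {a₁ a₂ : ι → F} (h1 : a₁ ∈ perpOf h (Fin.tail t₀)) (h2 : a₂ ∈ perpOf h (Fin.tail t₀)) (ha₁ : Q a₁ ≠ 0)
    (ha₂ : Q a₂ ≠ 0) (hns : ¬ IsSquare (Q a₁ * Q a₂)) (g : OG F Q) :
    g ∈ SS h ∨ g * R h a₁ ha₁ ∈ SS h ∨ g * R h a₂ ha₂ ∈ SS h ∨ g * (R h a₁ ha₁ * R h a₂ ha₂) ∈ SS h := by
  classical
  haveI : (SS h).Normal := SS_normal h
  have hcomm : ∀ x y : OG F Q ⧸ SS h, x * y = y * x := by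
    intro x y
    obtain ⟨x, rfl⟩ := QuotientGroup.mk_surjective x
    obtain ⟨y, rfl⟩ := QuotientGroup.mk_surjective y
    rw [← QuotientGroup.mk_mul, ← QuotientGroup.mk_mul, QuotientGroup.eq]
    apply comm_le_SS h hnd ht₀ hanis
    have e : (x * y)⁻¹ * (y * x) = ⁅y⁻¹, x⁻¹⁆ := by
      simp only [commutatorElement_def]
      group
    rw [e, commutator_def]
    exact Subgroup.commutator_mem_commutator (Subgroup.mem_top _) (Subgroup.mem_top _)
  let π := QuotientGroup.mk' (SS h)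
  obtain ⟨r₁, hr₁⟩ : ∃ r, r = π (R h a₁ ha₁) := ⟨_, rfl⟩
  obtain ⟨r₂, hr₂⟩ : ∃ r, r = π (R h a₂ ha₂) := ⟨_, rfl⟩
  have r11 : r₁ * r₁ = 1 := by rw [hr₁, ← map_mul, R_mul_self, map_one]
  have r22 : r₂ * r₂ = 1 := by rw [hr₂, ← map_mul, R_mul_self, map_one]
  let T : Subgroup (OG F Q ⧸ SS h) :=
    { carrier := {1, r₁, r₂, r₁ * r₂}
      mul_mem' := fun {x y} hx hy => four_closed hcomm r11 r22 x y hx hy
      one_mem' := by simp
      inv_mem' := fun {x} hx => four_inv hcomm r11 r22 x hx }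
  have hgen : π g ∈ T := by
    have hle : SS h ⊔ RS h (perpOf h (Fin.tail t₀)) ≤ T.comap π := by
      apply sup_le
      · intro x hx
        have e : π x = 1 := (QuotientGroup.eq_one_iff x).2 hx
        change π x ∈ T
        rw [e]
        exact T.one_mem
      · rw [RS, Subgroup.closure_le]
        rintro _ ⟨a, ha, haX, rfl⟩
        rcases square_class ha₁ ha₂ ha hns with H | H
        · obtain ⟨d, hd, e⟩ := eq_sq_mul ha ha₁ H
          have e2 := R_class h ht₀ h1 haX ha₁ ha hd e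
          have e3 : π (R h a ha) = r₁ := by
            rw [hr₁]
            have e4 : π (R h a ha * R h a₁ ha₁) = 1 := (QuotientGroup.eq_one_iff _).2 e2
            rw [map_mul] at e4
            have e5 : π (R h a₁ ha₁) * π (R h a₁ ha₁) = 1 := by rw [← map_mul, R_mul_self, map_one]
            exact mul_right_cancel (e4.trans e5.symm)
          change π (R h a ha) ∈ T
          rw [e3]
          change r₁ ∈ ({1, r₁, r₂, r₁ * r₂} : Set _)
          simp
        · obtain ⟨d, hd, e⟩ := eq_sq_mul ha ha₂ H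
          have e2 := R_class h ht₀ h2 haX ha₂ ha hd e
          have e3 : π (R h a ha) = r₂ := by
            rw [hr₂]
            have e4 : π (R h a ha * R h a₂ ha₂) = 1 := (QuotientGroup.eq_one_iff _).2 e2
            rw [map_mul] at e4
            have e5 : π (R h a₂ ha₂) * π (R h a₂ ha₂) = 1 := by rw [← map_mul, R_mul_self, map_one]
            exact mul_right_cancel (e4.trans e5.symm)
          change π (R h a ha) ∈ T
          rw [e3]
          change r₂ ∈ ({1, r₁, r₂, r₁ * r₂} : Set _)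
          simp
    apply hle
    exact all_good h hnd ht₀ hanis g
  have hmemSS : ∀ x : OG F Q, π x = 1 → x ∈ SS h := fun x hx => (QuotientGroup.eq_one_iff x).1 hx
  rcases hgen with e | e | e | e
  · exact Or.inl (hmemSS _ e)
  · refine Or.inr (Or.inl (hmemSS _ ?_))
    rw [map_mul, e, hr₁, ← map_mul, R_mul_self, map_one]
  · refine Or.inr (Or.inr (Or.inl (hmemSS _ ?_)))
    rw [map_mul, show π g = r₂ from e, hr₂, ← map_mul, R_mul_self, map_one]
  · refine Or.inr (Or.inr (Or.inr (hmemSS _ ?_)))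
    have e' : π g = r₁ * r₂ := e
    rw [map_mul, map_mul, e', ← hr₁, ← hr₂]
    calc r₁ * r₂ * (r₁ * r₂) = r₁ * (r₂ * r₁) * r₂ := by simp only [mul_assoc]
      _ = r₁ * (r₁ * r₂) * r₂ := by rw [hcomm r₂ r₁]
      _ = (r₁ * r₁) * (r₂ * r₂) := by simp only [mul_assoc]
      _ = 1 := by rw [r11, r22, one_mul]

include hnd ht₀ hm hanis in
/-- **The criterion for `-1` in `Ω`.** -/
theorem neg_mem_iff (h2 : (2 : F) ≠ 0) (hev : Even (Fintype.card ι)) {a₁ a₂ : ι → F} (h1 : a₁ ∈ perpOf h (Fin.tail t₀))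
    (h3 : a₂ ∈ perpOf h (Fin.tail t₀)) (ha₁ : Q a₁ ≠ 0)
    (ha₂ : Q a₂ ≠ 0) (hns : ¬ IsSquare (Q a₁ * Q a₂)) (χ : OG F Q →* ℤˣ) (hχ : χ (R h a₁ ha₁) ≠ χ (R h a₂ ha₂)) :
    negO h ∈ SS h ↔ χ (negO h) = 1 := by
  have hkerχ : SS h ≤ χ.ker := by
    rw [← omega_eq_SS h hnd ht₀ hm hanis]
    exact Abelianization.commutator_subset_ker χ
  have hmk : (m' + 1 + 1 : ℕ) > 2 := by omega
  have hFx : Fx (negO h) = ⊥ := by
    rw [eq_bot_iff]
    intro x hx
    have e3 : act (negO h) x = x := hx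
    rw [act_negO] at e3
    have e4 : (2 : F) • x = 0 := by
      rw [two_smul]
      nth_rewrite 1 [← e3]
      simp
    exact (smul_eq_zero.1 e4).resolve_left h2
  have hdd : dd (negO h) = 0 := by
    unfold dd
    rw [hFx, finrank_bot]
  have hR : ∀ {a : ι → F} (ha : Q a ≠ 0), negO h * R h a ha ∉ SS h := by
    intro a ha hs
    have e1 := even_of_mem_SS h hnd ht₀ hmk hs
    have e2 := dd_mul_R h hnd (negO h) ha
    rw [hdd] at e2
    have e3 : dd (negO h * R h a ha) = 1 := by omega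
    rw [e3, Nat.even_add] at e1
    exact absurd (e1.2 hev) (by decide)
  constructor
  · intro hs
    exact hkerχ hs
  · intro e
    rcases gen_four h hnd ht₀ hanis h1 h3 ha₁ ha₂ hns (negO h) with H | H | H | H
    · exact H
    · exact absurd H (hR ha₁)
    · exact absurd H (hR ha₂)
    · have e1 := hkerχ H
      rw [MonoidHom.mem_ker, map_mul, map_mul, e, one_mul] at e1
      exfalso
      apply hχ
      rcases Int.units_eq_one_or (χ (R h a₁ ha₁)) with e3 | e3 <;>
        rcases Int.units_eq_one_or (χ (R h a₂ ha₂)) with e4 | e4 <;> rw [e3, e4] at e1 ⊢ <;> first | rfl | exact absurd e1 (by decide)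

end Index

end Cfsg.Agent.H01.Om
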