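import Cfsg.Agent.Lib.H01.OmEven
/-! The orders of the simple groups `PΩ^±_{2m}(q)`. -/
set_option autoImplicit false
set_option linter.unusedSimpArgs false
set_option linter.style.haveILetI false
set_option linter.unusedSectionVars false
set_option linter.unusedVariables false
namespace Cfsg.Agent.H01.Om
open Matrix Cfsg.Agent.Lead.Ortho Cfsg.Agent.Lead.Omega

variable {F : Type*} [Field F] [Fintype F] {ι : Type} [Fintype ι] [DecidableEq ι]
variable {Q : (ι → F) → F} {B : (ι → F) → (ι → F) → F}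

lemma two_eq_zero_of_even (hq : Even (Fintype.card F)) : (2 : F) = 0 := by
  classical
  have e1 : ringChar F = 2 := FiniteField.even_card_iff_char_two.2 (Nat.even_iff.1 hq)
  have := CharP.cast_eq_zero F (ringChar F)
  rw [e1] at this
  exact_mod_cast this

section Z
variable {m : ℕ} {t₀ : Fin m → (ι → F) × (ι → F)} (C : Cx Q B t₀)
include C

lemma Cx.negO_ne_one (h2 : (2 : F) ≠ 0) : negO C.h ≠ (1 : OG F Q) := by
  have h := C.h
  intro e
  obtain ⟨e', f, e1, f1, e2, f2, T⟩ := C.exists_T3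
  have e3 : act (negO h) (e' + f) = act (1 : OG F Q) (e' + f) := by rw [e]
  rw [act_negO, act_one] at e3
  have e4 : (2 : F) • (e' + f) = 0 := by
    rw [two_smul]
    nth_rewrite 1 [← e3]
    simp
  have e5 := (smul_eq_zero.1 e4).resolve_left h2
  have Qx : Q (e' + f) = 1 := by
    rw [h.add, T.Qe0, T.Qf0, T.e0f0]
    ring
  rw [e5, h.Q_zero] at Qx
  exact zero_ne_one Qx

lemma Cx.card_pomega_of_bot (hZ : Subgroup.center (Cfsg.Omega F Q) = ⊥) :
    Nat.card (Cfsg.POmega F Q) = Nat.card (Cfsg.Omega F Q) := by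
  have e1 := Subgroup.card_eq_card_quotient_mul_card_subgroup (Subgroup.center (Cfsg.Omega F Q))
  have e2 : Nat.card (Subgroup.center (Cfsg.Omega F Q)) = 1 := by
    rw [hZ]
    exact Subgroup.card_bot
  rw [e2, mul_one] at e1
  exact e1.symm

lemma Cx.card_pomega_not_mem (hn : negO C.h ∉ Cfsg.Omega F Q) :
    Nat.card (Cfsg.POmega F Q) = Nat.card (Cfsg.Omega F Q) := by
  apply C.card_pomega_of_bot
  rw [eq_bot_iff]
  intro z hz
  obtain ⟨α, hα⟩ := C.center_scalar hz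
  rcases C.scalar_pm hα with e | e
  · exact Subgroup.mem_bot.2 (Subtype.ext e)
  · exact absurd z.2 (by rw [e]; exact hn)

lemma Cx.card_pomega_two (h2 : (2 : F) = 0) :
    Nat.card (Cfsg.POmega F Q) = Nat.card (Cfsg.Omega F Q) := by
  have h := C.h
  have hneg : negO h = (1 : OG F Q) := by
    apply og_ext
    intro x
    rw [act_negO, act_one]
    have e4 : (2 : F) • x = 0 := by rw [h2, zero_smul]
    rw [two_smul] at e4
    exact neg_eq_of_add_eq_zero_right e4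
  apply C.card_pomega_of_bot
  rw [eq_bot_iff]
  intro z hz
  obtain ⟨α, hα⟩ := C.center_scalar hz
  rcases C.scalar_pm hα with e | e
  · exact Subgroup.mem_bot.2 (Subtype.ext e)
  · exact Subgroup.mem_bot.2 (Subtype.ext (e.trans hneg))

lemma Cx.card_pomega_mem (h2 : (2 : F) ≠ 0) (hn : negO C.h ∈ Cfsg.Omega F Q) :
    2 * Nat.card (Cfsg.POmega F Q) = Nat.card (Cfsg.Omega F Q) := by
  have h := C.h
  have e1 := Subgroup.card_eq_card_quotient_mul_card_subgroup (Subgroup.center (Cfsg.Omega F Q))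
  have hne : (⟨negO h, hn⟩ : ↥(Cfsg.Omega F Q)) ≠ 1 := by
    intro e
    exact C.negO_ne_one h2 (congrArg Subtype.val e)
  have hset : ((Subgroup.center (Cfsg.Omega F Q) : Subgroup ↥(Cfsg.Omega F Q)) : Set ↥(Cfsg.Omega F Q)) =
      {1, ⟨negO h, hn⟩} := by
    ext z
    simp only [SetLike.mem_coe, Set.mem_insert_iff, Set.mem_singleton_iff]
    constructor
    · intro hz
      obtain ⟨α, hα⟩ := C.center_scalar hz
      rcases C.scalar_pm hα with e | e
      · exact Or.inl (Subtype.ext e)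
      · exact Or.inr (Subtype.ext e)
    · rintro (rfl | rfl)
      · exact Subgroup.one_mem _
      · exact C.mem_center_of_scalar (α := -1) (fun x => by
          change act (negO h) x = _
          rw [act_negO]
          simp)
  have e2 : Nat.card (Subgroup.center (Cfsg.Omega F Q)) = 2 := by
    rw [← SetLike.coe_sort_coe, hset, Nat.card_coe_set_eq, Set.ncard_pair hne.symm]
  rw [e2] at e1
  rw [e1]
  change _ = Nat.card (↥(Cfsg.Omega F Q) ⧸ Subgroup.center ↥(Cfsg.Omega F Q)) * 2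
  unfold Cfsg.POmega
  ring

end Z

/-- assembling the index with the criterion for `-1` -/
theorem even_data (h : QF Q B) (hnd : ND B (⊤ : Submodule F (ι → F))) {m' : ℕ} {t₀ : Fin (m' + 1 + 1) → (ι → F) × (ι → F)}
    (ht₀ : IsHF Q B t₀) (hm : 1 ≤ m') (hanis : ∀ w ∈ perpOf h t₀, Q w = 0 → w = 0) (hq : Odd (Fintype.card F))
    (hev : Even (Fintype.card ι)) {k : ℕ} {t : Fin k → (ι → F) × (ι → F)} (ht : IsHF Q B t)
    (hc : Nat.card (perpOf h t) = Fintype.card F ^ 2) (hsub : perpOf h t ≤ perpOf h (Fin.tail t₀)) {a₁ a₂ : ι → F}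
    (ha₁ : a₁ ∈ perpOf h t) (ha₂ : a₂ ∈ perpOf h t) (Qa₁ : Q a₁ ≠ 0) (Qa₂ : Q a₂ ≠ 0) (hns : ¬ IsSquare (Q a₁ * Q a₂)) :
    Nat.card (OG F Q) = 4 * Nat.card (SS h) ∧ ∃ c : F, c ≠ 0 ∧ (negO h ∈ SS h ↔ 4 ∣ cntS Q ⊤ c) := by
  obtain ⟨c, hc0, hχ⟩ := sep_plane h hnd ht hq hc ha₁ ha₂ Qa₁ Qa₂ hns
  have h2 : (2 : F) ≠ 0 := two_ne_zero_of_odd rfl hq
  refine ⟨index_four h hnd ht₀ hm hanis (hsub ha₁) (hsub ha₂) Qa₁ Qa₂ hns _ hχ, c, hc0, ?_⟩
  rw [neg_mem_iff h hnd ht₀ hm hanis h2 hev (hsub ha₁) (hsub ha₂) Qa₁ Qa₂ hns _ hχ, chiS_neg h h2 hc0]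

/-- the number of vectors of a given norm, from the residue -/
lemma cnt_top (h : QF Q B) {k : ℕ} {t : Fin k → (ι → F) × (ι → F)} (ht : IsHF Q B t) (c : F) :
    Nat.card (⊤ : Submodule F (ι → F)) = Fintype.card F ^ (2 * k) * Nat.card ↥(perpOf h t) ∧
    (Fintype.card F : ℤ) * cntS Q ⊤ c = (Fintype.card F : ℤ) ^ (k + 1) * cntS Q (perpOf h t) c
       + (Fintype.card F : ℤ) ^ k * ((Fintype.card F : ℤ) ^ k - 1) * Nat.card ↥(perpOf h t) := by
  have := cnt_frame h t ht (S := ⊤) (fun i => ⟨Submodule.mem_top, Submodule.mem_top⟩) c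
  rwa [top_inf_eq] at this

lemma card_perp_plane (h : QF Q B) {k : ℕ} {t : Fin k → (ι → F) × (ι → F)} (ht : IsHF Q B t)
    (hι : Fintype.card ι = 2 * k + 2) : Nat.card ↥(perpOf h t) = Fintype.card F ^ 2 := by
  obtain ⟨e1, -⟩ := cnt_top h ht 0
  have e2 : Nat.card (⊤ : Submodule F (ι → F)) = Fintype.card F ^ (2 * k + 2) := by
    rw [Nat.card_congr Submodule.topEquiv.toEquiv, Nat.card_eq_fintype_card, Fintype.card_fun, hι]
  rw [e2, pow_add] at e1
  exact (Nat.eq_of_mul_eq_mul_left (pow_pos Fintype.card_pos _) e1).symm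

section Plus

lemma perp_plus_zero (m : ℕ) (w : Fin m ⊕ Fin m → F) (hw : w ∈ perpOf (qfPlus m) (framePlus m F)) : w = 0 := by
  funext k
  rcases k with i | i
  · have := (hw i).2
    simp only [framePlus] at this
    rw [polarPlus_inr] at this
    exact this
  · have := (hw i).1
    simp only [framePlus] at this
    rw [polarPlus_inl] at this
    exact this

/-- the number of vectors of non-zero norm, plus type -/
lemma cnt_plus (m : ℕ) (hm : 1 ≤ m) {c : F} (hc : c ≠ 0) :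
    cntS (Cfsg.quadFormPlus m F) ⊤ c = Fintype.card F ^ (m - 1) * (Fintype.card F ^ m - 1) := by
  obtain ⟨-, e1⟩ := cnt_top (qfPlus (F := F) m) (framePlus_HF (F := F) m) c
  have hbot : perpOf (qfPlus (F := F) m) (framePlus m F) = ⊥ := by
    rw [eq_bot_iff]
    intro w hw
    exact (Submodule.mem_bot F).2 (perp_plus_zero m w hw)
  have e2 : cntS (Cfsg.quadFormPlus m F) (perpOf (qfPlus (F := F) m) (framePlus m F)) c = 0 := by
    rw [hbot]
    unfold cntS
    have : IsEmpty {x : Fin m ⊕ Fin m → F // x ∈ (⊥ : Submodule F (Fin m ⊕ Fin m → F)) ∧ Cfsg.quadFormPlus m F x = c} := by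
      refine ⟨fun x => ?_⟩
      obtain ⟨x, hx, hx1⟩ := x
      have : x = 0 := (Submodule.mem_bot F).1 hx
      rw [this, (qfPlus (F := F) m).Q_zero] at hx1
      exact hc hx1.symm
    exact Nat.card_of_isEmpty
  have e3 : Nat.card ↥(perpOf (qfPlus (F := F) m) (framePlus m F)) = 1 := by
    rw [hbot]
    exact Nat.card_unique
  rw [e2, e3] at e1
  have hq : 0 < Fintype.card F := Fintype.card_pos
  obtain ⟨n, rfl⟩ : ∃ n, m = n + 1 := ⟨m - 1, by omega⟩
  have hq' : (Fintype.card F : ℤ) ≠ 0 := by exact_mod_cast hq.ne'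
  have e4 : (cntS (Cfsg.quadFormPlus (n + 1) F) ⊤ c : ℤ) = (Fintype.card F : ℤ) ^ n * ((Fintype.card F : ℤ) ^ (n + 1) - 1) := by
    apply mul_left_cancel₀ hq'
    rw [e1]
    push_cast
    ring
  have h1 : 1 ≤ Fintype.card F ^ (n + 1) := Nat.one_le_pow _ _ hq
  rw [Nat.add_sub_cancel]
  zify [h1]
  exact e4

/-- the structure in the odd characteristic plus case -/
theorem plus_data (hq : Odd (Fintype.card F)) {m : ℕ} (hm : 3 ≤ m) :
    Nat.card (OG F (Cfsg.quadFormPlus m F)) = 4 * Nat.card (Cfsg.Omega F (Cfsg.quadFormPlus m F)) ∧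
    (negO (qfPlus (F := F) m) ∈ Cfsg.Omega F (Cfsg.quadFormPlus m F) ↔ 4 ∣ Fintype.card F ^ m - 1) := by
  obtain ⟨m', rfl⟩ : ∃ m', m = m' + 1 + 1 := ⟨m - 2, by omega⟩
  have hm' : 1 ≤ m' := by omega
  have h := qfPlus (F := F) (m' + 1 + 1)
  have hnd := ndPlus (F := F) (m' + 1 + 1)
  have ht₀ := framePlus_HF (F := F) (m' + 1 + 1)
  have hanis := framePlus_anis (F := F) (m' + 1 + 1)
  have C := mkCx h hnd ht₀ hm' hanis
  obtain ⟨ht, hu, hv, Qu, Qv, Buv⟩ := cons_tail_HF h ht₀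
  obtain ⟨u, hu'⟩ : ∃ u, u = (framePlus (m' + 1 + 1) F 0).1 := ⟨_, rfl⟩
  obtain ⟨v, hv'⟩ : ∃ v, v = (framePlus (m' + 1 + 1) F 0).2 := ⟨_, rfl⟩
  rw [← hu'] at hu Qu Buv
  rw [← hv'] at hv Qv Buv
  obtain ⟨ν, hν⟩ := exists_nonsq hq
  have hν0 : ν ≠ 0 := by
    rintro rfl
    exact hν (IsSquare.zero)
  have Qa₁ : Cfsg.quadFormPlus (m' + 1 + 1) F (u + v) = 1 := by
    rw [h.add, Qu, Qv, Buv]
    ring
  have Qa₂ : Cfsg.quadFormPlus (m' + 1 + 1) F (u + ν • v) = ν := by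
    rw [h.add, h.smul, Qu, Qv, h.smul_right, Buv]
    ring
  have hι : Fintype.card (Fin (m' + 1 + 1) ⊕ Fin (m' + 1 + 1)) = 2 * (m' + 1) + 2 := by
    simp only [Fintype.card_sum, Fintype.card_fin]
    ring
  have hev : Even (Fintype.card (Fin (m' + 1 + 1) ⊕ Fin (m' + 1 + 1))) := by
    rw [hι]
    exact ⟨m' + 1 + 1, by ring⟩
  obtain ⟨e1, c, hc0, e2⟩ := even_data h hnd ht₀ hm' hanis hq hev ht (card_perp_plane h ht hι) le_rfl
    (a₁ := u + v) (a₂ := u + ν • v) (Submodule.add_mem _ hu hv) (Submodule.add_mem _ hu (Submodule.smul_mem _ _ hv))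
    (by rw [Qa₁]; exact one_ne_zero) (by rw [Qa₂]; exact hν0) (by rw [Qa₁, Qa₂, one_mul]; exact hν)
  rw [C.hΩ]
  refine ⟨e1, ?_⟩
  change negO (qfPlus (F := F) (m' + 1 + 1)) ∈ SS (qfPlus (F := F) (m' + 1 + 1)) ↔ _
  have e2' : negO (qfPlus (F := F) (m' + 1 + 1)) ∈ SS (qfPlus (F := F) (m' + 1 + 1)) ↔ _ := e2
  rw [e2', cnt_plus (m' + 1 + 1) (by omega) hc0]
  have hcop : Nat.Coprime 4 (Fintype.card F ^ (m' + 1 + 1 - 1)) := by
    have : Nat.Coprime 2 (Fintype.card F ^ (m' + 1 + 1 - 1)) := (Nat.coprime_two_left.2 hq.pow)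
    have e := Nat.Coprime.pow_left 2 this
    rwa [show (2 : ℕ) ^ 2 = 4 by norm_num] at e
  exact hcop.dvd_mul_left

end Plus

section Minus
variable (a b : F) (hab : ∀ z₁ z₂ : F, z₁ ^ 2 + a * z₁ * z₂ + b * z₂ ^ 2 = 0 → z₁ = 0 ∧ z₂ = 0)
include hab

lemma cnt_minus_perp (n : ℕ) {c : F} (hc : c ≠ 0) :
    cntS (Cfsg.quadFormMinus n F a b) (perpOf (qfMinus n a b) (frameMinus n F)) c = Fintype.card F + 1 := by
  have hι : Fintype.card ((Fin n ⊕ Fin n) ⊕ Fin 2) = 2 * n + 2 := by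
    simp only [Fintype.card_sum, Fintype.card_fin]
    ring
  exact cnt_eq (qfMinus (F := F) n a b) (card_perp_plane (qfMinus n a b) (frameMinus_HF a b n) hι)
    (frameMinus_anis a b hab n) c hc

/-- the number of vectors of non-zero norm, minus type -/
lemma cnt_minus (n : ℕ) {c : F} (hc : c ≠ 0) :
    cntS (Cfsg.quadFormMinus n F a b) ⊤ c = Fintype.card F ^ n * (Fintype.card F ^ (n + 1) + 1) := by
  obtain ⟨-, e1⟩ := cnt_top (qfMinus (F := F) n a b) (frameMinus_HF (F := F) a b n) c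
  have hι : Fintype.card ((Fin n ⊕ Fin n) ⊕ Fin 2) = 2 * n + 2 := by
    simp only [Fintype.card_sum, Fintype.card_fin]
    ring
  rw [cnt_minus_perp a b hab n hc, card_perp_plane (qfMinus n a b) (frameMinus_HF a b n) hι] at e1
  have hq : 0 < Fintype.card F := Fintype.card_pos
  have hq' : (Fintype.card F : ℤ) ≠ 0 := by exact_mod_cast hq.ne'
  have e4 : (cntS (Cfsg.quadFormMinus n F a b) ⊤ c : ℤ) = (Fintype.card F : ℤ) ^ n * ((Fintype.card F : ℤ) ^ (n + 1) + 1) := by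
    apply mul_left_cancel₀ hq'
    rw [e1]
    push_cast
    ring
  zify
  exact e4

/-- the structure in the odd characteristic minus case -/
theorem minus_data (hq : Odd (Fintype.card F)) {n : ℕ} (hn : 3 ≤ n) :
    Nat.card (OG F (Cfsg.quadFormMinus n F a b)) = 4 * Nat.card (Cfsg.Omega F (Cfsg.quadFormMinus n F a b)) ∧
    (negO (qfMinus (F := F) n a b) ∈ Cfsg.Omega F (Cfsg.quadFormMinus n F a b) ↔ 4 ∣ Fintype.card F ^ (n + 1) + 1) := by
  obtain ⟨m', rfl⟩ : ∃ m', n = m' + 1 + 1 := ⟨n - 2, by omega⟩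
  have hm' : 1 ≤ m' := by omega
  have h := qfMinus (F := F) (m' + 1 + 1) a b
  have hnd := ndMinus (F := F) (m' + 1 + 1) a b hab
  have ht₀ := frameMinus_HF (F := F) a b (m' + 1 + 1)
  have hanis := frameMinus_anis (F := F) a b hab (m' + 1 + 1)
  have C := mkCx h hnd ht₀ hm' hanis
  obtain ⟨ν, hν⟩ := exists_nonsq hq
  have hν0 : ν ≠ 0 := by
    rintro rfl
    exact hν (IsSquare.zero)
  have hι : Fintype.card ((Fin (m' + 1 + 1) ⊕ Fin (m' + 1 + 1)) ⊕ Fin 2) = 2 * (m' + 1 + 1) + 2 := by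
    simp only [Fintype.card_sum, Fintype.card_fin]
    ring
  have hev : Even (Fintype.card ((Fin (m' + 1 + 1) ⊕ Fin (m' + 1 + 1)) ⊕ Fin 2)) := by
    rw [hι]
    exact ⟨m' + 1 + 1 + 1, by ring⟩
  have hex : ∀ c : F, c ≠ 0 → ∃ x, x ∈ perpOf h (frameMinus (m' + 1 + 1) F) ∧ Cfsg.quadFormMinus (m' + 1 + 1) F a b x = c := by
    intro c hc
    have e1 := cnt_minus_perp a b hab (m' + 1 + 1) hc
    have e2 : 0 < cntS (Cfsg.quadFormMinus (m' + 1 + 1) F a b) (perpOf h (frameMinus (m' + 1 + 1) F)) c := by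
      rw [e1]
      omega
    unfold cntS at e2
    obtain ⟨⟨x, hx⟩⟩ := (Nat.card_pos_iff.1 e2).1
    exact ⟨x, hx⟩
  obtain ⟨a₁, ha₁, Qa₁⟩ := hex 1 one_ne_zero
  obtain ⟨a₂, ha₂, Qa₂⟩ := hex ν hν0
  obtain ⟨e1, c, hc0, e2⟩ := even_data h hnd ht₀ hm' hanis hq hev ht₀ (card_perp_plane h ht₀ hι) (fun x hx i => hx i.succ)
    (a₁ := a₁) (a₂ := a₂) ha₁ ha₂
    (by rw [Qa₁]; exact one_ne_zero) (by rw [Qa₂]; exact hν0) (by rw [Qa₁, Qa₂, one_mul]; exact hν)
  rw [C.hΩ]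
  refine ⟨e1, ?_⟩
  rw [e2, cnt_minus a b hab (m' + 1 + 1) hc0]
  have hcop : Nat.Coprime 4 (Fintype.card F ^ (m' + 1 + 1)) := by
    have : Nat.Coprime 2 (Fintype.card F ^ (m' + 1 + 1)) := (Nat.coprime_two_left.2 hq.pow)
    have e := Nat.Coprime.pow_left 2 this
    rwa [show (2 : ℕ) ^ 2 = 4 by norm_num] at e
  exact hcop.dvd_mul_left

end Minus

/-- the arithmetic of the final formula, given the data -/
lemma arith_final {O Ω P g : ℕ} (hg : g = 1 ∧ O = 2 * Ω ∧ P = Ω ∨ g = 2 ∧ O = 4 * Ω ∧ P = Ω ∨ g = 4 ∧ O = 4 * Ω ∧ 2 * P = Ω) :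
    2 * (g * P) = O := by
  rcases hg with ⟨rfl, rfl, rfl⟩ | ⟨rfl, rfl, rfl⟩ | ⟨rfl, rfl, e⟩
  · ring
  · ring
  · rw [← e]
    ring

/-- **the order of `PΩ^+`** -/
theorem card_pomega_plus_aux {m : ℕ} (hm : 3 ≤ m) :
    Nat.gcd 4 (Fintype.card F ^ m - 1) * Nat.card (Cfsg.POmega F (Cfsg.quadFormPlus m F)) =
      Fintype.card F ^ (m * (m - 1)) * (Fintype.card F ^ m - 1) * ∏ i ∈ Finset.range (m - 1), (Fintype.card F ^ (2 * (i + 1)) - 1) := by
  have hO := card_GO_plus (F := F) rfl m (by omega)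
  have key : 2 * (Nat.gcd 4 (Fintype.card F ^ m - 1) * Nat.card (Cfsg.POmega F (Cfsg.quadFormPlus m F))) =
      Nat.card (Cfsg.isometryGroup F (Cfsg.quadFormPlus m F)) := by
    apply arith_final (Ω := Nat.card (Cfsg.Omega F (Cfsg.quadFormPlus m F)))
    obtain ⟨m', rfl⟩ : ∃ m', m = m' + 1 + 1 := ⟨m - 2, by omega⟩
    have hm' : 1 ≤ m' := by omega
    have C := mkCx (qfPlus (F := F) (m' + 1 + 1)) (ndPlus (F := F) (m' + 1 + 1)) (framePlus_HF (F := F) (m' + 1 + 1)) hm' (framePlus_anis (F := F) (m' + 1 + 1))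
    have h := C.h
    have h1 : 1 ≤ Fintype.card F ^ (m' + 1 + 1) := Nat.one_le_pow _ _ Fintype.card_pos
    rcases Nat.even_or_odd (Fintype.card F) with hq | hq
    · left
      have h2 := two_eq_zero_of_even hq
      refine ⟨?_, ?_, C.card_pomega_two h2⟩
      · have e : Nat.Coprime 2 (Fintype.card F ^ (m' + 1 + 1) - 1) := by
          rw [Nat.coprime_two_left, ← Nat.not_even_iff_odd]
          intro e3
          have e4 : Even (Fintype.card F ^ (m' + 1 + 1)) := hq.pow_of_ne_zero (by omega)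
          have e5 := (Nat.even_sub h1).1 e3
          exact (by decide : ¬ Even 1) (e5.1 e4)
        have : Nat.Coprime (2 ^ 2) (Fintype.card F ^ (m' + 1 + 1) - 1) := Nat.Coprime.pow_left 2 e
        simpa using this
      · obtain ⟨-, -, hu, -, Qv, Buv⟩ := cons_tail_HF h (framePlus_HF (F := F) (m' + 1 + 1))
        have hQ : Cfsg.quadFormPlus (m' + 1 + 1) F ((framePlus (m' + 1 + 1) F 0).1 + (framePlus (m' + 1 + 1) F 0).2) = 1 := by
          rw [h.add]
          obtain ⟨-, -, -, Qu', Qv', Buv'⟩ := cons_tail_HF h (framePlus_HF (F := F) (m' + 1 + 1))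
          rw [Qu', Qv', Buv']
          ring
        obtain ⟨ht, hu, hv, -⟩ := cons_tail_HF h (framePlus_HF (F := F) (m' + 1 + 1))
        rw [C.hΩ]
        exact index_two h (ndPlus _) (framePlus_HF _) hm' (framePlus_anis _) h2 (Submodule.add_mem _ hu hv) (by rw [hQ]; exact one_ne_zero)
    · right
      obtain ⟨e1, e2⟩ := plus_data hq hm
      have h2 := two_ne_zero_of_odd (F := F) rfl hq
      have hev : 2 ∣ Fintype.card F ^ (m' + 1 + 1) - 1 := by
        have : Odd (Fintype.card F ^ (m' + 1 + 1)) := hq.pow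
        obtain ⟨j, hj⟩ := this
        exact ⟨j, by omega⟩
      by_cases h4 : 4 ∣ Fintype.card F ^ (m' + 1 + 1) - 1
      · right
        refine ⟨Nat.gcd_eq_left h4, e1, C.card_pomega_mem h2 (e2.2 h4)⟩
      · left
        refine ⟨?_, e1, C.card_pomega_not_mem (fun e => h4 (e2.1 e))⟩
        have e3 : Nat.gcd 4 (Fintype.card F ^ (m' + 1 + 1) - 1) ∣ 4 := Nat.gcd_dvd_left _ _
        have e4 : 2 ∣ Nat.gcd 4 (Fintype.card F ^ (m' + 1 + 1) - 1) := Nat.dvd_gcd (by norm_num) hev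
        have e5 : Nat.gcd 4 (Fintype.card F ^ (m' + 1 + 1) - 1) ≠ 4 := by
          intro e
          apply h4
          rw [← e]
          exact Nat.gcd_dvd_right _ _
        have e6 : Nat.gcd 4 (Fintype.card F ^ (m' + 1 + 1) - 1) ≤ 4 := Nat.le_of_dvd (by norm_num) e3
        obtain ⟨j, hj⟩ := e4
        have e7 : j ≠ 0 := by
          rintro rfl
          rw [mul_zero] at hj
          rw [hj] at e3
          exact absurd e3 (by decide)
        omega
  rw [hO] at key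
  have e : 2 * (Nat.gcd 4 (Fintype.card F ^ m - 1) * Nat.card (Cfsg.POmega F (Cfsg.quadFormPlus m F))) =
      2 * (Fintype.card F ^ (m * (m - 1)) * (Fintype.card F ^ m - 1) * ∏ i ∈ Finset.range (m - 1), (Fintype.card F ^ (2 * (i + 1)) - 1)) := by
    rw [key]
    ring
  exact Nat.eq_of_mul_eq_mul_left (by norm_num) e

/-- the order of `PΩ^-`: the key -/
theorem minus_key {m' : ℕ} (hm' : 1 ≤ m') (a b : F)
    (hab : ∀ z₁ z₂ : F, z₁ ^ 2 + a * z₁ * z₂ + b * z₂ ^ 2 = 0 → z₁ = 0 ∧ z₂ = 0) :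
    2 * (Nat.gcd 4 (Fintype.card F ^ (m' + 1 + 1 + 1) + 1) * Nat.card (Cfsg.POmega F (Cfsg.quadFormMinus (m' + 1 + 1) F a b))) =
      Nat.card (Cfsg.isometryGroup F (Cfsg.quadFormMinus (m' + 1 + 1) F a b)) := by
  apply arith_final (Ω := Nat.card (Cfsg.Omega F (Cfsg.quadFormMinus (m' + 1 + 1) F a b)))
  have C := mkCx (qfMinus (F := F) (m' + 1 + 1) a b) (ndMinus (F := F) (m' + 1 + 1) a b hab) (frameMinus_HF (F := F) a b (m' + 1 + 1)) hm' (frameMinus_anis (F := F) a b hab (m' + 1 + 1))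
  have h := C.h
  have h1 : 1 ≤ Fintype.card F ^ (m' + 1 + 1 + 1) := Nat.one_le_pow _ _ Fintype.card_pos
  rcases Nat.even_or_odd (Fintype.card F) with hq | hq
  · left
    have h2 := two_eq_zero_of_even hq
    refine ⟨?_, ?_, C.card_pomega_two h2⟩
    · have e : Nat.Coprime 2 (Fintype.card F ^ (m' + 1 + 1 + 1) + 1) := by
        rw [Nat.coprime_two_left, ← Nat.not_even_iff_odd]
        intro e3
        have e4 : Even (Fintype.card F ^ (m' + 1 + 1 + 1)) := hq.pow_of_ne_zero (by omega)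
        have e5 := (Nat.even_add).1 e3
        exact (by decide : ¬ Even 1) (e5.1 e4)
      have : Nat.Coprime (2 ^ 2) (Fintype.card F ^ (m' + 1 + 1 + 1) + 1) := Nat.Coprime.pow_left 2 e
      simpa using this
    · have e2 := cnt_minus_perp a b hab (m' + 1 + 1) (one_ne_zero (α := F))
      have e3 : 0 < cntS (Cfsg.quadFormMinus (m' + 1 + 1) F a b) (perpOf h (frameMinus (m' + 1 + 1) F)) 1 := by
        rw [e2]
        omega
      unfold cntS at e3
      obtain ⟨⟨x, hx, Qx⟩⟩ := (Nat.card_pos_iff.1 e3).1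
      rw [C.hΩ]
      exact index_two h (ndMinus _ a b hab) (frameMinus_HF a b _) hm' (frameMinus_anis a b hab _) h2 (a₁ := x) (fun i => hx i.succ) (by rw [Qx]; exact one_ne_zero)
  · right
    obtain ⟨e1, e2⟩ := minus_data a b hab hq (n := m' + 1 + 1) (by omega)
    have h2 := two_ne_zero_of_odd (F := F) rfl hq
    have hev : 2 ∣ Fintype.card F ^ (m' + 1 + 1 + 1) + 1 := by
      have : Odd (Fintype.card F ^ (m' + 1 + 1 + 1)) := hq.pow
      obtain ⟨j, hj⟩ := this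
      exact ⟨j + 1, by omega⟩
    by_cases h4 : 4 ∣ Fintype.card F ^ (m' + 1 + 1 + 1) + 1
    · right
      refine ⟨Nat.gcd_eq_left h4, e1, C.card_pomega_mem h2 (e2.2 h4)⟩
    · left
      refine ⟨?_, e1, C.card_pomega_not_mem (fun e => h4 (e2.1 e))⟩
      have e3 : Nat.gcd 4 (Fintype.card F ^ (m' + 1 + 1 + 1) + 1) ∣ 4 := Nat.gcd_dvd_left _ _
      have e4 : 2 ∣ Nat.gcd 4 (Fintype.card F ^ (m' + 1 + 1 + 1) + 1) := Nat.dvd_gcd (by norm_num) hev
      have e5 : Nat.gcd 4 (Fintype.card F ^ (m' + 1 + 1 + 1) + 1) ≠ 4 := by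
        intro e
        apply h4
        rw [← e]
        exact Nat.gcd_dvd_right _ _
      have e6 : Nat.gcd 4 (Fintype.card F ^ (m' + 1 + 1 + 1) + 1) ≤ 4 := Nat.le_of_dvd (by norm_num) e3
      obtain ⟨j, hj⟩ := e4
      have e7 : j ≠ 0 := by
        rintro rfl
        rw [mul_zero] at hj
        rw [hj] at e3
        exact absurd e3 (by decide)
      omega

/-- **the order of `PΩ^-`** -/
theorem card_pomega_minus_aux {m : ℕ} (hm : 4 ≤ m) (a b : F)
    (hab : ∀ z₁ z₂ : F, z₁ ^ 2 + a * z₁ * z₂ + b * z₂ ^ 2 = 0 → z₁ = 0 ∧ z₂ = 0) :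
    Nat.gcd 4 (Fintype.card F ^ m + 1) * Nat.card (Cfsg.POmega F (Cfsg.quadFormMinus (m - 1) F a b)) =
      Fintype.card F ^ (m * (m - 1)) * (Fintype.card F ^ m + 1) * ∏ i ∈ Finset.range (m - 1), (Fintype.card F ^ (2 * (i + 1)) - 1) := by
  have hO := card_GO_minus (F := F) rfl m (by omega) a b hab
  obtain ⟨m', rfl⟩ : ∃ m', m = m' + 1 + 1 + 1 := ⟨m - 3, by omega⟩
  have key := minus_key (F := F) (m' := m') (by omega) a b hab
  have e : 2 * (Nat.gcd 4 (Fintype.card F ^ (m' + 1 + 1 + 1) + 1) * Nat.card (Cfsg.POmega F (Cfsg.quadFormMinus (m' + 1 + 1 + 1 - 1) F a b))) =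
      2 * (Fintype.card F ^ ((m' + 1 + 1 + 1) * (m' + 1 + 1 + 1 - 1)) * (Fintype.card F ^ (m' + 1 + 1 + 1) + 1) * ∏ i ∈ Finset.range (m' + 1 + 1 + 1 - 1), (Fintype.card F ^ (2 * (i + 1)) - 1)) := by
    refine Eq.trans key (Eq.trans hO ?_)
    ring
  exact Nat.eq_of_mul_eq_mul_left (by norm_num) e

end Cfsg.Agent.H01.Om
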