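import Cfsg.Agent.Lib.H01.OmOutG
/-! The Frobenius lift of the minus type form; the outer automorphism group in characteristic two. -/
set_option autoImplicit false
set_option linter.unusedSimpArgs false
set_option linter.style.haveILetI false
set_option linter.unusedSectionVars false
set_option linter.unusedVariables false
namespace Cfsg.Agent.H01.Om
open Matrix Cfsg.Agent.Lead.Ortho Cfsg.Agent.Lead.Omega

variable {F : Type*} [Field F] [Fintype F]

/-- the discriminant of an anisotropic form does not vanish -/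
lemma disc_ne {a b : F} (hab : ∀ z₁ z₂ : F, z₁ ^ 2 + a * z₁ * z₂ + b * z₂ ^ 2 = 0 → z₁ = 0 ∧ z₂ = 0) : 4 * b - a ^ 2 ≠ 0 := by
  intro e
  by_cases h2 : (2 : F) = 0
  · have ha : a = 0 := by
      have e1 : a ^ 2 = 0 := by
        have e2 : (4 : F) = 2 * 2 := by norm_num
        rw [e2, h2] at e
        linear_combination -e
      exact pow_eq_zero_iff (by norm_num) |>.1 e1
    subst ha
    have hinj : Function.Injective (fun x : F => x ^ 2) := by
      intro x y hxy
      have e1 : (x - y) ^ 2 = 0 := by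
        have hxy' : x ^ 2 = y ^ 2 := hxy
        have : (x - y) ^ 2 = x ^ 2 + y ^ 2 - 2 * (x * y) := by ring
        rw [this, h2, zero_mul, sub_zero, hxy']
        linear_combination y ^ 2 * h2
      exact sub_eq_zero.1 (pow_eq_zero_iff (by norm_num) |>.1 e1)
    obtain ⟨c, hc⟩ := Finite.surjective_of_injective hinj b
    have hc' : c ^ 2 = b := hc
    have := (hab c 1 (by rw [← hc']; linear_combination c ^ 2 * h2)).2
    exact one_ne_zero this
  · have := (hab (-a) 2 (by linear_combination e)).2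
    exact h2 this

section Vec
variable {a b : F} {n : ℕ}

/-- the vector of the plane reflection inducing the conjugation -/
def dV (n : ℕ) (a : F) : (Fin n ⊕ Fin n) ⊕ Fin 2 → F := Sum.elim (fun _ => 0) ![-a, 2]

lemma Q_dV : Cfsg.quadFormMinus n F a b (dV n a) = 4 * b - a ^ 2 := by
  simp [Cfsg.quadFormMinus, dV]
  ring

lemma polar_dV (v : (Fin n ⊕ Fin n) ⊕ Fin 2 → F) : polarMinus n F a b v (dV n a) = (4 * b - a ^ 2) * v (.inr 1) := by
  simp [polarMinus, dV]
  ring

/-- the reflection acts as the conjugation on the plane -/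
lemma act_R_dV (hab : ∀ z₁ z₂ : F, z₁ ^ 2 + a * z₁ * z₂ + b * z₂ ^ 2 = 0 → z₁ = 0 ∧ z₂ = 0)
    (hd : Cfsg.quadFormMinus n F a b (dV n a) ≠ 0) (v : (Fin n ⊕ Fin n) ⊕ Fin 2 → F) :
    act (R (qfMinus n a b) (dV n a) hd) v = glueFun id id (cj a) v := by
  rw [act_R, polar_dV, Q_dV]
  have hne := disc_ne hab
  have e : (4 * b - a ^ 2) * v (.inr 1) / (4 * b - a ^ 2) = v (.inr 1) := by
    field_simp
  rw [e]
  funext k
  rcases k with ⟨i | i⟩ | j
  · simp [dV]
  · simp [dV]
  · fin_cases j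
    · simp [dV, cj, resP]
      ring
    · simp [dV, cj, resP]
      ring

end Vec

lemma glueP_pow {n : ℕ} (ξ η : Equiv.Perm F) (τ : Equiv.Perm (Fin 2 → F)) (k : ℕ) :
    (glueP ξ η τ ^ k : Equiv.Perm ((Fin n ⊕ Fin n) ⊕ Fin 2 → F)) = glueP (ξ ^ k) (η ^ k) (τ ^ k) := by
  induction k with
  | zero =>
    ext1 v
    funext k
    rcases k with ⟨i | i⟩ | j <;> rfl
  | succ k ih =>
    rw [pow_succ, ih, glueP_mul, pow_succ, pow_succ, pow_succ]

section Frob
variable (p : ℕ) [hp : Fact p.Prime] [hc : CharP F p]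

/-- the Frobenius automorphism -/
noncomputable def phiF : F ≃+* F :=
  RingEquiv.ofBijective (frobenius F p) ⟨frobenius_inj F p, Finite.surjective_of_injective (frobenius_inj F p)⟩

lemma phiF_apply (x : F) : phiF (F := F) p x = x ^ p := rfl

lemma phiF_pow_apply (o : ℕ) (x : F) : (phiF (F := F) p ^ o) x = x ^ (p ^ o) := by
  induction o generalizing x with
  | zero => simp
  | succ k ih =>
    rw [pow_succ]
    change (phiF (F := F) p ^ k) (phiF (F := F) p x) = _
    rw [ih, phiF_apply, ← pow_mul, pow_succ']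

/-- the order of the Frobenius automorphism -/
lemma phiF_dvd {f : ℕ} (hF : Fintype.card F = p ^ f) {o : ℕ} (ho : phiF (F := F) p ^ o = 1) : f ∣ o := by
  letI : Algebra (ZMod p) F := ZMod.algebra F p
  have hfr : Module.finrank (ZMod p) F = f := by
    have h1 := Module.card_eq_pow_finrank (K := ZMod p) (V := F)
    rw [ZMod.card, hF] at h1
    exact (Nat.pow_right_injective (Fact.out : p.Prime).two_le h1).symm
  rw [← hfr, ← FiniteField.orderOf_frobeniusAlgHom (ZMod p) F]
  apply orderOf_dvd_of_pow_eq_one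
  ext x
  rw [AlgHom.coe_pow, FiniteField.coe_frobeniusAlgHom, pow_iterate, AlgHom.one_apply, ZMod.card]
  change x ^ p ^ o = x
  rw [← phiF_pow_apply, ho]
  rfl

variable {a b : F} [hirr : Fact (Irreducible (fP a b))]
  (hab : ∀ z₁ z₂ : F, z₁ ^ 2 + a * z₁ * z₂ + b * z₂ ^ 2 = 0 → z₁ = 0 ∧ z₂ = 0)
include hab

/-- the Frobenius map of the plane as a permutation -/
noncomputable def tauP : Equiv.Perm (Fin 2 → F) :=
  Equiv.ofBijective (tauK a b p) (by
    have hinj : Function.Injective (tauK a b p) :=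
      plane_inj hab (σ := phiF (F := F) p) (κ := 1) one_ne_zero (tau_add a b p) (fun z => by rw [Nm_tau, one_mul, phiF_apply])
    exact ⟨hinj, Finite.surjective_of_injective hinj⟩)

lemma tauP_apply (z : Fin 2 → F) : tauP p hab z = tauK a b p z := rfl

/-- the Frobenius lift -/
noncomputable def frobT (n : ℕ) : Equiv.Perm ((Fin n ⊕ Fin n) ⊕ Fin 2 → F) :=
  glueP (phiF (F := F) p).toEquiv (phiF (F := F) p).toEquiv (tauP p hab)

lemma isSemi_frobT (n : ℕ) : IsSemi (Cfsg.quadFormMinus n F a b) (frobT p hab n) (phiF (F := F) p) 1 := by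
  apply isSemi_glue one_ne_zero
  · exact fun x y => map_add (phiF (F := F) p) x y
  · exact fun x y => map_add (phiF (F := F) p) x y
  · exact tau_add a b p
  · exact fun c x => map_mul (phiF (F := F) p) c x
  · exact fun c x => map_mul (phiF (F := F) p) c x
  · exact fun c z => tau_smul a b p c z
  · intro x y
    change (phiF (F := F) p) x * (phiF (F := F) p) y = 1 * _
    rw [map_mul, one_mul]
  · intro z
    change Nm a b (tauK a b p z) = 1 * (phiF (F := F) p) _
    rw [Nm_tau, one_mul, phiF_apply]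

/-- **The `f`-th power of the Frobenius lift is a reflection.** -/
lemma frobT_pow (n : ℕ) {f : ℕ} (hF : Fintype.card F = p ^ f) (hd : Cfsg.quadFormMinus n F a b (dV n a) ≠ 0) :
    frobT p hab n ^ f = permO (R (qfMinus n a b) (dV n a) hd) := by
  have e1 : ((phiF (F := F) p).toEquiv ^ f : Equiv.Perm F) = 1 := by
    ext x
    rw [Equiv.Perm.coe_pow]
    have : ∀ (k : ℕ) (y : F), ((phiF (F := F) p).toEquiv)^[k] y = y ^ (p ^ k) := by
      intro k y
      induction k generalizing y with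
      | zero => simp
      | succ k ih =>
        rw [Function.iterate_succ_apply, ih]
        change (y ^ p) ^ (p ^ k) = _
        rw [← pow_mul, pow_succ']
    rw [this, ← hF, FiniteField.pow_card]
    rfl
  ext1 v
  rw [permO_apply, act_R_dV hab, frobT, glueP_pow, e1, glueP_apply]
  funext k
  rcases k with ⟨i | i⟩ | j
  · rfl
  · rfl
  · simp only [glueFun_z]
    rw [Equiv.Perm.coe_pow]
    congr 1
    have : ∀ (k : ℕ) (z : Fin 2 → F), (tauP p hab)^[k] z = (tauK a b p)^[k] z := by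
      intro k z
      induction k generalizing z with
      | zero => rfl
      | succ k ih =>
        rw [Function.iterate_succ_apply, Function.iterate_succ_apply, ih]
        rfl
    rw [this, tau_iterate_card a b p hF]

end Frob

/-- **The outer automorphism group of `PΩ⁻` in characteristic two.** -/
theorem out_minus_two {f m : ℕ} (hf : 1 ≤ f) (hF : Fintype.card F = 2 ^ f) (hm : 4 ≤ m) (a b : F)
    (hab : ∀ z₁ z₂ : F, z₁ ^ 2 + a * z₁ * z₂ + b * z₂ ^ 2 = 0 → z₁ = 0 ∧ z₂ = 0) :
    IsCyclic (Cfsg.Out (Cfsg.POmega F (Cfsg.quadFormMinus (m - 1) F a b))) ∧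
      Nat.card (Cfsg.Out (Cfsg.POmega F (Cfsg.quadFormMinus (m - 1) F a b))) = 2 * f := by
  obtain ⟨n, rfl⟩ : ∃ n, m = n + 1 := ⟨m - 1, by omega⟩
  change IsCyclic (Cfsg.Out (Cfsg.POmega F (Cfsg.quadFormMinus n F a b))) ∧
      Nat.card (Cfsg.Out (Cfsg.POmega F (Cfsg.quadFormMinus n F a b))) = 2 * f
  have hn : 3 ≤ n := by omega
  haveI : Fact (Nat.Prime 2) := ⟨Nat.prime_two⟩
  haveI : CharP F 2 := Cfsg.Agent.Lead.AutPSL.charP_of_card hF hf
  haveI : Fact (Irreducible (fP a b)) := ⟨fP_irr hab⟩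
  obtain ⟨m', rfl⟩ : ∃ m', n = m' + 1 + 1 := ⟨n - 2, by omega⟩
  have C := mkCx (qfMinus (F := F) (m' + 1 + 1) a b) (ndMinus (F := F) (m' + 1 + 1) a b hab) (frameMinus_HF (F := F) a b (m' + 1 + 1)) (by omega) (frameMinus_anis (F := F) a b hab (m' + 1 + 1))
  have hcard : Nat.card (Cfsg.Out (Cfsg.POmega F (Cfsg.quadFormMinus (m' + 1 + 1) F a b))) = 2 * f := by
    have e1 := card_mulaut_minus 2 f hf hF (m' + 1 + 1) hn a b hab
    rw [if_pos rfl, ← C.card_out] at e1
    exact Nat.eq_of_mul_eq_mul_right Nat.card_pos e1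
  refine ⟨?_, hcard⟩
  have hd : Cfsg.quadFormMinus (m' + 1 + 1) F a b (dV (m' + 1 + 1) a) ≠ 0 := by
    rw [Q_dV]
    exact disc_ne hab
  have hι : Even (Fintype.card ((Fin (m' + 1 + 1) ⊕ Fin (m' + 1 + 1)) ⊕ Fin 2)) := by
    simp only [Fintype.card_sum, Fintype.card_fin]
    exact ⟨m' + 1 + 1 + 1, by ring⟩
  let T : GS (Cfsg.quadFormMinus (m' + 1 + 1) F a b) := ⟨frobT 2 hab (m' + 1 + 1), _, _, isSemi_frobT 2 hab (m' + 1 + 1)⟩
  refine C.out_cyclic_of (T := T) (isSemi_frobT 2 hab (m' + 1 + 1)) (by omega) (fun o ho => phiF_dvd 2 hF ho) hcard ?_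
  have e1 : T ^ f = ofO (R (qfMinus (m' + 1 + 1) a b) (dV (m' + 1 + 1) a) hd) := by
    apply Subtype.ext
    exact frobT_pow 2 hab (m' + 1 + 1) hF hd
  rw [e1]
  exact C.refl_not_inn hι hd

end Cfsg.Agent.H01.Om
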