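import Cfsg.Agent.Lib.H01.OmMinus2
/-! The quadratic extension of the field and the plane of the minus type form. -/
set_option autoImplicit false
set_option linter.unusedSimpArgs false
set_option linter.style.haveILetI false
set_option linter.unusedSectionVars false
set_option linter.unusedVariables false
namespace Cfsg.Agent.H01.Om
open Polynomial

variable {F : Type*} [Field F] [Fintype F]

/-- the minimal polynomial -/
noncomputable def fP (a b : F) : F[X] := X ^ 2 - C a * X + C b

omit [Fintype F] in
lemma fP_natDegree (a b : F) : (fP a b).natDegree = 2 := by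
  unfold fP
  compute_degree!

omit [Fintype F] in
lemma fP_monic (a b : F) : (fP a b).Monic := by
  unfold fP
  monicity!

lemma fP_irr {a b : F} (hab : ∀ z₁ z₂ : F, z₁ ^ 2 + a * z₁ * z₂ + b * z₂ ^ 2 = 0 → z₁ = 0 ∧ z₂ = 0) : Irreducible (fP a b) := by
  rw [(fP_monic a b).irreducible_iff_roots_eq_zero_of_degree_le_three (by rw [fP_natDegree]) (by rw [fP_natDegree]; norm_num)]
  apply Multiset.eq_zero_of_forall_notMem
  intro r hr
  have e1 : (fP a b).eval r = 0 := (mem_roots'.1 hr).2
  simp only [fP, eval_add, eval_sub, eval_mul, eval_pow, eval_X, eval_C] at e1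
  have e2 := (hab (-r) 1 (by linear_combination e1)).2
  exact one_ne_zero e2

section KK
variable (a b : F) [hirr : Fact (Irreducible (fP a b))]

/-- the quadratic extension -/
abbrev KK := AdjoinRoot (fP a b)

/-- the generator -/
noncomputable abbrev thK : KK a b := AdjoinRoot.root (fP a b)

/-- the inclusion of the field -/
noncomputable abbrev ofK : F →+* KK a b := AdjoinRoot.of (fP a b)

omit [Fintype F] hirr in
lemma eval₂_fP {S : Type*} [CommRing S] (i : F →+* S) (x : S) : eval₂ i x (fP a b) = x ^ 2 - i a * x + i b := by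
  unfold fP
  rw [eval₂_add, eval₂_sub, eval₂_mul, eval₂_pow, eval₂_X, eval₂_C, eval₂_C]

lemma th_rel : thK a b ^ 2 = ofK a b a * thK a b - ofK a b b := by
  have e := AdjoinRoot.eval₂_root (fP a b)
  rw [eval₂_fP] at e
  linear_combination e

lemma ofK_inj : Function.Injective (ofK a b) := (ofK a b).injective

/-- coordinates -/
noncomputable def iK (z : Fin 2 → F) : KK a b := ofK a b (z 0) + ofK a b (z 1) * thK a b

lemma iK_add (z z' : Fin 2 → F) : iK a b (z + z') = iK a b z + iK a b z' := by
  simp only [iK, Pi.add_apply, map_add]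
  ring

lemma iK_smul (c : F) (z : Fin 2 → F) : iK a b (c • z) = ofK a b c * iK a b z := by
  simp only [iK, Pi.smul_apply, smul_eq_mul, map_mul]
  ring

lemma iK_Lw (w z : Fin 2 → F) : iK a b (Lw a b w z) = iK a b w * iK a b z := by
  simp only [iK, Lw, Matrix.cons_val_zero, Matrix.cons_val_one, map_add, map_sub, map_mul]
  linear_combination (-(ofK a b (w 1) * ofK a b (z 1))) * th_rel a b

lemma th_notMem (r : F) : thK a b ≠ ofK a b r := by
  intro e
  have e1 := th_rel a b
  rw [e, ← map_pow, ← map_mul, ← map_sub] at e1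
  have e2 := ofK_inj a b e1
  apply (hirr.out).not_isRoot_of_natDegree_ne_one (x := r) (by rw [fP_natDegree]; norm_num)
  simp only [fP, IsRoot.def, eval_add, eval_sub, eval_mul, eval_pow, eval_X, eval_C]
  rw [e2]
  ring

lemma iK_inj : Function.Injective (iK a b) := by
  have key : ∀ z : Fin 2 → F, iK a b z = 0 → z = 0 := by
    intro z hz
    have h1 : z 1 = 0 := by
      by_contra hne
      apply th_notMem a b (-(z 0) / z 1)
      have e1 : ofK a b (z 1) ≠ 0 := fun e => hne ((map_eq_zero _).1 e)
      rw [map_div₀, map_neg]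
      field_simp
      unfold iK at hz
      linear_combination hz
    have h0 : z 0 = 0 := by
      unfold iK at hz
      rw [h1, map_zero, zero_mul, add_zero] at hz
      exact (map_eq_zero _).1 hz
    funext j
    fin_cases j
    · exact h0
    · exact h1
  intro z z' e
  have e1 : iK a b (z - z') = 0 := by
    have e2 := iK_add a b (z - z') z'
    rw [sub_add_cancel, e] at e2
    simpa using e2.symm
  exact sub_eq_zero.1 (key _ e1)

lemma iK_surj : Function.Surjective (iK a b) := by
  have hmulth : ∀ z : Fin 2 → F, iK a b z * thK a b = iK a b ![-(b * z 1), z 0 + a * z 1] := by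
    intro z
    simp only [iK, Matrix.cons_val_zero, Matrix.cons_val_one, map_add, map_neg, map_mul]
    linear_combination (ofK a b (z 1)) * th_rel a b
  intro x
  induction x using AdjoinRoot.induction_on with
  | ih p =>
    induction p using Polynomial.induction_on' with
    | add p q hp hq =>
      obtain ⟨z, hz⟩ := hp
      obtain ⟨z', hz'⟩ := hq
      exact ⟨z + z', by rw [iK_add, hz, hz', map_add]⟩
    | monomial n c =>
      induction n with
      | zero =>
        refine ⟨![c, 0], ?_⟩
        simp only [iK, Matrix.cons_val_zero, Matrix.cons_val_one, map_zero, zero_mul, add_zero]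
        rw [monomial_zero_left]
        rfl
      | succ k ih =>
        obtain ⟨z, hz⟩ := ih
        refine ⟨_, (hmulth z).symm.trans ?_⟩
        rw [hz]
        change _ * AdjoinRoot.root (fP a b) = _
        rw [← AdjoinRoot.mk_X, ← map_mul, monomial_mul_X]

/-- coordinates as an equivalence -/
noncomputable def iE : (Fin 2 → F) ≃ KK a b := Equiv.ofBijective (iK a b) ⟨iK_inj a b, iK_surj a b⟩

lemma iE_apply (z : Fin 2 → F) : iE a b z = iK a b z := rfl

lemma iK_symm (x : KK a b) : iK a b ((iE a b).symm x) = x := (iE a b).apply_symm_apply x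

/-- the conjugation of the extension -/
noncomputable def cK : KK a b →+* KK a b :=
  AdjoinRoot.lift (ofK a b) (ofK a b a - thK a b) (by
    rw [eval₂_fP]
    linear_combination th_rel a b)

lemma cK_of (c : F) : cK a b (ofK a b c) = ofK a b c := AdjoinRoot.lift_of _

lemma cK_th : cK a b (thK a b) = ofK a b a - thK a b := AdjoinRoot.lift_root _

/-- the conjugation in coordinates -/
def cj (a : F) (z : Fin 2 → F) : Fin 2 → F := ![z 0 + a * z 1, - z 1]

lemma iK_cj (z : Fin 2 → F) : iK a b (cj a z) = cK a b (iK a b z) := by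
  simp only [iK, cj, Matrix.cons_val_zero, Matrix.cons_val_one, map_add, map_neg, map_mul, cK_of, cK_th]
  ring

/-- the norm -/
lemma of_Nm (z : Fin 2 → F) : ofK a b (Nm a b z) = iK a b z * cK a b (iK a b z) := by
  simp only [iK, Nm, map_add, map_mul, map_pow, cK_of, cK_th]
  linear_combination ((ofK a b (z 1)) ^ 2) * th_rel a b

section Char
variable (p : ℕ) [hp : Fact p.Prime] [hc : CharP F p]

instance charP_K : CharP (KK a b) p := charP_of_injective_ringHom (f := ofK a b) (ofK_inj a b) p

/-- the Frobenius map of the plane -/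
noncomputable def tauK (z : Fin 2 → F) : Fin 2 → F := (iE a b).symm ((iK a b z) ^ p)

lemma iK_tau (z : Fin 2 → F) : iK a b (tauK a b p z) = (iK a b z) ^ p := iK_symm a b _

lemma tau_add (z z' : Fin 2 → F) : tauK a b p (z + z') = tauK a b p z + tauK a b p z' := by
  apply iK_inj a b
  rw [iK_add, iK_tau, iK_tau, iK_tau, iK_add, add_pow_char]

lemma tau_smul (c : F) (z : Fin 2 → F) : tauK a b p (c • z) = c ^ p • tauK a b p z := by
  apply iK_inj a b
  rw [iK_smul, iK_tau, iK_tau, iK_smul, mul_pow, map_pow]

lemma Nm_tau (z : Fin 2 → F) : Nm a b (tauK a b p z) = (Nm a b z) ^ p := by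
  apply ofK_inj a b
  rw [of_Nm, iK_tau, map_pow, map_pow, of_Nm, mul_pow]

lemma tau_Lw (w z : Fin 2 → F) : tauK a b p (Lw a b w z) = Lw a b (tauK a b p w) (tauK a b p z) := by
  apply iK_inj a b
  rw [iK_tau, iK_Lw, iK_Lw, iK_tau, iK_tau, mul_pow]

lemma tau_iterate (k : ℕ) (z : Fin 2 → F) : iK a b ((tauK a b p)^[k] z) = (iK a b z) ^ (p ^ k) := by
  induction k generalizing z with
  | zero =>
    simp
  | succ k ih =>
    rw [Function.iterate_succ_apply, ih, iK_tau, ← pow_mul, pow_succ']

/-- the power map of the field order is the conjugation -/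
lemma pow_card_eq_cK {f : ℕ} (hF : Fintype.card F = p ^ f) (x : KK a b) : x ^ (p ^ f) = cK a b x := by
  classical
  have hc1 : ∀ c : F, (ofK a b c) ^ (p ^ f) = ofK a b c := by
    intro c
    rw [← map_pow, ← hF, FiniteField.pow_card]
  have hne : (thK a b) ^ (p ^ f) ≠ thK a b := by
    intro e
    have hq1 : 1 < Fintype.card F := Fintype.one_lt_card
    let P : (KK a b)[X] := X ^ (Fintype.card F) - X
    have hP : P ≠ 0 := FiniteField.X_pow_card_sub_X_ne_zero _ hq1
    let Z : Finset (KK a b) := insert (thK a b) (Finset.univ.image (ofK a b))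
    have hZ : Z.val ⊆ P.roots := by
      intro x hx
      rw [mem_roots hP, IsRoot.def]
      simp only [P, eval_sub, eval_pow, eval_X]
      have hx' : x ∈ Z := hx
      rcases Finset.mem_insert.1 hx' with rfl | hx2
      · rw [hF, e, sub_self]
      · obtain ⟨c, -, rfl⟩ := Finset.mem_image.1 hx2
        rw [hF, hc1, sub_self]
    have e1 := card_le_degree_of_subset_roots hZ
    have e2 : P.natDegree = Fintype.card F := FiniteField.X_pow_card_sub_X_natDegree_eq _ hq1
    have e3 : Z.card = Fintype.card F + 1 := by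
      rw [Finset.card_insert_of_notMem, Finset.card_image_of_injective _ (ofK_inj a b), Finset.card_univ]
      intro hm
      obtain ⟨c, -, hc⟩ := Finset.mem_image.1 hm
      exact th_notMem a b c hc.symm
    omega
  have hΦ : ∀ x y : KK a b, (x + y) ^ (p ^ f) = x ^ (p ^ f) + y ^ (p ^ f) := fun x y => add_pow_char_pow x y p f
  have hth : (thK a b) ^ (p ^ f) = ofK a b a - thK a b := by
    have e1 : (thK a b ^ (p ^ f)) ^ 2 = ofK a b a * thK a b ^ (p ^ f) - ofK a b b := by
      have e2 : thK a b ^ 2 = (ofK a b a * thK a b) + ofK a b (-b) := by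
        rw [th_rel, map_neg]
        ring
      have e3 : (thK a b ^ 2) ^ (p ^ f) = ((ofK a b a * thK a b) + ofK a b (-b)) ^ (p ^ f) := by rw [← e2]
      rw [hΦ, mul_pow, hc1, hc1, map_neg] at e3
      have e4 : (thK a b ^ (p ^ f)) ^ 2 = (thK a b ^ 2) ^ (p ^ f) := by
        rw [← pow_mul, ← pow_mul, mul_comm]
      rw [e4, e3]
      ring
    have e4 : (thK a b ^ (p ^ f) - thK a b) * (thK a b ^ (p ^ f) - (ofK a b a - thK a b)) = 0 := by
      linear_combination e1 - th_rel a b
    rcases mul_eq_zero.1 e4 with e5 | e5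
    · exact absurd (sub_eq_zero.1 e5) hne
    · exact sub_eq_zero.1 e5
  obtain ⟨z, rfl⟩ := iK_surj a b x
  rw [← iK_cj]
  simp only [iK, cj, Matrix.cons_val_zero, Matrix.cons_val_one, map_add, map_neg, map_mul]
  rw [hΦ, mul_pow, hc1, hc1, hth]
  ring

lemma tau_iterate_card {f : ℕ} (hF : Fintype.card F = p ^ f) (z : Fin 2 → F) : (tauK a b p)^[f] z = cj a z := by
  apply iK_inj a b
  rw [tau_iterate, pow_card_eq_cK a b p hF, iK_cj]

end Char

end KK

end Cfsg.Agent.H01.Om
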