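import Cfsg.Agent.Lib.H01.OmSem2
/-! Semilinear similarities of the minus type form. -/
set_option autoImplicit false
set_option linter.unusedSimpArgs false
set_option linter.style.haveILetI false
set_option linter.unusedSectionVars false
set_option linter.unusedVariables false
namespace Cfsg.Agent.H01.Om
open Matrix Cfsg.Agent.Lead.Ortho Cfsg.Agent.Lead.Omega

variable {F : Type*} [Field F] [Fintype F]

section Plane
variable (a b : F)

/-- the norm form of the plane -/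
def Nm (z : Fin 2 → F) : F := z 0 ^ 2 + a * z 0 * z 1 + b * z 1 ^ 2

/-- the polar form of the plane -/
def Pol (u v : Fin 2 → F) : F := 2 * u 0 * v 0 + a * (u 0 * v 1 + u 1 * v 0) + 2 * b * u 1 * v 1

/-- the multiplication of the plane -/
def Lw (w z : Fin 2 → F) : Fin 2 → F := ![w 0 * z 0 - b * w 1 * z 1, w 0 * z 1 + w 1 * z 0 + a * w 1 * z 1]

lemma Nm_Lw (w z : Fin 2 → F) : Nm a b (Lw a b w z) = Nm a b w * Nm a b z := by
  simp only [Nm, Lw, Matrix.cons_val_zero, Matrix.cons_val_one]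
  ring

lemma Lw_add (w z z' : Fin 2 → F) : Lw a b w (z + z') = Lw a b w z + Lw a b w z' := by
  funext j
  fin_cases j
  · simp only [Lw, Pi.add_apply, Fin.zero_eta, Matrix.cons_val_zero]
    ring
  · simp only [Lw, Pi.add_apply, Fin.mk_one, Matrix.cons_val_one, Matrix.cons_val_zero]
    ring

lemma Lw_smul (w z : Fin 2 → F) (c : F) : Lw a b w (c • z) = c • Lw a b w z := by
  funext j
  fin_cases j
  · simp only [Lw, Pi.smul_apply, smul_eq_mul, Fin.zero_eta, Matrix.cons_val_zero]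
    ring
  · simp only [Lw, Pi.smul_apply, smul_eq_mul, Fin.mk_one, Matrix.cons_val_one, Matrix.cons_val_zero]
    ring

lemma Nm_comb (u v : Fin 2 → F) (s t : F) :
    Nm a b (s • u + t • v) = s ^ 2 * Nm a b u + t ^ 2 * Nm a b v + s * t * Pol a b u v := by
  simp only [Nm, Pol, Pi.add_apply, Pi.smul_apply, smul_eq_mul]
  ring

/-- restriction to the plane -/
def resP {n : ℕ} (v : (Fin n ⊕ Fin n) ⊕ Fin 2 → F) : Fin 2 → F := fun j => v (.inr j)

variable {a b}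
variable (hab : ∀ z₁ z₂ : F, z₁ ^ 2 + a * z₁ * z₂ + b * z₂ ^ 2 = 0 → z₁ = 0 ∧ z₂ = 0)
include hab

lemma Nm_eq_zero {z : Fin 2 → F} (hz : Nm a b z = 0) : z = 0 := by
  obtain ⟨e1, e2⟩ := hab _ _ hz
  funext j
  fin_cases j
  · exact e1
  · exact e2

/-- an additive map multiplying the norm form is a permutation -/
lemma plane_inj {τ : (Fin 2 → F) → (Fin 2 → F)} {σ : F ≃+* F} {κ : F} (hκ : κ ≠ 0) (hadd : ∀ z z', τ (z + z') = τ z + τ z')
    (hN : ∀ z, Nm a b (τ z) = κ * σ (Nm a b z)) : Function.Injective τ := by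
  intro z z' e
  have e1 : τ (z - z') = 0 := by
    have e2 := hadd (z - z') z'
    rw [sub_add_cancel, e] at e2
    simpa using e2.symm
  have e2 := hN (z - z')
  rw [e1] at e2
  have e3 : Nm a b (0 : Fin 2 → F) = 0 := by simp [Nm]
  rw [e3] at e2
  have e4 := (map_eq_zero σ).1 ((mul_eq_zero.1 e2.symm).resolve_left hκ)
  exact sub_eq_zero.1 (Nm_eq_zero hab e4)

omit hab in
lemma card_top_plane : Nat.card (⊤ : Submodule F ((Fin 0 ⊕ Fin 0) ⊕ Fin 2 → F)) = Fintype.card F ^ 2 := by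
  rw [Nat.card_congr Submodule.topEquiv.toEquiv, Nat.card_eq_fintype_card, Fintype.card_fun]
  simp

omit hab in
lemma Q0_eq (v : (Fin 0 ⊕ Fin 0) ⊕ Fin 2 → F) : Cfsg.quadFormMinus 0 F a b v = Nm a b (resP v) := by
  simp [Cfsg.quadFormMinus, Nm, resP]

omit hab in
lemma B0_eq (u v : (Fin 0 ⊕ Fin 0) ⊕ Fin 2 → F) : polarMinus 0 F a b u v = Pol a b (resP u) (resP v) := by
  simp [polarMinus, Pol, resP]

lemma anis0 : ∀ x ∈ (⊤ : Submodule F ((Fin 0 ⊕ Fin 0) ⊕ Fin 2 → F)), Cfsg.quadFormMinus 0 F a b x = 0 → x = 0 := by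
  intro x _ hx
  rw [Q0_eq] at hx
  have e := Nm_eq_zero hab hx
  funext k
  rcases k with ⟨i | i⟩ | j
  · exact i.elim0
  · exact i.elim0
  · exact congrFun e j

/-- every non-zero element is a norm -/
lemma exists_norm {κ : F} (hκ : κ ≠ 0) : ∃ w, Nm a b w = κ := by
  have e1 := cnt_eq (qfMinus (F := F) 0 a b) card_top_plane (anis0 hab) κ hκ
  have e2 : 0 < cntS (Cfsg.quadFormMinus 0 F a b) ⊤ κ := by
    rw [e1]
    omega
  unfold cntS at e2
  obtain ⟨⟨x, -, Qx⟩⟩ := (Nat.card_pos_iff.1 e2).1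
  exact ⟨resP x, by rw [← Q0_eq, Qx]⟩

/-- pairs with prescribed Gram data -/
lemma exists_gram {a' b' : F} (hab' : ∀ z₁ z₂ : F, z₁ ^ 2 + a' * z₁ * z₂ + b' * z₂ ^ 2 = 0 → z₁ = 0 ∧ z₂ = 0) :
    ∃ u v : Fin 2 → F, Nm a b u = 1 ∧ Nm a b v = b' ∧ Pol a b u v = a' := by
  have hnd0 : ND (polarMinus 0 F a b) (⊤ : Submodule F ((Fin 0 ⊕ Fin 0) ⊕ Fin 2 → F)) := ndMinus 0 a b hab
  have e1 := binary_frames (qfMinus (F := F) 0 a b) card_top_plane (anis0 hab) hnd0 a' b' hab'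
  have e2 : 0 < Nat.card {p : ((Fin 0 ⊕ Fin 0) ⊕ Fin 2 → F) × ((Fin 0 ⊕ Fin 0) ⊕ Fin 2 → F) //
      p.1 ∈ (⊤ : Submodule F ((Fin 0 ⊕ Fin 0) ⊕ Fin 2 → F)) ∧ p.2 ∈ (⊤ : Submodule F ((Fin 0 ⊕ Fin 0) ⊕ Fin 2 → F)) ∧
      Cfsg.quadFormMinus 0 F a b p.1 = 1 ∧ Cfsg.quadFormMinus 0 F a b p.2 = b' ∧ polarMinus 0 F a b p.1 p.2 = a'} := by
    rw [e1]
    omega
  obtain ⟨⟨p, -, -, e3, e4, e5⟩⟩ := (Nat.card_pos_iff.1 e2).1
  refine ⟨resP p.1, resP p.2, ?_, ?_, ?_⟩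
  · rw [← Q0_eq, e3]
  · rw [← Q0_eq, e4]
  · rw [← B0_eq, e5]

/-- semilinear maps of the plane -/
lemma exists_plane_semi (σ : F ≃+* F) : ∃ τ : (Fin 2 → F) → (Fin 2 → F),
    (∀ z z', τ (z + z') = τ z + τ z') ∧ (∀ (c : F) z, τ (c • z) = σ c • τ z) ∧ ∀ z, Nm a b (τ z) = σ (Nm a b z) := by
  have hab' : ∀ z₁ z₂ : F, z₁ ^ 2 + σ a * z₁ * z₂ + σ b * z₂ ^ 2 = 0 → z₁ = 0 ∧ z₂ = 0 := by
    intro z₁ z₂ e
    have e1 : σ ((σ.symm z₁) ^ 2 + a * (σ.symm z₁) * (σ.symm z₂) + b * (σ.symm z₂) ^ 2) = 0 := by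
      simp only [map_add, map_mul, map_pow, RingEquiv.apply_symm_apply]
      exact e
    obtain ⟨e2, e3⟩ := hab _ _ ((map_eq_zero σ).1 e1)
    exact ⟨by simpa using e2, by simpa using e3⟩
  obtain ⟨u, v, e1, e2, e3⟩ := exists_gram hab hab'
  refine ⟨fun z => σ (z 0) • u + σ (z 1) • v, ?_, ?_, ?_⟩
  · intro z z'
    simp only [Pi.add_apply, map_add, add_smul]
    abel
  · intro c z
    simp only [Pi.smul_apply, smul_eq_mul, map_mul, smul_add, smul_smul]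
  · intro z
    rw [Nm_comb, e1, e2, e3]
    simp only [Nm, map_add, map_mul, map_pow]
    ring

end Plane

section Glue
variable {n : ℕ}

/-- maps glued from the hyperbolic part and the plane -/
def glueFun (ξ η : F → F) (τ : (Fin 2 → F) → (Fin 2 → F)) (v : (Fin n ⊕ Fin n) ⊕ Fin 2 → F) : (Fin n ⊕ Fin n) ⊕ Fin 2 → F :=
  Sum.elim (Sum.elim (fun i => ξ (v (.inl (.inl i)))) (fun i => η (v (.inl (.inr i))))) (τ (resP v))

@[simp] lemma glueFun_x (ξ η : F → F) (τ : (Fin 2 → F) → (Fin 2 → F)) (v : (Fin n ⊕ Fin n) ⊕ Fin 2 → F) (i : Fin n) :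
    glueFun ξ η τ v (.inl (.inl i)) = ξ (v (.inl (.inl i))) := rfl

@[simp] lemma glueFun_y (ξ η : F → F) (τ : (Fin 2 → F) → (Fin 2 → F)) (v : (Fin n ⊕ Fin n) ⊕ Fin 2 → F) (i : Fin n) :
    glueFun ξ η τ v (.inl (.inr i)) = η (v (.inl (.inr i))) := rfl

@[simp] lemma glueFun_z (ξ η : F → F) (τ : (Fin 2 → F) → (Fin 2 → F)) (v : (Fin n ⊕ Fin n) ⊕ Fin 2 → F) (j : Fin 2) :
    glueFun ξ η τ v (.inr j) = τ (resP v) j := rfl

lemma resP_glueFun (ξ η : F → F) (τ : (Fin 2 → F) → (Fin 2 → F)) (v : (Fin n ⊕ Fin n) ⊕ Fin 2 → F) :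
    resP (glueFun ξ η τ v) = τ (resP v) := rfl

/-- the permutation of the glued map -/
def glueP (ξ η : Equiv.Perm F) (τ : Equiv.Perm (Fin 2 → F)) : Equiv.Perm ((Fin n ⊕ Fin n) ⊕ Fin 2 → F) where
  toFun := glueFun ξ η τ
  invFun := glueFun (ξ⁻¹ : Equiv.Perm F) (η⁻¹ : Equiv.Perm F) (τ⁻¹ : Equiv.Perm (Fin 2 → F))
  left_inv v := by
    funext k
    rcases k with ⟨i | i⟩ | j
    · simp [Tinv_T]
    · simp [Tinv_T]
    · simp only [glueFun_z, resP_glueFun]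
      rw [Tinv_T]
      rfl
  right_inv v := by
    funext k
    rcases k with ⟨i | i⟩ | j
    · simp [T_Tinv]
    · simp [T_Tinv]
    · simp only [glueFun_z, resP_glueFun]
      rw [T_Tinv]
      rfl

lemma glueP_apply (ξ η : Equiv.Perm F) (τ : Equiv.Perm (Fin 2 → F)) (v : (Fin n ⊕ Fin n) ⊕ Fin 2 → F) :
    glueP ξ η τ v = glueFun ξ η τ v := rfl

lemma glueP_mul (ξ η ξ' η' : Equiv.Perm F) (τ τ' : Equiv.Perm (Fin 2 → F)) :
    (glueP ξ η τ * glueP ξ' η' τ' : Equiv.Perm ((Fin n ⊕ Fin n) ⊕ Fin 2 → F)) = glueP (ξ * ξ') (η * η') (τ * τ') := rfl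

lemma Q_glue (a b : F) (ξ η : F → F) (τ : (Fin 2 → F) → (Fin 2 → F)) (v : (Fin n ⊕ Fin n) ⊕ Fin 2 → F) :
    Cfsg.quadFormMinus n F a b (glueFun ξ η τ v) =
      (∑ i, ξ (v (.inl (.inl i))) * η (v (.inl (.inr i)))) + Nm a b (τ (resP v)) := rfl

lemma Q_eq_Nm (a b : F) (v : (Fin n ⊕ Fin n) ⊕ Fin 2 → F) :
    Cfsg.quadFormMinus n F a b v = (∑ i, v (.inl (.inl i)) * v (.inl (.inr i))) + Nm a b (resP v) := rfl

/-- conditions for a glued map to be a semilinear similarity -/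
lemma isSemi_glue {a b : F} {σ : F ≃+* F} {κ : F} (hκ : κ ≠ 0) {ξ η : Equiv.Perm F} {τ : Equiv.Perm (Fin 2 → F)}
    (hξ : ∀ x y, ξ (x + y) = ξ x + ξ y) (hη : ∀ x y, η (x + y) = η x + η y) (hτ : ∀ z z', τ (z + z') = τ z + τ z')
    (hξ' : ∀ c x, ξ (c * x) = σ c * ξ x) (hη' : ∀ c x, η (c * x) = σ c * η x) (hτ' : ∀ (c : F) z, τ (c • z) = σ c • τ z)
    (hξη : ∀ x y, ξ x * η y = κ * σ (x * y)) (hN : ∀ z, Nm a b (τ z) = κ * σ (Nm a b z)) :
    IsSemi (Cfsg.quadFormMinus n F a b) (glueP ξ η τ) σ κ where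
  hκ := hκ
  hadd x y := by
    funext k
    rcases k with ⟨i | i⟩ | j
    · exact hξ _ _
    · exact hη _ _
    · exact congrFun (hτ _ _) j
  hsmul c x := by
    funext k
    rcases k with ⟨i | i⟩ | j
    · exact hξ' _ _
    · exact hη' _ _
    · exact congrFun (hτ' c (resP x)) j
  hQ x := by
    rw [glueP_apply, Q_glue, Q_eq_Nm, hN, map_add, map_sum, mul_add, Finset.mul_sum]
    simp only [hξη]

/-- **All data are realized by semilinear similarities.** -/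
theorem exists_semi_minus {a b : F} (hab : ∀ z₁ z₂ : F, z₁ ^ 2 + a * z₁ * z₂ + b * z₂ ^ 2 = 0 → z₁ = 0 ∧ z₂ = 0)
    (σ : F ≃+* F) (κ : Fˣ) : ∃ T, IsSemi (Cfsg.quadFormMinus n F a b) T σ κ := by
  obtain ⟨τ, h1, h2, h3⟩ := exists_plane_semi hab σ
  obtain ⟨w, hw⟩ := exists_norm hab κ.ne_zero
  have hinj : Function.Injective (fun z => Lw a b w (τ z)) := by
    apply plane_inj hab (σ := σ) κ.ne_zero
    · intro z z'
      simp only [h1, Lw_add]
    · intro z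
      rw [Nm_Lw, hw, h3]
  let ξ : Equiv.Perm F :=
    { toFun := fun x => κ * σ x
      invFun := fun x => σ.symm ((κ⁻¹ : Fˣ) * x)
      left_inv := fun x => by simp
      right_inv := fun x => by simp }
  let η : Equiv.Perm F := σ.toEquiv
  let P : Equiv.Perm (Fin 2 → F) := Equiv.ofBijective _ ⟨hinj, Finite.surjective_of_injective hinj⟩
  refine ⟨glueP ξ η P, isSemi_glue κ.ne_zero ?_ ?_ ?_ ?_ ?_ ?_ ?_ ?_⟩
  · intro x y
    change (κ : F) * σ (x + y) = κ * σ x + κ * σ y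
    rw [map_add, mul_add]
  · intro x y
    exact map_add σ x y
  · intro z z'
    change Lw a b w (τ (z + z')) = Lw a b w (τ z) + Lw a b w (τ z')
    rw [h1, Lw_add]
  · intro c x
    change (κ : F) * σ (c * x) = σ c * (κ * σ x)
    rw [map_mul]
    ring
  · intro c x
    exact map_mul σ c x
  · intro c z
    change Lw a b w (τ (c • z)) = σ c • Lw a b w (τ z)
    rw [h2, Lw_smul]
  · intro x y
    change (κ : F) * σ x * σ y = κ * σ (x * y)
    rw [map_mul]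
    ring
  · intro z
    change Nm a b (Lw a b w (τ z)) = _
    rw [Nm_Lw, hw, h3]

/-- **The order of the automorphism group of `PΩ⁻`.** -/
theorem card_aut_minus {a b : F} (hab : ∀ z₁ z₂ : F, z₁ ^ 2 + a * z₁ * z₂ + b * z₂ ^ 2 = 0 → z₁ = 0 ∧ z₂ = 0) (hn : 3 ≤ n) :
    Nat.card (MulAut (Cfsg.POmega F (Cfsg.quadFormMinus n F a b))) =
      Nat.card (F ≃+* F) * Nat.card (OG F (Cfsg.quadFormMinus n F a b)) := by
  obtain ⟨m', rfl⟩ : ∃ m', n = m' + 1 + 1 := ⟨n - 2, by omega⟩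
  have C := mkCx (qfMinus (F := F) (m' + 1 + 1) a b) (ndMinus (F := F) (m' + 1 + 1) a b hab) (frameMinus_HF (F := F) a b (m' + 1 + 1)) (by omega) (frameMinus_anis (F := F) a b hab (m' + 1 + 1))
  exact C.card_aut (gamma_top_minus hn a b hab) (fun σ κ => exists_semi_minus hab σ κ)

end Glue

end Cfsg.Agent.H01.Om
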