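import Cfsg.Agent.Lib.H01.OmMinus
import Cfsg.Agent.Lib.Lead.AutPSLOut
/-! The order of the automorphism group of `PΩ⁻`. -/
set_option autoImplicit false
set_option linter.unusedSimpArgs false
set_option linter.style.haveILetI false
set_option linter.unusedSectionVars false
set_option linter.unusedVariables false
namespace Cfsg.Agent.H01.Om
open Matrix Cfsg.Agent.Lead.Ortho Cfsg.Agent.Lead.Omega

variable {F : Type*} [Field F] [Fintype F]

lemma pow_three_mod_four (m : ℕ) : 3 ^ m % 4 = if Even m then 1 else 3 := by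
  induction m with
  | zero => simp
  | succ k ih =>
    rw [pow_succ, Nat.mul_mod, ih]
    by_cases h : Even k
    · have : ¬ Even (k + 1) := by simpa [Nat.even_add_one] using h
      simp [h, this]
    · have : Even (k + 1) := by simpa [Nat.even_add_one] using h
      simp [h, this]

/-- the arithmetic criterion -/
lemma even_half_iff {q : ℕ} (hq : Odd q) (m : ℕ) : Even (m * (q - 1) / 2) ↔ ¬ 4 ∣ q ^ m + 1 := by
  obtain ⟨k, rfl⟩ := hq
  have e1 : m * (2 * k + 1 - 1) / 2 = m * k := by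
    rw [Nat.add_sub_cancel, mul_left_comm, Nat.mul_div_cancel_left _ (by norm_num)]
  rw [e1, Nat.dvd_iff_mod_eq_zero, Nat.add_mod, Nat.pow_mod]
  rcases Nat.even_or_odd k with hk | hk
  · obtain ⟨j, rfl⟩ := hk
    have e2 : (2 * (j + j) + 1) % 4 = 1 := by omega
    rw [e2, one_pow]
    simp only [Nat.one_mod]
    constructor
    · intro _
      norm_num
    · intro _
      exact ⟨m * j, by ring⟩
  · obtain ⟨j, rfl⟩ := hk
    have e2 : (2 * (2 * j + 1) + 1) % 4 = 3 := by omega
    rw [e2, pow_three_mod_four]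
    have e3 : Even (m * (2 * j + 1)) ↔ Even m := by
      rw [Nat.even_mul]
      constructor
      · rintro (h | h)
        · exact h
        · exact absurd h (by simp [Nat.even_add_one])
      · exact Or.inl
    rw [e3]
    by_cases hm : Even m <;> simp [hm]

/-- the index of `Ω` in the isometry group in characteristic two, minus type -/
theorem card_og_minus_two {a b : F} (hab : ∀ z₁ z₂ : F, z₁ ^ 2 + a * z₁ * z₂ + b * z₂ ^ 2 = 0 → z₁ = 0 ∧ z₂ = 0)
    {n : ℕ} (hn : 3 ≤ n) (h2 : (2 : F) = 0) :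
    Nat.card (OG F (Cfsg.quadFormMinus n F a b)) = 2 * Nat.card (Cfsg.Omega F (Cfsg.quadFormMinus n F a b)) := by
  obtain ⟨m', rfl⟩ : ∃ m', n = m' + 1 + 1 := ⟨n - 2, by omega⟩
  have hm' : 1 ≤ m' := by omega
  have C := mkCx (qfMinus (F := F) (m' + 1 + 1) a b) (ndMinus (F := F) (m' + 1 + 1) a b hab) (frameMinus_HF (F := F) a b (m' + 1 + 1)) hm' (frameMinus_anis (F := F) a b hab (m' + 1 + 1))
  have h := C.h
  have e2 := cnt_minus_perp a b hab (m' + 1 + 1) (one_ne_zero (α := F))
  have e3 : 0 < cntS (Cfsg.quadFormMinus (m' + 1 + 1) F a b) (perpOf h (frameMinus (m' + 1 + 1) F)) 1 := by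
    rw [e2]
    omega
  unfold cntS at e3
  obtain ⟨⟨x, hx, Qx⟩⟩ := (Nat.card_pos_iff.1 e3).1
  rw [C.hΩ]
  exact index_two h (ndMinus _ a b hab) (frameMinus_HF a b _) hm' (frameMinus_anis a b hab _) h2 (a₁ := x) (fun i => hx i.succ) (by rw [Qx]; exact one_ne_zero)

/-- **The order of the automorphism group of `PΩ⁻`.** -/
theorem card_mulaut_minus (p f : ℕ) [Fact p.Prime] (hf : 1 ≤ f) (hF : Fintype.card F = p ^ f) (n : ℕ) (hn : 3 ≤ n) (a b : F)
    (hab : ∀ z₁ z₂ : F, z₁ ^ 2 + a * z₁ * z₂ + b * z₂ ^ 2 = 0 → z₁ = 0 ∧ z₂ = 0) :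
    Nat.card (MulAut (Cfsg.POmega F (Cfsg.quadFormMinus n F a b))) =
      (if p = 2 then 2 else (if Even ((n + 1) * (p ^ f - 1) / 2) then 4 else 8)) * f * Nat.card (Cfsg.POmega F (Cfsg.quadFormMinus n F a b)) := by
  rw [card_aut_minus hab hn, Cfsg.Agent.Lead.AutPSL.card_ringAut hF hf]
  obtain ⟨m', rfl⟩ : ∃ m', n = m' + 1 + 1 := ⟨n - 2, by omega⟩
  have C := mkCx (qfMinus (F := F) (m' + 1 + 1) a b) (ndMinus (F := F) (m' + 1 + 1) a b hab) (frameMinus_HF (F := F) a b (m' + 1 + 1)) (by omega) (frameMinus_anis (F := F) a b hab (m' + 1 + 1))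
  by_cases hp : p = 2
  · subst hp
    rw [if_pos rfl]
    have hq : Even (Fintype.card F) := by
      rw [hF]
      exact (Nat.even_pow' (by omega)).2 even_two
    have h2 := two_eq_zero_of_even hq
    rw [card_og_minus_two hab hn h2, C.card_pomega_two h2]
    ring
  · rw [if_neg hp]
    have hq : Odd (Fintype.card F) := by
      rw [hF]
      exact ((Fact.out : p.Prime).odd_of_ne_two hp).pow
    have h2 := two_ne_zero_of_odd (F := F) rfl hq
    obtain ⟨e1, e2⟩ := minus_data a b hab hq (n := m' + 1 + 1) (by omega)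
    rw [e1]
    have hq' : Odd (p ^ f) := by rw [← hF]; exact hq
    by_cases h4 : Even ((m' + 1 + 1 + 1) * (p ^ f - 1) / 2)
    · rw [if_pos h4]
      have e3 := (even_half_iff hq' _).1 h4
      rw [← hF] at e3
      rw [C.card_pomega_not_mem (fun e => e3 (e2.1 e))]
      ring
    · rw [if_neg h4]
      have e3 : 4 ∣ Fintype.card F ^ (m' + 1 + 1 + 1) + 1 := by
        by_contra e
        rw [hF] at e
        exact h4 ((even_half_iff hq' _).2 e)
      have e4 := C.card_pomega_mem h2 (e2.2 e3)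
      rw [← e4]
      ring

end Cfsg.Agent.H01.Om
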