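import Cfsg.Agent.Lib.H01.OmK
/-! Inner automorphisms of `PΩ` in terms of semilinear similarities. -/
set_option autoImplicit false
set_option linter.unusedSimpArgs false
set_option linter.style.haveILetI false
set_option linter.unusedSectionVars false
set_option linter.unusedVariables false
namespace Cfsg.Agent.H01.Om
open Matrix Cfsg.Agent.Lead.Ortho Cfsg.Agent.Lead.Omega

variable {F : Type*} [Field F] [Fintype F] {ι : Type} [Fintype ι] [DecidableEq ι]
variable {Q : (ι → F) → F} {B : (ι → F) → (ι → F) → F}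

lemma IsSemi.pow {T : Equiv.Perm (ι → F)} {σ : F ≃+* F} {κ : F} (H : IsSemi Q T σ κ) (k : ℕ) :
    ∃ κ', IsSemi Q (T ^ k) (σ ^ k) κ' := by
  induction k with
  | zero => exact ⟨1, by simpa using IsSemi.one⟩
  | succ k ih =>
    obtain ⟨κ', h'⟩ := ih
    rw [pow_succ, pow_succ]
    exact ⟨_, h'.mul H⟩

lemma IsSemi.pow_one {T : Equiv.Perm (ι → F)} {σ : F ≃+* F} (H : IsSemi Q T σ 1) (k : ℕ) :
    IsSemi Q (T ^ k) (σ ^ k) 1 := by
  induction k with
  | zero => simpa using IsSemi.one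
  | succ k ih =>
    rw [pow_succ, pow_succ]
    have := ih.mul H
    simpa using this

section Cxx
variable {m : ℕ} {t₀ : Fin m → (ι → F) × (ι → F)} (C : Cx Q B t₀)
include C

lemma Cx.conj_mk (s : ↥(Cfsg.Omega F Q)) :
    MulAut.conj (QuotientGroup.mk s : Cfsg.POmega F Q) = Th C.h C.nd (ofO (s : OG F Q)) := by
  rw [Th_ofO]
  exact conj_mk_eq C s

/-- the form of the similarities inducing inner automorphisms -/
lemma Cx.inn_form (T : GS Q) (hT : Th C.h C.nd T ∈ Cfsg.Inn (Cfsg.POmega F Q)) :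
    ∃ (c : F) (s : ↥(Cfsg.Omega F Q)), c ≠ 0 ∧ ∀ x, (T : Equiv.Perm (ι → F)) x = c • act (s : OG F Q) x := by
  obtain ⟨x, hx⟩ := hT
  obtain ⟨s, rfl⟩ := QuotientGroup.mk_surjective x
  have e1 : MulAut.conj (QuotientGroup.mk s : Cfsg.POmega F Q) = Th C.h C.nd (ofO (s : OG F Q)) := C.conj_mk s
  have e2 : Th C.h C.nd ((ofO (s : OG F Q))⁻¹ * T) = 1 := by
    rw [map_mul, map_inv, ← hx]
    have e3 : (MulAut.conj (QuotientGroup.mk s : Cfsg.POmega F Q) : MulAut _) = MulAut.conj ((s : Cfsg.POmega F Q)) := rfl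
    rw [← e3, e1, inv_mul_cancel]
  obtain ⟨α, hα, hT'⟩ := C.scalar_of_Th _ e2
  refine ⟨α, s, hα, fun y => ?_⟩
  have e3 : ((ofO (s : OG F Q) : GS Q) : Equiv.Perm (ι → F)) ((((ofO (s : OG F Q))⁻¹ * T : GS Q) : Equiv.Perm (ι → F)) y) = (T : Equiv.Perm (ι → F)) y := by
    change ((ofO (s : OG F Q) : GS Q) : Equiv.Perm (ι → F)) ((((ofO (s : OG F Q) : GS Q) : Equiv.Perm (ι → F))⁻¹ * (T : Equiv.Perm (ι → F))) y) = _
    rw [Equiv.Perm.mul_apply, T_Tinv]
  rw [← e3, hT', ofO_apply, act_smul]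

/-- similarities of this form are inner -/
lemma Cx.inn_of_form {T : GS Q} {c : F} {s : ↥(Cfsg.Omega F Q)} (hc : c ≠ 0)
    (H : ∀ x, (T : Equiv.Perm (ι → F)) x = c • act (s : OG F Q) x) : Th C.h C.nd T ∈ Cfsg.Inn (Cfsg.POmega F Q) := by
  have e1 : T = C.scalarG (Units.mk0 c hc) * ofO (s : OG F Q) := by
    apply Subtype.ext
    ext1 x
    rw [H]
    rfl
  rw [e1, map_mul, C.Th_scalar, one_mul, ← C.conj_mk]
  exact ⟨_, rfl⟩

/-- the data of an inner similarity -/
lemma Cx.semi_of_form {T : Equiv.Perm (ι → F)} {σ : F ≃+* F} {κ : F} (H : IsSemi Q T σ κ) {c : F} {s : OG F Q}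
    (hc : c ≠ 0) (hT : ∀ x, T x = c • act s x) : σ = 1 ∧ κ = c ^ 2 := by
  have e1 : T = scalarT (Units.mk0 c hc) * permO s := by
    ext1 x
    rw [hT]
    rfl
  have e2 := (isSemi_scalar C (Units.mk0 c hc)).mul (isSemi_permO s)
  rw [← e1] at e2
  obtain ⟨e3, e4⟩ := C.semi_unique H e2
  refine ⟨by simpa using e3, ?_⟩
  rw [e4]
  simp

/-- the order of the inner automorphism group -/
lemma Cx.card_inn : Nat.card (Cfsg.Inn (Cfsg.POmega F Q)) = Nat.card (Cfsg.POmega F Q) := by
  have hinj : Function.Injective (MulAut.conj : Cfsg.POmega F Q →* MulAut (Cfsg.POmega F Q)) := by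
    rw [injective_iff_map_eq_one]
    intro x hx
    obtain ⟨s, rfl⟩ := QuotientGroup.mk_surjective x
    have e1 : MulAut.conj (QuotientGroup.mk s : Cfsg.POmega F Q) = Th C.h C.nd (ofO (s : OG F Q)) := C.conj_mk s
    have hx' : MulAut.conj (QuotientGroup.mk s : Cfsg.POmega F Q) = 1 := hx
    rw [e1] at hx'
    obtain ⟨α, hα, hT'⟩ := C.scalar_of_Th _ hx'
    have e2 : s ∈ Subgroup.center ↥(Cfsg.Omega F Q) := C.mem_center_of_scalar (α := α) hT'
    exact (QuotientGroup.eq_one_iff s).2 e2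
  exact (Nat.card_congr (MonoidHom.ofInjective hinj).toEquiv).symm

lemma Cx.card_out : Nat.card (Cfsg.Out (Cfsg.POmega F Q)) * Nat.card (Cfsg.POmega F Q) = Nat.card (MulAut (Cfsg.POmega F Q)) := by
  rw [Subgroup.card_eq_card_quotient_mul_card_subgroup (Cfsg.Inn (Cfsg.POmega F Q)), C.card_inn]

/-- a reflection is not inner in even dimension -/
lemma Cx.refl_not_inn (hev : Even (Fintype.card ι)) {a : ι → F} (ha : Q a ≠ 0) :
    Th C.h C.nd (ofO (R C.h a ha)) ∉ Cfsg.Inn (Cfsg.POmega F Q) := by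
  intro hin
  have h := C.h
  have hnd := C.nd
  have ht := C.ht
  have hm : m > 2 := by have := C.hm; omega
  obtain ⟨c, s, hc, hs⟩ := C.inn_form _ hin
  have e1 : ∀ x, act ((s : OG F Q)⁻¹ * R h a ha) x = c • x := by
    intro x
    rw [act_mul]
    have := hs x
    rw [ofO_apply] at this
    rw [this, act_smul, act_inv_act]
  have hsS : (s : OG F Q) ∈ SS h := by
    rw [← C.hΩ]
    exact s.2
  rcases C.scalar_pm e1 with e2 | e2
  · have e3 : R h a ha = (s : OG F Q) := by
      have := congrArg (fun g => (s : OG F Q) * g) e2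
      simpa using this
    exact R_not_mem_SS h hnd ht hm ha (e3 ▸ hsS)
  · have e3 : (s : OG F Q) = negO h * R h a ha := by
      have e4 : R h a ha = (s : OG F Q) * negO h := by
        have := congrArg (fun g => (s : OG F Q) * g) e2
        simpa using this
      have e5 : negO h * negO h = (1 : OG F Q) := by
        apply og_ext
        intro x
        rw [act_mul, act_negO, act_negO, act_one, neg_neg]
      have e6 : (s : OG F Q) = R h a ha * negO h := by
        rw [e4, mul_assoc, e5, mul_one]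
      rw [e6]
      apply og_ext
      intro x
      rw [act_mul, act_mul, act_negO, act_negO, act_neg]
    by_cases h2 : (2 : F) = 0
    · have hneg : negO h = (1 : OG F Q) := by
        apply og_ext
        intro x
        rw [act_negO, act_one]
        have e4 : (2 : F) • x = 0 := by rw [h2, zero_smul]
        rw [two_smul] at e4
        exact neg_eq_of_add_eq_zero_right e4
      rw [hneg, one_mul] at e3
      exact R_not_mem_SS h hnd ht hm ha (e3 ▸ hsS)
    · have hFx : Fx (negO h) = ⊥ := by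
        rw [eq_bot_iff]
        intro x hx
        have e3 : act (negO h) x = x := hx
        rw [act_negO] at e3
        have e4 : (2 : F) • x = 0 := by
          rw [two_smul]
          nth_rewrite 1 [← e3]
          simp
        exact (smul_eq_zero.1 e4).resolve_left h2
      have hdd : dd (negO h) = 0 := by
        unfold dd
        rw [hFx, finrank_bot]
      have e1 := even_of_mem_SS h hnd ht hm hsS
      have e2 := dd_mul_R h hnd (negO h) ha
      rw [hdd] at e2
      have e4 : dd (negO h * R h a ha) = 1 := by omega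
      rw [e3, e4, Nat.even_add] at e1
      exact absurd (e1.2 hev) (by decide)

/-- the similarity part of the order in the quotient -/
lemma Cx.out_pow_eq_one {T : GS Q} {φ : F ≃+* F} {κ : F} (HT : IsSemi Q (T : Equiv.Perm (ι → F)) φ κ) {o : ℕ}
    (h1 : (QuotientGroup.mk (Th C.h C.nd T) : Cfsg.Out (Cfsg.POmega F Q)) ^ o = 1) : φ ^ o = 1 := by
  rw [← QuotientGroup.mk_pow, QuotientGroup.eq_one_iff, ← map_pow] at h1
  obtain ⟨c, s, hc, hs⟩ := C.inn_form _ h1
  obtain ⟨κ', H'⟩ := HT.pow o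
  exact (C.semi_of_form H' hc hs).1

/-- **A cyclic outer automorphism group.** -/
theorem Cx.out_cyclic_of {T : GS Q} {φ : F ≃+* F} {κ : F} (HT : IsSemi Q (T : Equiv.Perm (ι → F)) φ κ) {f : ℕ} (hf : 0 < f)
    (hφ : ∀ o, φ ^ o = 1 → f ∣ o) (hcard : Nat.card (Cfsg.Out (Cfsg.POmega F Q)) = 2 * f)
    (hne : Th C.h C.nd (T ^ f) ∉ Cfsg.Inn (Cfsg.POmega F Q)) : IsCyclic (Cfsg.Out (Cfsg.POmega F Q)) := by
  haveI : Finite (Cfsg.Out (Cfsg.POmega F Q)) := Nat.finite_of_card_ne_zero (by omega)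
  obtain ⟨x, hx⟩ : ∃ x, x = (QuotientGroup.mk (Th C.h C.nd T) : Cfsg.Out (Cfsg.POmega F Q)) := ⟨_, rfl⟩
  have e1 : f ∣ orderOf x := by
    apply hφ
    apply C.out_pow_eq_one HT
    rw [← hx]
    exact pow_orderOf_eq_one x
  have e2 : x ^ f ≠ 1 := by
    rw [hx, ← QuotientGroup.mk_pow, Ne, QuotientGroup.eq_one_iff, ← map_pow]
    exact hne
  have e3 : orderOf x ∣ 2 * f := by
    rw [← hcard]
    exact orderOf_dvd_natCard x
  obtain ⟨l, hl⟩ := e1
  have e4 : l ∣ 2 := by
    rw [hl, mul_comm] at e3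
    exact Nat.dvd_of_mul_dvd_mul_right hf e3
  have e5 : l = 1 ∨ l = 2 := (Nat.dvd_prime Nat.prime_two).1 e4
  have e6 : orderOf x = 2 * f := by
    rcases e5 with rfl | rfl
    · exfalso
      apply e2
      rw [mul_one] at hl
      rw [← hl]
      exact pow_orderOf_eq_one x
    · rw [hl]
      ring
  exact isCyclic_of_orderOf_eq_card x (by rw [e6, hcard])

end Cxx

end Cfsg.Agent.H01.Om
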