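import Cfsg.Agent.Lib.H01.OmDelta2
/-! The outer automorphism group of `PΩ⁻` in odd characteristic. -/
set_option autoImplicit false
set_option linter.unusedSimpArgs false
set_option linter.style.haveILetI false
set_option linter.unusedSectionVars false
set_option linter.unusedVariables false
namespace Cfsg.Agent.H01.Om
open Matrix Cfsg.Agent.Lead.Ortho Cfsg.Agent.Lead.Omega

variable {F : Type*} [Field F] [Fintype F]

/-- `-1` times a reflection is outside `SS` -/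
lemma neg_mul_R_not_mem {ι : Type} [Fintype ι] [DecidableEq ι] {Q : (ι → F) → F} {B : (ι → F) → (ι → F) → F} (h : QF Q B)
    (hnd : ND B (⊤ : Submodule F (ι → F))) {m : ℕ} {t₀ : Fin m → (ι → F) × (ι → F)} (ht₀ : IsHF Q B t₀) (hm : 2 < m)
    (h2 : (2 : F) ≠ 0) (hev : Even (Fintype.card ι)) {a : ι → F} (ha : Q a ≠ 0) : negO h * R h a ha ∉ SS h := by
  have hFx : Fx (negO h) = ⊥ := by
    rw [eq_bot_iff]
    intro x hx
    have e3 : act (negO h) x = x := hx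
    rw [act_negO] at e3
    have e4 : (2 : F) • x = 0 := by
      rw [two_smul]
      nth_rewrite 1 [← e3]
      simp
    exact (smul_eq_zero.1 e4).resolve_left h2
  have hdd : dd (negO h) = 0 := by
    unfold dd
    rw [hFx, finrank_bot]
  intro hs
  have e1 := even_of_mem_SS h hnd ht₀ hm hs
  have e2 := dd_mul_R h hnd (negO h) ha
  rw [hdd] at e2
  have e3 : dd (negO h * R h a ha) = 1 := by omega
  rw [e3, Nat.even_add] at e1
  exact absurd (e1.2 hev) (by decide)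

lemma R_not_mem_PP {ι : Type} [Fintype ι] [DecidableEq ι] {Q : (ι → F) → F} {B : (ι → F) → (ι → F) → F} (h : QF Q B)
    (hnd : ND B (⊤ : Submodule F (ι → F))) {a : ι → F} (ha : Q a ≠ 0) : R h a ha ∉ PP Q := by
  intro hR
  have e1 := hR 1
  have e2 := dd_R_mul h hnd 1 ha
  rw [Nat.even_iff] at e1
  rw [Nat.odd_iff] at e2
  omega

lemma pow_mod_four_of_one {q : ℕ} (hq : q % 4 = 1) (m : ℕ) : q ^ m % 4 = 1 := by
  rw [Nat.pow_mod, hq]
  simp

/-- the arithmetic criterion -/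
lemma four_dvd_iff {q : ℕ} (hq : Odd q) (m : ℕ) : 4 ∣ q ^ m + 1 ↔ q % 4 = 3 ∧ Odd m := by
  have h1 : q % 4 = 1 ∨ q % 4 = 3 := by
    obtain ⟨k, rfl⟩ := hq
    omega
  rcases h1 with h1 | h1
  · have e := pow_mod_four_of_one h1 m
    constructor
    · intro e2
      omega
    · rintro ⟨e2, -⟩
      omega
  · have e : q ^ m % 4 = if Even m then 1 else 3 := by
      rw [Nat.pow_mod, h1, pow_three_mod_four]
    by_cases hm : Even m
    · rw [if_pos hm] at e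
      constructor
      · intro e2
        omega
      · rintro ⟨-, e2⟩
        exact absurd hm (Nat.not_even_iff_odd.2 e2)
    · rw [if_neg hm] at e
      constructor
      · intro _
        exact ⟨h1, Nat.not_even_iff_odd.1 hm⟩
      · intro _
        omega


section Abs
variable {ι : Type} [Fintype ι] [DecidableEq ι] {Q : (ι → F) → F} {B : (ι → F) → (ι → F) → F}

/-- plane reflections modulo `SS` -/
theorem plane_cls (h : QF Q B) (hnd : ND B (⊤ : Submodule F (ι → F))) {m' : ℕ} {t₀ : Fin (m' + 1 + 1) → (ι → F) × (ι → F)}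
    (ht₀ : IsHF Q B t₀) (hm : 1 ≤ m') (hanis : ∀ w ∈ perpOf h t₀, Q w = 0 → w = 0) (hq : Odd (Fintype.card F))
    (hev : Even (Fintype.card ι)) {k : ℕ} {t : Fin k → (ι → F) × (ι → F)} (ht : IsHF Q B t)
    (hc : Nat.card (perpOf h t) = Fintype.card F ^ 2) (hsub : perpOf h t ≤ perpOf h (Fin.tail t₀)) {a₁ a₂ : ι → F}
    (ha₁ : a₁ ∈ perpOf h t) (ha₂ : a₂ ∈ perpOf h t) (Qa₁ : Q a₁ ≠ 0) (Qa₂ : Q a₂ ≠ 0) (hns : ¬ IsSquare (Q a₁ * Q a₂)) :
    piS h (R h a₁ Qa₁) * piS h (R h a₂ Qa₂) ≠ 1 ∧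
      (negO h ∈ SS h ∨ piS h (negO h) = piS h (R h a₁ Qa₁) * piS h (R h a₂ Qa₂)) := by
  have h2 : (2 : F) ≠ 0 := two_ne_zero_of_odd rfl hq
  obtain ⟨c, hc0, hχ⟩ := sep_plane h hnd ht hq hc ha₁ ha₂ Qa₁ Qa₂ hns
  have hkerχ : SS h ≤ (chiS Q c).ker := by
    rw [← omega_eq_SS h hnd ht₀ hm hanis]
    exact Abelianization.commutator_subset_ker _
  have hcomm := piS_comm h hnd ht₀ hanis
  have hrr : (piS h (R h a₁ Qa₁) * piS h (R h a₂ Qa₂)) * (piS h (R h a₁ Qa₁) * piS h (R h a₂ Qa₂)) = 1 := by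
    calc _ = piS h (R h a₁ Qa₁) * (piS h (R h a₂ Qa₂) * piS h (R h a₁ Qa₁)) * piS h (R h a₂ Qa₂) := by simp only [mul_assoc]
      _ = piS h (R h a₁ Qa₁) * (piS h (R h a₁ Qa₁) * piS h (R h a₂ Qa₂)) * piS h (R h a₂ Qa₂) := by rw [hcomm (piS h (R h a₂ Qa₂))]
      _ = (piS h (R h a₁ Qa₁) * piS h (R h a₁ Qa₁)) * (piS h (R h a₂ Qa₂) * piS h (R h a₂ Qa₂)) := by simp only [mul_assoc]
      _ = 1 := by rw [piS_R_sq, piS_R_sq, one_mul]
  constructor
  · intro e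
    rw [← map_mul, piS_eq_one] at e
    have e1 := hkerχ e
    rw [MonoidHom.mem_ker, map_mul] at e1
    apply hχ
    rcases Int.units_eq_one_or (chiS Q c (R h a₁ Qa₁)) with e3 | e3 <;>
      rcases Int.units_eq_one_or (chiS Q c (R h a₂ Qa₂)) with e4 | e4 <;> rw [e3, e4] at e1 ⊢ <;> first | rfl | exact absurd e1 (by decide)
  · rcases gen_four h hnd ht₀ hanis (hsub ha₁) (hsub ha₂) Qa₁ Qa₂ hns (negO h) with H | H | H | H
    · exact Or.inl H
    · exact absurd H (neg_mul_R_not_mem h hnd ht₀ (by omega) h2 hev Qa₁)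
    · exact absurd H (neg_mul_R_not_mem h hnd ht₀ (by omega) h2 hev Qa₂)
    · right
      have e := (piS_eq_one h).2 H
      rw [map_mul, map_mul] at e
      calc piS h (negO h) = piS h (negO h) * ((piS h (R h a₁ Qa₁) * piS h (R h a₂ Qa₂)) * (piS h (R h a₁ Qa₁) * piS h (R h a₂ Qa₂))) := by rw [hrr, mul_one]
        _ = (piS h (negO h) * (piS h (R h a₁ Qa₁) * piS h (R h a₂ Qa₂))) * (piS h (R h a₁ Qa₁) * piS h (R h a₂ Qa₂)) := by simp only [mul_assoc]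
        _ = _ := by rw [e, one_mul]

section Sq
variable {m : ℕ} {t₀ : Fin m → (ι → F) × (ι → F)} (C : Cx Q B t₀)

/-- the map from similarities to the outer automorphism group -/
noncomputable def Cx.piO (C : Cx Q B t₀) : GS Q →* Cfsg.Out (Cfsg.POmega F Q) := (QuotientGroup.mk' _).comp (Th C.h C.nd)

/-- the map from isometries to the outer automorphism group -/
noncomputable def Cx.ccO (C : Cx Q B t₀) : OG F Q →* Cfsg.Out (Cfsg.POmega F Q) := (QuotientGroup.mk' _).comp (cc Q)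

lemma Cx.piO_apply (g : GS Q) : C.piO g = QuotientGroup.mk (Th C.h C.nd g) := rfl

lemma Cx.piO_eq_one (g : GS Q) : C.piO g = 1 ↔ Th C.h C.nd g ∈ Cfsg.Inn (Cfsg.POmega F Q) := QuotientGroup.eq_one_iff _

lemma Cx.ccO_eq_one (s : OG F Q) : C.ccO s = 1 ↔ s ∈ SS C.h ∨ negO C.h * s ∈ SS C.h := by
  rw [← C.hΩ, ← C.cc_mem_inn_iff]
  exact QuotientGroup.eq_one_iff _

lemma Cx.piO_ofO (s : OG F Q) : C.piO (ofO s) = C.ccO s := by
  change QuotientGroup.mk (Th C.h C.nd (ofO s)) = QuotientGroup.mk (cc Q s)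
  rw [Th_ofO]

lemma Cx.piO_scalar {T : GS Q} {c : F} {s : OG F Q} (hc : c ≠ 0) (H : ∀ x, (T : Equiv.Perm (ι → F)) x = c • act s x) :
    C.piO T = C.ccO s := by
  change QuotientGroup.mk (Th C.h C.nd T) = QuotientGroup.mk (cc Q s)
  rw [C.Th_of_scalar hc H]

/-- the class of an element with the given image -/
theorem Cx.sq_facts {s : OG F Q} {r : OG F Q ⧸ SS C.h} {k : ℕ} {P : Prop} (hr2 : r * r = 1) (hr1 : r ≠ 1)
    (hsr : piS C.h s = r ^ k) (hneg : negO C.h ∈ SS C.h ∨ piS C.h (negO C.h) = r) (hP : negO C.h ∈ SS C.h ↔ P)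
    (hk : P → Odd k) : C.ccO s ^ 2 = 1 ∧ (C.ccO s = 1 ↔ ¬ P) := by
  have hre : ∀ j, Even j → r ^ j = 1 := by
    rintro j ⟨i, rfl⟩
    rw [← two_mul, pow_mul, sq, hr2, one_pow]
  have hro : ∀ j, Odd j → r ^ j = r := by
    rintro j ⟨i, rfl⟩
    rw [pow_succ, pow_mul, sq, hr2, one_pow, one_mul]
  constructor
  · rw [← map_pow, C.ccO_eq_one]
    left
    rw [← piS_eq_one, map_pow, hsr, ← pow_mul]
    exact hre _ (by simp)
  · rw [C.ccO_eq_one]
    constructor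
    · intro e hp
      have h1 := hP.2 hp
      have h3 : piS C.h (negO C.h) = 1 := (piS_eq_one _).2 h1
      have h4 : piS C.h s = r := by rw [hsr, hro _ (hk hp)]
      rcases e with e | e
      · rw [← piS_eq_one, h4] at e
        exact hr1 e
      · rw [← piS_eq_one, map_mul, h3, h4, one_mul] at e
        exact hr1 e
    · intro hp
      have h1 : negO C.h ∉ SS C.h := fun e => hp (hP.1 e)
      have h3 := hneg.resolve_left h1
      rcases Nat.even_or_odd k with hk' | hk'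
      · left
        rw [← piS_eq_one, hsr, hre _ hk']
      · right
        rw [← piS_eq_one, map_mul, hsr, hro _ hk', h3, hr2]

/-- the class of a reflection against a product of two reflections -/
theorem Cx.ccO_ne (hnd : ND B (⊤ : Submodule F (ι → F))) {d : ι → F} (hd : Q d ≠ 0) {s : OG F Q} {a₁ a₂ : ι → F} (Qa₁ : Q a₁ ≠ 0) (Qa₂ : Q a₂ ≠ 0)
    (hneg : negO C.h ∈ SS C.h) (hsr : piS C.h s = piS C.h (R C.h a₁ Qa₁) * piS C.h (R C.h a₂ Qa₂)) :
    C.ccO (R C.h d hd) ≠ C.ccO s := by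
  intro e
  have hm2 : 2 < m := by have := C.hm; omega
  have e1 : C.ccO (s⁻¹ * R C.h d hd) = 1 := by
    rw [map_mul, map_inv, e, inv_mul_cancel]
  have e2 : s⁻¹ * R C.h d hd ∈ SS C.h := by
    rw [C.ccO_eq_one] at e1
    rcases e1 with e1 | e1
    · exact e1
    · have := Subgroup.mul_mem _ (Subgroup.inv_mem _ hneg) e1
      simpa using this
  have e3 : (R C.h a₁ Qa₁ * R C.h a₂ Qa₂)⁻¹ * s ∈ SS C.h := by
    rw [← piS_eq_one, map_mul, map_inv, hsr, map_mul, inv_mul_cancel]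
  have hle := SS_le_PP C.h hnd C.ht hm2
  have e4 : R C.h d hd ∈ PP Q := by
    have e5 := Subgroup.mul_mem _ (Subgroup.mul_mem _ (R_mul_R_mem C.h hnd Qa₁ Qa₂) (hle e3)) (hle e2)
    have e6 : R C.h a₁ Qa₁ * R C.h a₂ Qa₂ * ((R C.h a₁ Qa₁ * R C.h a₂ Qa₂)⁻¹ * s) * (s⁻¹ * R C.h d hd) = R C.h d hd := by
      group
    rwa [e6] at e5
  exact R_not_mem_PP C.h hnd hd e4

/-- the order of the generator -/
theorem Cx.order_piO (hev : Even (Fintype.card ι)) {T : GS Q} {φ : F ≃+* F} {κ : F} (HT : IsSemi Q (T : Equiv.Perm (ι → F)) φ κ) {f : ℕ}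
    (hf : 0 < f) (hφ : ∀ o, φ ^ o = 1 → f ∣ o) {d : ι → F} (hd : Q d ≠ 0) (hTf : T ^ f = ofO (R C.h d hd)) :
    orderOf (C.piO T) = 2 * f := by
  have e1 : f ∣ orderOf (C.piO T) := hφ _ (C.out_pow_eq_one HT (pow_orderOf_eq_one (C.piO T)))
  have e2 : C.piO T ^ f ≠ 1 := by
    rw [← map_pow, hTf, Ne, C.piO_eq_one]
    exact C.refl_not_inn hev hd
  have e3 : C.piO T ^ (2 * f) = 1 := by
    rw [mul_comm, pow_mul, ← map_pow, hTf, C.piO_ofO, ← map_pow, sq, R_mul_self, map_one]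
  have e4 : orderOf (C.piO T) ∣ 2 * f := orderOf_dvd_of_pow_eq_one e3
  obtain ⟨l, hl⟩ := e1
  have e5 : l ∣ 2 := by
    rw [hl, mul_comm] at e4
    exact Nat.dvd_of_mul_dvd_mul_right hf e4
  rcases (Nat.dvd_prime Nat.prime_two).1 e5 with rfl | rfl
  · exfalso
    apply e2
    rw [mul_one] at hl
    rw [← hl]
    exact pow_orderOf_eq_one _
  · rw [hl]
    ring

/-- a similarity with non-square multiplier is not in the cyclic group -/
theorem Cx.ne_pow {T D : GS Q} {φ : F ≃+* F} {ν : F} (HT : IsSemi Q (T : Equiv.Perm (ι → F)) φ 1)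
    (HD : IsSemi Q (D : Equiv.Perm (ι → F)) 1 ν) (hν : ¬ IsSquare ν) (j : ℕ) : C.piO D ≠ C.piO T ^ j := by
  intro e
  have e1 : C.piO ((T ^ j)⁻¹ * D) = 1 := by
    rw [map_mul, map_inv, map_pow, ← e, inv_mul_cancel]
  rw [C.piO_eq_one] at e1
  obtain ⟨c, s, hc, hs⟩ := C.inn_form _ e1
  have H := (HT.pow_one j).inv.mul HD
  obtain ⟨e2, e3⟩ := C.semi_of_form H hc hs
  have e4 : (φ ^ j)⁻¹ = 1 := by simpa using e2
  rw [e4] at e3
  simp at e3
  exact hν ⟨c, by rw [e3]; ring⟩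

/-- **Abstract facts.** -/
theorem Cx.abs_facts (hnd : ND B (⊤ : Submodule F (ι → F))) (hΓ : Cfsg.gammaPOmega F Q = ⊤) (hev : Even (Fintype.card ι)) {T D : GS Q} {φ : F ≃+* F} {ν : F}
    (HT : IsSemi Q (T : Equiv.Perm (ι → F)) φ 1) (HD : IsSemi Q (D : Equiv.Perm (ι → F)) 1 ν) (hν : ¬ IsSquare ν) {p f : ℕ}
    (hf : 0 < f) (hφ : ∀ o, φ ^ o = 1 → f ∣ o) {d : ι → F} (hd : Q d ≠ 0) (hTf : T ^ f = ofO (R C.h d hd))
    (hTD : T * D = D ^ p * T) {s : OG F Q} {c : F} (hc : c ≠ 0) (hs : ∀ v, ((D ^ 2 : GS Q) : Equiv.Perm (ι → F)) v = c • act s v)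
    {a₁ a₂ : ι → F} (Qa₁ : Q a₁ ≠ 0) (Qa₂ : Q a₂ ≠ 0) {k : ℕ}
    (hsr : piS C.h s = (piS C.h (R C.h a₁ Qa₁) * piS C.h (R C.h a₂ Qa₂)) ^ k)
    (hr2 : (piS C.h (R C.h a₁ Qa₁) * piS C.h (R C.h a₂ Qa₂)) * (piS C.h (R C.h a₁ Qa₁) * piS C.h (R C.h a₂ Qa₂)) = 1)
    (hr1 : piS C.h (R C.h a₁ Qa₁) * piS C.h (R C.h a₂ Qa₂) ≠ 1)
    (hneg : negO C.h ∈ SS C.h ∨ piS C.h (negO C.h) = piS C.h (R C.h a₁ Qa₁) * piS C.h (R C.h a₂ Qa₂))
    {P : Prop} (hP : negO C.h ∈ SS C.h ↔ P) (hk : P → Odd k) :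
    ∃ (x y : Cfsg.Out (Cfsg.POmega F Q)) (χ : Cfsg.Out (Cfsg.POmega F Q) →* (F ≃+* F)),
      orderOf x = 2 * f ∧ x * y = y ^ p * x ∧ χ x = φ ∧ χ y = 1 ∧ (∀ j : ℕ, y ≠ x ^ j) ∧ y ^ 4 = 1 ∧
      (y ^ 2 = 1 ↔ ¬ P) ∧ (P → x ^ f ≠ y ^ 2) := by
  obtain ⟨χ, hχ⟩ := C.exists_chi hΓ
  have hy2 : C.piO D ^ 2 = C.ccO s := by
    rw [← map_pow]
    exact C.piO_scalar hc hs
  obtain ⟨f1, f2⟩ := C.sq_facts hr2 hr1 hsr hneg hP hk
  refine ⟨C.piO T, C.piO D, χ, C.order_piO hev HT hf hφ hd hTf, ?_, hχ T HT, hχ D HD, C.ne_pow HT HD hν, ?_, ?_, ?_⟩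
  · rw [← map_mul, hTD, map_mul, map_pow]
  · rw [show (4 : ℕ) = 2 * 2 by norm_num, pow_mul, hy2, f1]
  · rw [hy2, f2]
  · intro hp
    rw [hy2, ← map_pow, hTf, C.piO_ofO]
    have hodd := hk hp
    refine C.ccO_ne hnd hd Qa₁ Qa₂ (hP.2 hp) ?_
    rw [hsr]
    obtain ⟨i, rfl⟩ := hodd
    rw [pow_succ, pow_mul, sq, hr2, one_pow, one_mul]

end Sq

end Abs

section GroupFacts
variable {G : Type*} [Group G]

lemma conj_pow_of_mul {x y : G} {p : ℕ} (h : x * y = y ^ p * x) (k : ℕ) : x ^ k * y = y ^ (p ^ k) * x ^ k := by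
  induction k with
  | zero => simp
  | succ k ih =>
    have hcomm : ∀ N : ℕ, x * y ^ N = y ^ (p * N) * x := by
      intro N
      induction N with
      | zero => simp
      | succ N ih2 =>
        rw [pow_succ, ← mul_assoc, ih2, mul_assoc, h, ← mul_assoc, ← pow_add, show p * (N + 1) = p * N + p by ring]
    rw [pow_succ', mul_assoc, ih, ← mul_assoc, hcomm, mul_assoc, pow_succ', show p * p ^ k = p ^ (k + 1) by ring]

/-- the generic case -/
theorem out_iso_generic {f p : ℕ} (hf : 0 < f) (hp : Odd p) {x y : G} (hcard : Nat.card G = 4 * f) (hx : orderOf x = 2 * f)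
    (h1 : x * y = y ^ p * x) (h2 : y ^ 2 = 1) (hny : ∀ j : ℕ, y ≠ x ^ j) :
    Nonempty (G ≃* Multiplicative (ZMod 2 × ZMod (2 * f))) := by
  have e : y ^ p = y := by
    obtain ⟨i, rfl⟩ := hp
    rw [pow_succ, pow_mul, h2, one_pow, one_mul]
  rw [e] at h1
  exact iso_of_gens_abelian hf x y hcard hx h2 h1 hny

/-- the special case -/
theorem out_iso_special {F : Type*} [Field F] [Fintype F] {f p : ℕ} [hp' : Fact p.Prime] [hc : CharP F p] (hf : 0 < f) (hF : Fintype.card F = p ^ f) (hp3 : p % 4 = 3) (hfo : Odd f)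
    {x y : G} (χ : G →* (F ≃+* F)) (hcard : Nat.card G = 8 * f) (hx : orderOf x = 2 * f)
    (h1 : x * y = y ^ p * x) (hχx : χ x = phiF p) (hχy : χ y = 1) (hy4 : y ^ 4 = 1) (hy2 : y ^ 2 ≠ 1) (hxy : x ^ f ≠ y ^ 2) :
    Nonempty (G ≃* DihedralGroup 4 × Multiplicative (ZMod f)) := by
  have hx1 : x ^ (2 * f) = 1 := by
    rw [← hx]
    exact pow_orderOf_eq_one x
  have hmod : ∀ N : ℕ, y ^ N = y ^ (N % 4) := fun N => pow_eq_pow_mod N hy4
  have e1 : x ^ f * y = y ^ 3 * x ^ f := by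
    rw [conj_pow_of_mul h1, hmod (p ^ f), Nat.pow_mod, hp3, Cfsg.Agent.H01.Om.pow_three_mod_four, if_neg (Nat.not_even_iff_odd.2 hfo)]
  have e2 : x ^ (f + 1) * y = y * x ^ (f + 1) := by
    have e3 : p ^ (f + 1) % 4 = 1 := by
      rw [Nat.pow_mod, hp3, Cfsg.Agent.H01.Om.pow_three_mod_four, if_pos (hfo.add_one)]
    rw [conj_pow_of_mul h1, hmod (p ^ (f + 1)), e3, pow_one]
  have e3 : y⁻¹ = y ^ 3 := by
    apply inv_eq_of_mul_eq_one_left
    rw [← pow_succ, hy4]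
  have hxf : x ^ f ≠ 1 := by
    intro e
    have := orderOf_dvd_of_pow_eq_one e
    rw [hx] at this
    have := Nat.le_of_dvd hf this
    omega
  refine iso_of_gens_dihedral hf χ y (x ^ f) (x ^ (f + 1)) hcard hy4 hy2 ?_ ?_ ?_ e2 ?_ hxf hxy hχy ?_ ?_
  · rw [← pow_mul, mul_comm, hx1]
  · rw [e1, e3]
    group
  · obtain ⟨i, hi⟩ := hfo.add_one
    rw [← pow_mul, hi]
    have : (i + i) * f = 2 * f * i := by ring
    rw [this, pow_mul, hx1, one_pow]
  · exact (Commute.pow_pow_self x f (f + 1)).symm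
  · rw [map_pow, hχx]
    ext z
    rw [phiF_pow_apply]
    change z ^ p ^ f = z
    rw [← hF]
    exact FiniteField.pow_card z
  · intro k hk
    rw [map_pow, hχx, ← pow_mul] at hk
    have := phiF_dvd p hF hk
    exact (Nat.Coprime.dvd_mul_left (by simp)).1 this

end GroupFacts

end Cfsg.Agent.H01.Om
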