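import Cfsg.Agent.Lib.H01.OmOutOdd
/-! The outer automorphism group of `PΩ⁻` in odd characteristic: the main theorem. -/
set_option autoImplicit false
set_option linter.unusedSimpArgs false
set_option linter.style.haveILetI false
set_option linter.unusedSectionVars false
set_option linter.unusedVariables false
namespace Cfsg.Agent.H01.Om
open Matrix Cfsg.Agent.Lead.Ortho Cfsg.Agent.Lead.Omega

variable {F : Type*} [Field F] [Fintype F]

lemma vecV_mem {a b : F} (n : ℕ) (y : Fin 2 → F) : vecV n y ∈ perpOf (qfMinus (F := F) n a b) (frameMinus n F) := by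
  intro i
  simp only [frameMinus]
  rw [polarMinus_inl, polarMinus_inr]
  exact ⟨rfl, rfl⟩

set_option maxHeartbeats 8000000 in
/-- **The generators of the outer automorphism group.** -/
theorem odd_facts {a b : F} (hab : ∀ z₁ z₂ : F, z₁ ^ 2 + a * z₁ * z₂ + b * z₂ ^ 2 = 0 → z₁ = 0 ∧ z₂ = 0) (p f : ℕ) [hp' : Fact p.Prime] [hc : CharP F p] (hf : 1 ≤ f) (hF : Fintype.card F = p ^ f) (hp : p ≠ 2)
    (m' : ℕ) (hm' : 1 ≤ m') :
    ∃ (x y : Cfsg.Out (Cfsg.POmega F (Cfsg.quadFormMinus (m' + 1 + 1) F a b))) (χ : Cfsg.Out (Cfsg.POmega F (Cfsg.quadFormMinus (m' + 1 + 1) F a b)) →* (F ≃+* F)),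
      orderOf x = 2 * f ∧ x * y = y ^ p * x ∧ χ x = phiF p ∧ χ y = 1 ∧ (∀ j : ℕ, y ≠ x ^ j) ∧ y ^ 4 = 1 ∧
      (y ^ 2 = 1 ↔ ¬ 4 ∣ Fintype.card F ^ (m' + 1 + 1 + 1) + 1) ∧ (4 ∣ Fintype.card F ^ (m' + 1 + 1 + 1) + 1 → x ^ f ≠ y ^ 2) := by
  classical
  haveI : Fact (Irreducible (fP a b)) := ⟨fP_irr hab⟩
  have hq : Odd (Fintype.card F) := by
    rw [hF]
    exact ((Fact.out : p.Prime).odd_of_ne_two hp).pow
  have h2 : (2 : F) ≠ 0 := two_ne_zero_of_odd rfl hq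
  have hn3 : 3 ≤ m' + 1 + 1 := by omega
  have h := qfMinus (F := F) (m' + 1 + 1) a b
  have hnd := ndMinus (F := F) (m' + 1 + 1) a b hab
  have ht₀ := frameMinus_HF (F := F) a b (m' + 1 + 1)
  have hanis := frameMinus_anis (F := F) a b hab (m' + 1 + 1)
  have C := mkCx h hnd ht₀ hm' hanis
  have hΓ := gamma_top_minus (F := F) hn3 a b hab
  have hcι : Fintype.card ((Fin (m' + 1 + 1) ⊕ Fin (m' + 1 + 1)) ⊕ Fin 2) = 2 * (m' + 1 + 1) + 2 := by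
    simp only [Fintype.card_sum, Fintype.card_fin]
    ring
  have hι : Even (Fintype.card ((Fin (m' + 1 + 1) ⊕ Fin (m' + 1 + 1)) ⊕ Fin 2)) := by
    rw [hcι]
    exact ⟨m' + 1 + 1 + 1, by ring⟩
  obtain ⟨ν, hν⟩ := exists_nonsq hq
  have hν0 : ν ≠ 0 := by
    rintro rfl
    exact hν IsSquare.zero
  obtain ⟨w, hw⟩ := exists_norm hab hν0
  have hiw : iK a b w ≠ 0 := by
    intro e
    have e1 := of_Nm a b w
    rw [e, zero_mul, hw] at e1
    exact hν0 ((map_eq_zero _).1 e1)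
  obtain ⟨W, hW⟩ : ∃ W : (KK a b)ˣ, W = Units.mk0 (iK a b w) hiw := ⟨_, rfl⟩
  have hW' : iK a b w = W := by rw [hW]; rfl
  have hnorm : (normK a b W : F) = ν := by
    rw [← Nm_of_normK a b W w hW', hw]
  have hd : Cfsg.quadFormMinus (m' + 1 + 1) F a b (dV (m' + 1 + 1) a) ≠ 0 := by
    rw [Q_dV]
    exact disc_ne hab
  have hA₁ : Cfsg.quadFormMinus (m' + 1 + 1) F a b (vecV (m' + 1 + 1) w) ≠ 0 := by
    rw [Q_vecV, hw]
    exact hν0
  have hN1 : Nm a b (![1, 0] : Fin 2 → F) = 1 := by simp [Nm]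
  have hA₂ : Cfsg.quadFormMinus (m' + 1 + 1) F a b (vecV (m' + 1 + 1) ![1, 0]) ≠ 0 := by
    rw [Q_vecV, hN1]
    exact one_ne_zero
  have hns : ¬ IsSquare (Cfsg.quadFormMinus (m' + 1 + 1) F a b (vecV (m' + 1 + 1) w) * Cfsg.quadFormMinus (m' + 1 + 1) F a b (vecV (m' + 1 + 1) ![1, 0])) := by
    rw [Q_vecV, Q_vecV, hw, hN1, mul_one]
    exact hν
  obtain ⟨s, hs1, hs2⟩ := delta_sq hab (n := m' + 1 + 1) rfl h2 hW' (by rw [hnorm]; exact hν) hA₁ hA₂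
  obtain ⟨T, hT⟩ : ∃ T : GS (Cfsg.quadFormMinus (m' + 1 + 1) F a b), T = ⟨frobT p hab (m' + 1 + 1), _, _, isSemi_frobT p hab (m' + 1 + 1)⟩ := ⟨_, rfl⟩
  have HT : IsSemi (Cfsg.quadFormMinus (m' + 1 + 1) F a b) (T : Equiv.Perm _) (phiF p) 1 := by
    rw [hT]
    exact isSemi_frobT p hab (m' + 1 + 1)
  obtain ⟨D, hD⟩ : ∃ D : GS (Cfsg.quadFormMinus (m' + 1 + 1) F a b), D = deltaG a b (m' + 1 + 1) W := ⟨_, rfl⟩
  have HD : IsSemi (Cfsg.quadFormMinus (m' + 1 + 1) F a b) (D : Equiv.Perm _) 1 ν := by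
    rw [← hnorm, hD]
    exact isSemi_delta a b W
  have hTf : T ^ f = ofO (R C.h (dV (m' + 1 + 1) a) hd) := by
    apply Subtype.ext
    rw [hT]
    exact frobT_pow p hab (m' + 1 + 1) hF hd
  have hTD : T * D = D ^ p * T := by
    apply Subtype.ext
    rw [hT, hD, ← map_pow]
    exact frob_delta a b p hab W
  have hs : ∀ v, ((D ^ 2 : GS (Cfsg.quadFormMinus (m' + 1 + 1) F a b)) : Equiv.Perm _) v = (normK a b W : F) • act s v := by
    intro v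
    rw [hD, ← map_pow]
    exact hs1 v
  obtain ⟨hr1, hneg⟩ := plane_cls C.h hnd ht₀ hm' hanis hq hι ht₀ (card_perp_plane C.h ht₀ hcι) (fun x hx i => hx i.succ)
    (vecV_mem (m' + 1 + 1) w) (vecV_mem (m' + 1 + 1) ![1, 0]) hA₁ hA₂ hns
  have hcomm := piS_comm C.h hnd ht₀ hanis
  have hrr : (piS C.h (R C.h _ hA₁) * piS C.h (R C.h _ hA₂)) * (piS C.h (R C.h _ hA₁) * piS C.h (R C.h _ hA₂)) = 1 := by
    calc _ = piS C.h (R C.h _ hA₁) * (piS C.h (R C.h _ hA₂) * piS C.h (R C.h _ hA₁)) * piS C.h (R C.h _ hA₂) := by simp only [mul_assoc]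
      _ = piS C.h (R C.h _ hA₁) * (piS C.h (R C.h _ hA₁) * piS C.h (R C.h _ hA₂)) * piS C.h (R C.h _ hA₂) := by rw [hcomm (piS C.h (R C.h _ hA₂))]
      _ = (piS C.h (R C.h _ hA₁) * piS C.h (R C.h _ hA₁)) * (piS C.h (R C.h _ hA₂) * piS C.h (R C.h _ hA₂)) := by simp only [mul_assoc]
      _ = 1 := by rw [piS_R_sq, piS_R_sq, one_mul]
  obtain ⟨-, e2⟩ := minus_data a b hab hq hn3
  have hP : negO C.h ∈ SS C.h ↔ 4 ∣ Fintype.card F ^ (m' + 1 + 1 + 1) + 1 := by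
    rw [← C.hΩ]
    exact e2
  refine C.abs_facts hnd hΓ hι HT HD hν (by omega) (fun o ho => phiF_dvd p hF ho) hd hTf hTD (normK a b W).ne_zero hs hA₁ hA₂ hs2 hrr hr1 hneg hP ?_
  intro e
  exact ((four_dvd_iff hq _).1 e).2

end Cfsg.Agent.H01.Om
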