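import Cfsg.Agent.Lib.H01.OmOutOdd2
/-! The outer automorphism group of `PΩ⁻` in odd characteristic: the final statement. -/
set_option autoImplicit false
set_option linter.unusedSimpArgs false
set_option linter.style.haveILetI false
set_option linter.unusedSectionVars false
set_option linter.unusedVariables false
namespace Cfsg.Agent.H01.Om
open Matrix Cfsg.Agent.Lead.Ortho Cfsg.Agent.Lead.Omega

variable {F : Type*} [Field F] [Fintype F]

set_option maxHeartbeats 8000000 in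
/-- **The outer automorphism group of `PΩ⁻` in odd characteristic.** -/
theorem out_minus_odd {p f m : ℕ} [Fact p.Prime] (hf : 1 ≤ f) (hF : Fintype.card F = p ^ f) (hp : p ≠ 2) (hm : 4 ≤ m) (a b : F)
    (hab : ∀ z₁ z₂ : F, z₁ ^ 2 + a * z₁ * z₂ + b * z₂ ^ 2 = 0 → z₁ = 0 ∧ z₂ = 0) :
    if p ^ f % 4 = 3 ∧ Odd m then Nonempty (Cfsg.Out (Cfsg.POmega F (Cfsg.quadFormMinus (m - 1) F a b)) ≃* DihedralGroup 4 × Multiplicative (ZMod f))
    else Nonempty (Cfsg.Out (Cfsg.POmega F (Cfsg.quadFormMinus (m - 1) F a b)) ≃* Multiplicative (ZMod 2 × ZMod (2 * f))) := by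
  obtain ⟨m', rfl⟩ : ∃ m', m = m' + 1 + 1 + 1 := ⟨m - 3, by omega⟩
  change if p ^ f % 4 = 3 ∧ Odd (m' + 1 + 1 + 1) then Nonempty (Cfsg.Out (Cfsg.POmega F (Cfsg.quadFormMinus (m' + 1 + 1) F a b)) ≃* DihedralGroup 4 × Multiplicative (ZMod f))
    else Nonempty (Cfsg.Out (Cfsg.POmega F (Cfsg.quadFormMinus (m' + 1 + 1) F a b)) ≃* Multiplicative (ZMod 2 × ZMod (2 * f)))
  haveI : CharP F p := Cfsg.Agent.Lead.AutPSL.charP_of_card hF hf
  have hm' : 1 ≤ m' := by omega
  have hn : 3 ≤ m' + 1 + 1 := by omega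
  have C := mkCx (qfMinus (F := F) (m' + 1 + 1) a b) (ndMinus (F := F) (m' + 1 + 1) a b hab) (frameMinus_HF (F := F) a b (m' + 1 + 1)) hm' (frameMinus_anis (F := F) a b hab (m' + 1 + 1))
  have hpo : Odd p := (Fact.out : p.Prime).odd_of_ne_two hp
  have hq' : Odd (p ^ f) := hpo.pow
  obtain ⟨x, y, χ, f1, f2, f3, f4, f5, f6, f7, f8⟩ := odd_facts hab p f hf hF hp m' hm'
  rw [hF] at f7 f8
  have hcard := card_mulaut_minus p f hf hF (m' + 1 + 1) hn a b hab
  rw [if_neg hp, ← C.card_out] at hcard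
  have hcard' := Nat.eq_of_mul_eq_mul_right Nat.card_pos hcard
  have e4 := even_half_iff hq' (m' + 1 + 1 + 1)
  have e5 := four_dvd_iff hq' (m' + 1 + 1 + 1)
  by_cases hc : p ^ f % 4 = 3 ∧ Odd (m' + 1 + 1 + 1)
  · rw [if_pos hc]
    have h4 : 4 ∣ (p ^ f) ^ (m' + 1 + 1 + 1) + 1 := e5.2 hc
    rw [if_neg (fun e => (e4.1 e) h4)] at hcard'
    have hp3 : p % 4 = 3 := by
      have h13 : p % 4 = 1 ∨ p % 4 = 3 := by
        obtain ⟨k, rfl⟩ := hpo
        omega
      rcases h13 with e | e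
      · have := pow_mod_four_of_one e f
        omega
      · exact e
    have hfo : Odd f := by
      by_contra e
      have e6 : p ^ f % 4 = 1 := by
        rw [Nat.pow_mod, hp3, pow_three_mod_four, if_pos (Nat.not_odd_iff_even.1 e)]
      omega
    exact out_iso_special (by omega) hF hp3 hfo χ hcard' f1 f2 f3 f4 f6 (fun e => f7.1 e h4) (f8 h4)
  · rw [if_neg hc]
    have h4 : ¬ 4 ∣ (p ^ f) ^ (m' + 1 + 1 + 1) + 1 := fun e => hc (e5.1 e)
    rw [if_pos (e4.2 h4)] at hcard'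
    exact out_iso_generic (by omega) hpo hcard' f1 f2 (f7.2 h4) f5

end Cfsg.Agent.H01.Om
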