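import Cfsg.Agent.Lib.H01.OmOutOdd3
import Cfsg.Agent.Lib.H01.Om3T
/-! The groups `PGO`, `PSO` and `PΩ` inside the automorphism group. -/
set_option autoImplicit false
set_option linter.unusedSimpArgs false
set_option linter.style.haveILetI false
set_option linter.unusedSectionVars false
set_option linter.unusedVariables false
namespace Cfsg.Agent.H01.Om
open Matrix Cfsg.Agent.Lead.Ortho Cfsg.Agent.Lead.Omega

variable {F : Type*} [Field F] [Fintype F] {ι : Type} [Fintype ι] [DecidableEq ι]
variable {Q : (ι → F) → F} {B : (ι → F) → (ι → F) → F}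

/-- the determinant on isometries -/
noncomputable def detU (Q : (ι → F) → F) : OG F Q →* Fˣ :=
  (Matrix.GeneralLinearGroup.det : GL ι F →* Fˣ).comp (Subgroup.subtype _)

lemma detU_val (s : OG F Q) : ((detU Q s : Fˣ) : F) = ((s : GL ι F) : Matrix ι ι F).det := rfl

lemma det_R_aux (h : QF Q B) {a : ι → F} (ha : Q a ≠ 0) :
    ((R h a ha : OG F Q) : GL ι F).val.det = -1 := by
  let f : (ι → F) →ₗ[F] F :=
    { toFun := fun x => B x a
      map_add' := fun x y => h.add_left x y a
      map_smul' := fun c x => h.smul_left c x a }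
  let r : ι → F := fun i => f (fun j => if i = j then 1 else 0)
  have hr : ∀ x, r ⬝ᵥ x = B x a := by
    intro x
    have e1 := LinearMap.pi_apply_eq_sum_univ f x
    change B x a = _ at e1
    rw [e1]
    unfold dotProduct
    apply Finset.sum_congr rfl
    intro i _
    rw [smul_eq_mul, mul_comm]
  have hM : ((R h a ha : OG F Q) : GL ι F).val = 1 + replicateCol Unit (-(Q a)⁻¹ • a) * replicateRow Unit r := by
    apply Matrix.mulVec_injective
    funext x
    change act (R h a ha) x = _
    rw [act_R, Matrix.add_mulVec, Matrix.one_mulVec, ← Matrix.mulVec_mulVec, Matrix.replicateRow_mulVec_eq_const, hr]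
    funext i
    simp [Matrix.mulVec, dotProduct, div_eq_mul_inv]
    ring
  rw [hM, Matrix.det_one_add_replicateCol_mul_replicateRow, dotProduct_smul, hr, h.self, smul_eq_mul]
  field_simp
  ring

lemma detU_R (h : QF Q B) {a : ι → F} (ha : Q a ≠ 0) : detU Q (R h a ha) = -1 := by
  apply Units.ext
  rw [detU_val, det_R_aux]
  rfl

lemma detU_negO (h : QF Q B) (hev : Even (Fintype.card ι)) : detU Q (negO h) = 1 := by
  apply Units.ext
  rw [detU_val]
  have hM : ((negO h : OG F Q) : GL ι F).val = -1 := by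
    apply Matrix.mulVec_injective
    funext x
    change act (negO h) x = _
    rw [act_negO, Matrix.neg_mulVec, Matrix.one_mulVec]
  rw [hM, Matrix.det_neg, hev.neg_one_pow]
  simp

/-- `SS` has determinant one -/
lemma detU_SS (h : QF Q B) (hnd : ND B (⊤ : Submodule F (ι → F))) {m' : ℕ} {t₀ : Fin (m' + 1 + 1) → (ι → F) × (ι → F)}
    (ht₀ : IsHF Q B t₀) (hm : 1 ≤ m') (hanis : ∀ w ∈ perpOf h t₀, Q w = 0 → w = 0) {s : OG F Q} (hs : s ∈ SS h) : detU Q s = 1 := by
  rw [← omega_eq_SS h hnd ht₀ hm hanis] at hs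
  exact Abelianization.commutator_subset_ker (detU Q) hs

section GroupLemmas

/-- recognition of the four-group quotient -/
theorem e4_of_cover {A : Type*} [Group A] (P : Subgroup A) [hP : P.Normal] (α β : A) (hα2 : α ^ 2 ∈ P) (hβ2 : β ^ 2 ∈ P)
    (hc : α * β * α⁻¹ * β⁻¹ ∈ P) (hα : α ∉ P) (hβ : β ∉ P) (hαβ : α * β⁻¹ ∉ P)
    (hcov : ∀ x, x ∈ P ∨ x * α ∈ P ∨ x * β ∈ P ∨ x * (α * β) ∈ P) :
    ∃ φ : A →* Multiplicative (ZMod 2 × ZMod 2), Function.Surjective φ ∧ φ.ker = P := by
  obtain ⟨a, ha⟩ : ∃ a : A ⧸ P, a = QuotientGroup.mk α := ⟨_, rfl⟩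
  obtain ⟨b, hb⟩ : ∃ b : A ⧸ P, b = QuotientGroup.mk β := ⟨_, rfl⟩
  have ha2 : a ^ 2 = 1 := by
    rw [ha, ← QuotientGroup.mk_pow]
    exact (QuotientGroup.eq_one_iff _).2 hα2
  have hb2 : b ^ 2 = 1 := by
    rw [hb, ← QuotientGroup.mk_pow]
    exact (QuotientGroup.eq_one_iff _).2 hβ2
  have ha1 : a ≠ 1 := by
    rw [ha, Ne, QuotientGroup.eq_one_iff]
    exact hα
  have hb1 : b ≠ 1 := by
    rw [hb, Ne, QuotientGroup.eq_one_iff]
    exact hβ
  have hinva : a⁻¹ = a := inv_eq_of_mul_eq_one_left (by rw [← sq, ha2])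
  have hinvb : b⁻¹ = b := inv_eq_of_mul_eq_one_left (by rw [← sq, hb2])
  have hne : a ≠ b := by
    intro e
    apply hαβ
    rw [← QuotientGroup.eq_one_iff, QuotientGroup.mk_mul, QuotientGroup.mk_inv, ← ha, ← hb, e, mul_inv_cancel]
  have hcm : a * b = b * a := by
    have e1 : a * b * a⁻¹ * b⁻¹ = 1 := by
      rw [ha, hb]
      exact (QuotientGroup.eq_one_iff _).2 hc
    exact mul_inv_eq_iff_eq_mul.1 (mul_inv_eq_one.1 e1)
  have hall : ∀ x : A ⧸ P, x = 1 ∨ x = a ∨ x = b ∨ x = a * b := by
    intro x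
    obtain ⟨y, rfl⟩ := QuotientGroup.mk_surjective x
    rcases hcov y with h | h | h | h
    · left
      exact (QuotientGroup.eq_one_iff _).2 h
    · right; left
      have e := (QuotientGroup.eq_one_iff _).2 h
      rw [QuotientGroup.mk_mul, ← ha] at e
      rw [eq_inv_of_mul_eq_one_left e, hinva]
    · right; right; left
      have e := (QuotientGroup.eq_one_iff _).2 h
      rw [QuotientGroup.mk_mul, ← hb] at e
      rw [eq_inv_of_mul_eq_one_left e, hinvb]
    · right; right; right
      have e := (QuotientGroup.eq_one_iff _).2 h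
      rw [QuotientGroup.mk_mul, QuotientGroup.mk_mul, ← ha, ← hb] at e
      rw [eq_inv_of_mul_eq_one_left e, _root_.mul_inv_rev, hinva, hinvb, hcm]
  haveI : Finite (A ⧸ P) := by
    have huniv : (Set.univ : Set (A ⧸ P)) = {1, a, b, a * b} := by
      ext x
      simpa using hall x
    apply Set.finite_univ_iff.1
    rw [huniv]
    exact Set.toFinite _
  have hcard : Nat.card (A ⧸ P) = 4 * 1 := by
    have huniv : (Set.univ : Set (A ⧸ P)) = {1, a, b, a * b} := by
      ext x
      simpa using hall x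
    rw [← Set.ncard_univ, huniv, Set.ncard_insert_of_notMem, Set.ncard_insert_of_notMem, Set.ncard_pair]
    · intro e
      apply ha1
      have := mul_eq_right.1 e.symm
      exact this
    · intro e
      rcases e with e | e
      · exact hne e
      · apply hb1
        exact mul_eq_left.1 e.symm
    · intro e
      rcases e with e | e | e
      · exact ha1 e.symm
      · exact hb1 e.symm
      · apply hne
        have e2 : a * b = a * a := by
          rw [← e, ← sq, ha2]
        exact (mul_left_cancel e2).symm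
  have hord : orderOf a = 2 * 1 := by
    haveI : Fact (Nat.Prime 2) := ⟨Nat.prime_two⟩
    rw [mul_one]
    exact orderOf_eq_prime ha2 ha1
  have hny : ∀ j : ℕ, b ≠ a ^ j := by
    intro j e
    rw [pow_eq_pow_mod j ha2] at e
    have : j % 2 = 0 ∨ j % 2 = 1 := by omega
    rcases this with h | h
    · rw [h, pow_zero] at e
      exact hb1 e
    · rw [h, pow_one] at e
      exact hne e.symm
  obtain ⟨e⟩ := iso_of_gens_abelian (f := 1) one_pos a b hcard hord hb2 hcm hny
  refine ⟨(e.toMonoidHom.comp (QuotientGroup.mk' P) : A →* Multiplicative (ZMod 2 × ZMod (2 * 1))), ?_, ?_⟩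
  · exact e.surjective.comp (QuotientGroup.mk'_surjective P)
  · ext x
    change e (QuotientGroup.mk x) = 1 ↔ x ∈ P
    rw [map_eq_one_iff e e.injective]
    exact QuotientGroup.eq_one_iff x

/-- recognition of the dihedral group of order eight -/
theorem d8_of {G : Type*} [Group G] (hcard : Nat.card G = 8) (a b : G) (ha4 : a ^ 4 = 1) (ha2 : a ^ 2 ≠ 1) (hb2 : b ^ 2 = 1)
    (hba : b * a * b⁻¹ = a⁻¹) (hb1 : b ≠ 1) (hba2 : b ≠ a ^ 2) : Nonempty (G ≃* DihedralGroup 4) := by
  obtain ⟨e⟩ := iso_of_gens_dihedral (f := 1) one_pos (1 : G →* G) a b 1 (by rw [hcard]) ha4 ha2 hb2 hba (one_pow _) (Commute.one_left _)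
    (Commute.one_left _) hb1 hba2 rfl rfl (fun k _ => one_dvd k)
  haveI : Unique (Multiplicative (ZMod 1)) := inferInstanceAs (Unique (ZMod 1))
  exact ⟨e.trans MulEquiv.prodUnique⟩

/-- a surjection from an isomorphism of the quotient -/
theorem hom_of_quot {A H : Type*} [Group A] [Group H] (I : Subgroup A) [hI : I.Normal] (e : A ⧸ I ≃* H) :
    ∃ φ : A →* H, Function.Surjective φ ∧ φ.ker = I := by
  refine ⟨e.toMonoidHom.comp (QuotientGroup.mk' I), e.surjective.comp (QuotientGroup.mk'_surjective I), ?_⟩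
  ext x
  change e (QuotientGroup.mk x) = 1 ↔ x ∈ I
  rw [map_eq_one_iff e e.injective]
  exact QuotientGroup.eq_one_iff x

end GroupLemmas

end Cfsg.Agent.H01.Om
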