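import Cfsg.Agent.Lib.H01.OmPGO
/-! The groups `PGO`, `PSO` and `PΩ` inside the automorphism group: identification. -/
set_option autoImplicit false
set_option linter.unusedSimpArgs false
set_option linter.style.haveILetI false
set_option linter.unusedSectionVars false
set_option linter.unusedVariables false
namespace Cfsg.Agent.H01.Om
open Matrix Cfsg.Agent.Lead.Ortho Cfsg.Agent.Lead.Omega

variable {F : Type*} [Field F] [Fintype F] {ι : Type} [Fintype ι] [DecidableEq ι]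
variable {Q : (ι → F) → F} {B : (ι → F) → (ι → F) → F}

/-- the linear similarities -/
def GLS (Q : (ι → F) → F) : Subgroup (GS Q) where
  carrier := {T | ∃ κ, IsSemi Q (T : Equiv.Perm (ι → F)) 1 κ}
  mul_mem' := by
    rintro T T' ⟨κ, H⟩ ⟨κ', H'⟩
    exact ⟨κ * κ', by simpa using H.mul H'⟩
  one_mem' := ⟨1, IsSemi.one⟩
  inv_mem' := by
    rintro T ⟨κ, H⟩
    exact ⟨κ⁻¹, by simpa using H.inv⟩

section Eqs
variable (h : QF Q B) (hnd : ND B (⊤ : Submodule F (ι → F)))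
include h hnd

lemma Th_eq_of_induced {g : GL ι F} {σ : F ≃+* F} {κ : F} (H : SemiM Q g σ κ) {β : MulAut (Cfsg.POmega F Q)}
    (hi : Cfsg.IsInducedBySemilinearPOmega Q g σ β) {T : GS Q} (hT : ∀ x, (T : Equiv.Perm (ι → F)) x = (g : Matrix ι ι F) *ᵥ smap σ x) :
    β = Th h hnd T := by
  rw [Th_of_matrix h hnd H hT]
  ext x
  obtain ⟨s, rfl⟩ := QuotientGroup.mk_surjective x
  rw [cP_mk]
  apply hi
  rfl

/-- the image of the conformal group -/
theorem pgo_eq : Cfsg.pgoAut F Q = (GLS Q).map (Th h hnd) := by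
  apply le_antisymm
  · unfold Cfsg.pgoAut Cfsg.autSubgroupOf
    rw [Subgroup.closure_le]
    rintro β ⟨g, ⟨c, hc⟩, hi⟩
    have H : SemiM Q g (RingEquiv.refl F) c := ⟨c.ne_zero, fun v => hc v⟩
    refine ⟨⟨permOfM H, _, _, isSemi_of_M H⟩, ⟨(c : F), isSemi_of_M H⟩, ?_⟩
    exact (Th_eq_of_induced h hnd H hi (fun x => rfl)).symm
  · rintro _ ⟨T, ⟨κ, HT⟩, rfl⟩
    obtain ⟨g, H, hg⟩ := HT.matrix h hnd
    rw [Th_of_matrix h hnd H hg]
    apply Subgroup.subset_closure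
    exact ⟨g, ⟨Units.mk0 κ H.hκ, fun v => H.hQ v⟩, cP_induced H⟩

omit h hnd in
lemma semiM_one (s : OG F Q) : SemiM Q (s : GL ι F) 1 1 :=
  ⟨one_ne_zero, fun v => by
    have := Q_act s v
    rw [one_mul]
    exact this⟩

/-- the image of the special orthogonal group -/
theorem pso_eq : Cfsg.psoAut F Q = ((detU Q).ker).map (cc Q) := by
  apply le_antisymm
  · unfold Cfsg.psoAut Cfsg.autSubgroupOf
    rw [Subgroup.closure_le]
    rintro β ⟨g, ⟨hg1, hg2⟩, hi⟩
    refine ⟨⟨g, hg1⟩, ?_, ?_⟩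
    · exact hg2
    · rw [← Th_ofO h hnd]
      exact (Th_eq_of_induced h hnd (semiM_one ⟨g, hg1⟩) hi (T := ofO ⟨g, hg1⟩) (fun x => rfl)).symm
  · rintro _ ⟨s, hs, rfl⟩
    rw [← Th_ofO h hnd, Th_of_matrix h hnd (semiM_one s) (T := ofO s) (fun x => rfl)]
    apply Subgroup.subset_closure
    exact ⟨s, ⟨s.2, hs⟩, cP_induced (semiM_one s)⟩

lemma ofO_conjA (T : GS Q) (s : OG F Q) : ofO (conjA h hnd T s) = T * ofO s * T⁻¹ := by
  apply Subtype.ext
  apply Equiv.ext
  intro z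
  rw [ofO_apply, act_conjA]
  rfl

lemma Th_conj (T : GS Q) (s : OG F Q) : Th h hnd T * cc Q s * (Th h hnd T)⁻¹ = cc Q (conjA h hnd T s) := by
  rw [← Th_ofO h hnd, ← Th_ofO h hnd, ofO_conjA, map_mul, map_mul, map_inv]

/-- similarities preserve the determinant of an isometry -/
lemma detU_conjA {T : GS Q} {κ : F} (H : IsSemi Q (T : Equiv.Perm (ι → F)) 1 κ) (s : OG F Q) :
    detU Q (conjA h hnd T s) = detU Q s := by
  obtain ⟨g, H', hg⟩ := H.matrix h hnd
  rw [conjA_of_matrix h hnd H' hg, cOA_apply]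
  apply Units.ext
  rw [detU_val, detU_val]
  change ((cGL g 1 (s : GL ι F) : GL ι F) : Matrix ι ι F).det = _
  rw [cGL_val, Matrix.det_mul, Matrix.det_mul, mul_right_comm, ← Matrix.det_mul, gl_mul_inv, Matrix.det_one, one_mul]
  congr 1

end Eqs

end Cfsg.Agent.H01.Om
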