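import Cfsg.Agent.Lib.H01.OmPGO2
/-! The groups `PGO`, `PSO` and `PΩ` inside the automorphism group: structure. -/
set_option autoImplicit false
set_option linter.unusedSimpArgs false
set_option linter.style.haveILetI false
set_option linter.unusedSectionVars false
set_option linter.unusedVariables false
namespace Cfsg.Agent.H01.Om
open Matrix Cfsg.Agent.Lead.Ortho Cfsg.Agent.Lead.Omega

variable {F : Type*} [Field F] [Fintype F] {ι : Type} [Fintype ι] [DecidableEq ι]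
variable {Q : (ι → F) → F} {B : (ι → F) → (ι → F) → F}

section Cxx
variable {m : ℕ} {t₀ : Fin m → (ι → F) × (ι → F)} (C : Cx Q B t₀)
include C

lemma Cx.sq_of_Th_eq {T : GS Q} {κ : F} (H : IsSemi Q (T : Equiv.Perm (ι → F)) 1 κ) {s : OG F Q}
    (e : Th C.h C.nd T = cc Q s) : IsSquare κ := by
  have e1 : Th C.h C.nd ((ofO s)⁻¹ * T) = 1 := by
    rw [map_mul, map_inv, Th_ofO, e, inv_mul_cancel]
  obtain ⟨α, hα, hs⟩ := C.scalar_of_Th _ e1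
  have H' := (isSemi_permO s).inv.mul H
  obtain ⟨-, e2⟩ := C.semi_of_form H' hα (s := 1) (fun x => by rw [act_one]; exact hs x)
  have e3 : κ = α ^ 2 := by simpa using e2
  exact ⟨α, by rw [e3]; ring⟩

lemma Cx.ofO_of_semi_one {T : GS Q} (H : IsSemi Q (T : Equiv.Perm (ι → F)) 1 1) : ∃ s, T = ofO s := by
  obtain ⟨g, H', hg⟩ := H.matrix C.h C.nd
  have hg1 : g ∈ Cfsg.isometryGroup F Q := by
    intro u _
    change Q ((g : Matrix ι ι F) *ᵥ u) = Q u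
    have := H'.hQ u
    rw [one_mul] at this
    exact this
  refine ⟨⟨g, hg1⟩, Subtype.ext (Equiv.ext fun x => ?_)⟩
  exact hg x

lemma Cx.exists_cc_of_sq {T : GS Q} {κ : F} (H : IsSemi Q (T : Equiv.Perm (ι → F)) 1 κ) (hκ : IsSquare κ) :
    ∃ s, Th C.h C.nd T = cc Q s := by
  obtain ⟨c, hc⟩ := hκ
  have hc0 : c ≠ 0 := by
    rintro rfl
    exact H.hκ (by simpa using hc)
  have H1 := (isSemi_scalar C (Units.mk0 c hc0)⁻¹).mul H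
  have H2 : IsSemi Q ((C.scalarG (Units.mk0 c hc0)⁻¹ * T : GS Q) : Equiv.Perm (ι → F)) 1 1 := by
    have e1 : (((Units.mk0 c hc0)⁻¹ : Fˣ) : F) ^ 2 * (1 : F ≃+* F) κ = 1 := by
      rw [hc]
      change (((Units.mk0 c hc0)⁻¹ : Fˣ) : F) ^ 2 * (c * c) = 1
      simp
      field_simp
    have e2 : (1 : F ≃+* F) * 1 = 1 := one_mul 1
    rw [e1, e2] at H1
    exact H1
  obtain ⟨s, hs⟩ := C.ofO_of_semi_one H2
  refine ⟨s, ?_⟩
  rw [← Th_ofO C.h C.nd, ← hs, map_mul, C.Th_scalar, one_mul]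

lemma Cx.cc_inn_iff (s : OG F Q) : cc Q s ∈ Cfsg.Inn (Cfsg.POmega F Q) ↔ s ∈ SS C.h ∨ negO C.h * s ∈ SS C.h := by
  rw [C.cc_mem_inn_iff, C.hΩ]

lemma Cx.cc_mem_pgo (s : OG F Q) : cc Q s ∈ Cfsg.pgoAut F Q := by
  rw [pgo_eq C.h C.nd]
  exact ⟨ofO s, ⟨1, isSemi_permO s⟩, Th_ofO _ _ _⟩

lemma Cx.Th_mem_pgo {T : GS Q} {κ : F} (H : IsSemi Q (T : Equiv.Perm (ι → F)) 1 κ) : Th C.h C.nd T ∈ Cfsg.pgoAut F Q := by
  rw [pgo_eq C.h C.nd]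
  exact ⟨T, ⟨κ, H⟩, rfl⟩

end Cxx

lemma neg_units_ne (h2 : (2 : F) ≠ 0) : (-1 : Fˣ) ≠ 1 := by
  intro e
  have e1 := congrArg Units.val e
  apply h2
  simp only [Units.val_neg, Units.val_one] at e1
  linear_combination -e1

section Pgo
variable {m' : ℕ} {t₀ : Fin (m' + 1 + 1) → (ι → F) × (ι → F)}

/-- the data -/
structure PD (C : Cx Q B t₀) {a₁ a₂ : ι → F} (Qa₁ : Q a₁ ≠ 0) (Qa₂ : Q a₂ ≠ 0) (D : GS Q) (ν : F) (s₀ : OG F Q) (k : ℕ) : Prop where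
  hm : 1 ≤ m'
  hanis : ∀ w ∈ perpOf C.h t₀, Q w = 0 → w = 0
  h2 : (2 : F) ≠ 0
  hev : Even (Fintype.card ι)
  h₁ : a₁ ∈ perpOf C.h (Fin.tail t₀)
  h₂ : a₂ ∈ perpOf C.h (Fin.tail t₀)
  hns : ¬ IsSquare (Q a₁ * Q a₂)
  hr1 : piS C.h (R C.h a₁ Qa₁) * piS C.h (R C.h a₂ Qa₂) ≠ 1
  hneg : negO C.h ∈ SS C.h ∨ piS C.h (negO C.h) = piS C.h (R C.h a₁ Qa₁) * piS C.h (R C.h a₂ Qa₂)
  HD : IsSemi Q (D : Equiv.Perm (ι → F)) 1 ν
  hν : ¬ IsSquare ν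
  hs₀ : ∃ c : F, c ≠ 0 ∧ ∀ v, ((D ^ 2 : GS Q) : Equiv.Perm (ι → F)) v = c • act s₀ v
  hsr : piS C.h s₀ = (piS C.h (R C.h a₁ Qa₁) * piS C.h (R C.h a₂ Qa₂)) ^ k

variable {C : Cx Q B t₀} {a₁ a₂ : ι → F} {Qa₁ : Q a₁ ≠ 0} {Qa₂ : Q a₂ ≠ 0} {D : GS Q} {ν : F} {s₀ : OG F Q} {k : ℕ}
  (X : PD C Qa₁ Qa₂ D ν s₀ k)
include X

lemma PD.detU_SS {s : OG F Q} (hs : s ∈ SS C.h) : detU Q s = 1 :=
  Cfsg.Agent.H01.Om.detU_SS C.h C.nd C.ht X.hm X.hanis hs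

lemma PD.det_cases (s : OG F Q) : detU Q s = 1 ∨ detU Q s = -1 := by
  rcases gen_four C.h C.nd C.ht X.hanis X.h₁ X.h₂ Qa₁ Qa₂ X.hns s with H | H | H | H
  · exact Or.inl (X.detU_SS H)
  · right
    have e := X.detU_SS H
    rw [map_mul, detU_R] at e
    simpa using congrArg (fun z => z * (-1 : Fˣ)) e
  · right
    have e := X.detU_SS H
    rw [map_mul, detU_R] at e
    simpa using congrArg (fun z => z * (-1 : Fˣ)) e
  · left
    have e := X.detU_SS H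
    rw [map_mul, map_mul, detU_R, detU_R] at e
    simpa using e

lemma PD.so_cases {s : OG F Q} (hs : detU Q s = 1) : s ∈ SS C.h ∨ s * (R C.h a₁ Qa₁ * R C.h a₂ Qa₂) ∈ SS C.h := by
  have hne := neg_units_ne X.h2
  rcases gen_four C.h C.nd C.ht X.hanis X.h₁ X.h₂ Qa₁ Qa₂ X.hns s with H | H | H | H
  · exact Or.inl H
  · exfalso
    have e := X.detU_SS H
    rw [map_mul, detU_R, hs, one_mul] at e
    exact hne e
  · exfalso
    have e := X.detU_SS H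
    rw [map_mul, detU_R, hs, one_mul] at e
    exact hne e
  · exact Or.inr H

lemma PD.rr : (piS C.h (R C.h a₁ Qa₁) * piS C.h (R C.h a₂ Qa₂)) * (piS C.h (R C.h a₁ Qa₁) * piS C.h (R C.h a₂ Qa₂)) = 1 := by
  have hcomm := piS_comm C.h C.nd C.ht X.hanis
  calc _ = piS C.h (R C.h a₁ Qa₁) * (piS C.h (R C.h a₂ Qa₂) * piS C.h (R C.h a₁ Qa₁)) * piS C.h (R C.h a₂ Qa₂) := by simp only [mul_assoc]
    _ = piS C.h (R C.h a₁ Qa₁) * (piS C.h (R C.h a₁ Qa₁) * piS C.h (R C.h a₂ Qa₂)) * piS C.h (R C.h a₂ Qa₂) := by rw [hcomm (piS C.h (R C.h a₂ Qa₂))]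
    _ = (piS C.h (R C.h a₁ Qa₁) * piS C.h (R C.h a₁ Qa₁)) * (piS C.h (R C.h a₂ Qa₂) * piS C.h (R C.h a₂ Qa₂)) := by simp only [mul_assoc]
    _ = 1 := by rw [piS_R_sq, piS_R_sq, one_mul]

lemma PD.detU_rr : detU Q (R C.h a₁ Qa₁ * R C.h a₂ Qa₂) = 1 := by
  rw [map_mul, detU_R, detU_R]
  simp

lemma PD.detU_s₀ : detU Q s₀ = 1 := by
  have e1 : piS C.h (s₀ * ((R C.h a₁ Qa₁ * R C.h a₂ Qa₂) ^ k)⁻¹) = 1 := by
    rw [map_mul, map_inv, map_pow, map_mul, X.hsr, mul_inv_cancel]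
  have e2 := X.detU_SS ((piS_eq_one C.h).1 e1)
  rw [map_mul, map_inv, map_pow, X.detU_rr, one_pow, inv_one, mul_one] at e2
  exact e2

lemma PD.cc_mem_pso_iff (s : OG F Q) : cc Q s ∈ Cfsg.psoAut F Q ↔ detU Q s = 1 := by
  rw [pso_eq C.h C.nd]
  constructor
  · rintro ⟨s', hs', e⟩
    have hs'' : detU Q s' = 1 := hs'
    have e1 : cc Q (s'⁻¹ * s) = 1 := by
      rw [map_mul, map_inv, ← e, inv_mul_cancel]
    obtain ⟨α, hα⟩ := C.scalar_of_cc _ e1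
    have e2 : s = s' * (s'⁻¹ * s) := by group
    rw [e2, map_mul, hs'', one_mul]
    rcases C.scalar_pm hα with e3 | e3
    · rw [e3, map_one]
    · rw [e3, detU_negO C.h X.hev]
  · intro hs
    exact ⟨s, hs, rfl⟩

lemma PD.inn_le_pso : Cfsg.Inn (Cfsg.POmega F Q) ≤ Cfsg.psoAut F Q := by
  rintro _ ⟨x, rfl⟩
  obtain ⟨t, rfl⟩ := QuotientGroup.mk_surjective x
  have e1 : MulAut.conj (QuotientGroup.mk t : Cfsg.POmega F Q) = cc Q (t : OG F Q) := conj_mk_eq C t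
  have e3 : (MulAut.conj (QuotientGroup.mk t : Cfsg.POmega F Q) : MulAut _) = MulAut.conj ((t : Cfsg.POmega F Q)) := rfl
  change MulAut.conj ((t : Cfsg.POmega F Q)) ∈ _
  rw [← e3, e1, X.cc_mem_pso_iff]
  apply X.detU_SS
  rw [← C.hΩ]
  exact t.2

lemma PD.pso_le_pgo : Cfsg.psoAut F Q ≤ Cfsg.pgoAut F Q := by
  rw [pso_eq C.h C.nd]
  rintro _ ⟨s, -, rfl⟩
  exact C.cc_mem_pgo s

lemma PD.normal : ((Cfsg.psoAut F Q).subgroupOf (Cfsg.pgoAut F Q)).Normal := by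
  constructor
  rintro ⟨x, hx⟩ hxP ⟨g, hg⟩
  rw [Subgroup.mem_subgroupOf] at hxP ⊢
  change g * x * g⁻¹ ∈ _
  change x ∈ _ at hxP
  rw [pso_eq C.h C.nd] at hxP
  obtain ⟨s, hs, rfl⟩ := hxP
  rw [pgo_eq C.h C.nd] at hg
  obtain ⟨T, ⟨κ, H⟩, rfl⟩ := hg
  rw [Th_conj, X.cc_mem_pso_iff, detU_conjA C.h C.nd H]
  exact hs

lemma PD.cover {T : GS Q} {κ : F} (H : IsSemi Q (T : Equiv.Perm (ι → F)) 1 κ) :
    ∃ s, Th C.h C.nd T = cc Q s ∨ Th C.h C.nd T = cc Q s * Th C.h C.nd D := by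
  classical
  by_cases hκ : IsSquare κ
  · obtain ⟨s, hs⟩ := C.exists_cc_of_sq H hκ
    exact ⟨s, Or.inl hs⟩
  · have hν0 : ν ≠ 0 := X.HD.hκ
    have e0 : ¬ IsSquare (ν * 1) := by
      rw [mul_one]
      exact X.hν
    have H' := H.mul X.HD.inv
    rcases square_class hν0 one_ne_zero H.hκ e0 with e | e
    · have H'' : IsSemi Q ((T * D⁻¹ : GS Q) : Equiv.Perm (ι → F)) 1 (κ * ν⁻¹) := by
        simpa using H'
      have e2 : IsSquare (κ * ν⁻¹) := by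
        obtain ⟨c, hc⟩ := e
        exact ⟨c * ν⁻¹, by rw [show κ * ν⁻¹ = (κ * ν) * (ν⁻¹ * ν⁻¹) by field_simp, hc]; ring⟩
      obtain ⟨s, hs⟩ := C.exists_cc_of_sq H'' e2
      refine ⟨s, Or.inr ?_⟩
      rw [← hs, map_mul, map_inv, inv_mul_cancel_right]
    · rw [mul_one] at e
      exact absurd e hκ

lemma PD.Th_sq : (Th C.h C.nd D) ^ 2 = cc Q s₀ := by
  obtain ⟨c, hc, hs⟩ := X.hs₀
  rw [← map_pow]
  exact C.Th_of_scalar hc hs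

lemma PD.Th_ne (s : OG F Q) : Th C.h C.nd D ≠ cc Q s := fun e => X.hν (C.sq_of_Th_eq X.HD e)

lemma PD.detU_conj (s : OG F Q) : detU Q (conjA C.h C.nd D s) = detU Q s := detU_conjA C.h C.nd X.HD s

/-- **The quotient `PGO/PSO` is a four-group.** -/
theorem PD.pgo_pso : ∃ φ : ↥(Cfsg.pgoAut F Q) →* Multiplicative (ZMod 2 × ZMod 2), Function.Surjective φ ∧
    φ.ker = (Cfsg.psoAut F Q).subgroupOf (Cfsg.pgoAut F Q) := by
  haveI := X.normal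
  have hne := neg_units_ne X.h2
  have hmem := X.cc_mem_pso_iff
  have hdR := detU_R C.h Qa₁
  refine e4_of_cover _ ⟨cc Q (R C.h a₁ Qa₁), C.cc_mem_pgo _⟩ ⟨Th C.h C.nd D, C.Th_mem_pgo X.HD⟩ ?_ ?_ ?_ ?_ ?_ ?_ ?_
  · rw [Subgroup.mem_subgroupOf]
    change (cc Q (R C.h a₁ Qa₁)) ^ 2 ∈ _
    rw [← map_pow, sq, R_mul_self, map_one]
    exact Subgroup.one_mem _
  · rw [Subgroup.mem_subgroupOf]
    change (Th C.h C.nd D) ^ 2 ∈ _
    rw [X.Th_sq, hmem]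
    exact X.detU_s₀
  · rw [Subgroup.mem_subgroupOf]
    change cc Q (R C.h a₁ Qa₁) * Th C.h C.nd D * (cc Q (R C.h a₁ Qa₁))⁻¹ * (Th C.h C.nd D)⁻¹ ∈ _
    have e : cc Q (R C.h a₁ Qa₁) * Th C.h C.nd D * (cc Q (R C.h a₁ Qa₁))⁻¹ * (Th C.h C.nd D)⁻¹ =
        cc Q (R C.h a₁ Qa₁ * conjA C.h C.nd D (R C.h a₁ Qa₁)⁻¹) := by
      rw [map_mul, ← Th_conj, map_inv]
      group
    rw [e, hmem, map_mul, X.detU_conj, map_inv, hdR]
    simp
  · rw [Subgroup.mem_subgroupOf]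
    change cc Q (R C.h a₁ Qa₁) ∉ _
    rw [hmem, hdR]
    exact hne
  · rw [Subgroup.mem_subgroupOf]
    change Th C.h C.nd D ∉ _
    rw [pso_eq C.h C.nd]
    rintro ⟨s, -, e⟩
    exact X.Th_ne s e.symm
  · rw [Subgroup.mem_subgroupOf]
    change cc Q (R C.h a₁ Qa₁) * (Th C.h C.nd D)⁻¹ ∉ _
    rw [pso_eq C.h C.nd]
    rintro ⟨s, -, e⟩
    apply X.Th_ne (s⁻¹ * R C.h a₁ Qa₁)
    rw [map_mul, map_inv, e]
    group
  · rintro ⟨x, hx⟩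
    have hx' := hx
    rw [pgo_eq C.h C.nd] at hx'
    obtain ⟨T, ⟨κ, H⟩, rfl⟩ := hx'
    simp only [Subgroup.mem_subgroupOf]
    change Th C.h C.nd T ∈ _ ∨ Th C.h C.nd T * cc Q (R C.h a₁ Qa₁) ∈ _ ∨ Th C.h C.nd T * Th C.h C.nd D ∈ _ ∨
      Th C.h C.nd T * (cc Q (R C.h a₁ Qa₁) * Th C.h C.nd D) ∈ _
    obtain ⟨s, hs | hs⟩ := X.cover H
    · rcases X.det_cases s with e | e
      · left
        rw [hs, hmem]
        exact e
      · right; left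
        rw [hs, ← map_mul, hmem, map_mul, e, hdR]
        simp
    · rcases X.det_cases s with e | e
      · right; right; left
        have e2 : Th C.h C.nd T * Th C.h C.nd D = cc Q (s * s₀) := by
          rw [hs, map_mul, ← X.Th_sq, mul_assoc, sq]
        rw [e2, hmem, map_mul, e, X.detU_s₀, one_mul]
      · right; right; right
        have e2 : Th C.h C.nd T * (cc Q (R C.h a₁ Qa₁) * Th C.h C.nd D) = cc Q (s * conjA C.h C.nd D (R C.h a₁ Qa₁) * s₀) := by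
          rw [hs, map_mul, map_mul, ← Th_conj, ← X.Th_sq, sq]
          group
        rw [e2, hmem, map_mul, map_mul, e, X.detU_conj, hdR, X.detU_s₀]
        simp

end Pgo

end Cfsg.Agent.H01.Om
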