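import Cfsg.Agent.Lib.H01.OmPGO3
/-! The groups `PGO`, `PSO` and `PΩ` inside the automorphism group: indices and the dihedral quotient. -/
set_option autoImplicit false
set_option linter.unusedSimpArgs false
set_option linter.style.haveILetI false
set_option linter.unusedSectionVars false
set_option linter.unusedVariables false
namespace Cfsg.Agent.H01.Om
open Matrix Cfsg.Agent.Lead.Ortho Cfsg.Agent.Lead.Omega

variable {F : Type*} [Field F] [Fintype F] {ι : Type} [Fintype ι] [DecidableEq ι]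
variable {Q : (ι → F) → F} {B : (ι → F) → (ι → F) → F}

/-- conjugating a reflection by a similarity -/
lemma conjA_R (h : QF Q B) (hnd : ND B (⊤ : Submodule F (ι → F))) {T : GS Q} {κ : F} (H : IsSemi Q (T : Equiv.Perm (ι → F)) 1 κ) {a : ι → F} (ha : Q a ≠ 0)
    (ha' : Q ((T : Equiv.Perm (ι → F)) a) ≠ 0) : conjA h hnd T (R h a ha) = R h ((T : Equiv.Perm (ι → F)) a) ha' := by
  apply og_ext
  intro z
  rw [act_conjA, act_R, act_R]
  have hT : (T : Equiv.Perm (ι → F)) ((T : Equiv.Perm (ι → F))⁻¹ z) = z := T_Tinv _ _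
  have hB : ∀ x y, B ((T : Equiv.Perm (ι → F)) x) ((T : Equiv.Perm (ι → F)) y) = κ * B x y := by
    intro x y
    rw [h.polar, ← H.hadd, H.hQ, H.hQ, H.hQ, h.polar x y]
    change κ * Q (x + y) - κ * Q x - κ * Q y = _
    ring
  have hQa : Q ((T : Equiv.Perm (ι → F)) a) = κ * Q a := H.hQ a
  have e1 : B z ((T : Equiv.Perm (ι → F)) a) = κ * B ((T : Equiv.Perm (ι → F))⁻¹ z) a := by
    conv_lhs => rw [← hT]
    exact hB _ _
  rw [e1, hQa, mul_div_mul_left _ _ H.hκ, sub_eq_add_neg, H.hadd, hT, ← neg_one_smul F, smul_smul, H.hsmul, sub_eq_add_neg, ← neg_one_smul F ((_ : F) • (T : Equiv.Perm (ι → F)) a), smul_smul]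
  rfl

/-- the dihedral quotient in the abstract -/
theorem d8_general {M O : Type*} [Group M] [Group O] (A I : Subgroup M) [hIn : I.Normal] (cc : O →* M) (hccA : ∀ s, cc s ∈ A) (Δ : M) (hΔ : Δ ∈ A)
    (hcard : Nat.card (↥A ⧸ I.subgroupOf A) = 8) (S : Subgroup O) (hψ1 : ∀ s, cc s ∈ I ↔ s ∈ S) (hI : ∀ x ∈ I, ∃ t, x = cc t) (s₀ : O)
    (hs₀ : Δ ^ 2 = cc s₀) (hne : ∀ t, Δ ≠ cc t) (R₁ R₂ R' : O) (hconj : Δ * cc R₁ * Δ⁻¹ = cc R') (hb2 : R₁ ^ 2 = 1)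
    (hRR : (R₁ * R')⁻¹ * (R₁ * R₂) ∈ S) (hr2 : (R₁ * R₂) ^ 2 ∈ S) (hr1 : R₁ * R₂ ∉ S) (hR₁ : R₁ ∉ S) (hR₂ : R₂ ∉ S)
    (hk : s₀ ∈ S ∨ s₀⁻¹ * (R₁ * R₂) ∈ S) :
    ∃ φ : ↥A →* DihedralGroup 4, Function.Surjective φ ∧ φ.ker = I.subgroupOf A := by
  haveI hIA : (I.subgroupOf A).Normal := hIn.subgroupOf A
  suffices h : Nonempty (↥A ⧸ I.subgroupOf A ≃* DihedralGroup 4) by
    obtain ⟨e⟩ := h
    exact hom_of_quot _ e
  obtain ⟨π₀, hπ₀⟩ : ∃ π₀ : ↥A →* (↥A ⧸ I.subgroupOf A), π₀ = QuotientGroup.mk' _ := ⟨_, rfl⟩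
  have hπ : ∀ x, π₀ x = 1 ↔ (x : M) ∈ I := by
    intro x
    rw [hπ₀]
    exact (QuotientGroup.eq_one_iff x).trans Subgroup.mem_subgroupOf
  obtain ⟨ψ, hψd⟩ : ∃ ψ : O →* (↥A ⧸ I.subgroupOf A), ψ = π₀.comp (cc.codRestrict _ hccA) := ⟨_, rfl⟩
  have hψ : ∀ s, ψ s = 1 ↔ s ∈ S := by
    intro s
    rw [hψd, MonoidHom.comp_apply, hπ]
    exact hψ1 s
  have hψeq : ∀ s s', s⁻¹ * s' ∈ S → ψ s = ψ s' := by
    intro s s' e
    have e1 : ψ (s⁻¹ * s') = 1 := (hψ _).2 e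
    rw [map_mul, map_inv] at e1
    exact (inv_mul_eq_one.1 e1)
  obtain ⟨y, hy⟩ : ∃ y, y = π₀ ⟨Δ, hΔ⟩ := ⟨_, rfl⟩
  obtain ⟨b, hb⟩ : ∃ b, b = ψ R₁ := ⟨_, rfl⟩
  obtain ⟨r, hr⟩ : ∃ r, r = ψ (R₁ * R₂) := ⟨_, rfl⟩
  have hb2' : b ^ 2 = 1 := by
    rw [hb, ← map_pow, hb2, map_one]
  have hr2' : r ^ 2 = 1 := by
    rw [hr, ← map_pow, hψ]
    exact hr2
  have hr1' : r ≠ 1 := by
    rw [hr, Ne, hψ]
    exact hr1
  have hy2' : y ^ 2 = ψ s₀ := by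
    rw [hy, ← map_pow, hψd, MonoidHom.comp_apply]
    congr 1
    apply Subtype.ext
    exact hs₀
  have hyψ : ∀ t, y ≠ ψ t := by
    intro t e
    have e1 : π₀ ((⟨Δ, hΔ⟩ : ↥A)⁻¹ * cc.codRestrict _ hccA t) = 1 := by
      rw [map_mul, map_inv, ← hy, e, hψd, MonoidHom.comp_apply, inv_mul_cancel]
    rw [hπ] at e1
    obtain ⟨t', e3⟩ := hI _ e1
    apply hne (t * t'⁻¹)
    have e4 : cc t' = Δ⁻¹ * cc t := e3.symm
    rw [map_mul, map_inv, e4]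
    group
  have hconj' : y * b * y⁻¹ = ψ R' := by
    rw [hy, hb, hψd, MonoidHom.comp_apply, ← map_inv, ← map_mul, ← map_mul, MonoidHom.comp_apply]
    congr 1
    apply Subtype.ext
    exact hconj
  have hRR' : b * ψ R' = r := by
    rw [hb, hr, ← map_mul]
    exact hψeq _ _ hRR
  have hstar : b * (y * b * y⁻¹) = r := by
    rw [hconj', hRR']
  have hbinv : b⁻¹ = b := inv_eq_of_mul_eq_one_left (by rw [← sq, hb2'])
  rcases hk with hk | hk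
  · -- `y` is an involution
    have hy2 : y ^ 2 = 1 := by
      rw [hy2', hψ]
      exact hk
    have hyinv : y⁻¹ = y := inv_eq_of_mul_eq_one_left (by rw [← sq, hy2])
    have ha2 : (b * y) ^ 2 = r := by
      rw [← hstar, hyinv, sq]
      simp only [mul_assoc]
    refine d8_of hcard (b * y) y ?_ ?_ hy2 ?_ ?_ ?_
    · rw [show (4 : ℕ) = 2 * 2 by norm_num, pow_mul, ha2, hr2']
    · rw [ha2]
      exact hr1'
    · rw [_root_.mul_inv_rev, hyinv, hbinv]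
      simp only [mul_assoc, ← sq, hy2, mul_one]
    · have := hyψ 1
      rwa [map_one] at this
    · rw [ha2, hr]
      exact hyψ _
  · -- `y` has order four
    have hy2 : y ^ 2 = r := by
      rw [hy2', hr]
      exact hψeq _ _ hk
    have hy4 : y ^ 4 = 1 := by
      rw [show (4 : ℕ) = 2 * 2 by norm_num, pow_mul, hy2, hr2']
    have hyinv : y⁻¹ = y ^ 3 := by
      apply inv_eq_of_mul_eq_one_left
      rw [← pow_succ, hy4]
    refine d8_of hcard y b hy4 ?_ hb2' ?_ ?_ ?_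
    · rw [hy2]
      exact hr1'
    · rw [hbinv]
      have e1 : b * y * b = r * y := by
        rw [← hstar]
        group
      rw [e1, ← hy2, hyinv]
      group
    · rw [hb, Ne, hψ]
      exact hR₁
    · rw [hy2, hb, hr, map_mul]
      intro e
      have := mul_eq_left.1 e.symm
      exact hR₂ ((hψ _).1 this)

section Pgo
variable {m' : ℕ} {t₀ : Fin (m' + 1 + 1) → (ι → F) × (ι → F)}
variable {C : Cx Q B t₀} {a₁ a₂ : ι → F} {Qa₁ : Q a₁ ≠ 0} {Qa₂ : Q a₂ ≠ 0} {D : GS Q} {ν : F} {s₀ : OG F Q} {k : ℕ}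
  (X : PD C Qa₁ Qa₂ D ν s₀ k)
include X

lemma PD.pso_le_inn (hn : negO C.h ∉ SS C.h) : Cfsg.psoAut F Q ≤ Cfsg.Inn (Cfsg.POmega F Q) := by
  rw [pso_eq C.h C.nd]
  rintro _ ⟨s, hs, rfl⟩
  rw [C.cc_inn_iff]
  rcases X.so_cases hs with e | e
  · exact Or.inl e
  · right
    have e1 := (piS_eq_one C.h).2 e
    rw [map_mul, map_mul] at e1
    rw [← piS_eq_one, map_mul, X.hneg.resolve_left hn, piS_comm C.h C.nd C.ht X.hanis]
    exact e1

theorem PD.pso_index_one (hn : negO C.h ∉ SS C.h) : (Cfsg.Inn (Cfsg.POmega F Q)).relIndex (Cfsg.psoAut F Q) = 1 :=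
  Subgroup.relIndex_eq_one.2 (X.pso_le_inn hn)

theorem PD.pso_index_two (hn : negO C.h ∈ SS C.h) : (Cfsg.Inn (Cfsg.POmega F Q)).relIndex (Cfsg.psoAut F Q) = 2 := by
  have hρ : cc Q (R C.h a₁ Qa₁ * R C.h a₂ Qa₂) ∈ Cfsg.psoAut F Q := (X.cc_mem_pso_iff _).2 X.detU_rr
  unfold Subgroup.relIndex
  rw [Subgroup.index_eq_two_iff]
  refine ⟨⟨_, hρ⟩, ?_⟩
  rintro ⟨x, hx⟩
  simp only [Subgroup.mem_subgroupOf]
  have hx' := hx
  rw [pso_eq C.h C.nd] at hx'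
  obtain ⟨s, hs, rfl⟩ := hx'
  change Xor' (cc Q s * cc Q (R C.h a₁ Qa₁ * R C.h a₂ Qa₂) ∈ _) (cc Q s ∈ _)
  rw [← map_mul, C.cc_inn_iff, C.cc_inn_iff]
  have hnS : ∀ t, negO C.h * t ∈ SS C.h ↔ t ∈ SS C.h := by
    intro t
    exact ⟨fun e => by simpa using Subgroup.mul_mem _ (Subgroup.inv_mem _ hn) e, Subgroup.mul_mem _ hn⟩
  rw [hnS, hnS, or_self, or_self]
  have hrr : R C.h a₁ Qa₁ * R C.h a₂ Qa₂ ∉ SS C.h := by
    rw [← piS_eq_one, map_mul]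
    exact X.hr1
  rcases X.so_cases hs with e | e
  · right
    exact ⟨e, fun e2 => hrr (by simpa using Subgroup.mul_mem _ (Subgroup.inv_mem _ e) e2)⟩
  · left
    exact ⟨e, fun e2 => hrr (by simpa using Subgroup.mul_mem _ (Subgroup.inv_mem _ e2) e)⟩

theorem PD.pgo_inn_e4 (hn : negO C.h ∉ SS C.h) :
    ∃ φ : ↥(Cfsg.pgoAut F Q) →* Multiplicative (ZMod 2 × ZMod 2), Function.Surjective φ ∧
      φ.ker = (Cfsg.Inn (Cfsg.POmega F Q)).subgroupOf (Cfsg.pgoAut F Q) := by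
  have e : Cfsg.psoAut F Q = Cfsg.Inn (Cfsg.POmega F Q) := le_antisymm (X.pso_le_inn hn) X.inn_le_pso
  rw [← e]
  exact X.pgo_pso

lemma PD.pgo_index : (Cfsg.psoAut F Q).relIndex (Cfsg.pgoAut F Q) = 4 := by
  obtain ⟨φ, hφ, hk⟩ := X.pgo_pso
  unfold Subgroup.relIndex
  rw [← hk, Subgroup.index_ker, MonoidHom.range_eq_top.2 hφ, Subgroup.card_top, Nat.card_congr Multiplicative.toAdd, Nat.card_prod, Nat.card_zmod]

/-- **The dihedral quotient.** -/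
theorem PD.pgo_inn_d8 (hn : negO C.h ∈ SS C.h) :
    ∃ φ : ↥(Cfsg.pgoAut F Q) →* DihedralGroup 4, Function.Surjective φ ∧
      φ.ker = (Cfsg.Inn (Cfsg.POmega F Q)).subgroupOf (Cfsg.pgoAut F Q) := by
  have hcard : Nat.card (↥(Cfsg.pgoAut F Q) ⧸ (Cfsg.Inn (Cfsg.POmega F Q)).subgroupOf (Cfsg.pgoAut F Q)) = 8 := by
    have e := Subgroup.relIndex_mul_relIndex (Cfsg.Inn (Cfsg.POmega F Q)) (Cfsg.psoAut F Q) (Cfsg.pgoAut F Q) X.inn_le_pso X.pso_le_pgo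
    rw [X.pso_index_two hn, X.pgo_index] at e
    exact e.symm
  have hQa' : Q ((D : Equiv.Perm (ι → F)) a₁) ≠ 0 := by
    rw [show Q ((D : Equiv.Perm (ι → F)) a₁) = ν * Q a₁ from X.HD.hQ a₁]
    exact mul_ne_zero X.HD.hκ Qa₁
  have hdet : ∀ {a : ι → F} (ha : Q a ≠ 0), R C.h a ha ∉ SS C.h := by
    intro a ha e
    have e2 := X.detU_SS e
    rw [detU_R] at e2
    exact neg_units_ne X.h2 e2
  have hrss : ∀ {s s' : OG F Q}, piS C.h s = piS C.h s' → s⁻¹ * s' ∈ SS C.h := by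
    intro s s' e
    rw [← piS_eq_one, map_mul, map_inv, e, inv_mul_cancel]
  refine d8_general (Cfsg.pgoAut F Q) (Cfsg.Inn (Cfsg.POmega F Q)) (cc Q) C.cc_mem_pgo (Th C.h C.nd D) (C.Th_mem_pgo X.HD) hcard (SS C.h) ?_ ?_ s₀ X.Th_sq X.Th_ne
    (R C.h a₁ Qa₁) (R C.h a₂ Qa₂) (R C.h _ hQa') ?_ (by rw [sq, R_mul_self]) ?_ ?_ ?_ (hdet Qa₁) (hdet Qa₂) ?_
  · intro s
    rw [C.cc_inn_iff]
    exact ⟨fun e => e.elim id (fun e2 => by simpa using Subgroup.mul_mem _ (Subgroup.inv_mem _ hn) e2), Or.inl⟩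
  · intro x hx
    have e2 := X.inn_le_pso hx
    rw [pso_eq C.h C.nd] at e2
    obtain ⟨t', -, e3⟩ := e2
    exact ⟨t', e3.symm⟩
  · rw [Th_conj, conjA_R C.h C.nd X.HD Qa₁ hQa']
  · apply hrss
    rw [map_mul, map_mul]
    refine piS_RR C.h C.nd C.ht X.hanis X.h2 Qa₁ Qa₂ Qa₁ hQa' X.hns ?_
    rw [show Q ((D : Equiv.Perm (ι → F)) a₁) = ν * Q a₁ from X.HD.hQ a₁]
    rintro ⟨c, hc⟩
    apply X.hν
    refine ⟨c / Q a₁, ?_⟩
    field_simp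
    linear_combination hc
  · rw [← piS_eq_one, map_pow, map_mul, sq, X.rr]
  · rw [← piS_eq_one, map_mul]
    exact X.hr1
  · rcases Nat.even_or_odd k with hk | hk
    · left
      rw [← piS_eq_one, X.hsr]
      obtain ⟨i, rfl⟩ := hk
      rw [← two_mul, pow_mul, sq, X.rr, one_pow]
    · right
      apply hrss
      rw [X.hsr, map_mul]
      obtain ⟨i, rfl⟩ := hk
      rw [pow_succ, pow_mul, sq, X.rr, one_pow, one_mul]

end Pgo

end Cfsg.Agent.H01.Om
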