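import Cfsg.Agent.Lib.H01.OmPGO4
/-! The data for the plus and minus forms. -/
set_option autoImplicit false
set_option linter.unusedSimpArgs false
set_option linter.style.haveILetI false
set_option linter.unusedSectionVars false
set_option linter.unusedVariables false
namespace Cfsg.Agent.H01.Om
open Matrix Cfsg.Agent.Lead.Ortho Cfsg.Agent.Lead.Omega

variable {F : Type*} [Field F] [Fintype F]

/-- the arithmetic for the plus type -/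
lemma four_dvd_sub_iff {q : ℕ} (hq : Odd q) (m : ℕ) : 4 ∣ q ^ m - 1 ↔ ¬ (Odd m ∧ q % 4 = 3) := by
  have e := four_dvd_iff hq m
  have h1 : ¬ (Odd m ∧ q % 4 = 3) ↔ ¬ 4 ∣ q ^ m + 1 := by
    rw [e, and_comm]
  rw [h1]
  obtain ⟨j, hj⟩ : Odd (q ^ m) := hq.pow
  rw [hj]
  omega

set_option maxHeartbeats 4000000 in
/-- **The data for the minus type.** -/
theorem pd_minus {a b : F} (hab : ∀ z₁ z₂ : F, z₁ ^ 2 + a * z₁ * z₂ + b * z₂ ^ 2 = 0 → z₁ = 0 ∧ z₂ = 0) (hq : Odd (Fintype.card F)) (m' : ℕ) (hm' : 1 ≤ m') :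
    ∃ (C : Cx (Cfsg.quadFormMinus (m' + 1 + 1) F a b) (polarMinus (m' + 1 + 1) F a b) (frameMinus (m' + 1 + 1) F))
      (a₁ a₂ : (Fin (m' + 1 + 1) ⊕ Fin (m' + 1 + 1)) ⊕ Fin 2 → F) (Qa₁ : Cfsg.quadFormMinus (m' + 1 + 1) F a b a₁ ≠ 0) (Qa₂ : Cfsg.quadFormMinus (m' + 1 + 1) F a b a₂ ≠ 0)
      (D : GS (Cfsg.quadFormMinus (m' + 1 + 1) F a b)) (ν : F) (s₀ : OG F (Cfsg.quadFormMinus (m' + 1 + 1) F a b)) (k : ℕ),
      PD C Qa₁ Qa₂ D ν s₀ k ∧ (negO C.h ∈ SS C.h ↔ 4 ∣ Fintype.card F ^ (m' + 1 + 1 + 1) + 1) := by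
  classical
  haveI : Fact (Irreducible (fP a b)) := ⟨fP_irr hab⟩
  have h2 : (2 : F) ≠ 0 := two_ne_zero_of_odd rfl hq
  have hn3 : 3 ≤ m' + 1 + 1 := by omega
  have h := qfMinus (F := F) (m' + 1 + 1) a b
  have hnd := ndMinus (F := F) (m' + 1 + 1) a b hab
  have ht₀ := frameMinus_HF (F := F) a b (m' + 1 + 1)
  have hanis := frameMinus_anis (F := F) a b hab (m' + 1 + 1)
  have C := mkCx h hnd ht₀ hm' hanis
  have hcι : Fintype.card ((Fin (m' + 1 + 1) ⊕ Fin (m' + 1 + 1)) ⊕ Fin 2) = 2 * (m' + 1 + 1) + 2 := by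
    simp only [Fintype.card_sum, Fintype.card_fin]
    ring
  have hι : Even (Fintype.card ((Fin (m' + 1 + 1) ⊕ Fin (m' + 1 + 1)) ⊕ Fin 2)) := by
    rw [hcι]
    exact ⟨m' + 1 + 1 + 1, by ring⟩
  obtain ⟨ν, hν⟩ := exists_nonsq hq
  have hν0 : ν ≠ 0 := by
    rintro rfl
    exact hν IsSquare.zero
  obtain ⟨w, hw⟩ := exists_norm hab hν0
  have hiw : iK a b w ≠ 0 := by
    intro e
    have e1 := of_Nm a b w
    rw [e, zero_mul, hw] at e1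
    exact hν0 ((map_eq_zero _).1 e1)
  obtain ⟨W, hW⟩ : ∃ W : (KK a b)ˣ, W = Units.mk0 (iK a b w) hiw := ⟨_, rfl⟩
  have hW' : iK a b w = W := by rw [hW]; rfl
  have hnorm : (normK a b W : F) = ν := by
    rw [← Nm_of_normK a b W w hW', hw]
  have hA₁ : Cfsg.quadFormMinus (m' + 1 + 1) F a b (vecV (m' + 1 + 1) w) ≠ 0 := by
    rw [Q_vecV, hw]
    exact hν0
  have hN1 : Nm a b (![1, 0] : Fin 2 → F) = 1 := by simp [Nm]
  have hA₂ : Cfsg.quadFormMinus (m' + 1 + 1) F a b (vecV (m' + 1 + 1) ![1, 0]) ≠ 0 := by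
    rw [Q_vecV, hN1]
    exact one_ne_zero
  have hns : ¬ IsSquare (Cfsg.quadFormMinus (m' + 1 + 1) F a b (vecV (m' + 1 + 1) w) * Cfsg.quadFormMinus (m' + 1 + 1) F a b (vecV (m' + 1 + 1) ![1, 0])) := by
    rw [Q_vecV, Q_vecV, hw, hN1, mul_one]
    exact hν
  obtain ⟨s, hs1, hs2⟩ := delta_sq hab (n := m' + 1 + 1) rfl h2 hW' (by rw [hnorm]; exact hν) hA₁ hA₂
  obtain ⟨D, hD⟩ : ∃ D : GS (Cfsg.quadFormMinus (m' + 1 + 1) F a b), D = deltaG a b (m' + 1 + 1) W := ⟨_, rfl⟩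
  have HD : IsSemi (Cfsg.quadFormMinus (m' + 1 + 1) F a b) (D : Equiv.Perm _) 1 ν := by
    rw [← hnorm, hD]
    exact isSemi_delta a b W
  have hs : ∀ v, ((D ^ 2 : GS (Cfsg.quadFormMinus (m' + 1 + 1) F a b)) : Equiv.Perm _) v = (normK a b W : F) • act s v := by
    intro v
    rw [hD, ← map_pow]
    exact hs1 v
  obtain ⟨hr1, hneg⟩ := plane_cls C.h hnd ht₀ hm' hanis hq hι ht₀ (card_perp_plane C.h ht₀ hcι) (fun x hx i => hx i.succ)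
    (vecV_mem (m' + 1 + 1) w) (vecV_mem (m' + 1 + 1) ![1, 0]) hA₁ hA₂ hns
  obtain ⟨-, e2⟩ := minus_data a b hab hq hn3
  have hP : negO C.h ∈ SS C.h ↔ 4 ∣ Fintype.card F ^ (m' + 1 + 1 + 1) + 1 := by
    rw [← C.hΩ]
    exact e2
  refine ⟨C, _, _, hA₁, hA₂, D, ν, s, m' + 1 + 1 + 1, ⟨hm', hanis, h2, hι, fun i => vecV_mem (m' + 1 + 1) w i.succ,
    fun i => vecV_mem (m' + 1 + 1) ![1, 0] i.succ, hns, hr1, hneg, HD, hν, ⟨_, (normK a b W).ne_zero, hs⟩, hs2⟩, hP⟩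

section Plus

/-- the similarity of the plus type -/
def swapP (n : ℕ) (c : Fˣ) : Equiv.Perm (Fin n ⊕ Fin n → F) where
  toFun v := Sum.elim (fun i => (c : F) * v (.inr i)) (fun i => v (.inl i))
  invFun v := Sum.elim (fun i => v (.inr i)) (fun i => ((c⁻¹ : Fˣ) : F) * v (.inl i))
  left_inv v := by
    funext k
    rcases k with i | i
    · simp
    · simp
  right_inv v := by
    funext k
    rcases k with i | i
    · simp
    · simp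

lemma swapP_inl (n : ℕ) (c : Fˣ) (v : Fin n ⊕ Fin n → F) (i : Fin n) : swapP n c v (.inl i) = (c : F) * v (.inr i) := rfl

lemma swapP_inr (n : ℕ) (c : Fˣ) (v : Fin n ⊕ Fin n → F) (i : Fin n) : swapP n c v (.inr i) = v (.inl i) := rfl

lemma isSemi_swapP (n : ℕ) (c : Fˣ) : IsSemi (Cfsg.quadFormPlus n F) (swapP n c) 1 (c : F) where
  hκ := c.ne_zero
  hadd x y := by
    funext k
    rcases k with i | i
    · simp [swapP_inl, mul_add]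
    · simp [swapP_inr]
  hsmul a x := by
    funext k
    rcases k with i | i
    · simp [swapP_inl]
      ring
    · simp [swapP_inr]
  hQ x := by
    change Cfsg.quadFormPlus n F (swapP n c x) = (c : F) * Cfsg.quadFormPlus n F x
    simp only [Cfsg.quadFormPlus, swapP_inl, swapP_inr, Finset.mul_sum]
    apply Finset.sum_congr rfl
    intro i _
    ring

lemma swapP_sq (n : ℕ) (c : Fˣ) (v : Fin n ⊕ Fin n → F) : swapP n c (swapP n c v) = (c : F) • v := by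
  funext k
  rcases k with i | i
  · simp [swapP_inl, swapP_inr]
  · simp [swapP_inl, swapP_inr]

set_option maxHeartbeats 4000000 in
/-- **The data for the plus type.** -/
theorem pd_plus (hq : Odd (Fintype.card F)) (m' : ℕ) (hm' : 1 ≤ m') :
    ∃ (C : Cx (Cfsg.quadFormPlus (m' + 1 + 1) F) (polarPlus (m' + 1 + 1) F) (framePlus (m' + 1 + 1) F))
      (a₁ a₂ : Fin (m' + 1 + 1) ⊕ Fin (m' + 1 + 1) → F) (Qa₁ : Cfsg.quadFormPlus (m' + 1 + 1) F a₁ ≠ 0) (Qa₂ : Cfsg.quadFormPlus (m' + 1 + 1) F a₂ ≠ 0)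
      (D : GS (Cfsg.quadFormPlus (m' + 1 + 1) F)) (ν : F) (s₀ : OG F (Cfsg.quadFormPlus (m' + 1 + 1) F)) (k : ℕ),
      PD C Qa₁ Qa₂ D ν s₀ k ∧ (negO C.h ∈ SS C.h ↔ 4 ∣ Fintype.card F ^ (m' + 1 + 1) - 1) := by
  classical
  have h2 : (2 : F) ≠ 0 := two_ne_zero_of_odd rfl hq
  have hn3 : 3 ≤ m' + 1 + 1 := by omega
  have h := qfPlus (F := F) (m' + 1 + 1)
  have hnd := ndPlus (F := F) (m' + 1 + 1)
  have ht₀ := framePlus_HF (F := F) (m' + 1 + 1)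
  have hanis := framePlus_anis (F := F) (m' + 1 + 1)
  have C := mkCx h hnd ht₀ hm' hanis
  obtain ⟨ht, hu, hv, Qu, Qv, Buv⟩ := cons_tail_HF h ht₀
  obtain ⟨u, hu'⟩ : ∃ u, u = (framePlus (m' + 1 + 1) F 0).1 := ⟨_, rfl⟩
  obtain ⟨v, hv'⟩ : ∃ v, v = (framePlus (m' + 1 + 1) F 0).2 := ⟨_, rfl⟩
  rw [← hu'] at hu Qu Buv
  rw [← hv'] at hv Qv Buv
  obtain ⟨ν, hν⟩ := exists_nonsq hq
  have hν0 : ν ≠ 0 := by
    rintro rfl
    exact hν (IsSquare.zero)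
  have Qa₁ : Cfsg.quadFormPlus (m' + 1 + 1) F (u + v) = 1 := by
    rw [h.add, Qu, Qv, Buv]
    ring
  have Qa₂ : Cfsg.quadFormPlus (m' + 1 + 1) F (u + ν • v) = ν := by
    rw [h.add, h.smul, Qu, Qv, h.smul_right, Buv]
    ring
  have hι : Fintype.card (Fin (m' + 1 + 1) ⊕ Fin (m' + 1 + 1)) = 2 * (m' + 1) + 2 := by
    simp only [Fintype.card_sum, Fintype.card_fin]
    ring
  have hev : Even (Fintype.card (Fin (m' + 1 + 1) ⊕ Fin (m' + 1 + 1))) := by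
    rw [hι]
    exact ⟨m' + 1 + 1, by ring⟩
  have hA₁ : Cfsg.quadFormPlus (m' + 1 + 1) F (u + v) ≠ 0 := by
    rw [Qa₁]
    exact one_ne_zero
  have hA₂ : Cfsg.quadFormPlus (m' + 1 + 1) F (u + ν • v) ≠ 0 := by
    rw [Qa₂]
    exact hν0
  have hns : ¬ IsSquare (Cfsg.quadFormPlus (m' + 1 + 1) F (u + v) * Cfsg.quadFormPlus (m' + 1 + 1) F (u + ν • v)) := by
    rw [Qa₁, Qa₂, one_mul]
    exact hν
  have hu₁ : u + v ∈ perpOf h (Fin.tail (framePlus (m' + 1 + 1) F)) := Submodule.add_mem _ hu hv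
  have hu₂ : u + ν • v ∈ perpOf h (Fin.tail (framePlus (m' + 1 + 1) F)) := Submodule.add_mem _ hu (Submodule.smul_mem _ _ hv)
  obtain ⟨hr1, hneg⟩ := plane_cls h hnd ht₀ hm' hanis hq hev ht (card_perp_plane h ht hι) le_rfl hu₁ hu₂ hA₁ hA₂ hns
  obtain ⟨-, e2⟩ := plus_data hq hn3
  have hP : negO C.h ∈ SS C.h ↔ 4 ∣ Fintype.card F ^ (m' + 1 + 1) - 1 := by
    rw [← C.hΩ]
    exact e2
  have hc0 : (Units.mk0 ν hν0 : F) = ν := rfl
  have HD : IsSemi (Cfsg.quadFormPlus (m' + 1 + 1) F) (swapP (m' + 1 + 1) (Units.mk0 ν hν0)) 1 ν := isSemi_swapP _ _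
  obtain ⟨D, hD⟩ : ∃ D : GS (Cfsg.quadFormPlus (m' + 1 + 1) F), D = ⟨swapP (m' + 1 + 1) (Units.mk0 ν hν0), _, _, HD⟩ := ⟨_, rfl⟩
  have HD' : IsSemi (Cfsg.quadFormPlus (m' + 1 + 1) F) (D : Equiv.Perm _) 1 ν := by
    rw [hD]
    exact HD
  have hs : ∀ w : Fin (m' + 1 + 1) ⊕ Fin (m' + 1 + 1) → F, ((D ^ 2 : GS (Cfsg.quadFormPlus (m' + 1 + 1) F)) : Equiv.Perm (Fin (m' + 1 + 1) ⊕ Fin (m' + 1 + 1) → F)) w = ν • act (1 : OG F (Cfsg.quadFormPlus (m' + 1 + 1) F)) w := by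
    intro w
    rw [hD, act_one, sq]
    exact swapP_sq (m' + 1 + 1) (Units.mk0 ν hν0) w
  refine ⟨C, _, _, hA₁, hA₂, D, ν, 1, 0, ⟨hm', hanis, h2, hev, hu₁, hu₂, hns, hr1, hneg, HD', hν, ⟨_, hν0, hs⟩, ?_⟩, hP⟩
  rw [map_one, pow_zero]

end Plus

end Cfsg.Agent.H01.Om
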