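import Cfsg.Agent.Lib.H01.OmEven2
/-! The group of semilinear similarities, as a group of permutations of the space. -/
set_option autoImplicit false
set_option linter.unusedSimpArgs false
set_option linter.style.haveILetI false
set_option linter.unusedSectionVars false
set_option linter.unusedVariables false
namespace Cfsg.Agent.H01.Om
open Matrix Cfsg.Agent.Lead.Ortho Cfsg.Agent.Lead.Omega

variable {F : Type*} [Field F] [Fintype F] {ι : Type} [Fintype ι] [DecidableEq ι]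
variable {Q : (ι → F) → F} {B : (ι → F) → (ι → F) → F}

lemma T_Tinv {α : Type*} (T : Equiv.Perm α) (x : α) : T (T⁻¹ x) = x := T.apply_symm_apply x

lemma Tinv_T {α : Type*} (T : Equiv.Perm α) (x : α) : T⁻¹ (T x) = x := T.symm_apply_apply x

/-- a semilinear similarity -/
structure IsSemi (Q : (ι → F) → F) (T : Equiv.Perm (ι → F)) (σ : F ≃+* F) (κ : F) : Prop where
  hκ : κ ≠ 0
  hadd : ∀ x y, T (x + y) = T x + T y
  hsmul : ∀ (c : F) x, T (c • x) = σ c • T x
  hQ : ∀ x, Q (T x) = κ * σ (Q x)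

lemma IsSemi.mul {T₁ T₂ : Equiv.Perm (ι → F)} {σ₁ σ₂ : F ≃+* F} {κ₁ κ₂ : F} (H₁ : IsSemi Q T₁ σ₁ κ₁) (H₂ : IsSemi Q T₂ σ₂ κ₂) :
    IsSemi Q (T₁ * T₂) (σ₁ * σ₂) (κ₁ * σ₁ κ₂) where
  hκ := mul_ne_zero H₁.hκ ((map_ne_zero σ₁).2 H₂.hκ)
  hadd x y := by
    simp only [Equiv.Perm.mul_apply, H₂.hadd, H₁.hadd]
  hsmul c x := by
    simp only [Equiv.Perm.mul_apply, H₂.hsmul, H₁.hsmul]
    rfl
  hQ x := by
    simp only [Equiv.Perm.mul_apply, H₁.hQ, H₂.hQ, map_mul]
    rw [mul_assoc]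
    rfl

lemma IsSemi.inv {T : Equiv.Perm (ι → F)} {σ : F ≃+* F} {κ : F} (H : IsSemi Q T σ κ) :
    IsSemi Q T⁻¹ σ⁻¹ (σ⁻¹ κ⁻¹) where
  hκ := (map_ne_zero _).2 (inv_ne_zero H.hκ)
  hadd x y := by
    apply T.injective
    rw [H.hadd, T_Tinv, T_Tinv, T_Tinv]
  hsmul c x := by
    apply T.injective
    rw [H.hsmul]
    simp only [T_Tinv]
    congr 1
    exact (σ.apply_symm_apply c).symm
  hQ x := by
    have e1 := H.hQ (T⁻¹ x)
    rw [T_Tinv] at e1
    have e2 : σ (Q (T⁻¹ x)) = κ⁻¹ * Q x := by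
      rw [e1, ← mul_assoc, inv_mul_cancel₀ H.hκ, one_mul]
    have e3 : Q (T⁻¹ x) = σ⁻¹ (κ⁻¹ * Q x) := by
      rw [← e2]
      exact (σ.symm_apply_apply _).symm
    rw [e3, map_mul]

lemma IsSemi.one : IsSemi Q (1 : Equiv.Perm (ι → F)) 1 1 where
  hκ := one_ne_zero
  hadd x y := rfl
  hsmul c x := rfl
  hQ x := by
    change Q x = 1 * Q x
    rw [one_mul]

/-- the group of semilinear similarities -/
def GS (Q : (ι → F) → F) : Subgroup (Equiv.Perm (ι → F)) where
  carrier := {T | ∃ σ κ, IsSemi Q T σ κ}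
  mul_mem' := fun ⟨σ₁, κ₁, H₁⟩ ⟨σ₂, κ₂, H₂⟩ => ⟨_, _, H₁.mul H₂⟩
  one_mem' := ⟨_, _, IsSemi.one⟩
  inv_mem' := fun ⟨σ, κ, H⟩ => ⟨_, _, H.inv⟩

/-- isometries as permutations -/
def permO : OG F Q →* Equiv.Perm (ι → F) where
  toFun g :=
    { toFun := act g
      invFun := act g⁻¹
      left_inv := act_inv_act g
      right_inv := act_act_inv g }
  map_one' := Equiv.ext fun x => act_one x
  map_mul' g k := Equiv.ext fun x => act_mul g k x

lemma permO_apply (g : OG F Q) (x : ι → F) : permO g x = act g x := rfl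

lemma permO_inj : Function.Injective (permO : OG F Q →* Equiv.Perm (ι → F)) := by
  intro g k e
  apply og_ext
  intro x
  exact congrArg (fun T : Equiv.Perm (ι → F) => T x) e

lemma isSemi_permO (g : OG F Q) : IsSemi Q (permO g) 1 1 where
  hκ := one_ne_zero
  hadd x y := act_add g x y
  hsmul c x := act_smul g c x
  hQ x := by
    change Q (act g x) = 1 * Q x
    rw [one_mul, Q_act (Q := Q)]

/-- isometries in the group of semilinear similarities -/
def ofO : OG F Q →* GS Q where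
  toFun g := ⟨permO g, _, _, isSemi_permO g⟩
  map_one' := Subtype.ext (map_one _)
  map_mul' g k := Subtype.ext (map_mul _ _ _)

lemma ofO_apply (g : OG F Q) (x : ι → F) : (ofO g : Equiv.Perm (ι → F)) x = act g x := rfl

section Main
variable (h : QF Q B) (hnd : ND B (⊤ : Submodule F (ι → F)))
include h hnd

/-- a semilinear similarity has matrix form -/
lemma IsSemi.matrix {T : Equiv.Perm (ι → F)} {σ : F ≃+* F} {κ : F} (H : IsSemi Q T σ κ) :
    ∃ g : GL ι F, SemiM Q g σ κ ∧ ∀ x, T x = (g : Matrix ι ι F) *ᵥ smap σ x :=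
  exists_semiM h hnd σ H.hκ T H.hadd H.hsmul H.hQ

omit h hnd in
lemma act_cOA_of {T : Equiv.Perm (ι → F)} {g : GL ι F} {σ : F ≃+* F} {κ : F} (H : SemiM Q g σ κ)
    (hg : ∀ x, T x = (g : Matrix ι ι F) *ᵥ smap σ x) (s : OG F Q) (z : ι → F) :
    act (cOA H s) z = T (act s (T⁻¹ z)) := by
  rw [cOA_apply, act_cO]
  have e : T⁻¹ z = smap σ.symm (((g⁻¹ : GL ι F) : Matrix ι ι F) *ᵥ z) := by
    rw [Equiv.Perm.inv_eq_iff_eq, hg, smap_symm, Matrix.mulVec_mulVec, gl_mul_inv, Matrix.one_mulVec]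
  rw [e, hg]

/-- conjugation by a similarity exists -/
lemma exists_conj (T : GS Q) : ∃ A : MulAut (OG F Q), ∀ s z, act (A s) z = (T : Equiv.Perm (ι → F)) (act s ((T : Equiv.Perm (ι → F))⁻¹ z)) := by
  obtain ⟨T, σ, κ, H⟩ := T
  obtain ⟨g, H', hg⟩ := H.matrix h hnd
  exact ⟨cOA H', fun s z => act_cOA_of H' hg s z⟩

/-- the conjugation action of the similarities -/
noncomputable def conjA : GS Q →* MulAut (OG F Q) :=
  MonoidHom.mk' (fun T => (exists_conj h hnd T).choose) (by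
    intro T T'
    ext s : 1
    apply og_ext
    intro z
    rw [(exists_conj h hnd (T * T')).choose_spec]
    change _ = act ((exists_conj h hnd T).choose ((exists_conj h hnd T').choose s)) z
    rw [(exists_conj h hnd T).choose_spec, (exists_conj h hnd T').choose_spec]
    rfl)

lemma act_conjA (T : GS Q) (s : OG F Q) (z : ι → F) :
    act (conjA h hnd T s) z = (T : Equiv.Perm (ι → F)) (act s ((T : Equiv.Perm (ι → F))⁻¹ z)) :=
  (exists_conj h hnd T).choose_spec s z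

lemma conjA_ofO (g : OG F Q) : conjA h hnd (ofO g) = MulAut.conj g := by
  ext s : 1
  apply og_ext
  intro z
  rw [act_conjA, MulAut.conj_apply, act_mul, act_mul]
  rfl

/-- the action of similarities on `PΩ` -/
noncomputable def Th : GS Q →* MulAut (Cfsg.POmega F Q) := (Thh Q).comp (conjA h hnd)

lemma Th_ofO (g : OG F Q) : Th h hnd (ofO g) = cc Q g := by
  unfold Th cc
  simp only [MonoidHom.comp_apply]
  rw [conjA_ofO]

lemma conjA_of_matrix {T : GS Q} {g : GL ι F} {σ : F ≃+* F} {κ : F} (H : SemiM Q g σ κ)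
    (hg : ∀ x, (T : Equiv.Perm (ι → F)) x = (g : Matrix ι ι F) *ᵥ smap σ x) : conjA h hnd T = cOA H := by
  ext s : 1
  apply og_ext
  intro z
  rw [act_conjA, act_cOA_of H hg]

lemma Th_of_matrix {T : GS Q} {g : GL ι F} {σ : F ≃+* F} {κ : F} (H : SemiM Q g σ κ)
    (hg : ∀ x, (T : Equiv.Perm (ι → F)) x = (g : Matrix ι ι F) *ᵥ smap σ x) : Th h hnd T = cP H := by
  unfold Th
  rw [cP_eq_Thh, MonoidHom.comp_apply, conjA_of_matrix h hnd H hg]

/-- the similarity of a matrix -/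
noncomputable def permOfM {g : GL ι F} {σ : F ≃+* F} {κ : F} (H : SemiM Q g σ κ) : Equiv.Perm (ι → F) where
  toFun x := (g : Matrix ι ι F) *ᵥ smap σ x
  invFun x := smap σ.symm (((g⁻¹ : GL ι F) : Matrix ι ι F) *ᵥ x)
  left_inv x := by
    simp only [Matrix.mulVec_mulVec, gl_inv_mul, Matrix.one_mulVec, smap_symm']
  right_inv x := by
    simp only [smap_symm, Matrix.mulVec_mulVec, gl_mul_inv, Matrix.one_mulVec]

omit h hnd in
lemma isSemi_of_M {g : GL ι F} {σ : F ≃+* F} {κ : F} (H : SemiM Q g σ κ) : IsSemi Q (permOfM H) σ κ where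
  hκ := H.hκ
  hadd x y := by
    change (g : Matrix ι ι F) *ᵥ smap σ (x + y) = (g : Matrix ι ι F) *ᵥ smap σ x + (g : Matrix ι ι F) *ᵥ smap σ y
    rw [← Matrix.mulVec_add]
    congr 1
    funext i
    simp [smap]
  hsmul c x := by
    change (g : Matrix ι ι F) *ᵥ smap σ (c • x) = σ c • (g : Matrix ι ι F) *ᵥ smap σ x
    rw [← Matrix.mulVec_smul]
    congr 1
    funext i
    simp [smap]
  hQ x := H.hQ x

/-- **Every element of `gammaPOmega` comes from a similarity.** -/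
theorem gamma_le_range : Cfsg.gammaPOmega F Q ≤ (Th h hnd).range := by
  unfold Cfsg.gammaPOmega Cfsg.autSubgroupOf
  rw [Subgroup.closure_le]
  rintro α ⟨g, σ, hp, hi⟩
  obtain ⟨c, hc⟩ := hp
  have H : SemiM Q g σ c := ⟨c.ne_zero, fun v => hc v⟩
  let T : GS Q := ⟨permOfM H, _, _, isSemi_of_M H⟩
  refine ⟨T, ?_⟩
  rw [Th_of_matrix h hnd H (T := T) (fun x => rfl)]
  ext x
  obtain ⟨s, rfl⟩ := QuotientGroup.mk_surjective x
  rw [cP_mk]
  symm
  apply hi
  rfl

end Main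

end Cfsg.Agent.H01.Om
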