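import Cfsg.Agent.Lib.H01.OmSem
/-! The kernel of the action of the semilinear similarities on `PΩ` and the order of the automorphism group. -/
set_option autoImplicit false
set_option linter.unusedSimpArgs false
set_option linter.style.haveILetI false
set_option linter.unusedSectionVars false
set_option linter.unusedVariables false
namespace Cfsg.Agent.H01.Om
open Matrix Cfsg.Agent.Lead.Ortho Cfsg.Agent.Lead.Omega

variable {F : Type*} [Field F] [Fintype F] {ι : Type} [Fintype ι] [DecidableEq ι]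
variable {Q : (ι → F) → F} {B : (ι → F) → (ι → F) → F}

section Eigen
variable {φ : (ι → F) → (ι → F)} (hadd : ∀ x y, φ (x + y) = φ x + φ y) (hsmul : ∀ (c : F) x, φ (c • x) = c • φ x)
  (H : ∀ v, Q v = 0 → v ≠ 0 → ∃ t : F, φ v = t • v)
include hadd hsmul H

lemma eigen_perp' (h : QF Q B) {u x : ι → F} {α : F}
    (huu : Q u = 0) (hu0 : u ≠ 0) (hxx : Q x = 0) (hx0 : x ≠ 0) (hxu : B x u = 0) (hu : φ u = α • u) :
    φ x = α • x := by
  by_cases hs : x + u = 0
  · have : x = (-1 : F) • u := by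
      rw [neg_one_smul]
      exact eq_neg_of_add_eq_zero_left hs
    rw [this, hsmul, hu, smul_comm]
  · have hQs : Q (x + u) = 0 := by
      rw [h.add, hxx, huu, hxu]
      ring
    obtain ⟨t, ht⟩ := H x hxx hx0
    obtain ⟨γ, hγ⟩ := H (x + u) hQs hs
    rw [hadd, ht, hu] at hγ
    have e : (t - γ) • x = (γ - α) • u := by
      funext i
      have := congrFun hγ i
      simp only [Pi.add_apply, Pi.smul_apply, smul_eq_mul] at this ⊢
      linear_combination this
    by_cases htγ : t = γ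
    · subst htγ
      rw [sub_self, zero_smul] at e
      have h1 := (smul_eq_zero.1 e.symm).resolve_right hu0
      rw [ht, sub_eq_zero.1 h1]
    · have hx : x = ((t - γ)⁻¹ * (γ - α)) • u := by
        rw [mul_smul, ← e, smul_smul, inv_mul_cancel₀ (sub_ne_zero.2 htγ), one_smul]
      rw [hx, hsmul, hu, smul_comm]

/-- All singular vectors being eigenvectors forces a scalar. -/
lemma scalar_of_eigen' (h : QF Q B) {m : ℕ} {t₀ : Fin m → (ι → F) × (ι → F)} (ht₀ : IsHF Q B t₀) (hm : 3 ≤ m) :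
    ∃ α : F, ∀ x, φ x = α • x := by
  have hON0 : IsHF Q B (Fin.elim0 : Fin 0 → (ι → F) × (ι → F)) := fun i => i.elim0
  have hm0 : 0 < m := by omega
  obtain ⟨huu, hvv, huv⟩ : Q (t₀ ⟨0, hm0⟩).1 = 0 ∧ Q (t₀ ⟨0, hm0⟩).2 = 0 ∧ B (t₀ ⟨0, hm0⟩).1 (t₀ ⟨0, hm0⟩).2 = 1 := by
    have := ht₀ ⟨0, hm0⟩ ⟨0, hm0⟩
    rw [if_pos rfl] at this
    exact ⟨this.2.2.1, this.2.2.2, this.1⟩
  obtain ⟨u, hu⟩ : ∃ u, u = (t₀ ⟨0, hm0⟩).1 := ⟨_, rfl⟩
  obtain ⟨v, hv⟩ : ∃ v, v = (t₀ ⟨0, hm0⟩).2 := ⟨_, rfl⟩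
  rw [← hu] at huu huv
  rw [← hv] at hvv huv
  have hvu : B v u = 1 := by rw [h.symm]; exact huv
  have hu0 : u ≠ 0 := by
    rintro rfl
    rw [h.zero_left] at huv
    exact zero_ne_one huv
  have hv0 : v ≠ 0 := by
    rintro rfl
    rw [h.zero_right] at huv
    exact zero_ne_one huv
  obtain ⟨α, hα⟩ := H u huu hu0
  have claimA : ∀ x, Q x = 0 → x ≠ 0 → φ x = α • x := by
    intro x hxx hx0
    by_cases hxu : B x u = 0
    · exact eigen_perp' hadd hsmul H h huu hu0 hxx hx0 hxu hα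
    · obtain ⟨x', hx'⟩ : ∃ x', x' = (B x u)⁻¹ • x := ⟨_, rfl⟩
      have hx'x' : Q x' = 0 := by rw [hx', h.smul, hxx, mul_zero]
      have hx'u : B x' u = 1 := by rw [hx', h.smul_left, inv_mul_cancel₀ hxu]
      have hux' : B u x' = 1 := by rw [h.symm]; exact hx'u
      have hF1 : IsHF Q B (Fin.cons (u, x') Fin.elim0 : Fin 1 → (ι → F) × (ι → F)) :=
        (isHF_cons_iff h (u, x') _).2 ⟨hON0, fun i => i.elim0, fun i => i.elim0, huu, hx'x', hux'⟩
      obtain ⟨z, hz, hz0, hzz⟩ := hasSing h ht₀ (k := 1) (by omega) _ hF1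
      rw [perpOf_cons] at hz
      obtain ⟨-, hzu, hzx'⟩ := hz
      simp only at hzu hzx'
      have hzx : B x z = 0 := by
        have h1 := herm_symm0 h hzx'
        rw [hx', h.smul_left] at h1
        exact (mul_eq_zero.1 h1).resolve_left (inv_ne_zero hxu)
      have hgz := eigen_perp' hadd hsmul H h huu hu0 hzz hz0 hzu hα
      exact eigen_perp' hadd hsmul H h hzz hz0 hxx hx0 hzx hgz
  have hgv := claimA v hvv hv0
  refine ⟨α, fun x => ?_⟩
  obtain ⟨x₁, hx₁⟩ : ∃ x₁, x₁ = x - B x v • u - B x u • v := ⟨_, rfl⟩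
  have hx₁u : B x₁ u = 0 := by
    rw [hx₁, h.sub_left, h.sub_left, h.smul_left, h.smul_left, Buu h huu, hvu]
    ring
  have hx₁v : B x₁ v = 0 := by
    rw [hx₁, h.sub_left, h.sub_left, h.smul_left, h.smul_left, Buu h hvv, huv]
    ring
  obtain ⟨y, hy⟩ : ∃ y, y = x₁ + u - Q x₁ • v := ⟨_, rfl⟩
  have hyy : Q y = 0 := by
    rw [hy, Q_sub h, h.add, h.smul, huu, hvv, hx₁u, h.add_left, h.smul_right, h.smul_right, hx₁v, huv]
    ring
  have hy0 : y ≠ 0 := by
    intro h0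
    have : B y v = 1 := by
      rw [hy, h.sub_left, h.add_left, h.smul_left, hx₁v, huv, Buu h hvv]
      ring
    rw [h0, h.zero_left] at this
    exact zero_ne_one this
  have hgy := claimA y hyy hy0
  have e1 : x = y - u + Q x₁ • v + B x v • u + B x u • v := by
    rw [hy, hx₁]
    abel
  have hneg : ∀ z, φ (-z) = - φ z := by
    intro z
    have := hsmul (-1) z
    simpa using this
  have hsub : ∀ x y, φ (x - y) = φ x - φ y := by
    intro x y
    rw [sub_eq_add_neg, hadd, hneg, sub_eq_add_neg]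
  rw [e1]
  simp only [hadd, hsub, hsmul, hgy, hα, hgv, smul_add, smul_sub, smul_comm α]

end Eigen

section Cxx
variable {m : ℕ} {t₀ : Fin m → (ι → F) × (ι → F)} (C : Cx Q B t₀)
include C

/-- singular vectors are eigenvectors of a semisimilarity acting trivially -/
lemma Cx.eigen_of_cP {g : GL ι F} {σ : F ≃+* F} {κ : F} (H : SemiM Q g σ κ) (h1 : cP H = 1) :
    ∀ v, Q v = 0 → v ≠ 0 → ∃ c : F, (g : Matrix ι ι F) *ᵥ smap σ v = c • v := by
  have h := C.h
  have hκ := H.hκ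
  obtain ⟨φ, hφ⟩ : ∃ φ : (ι → F) → (ι → F), φ = fun x => (g : Matrix ι ι F) *ᵥ smap σ x := ⟨_, rfl⟩
  have hg : ∀ x, φ x = (g : Matrix ι ι F) *ᵥ smap σ x := fun x => by rw [hφ]
  have hadd : ∀ x y, φ (x + y) = φ x + φ y := by
    intro x y
    rw [hg, hg, hg, ← Matrix.mulVec_add]
    congr 1
    funext i
    simp [smap]
  have hQ : ∀ x, Q (φ x) = κ * σ (Q x) := fun x => by rw [hg]; exact H.hQ x
  have hB : ∀ x y, B (φ x) (φ y) = κ * σ (B x y) := by
    intro x y
    rw [h.polar, ← hadd, hQ, hQ, hQ, h.polar x y, map_sub, map_sub]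
    ring
  have hinj : ∀ v, v ≠ 0 → φ v ≠ 0 := by
    intro v hv e
    obtain ⟨y, -, hy⟩ := C.nd v Submodule.mem_top hv
    apply hy
    have e1 := hB v y
    rw [e, h.zero_left] at e1
    exact (map_eq_zero σ).1 ((mul_eq_zero.1 e1.symm).resolve_left hκ)
  intro v Qv hv0
  have hQ' : Q (φ v) = 0 := by rw [hQ, Qv, map_zero, mul_zero]
  have hsub : C.QQ v ⊆ C.QQ (φ v) := by
    rintro _ ⟨a, ha, rfl⟩
    refine ⟨κ⁻¹ • φ a, by rw [h.smul_left, hB, ha, map_zero, mul_zero, mul_zero], ?_⟩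
    have e1 := C.cP_ee H ⟨Qv, ha⟩
    rw [h1, ← hg, ← hg] at e1
    exact e1
  obtain ⟨c, -, e⟩ := C.par_of_QQ Qv hv0 hQ' (hinj v hv0) hsub
  exact ⟨c, by rw [← hg, e]⟩

/-- **The kernel of the action on `PΩ` consists of scalars.** -/
theorem Cx.scalar_of_Th (T : GS Q) (h1 : Th C.h C.nd T = 1) : ∃ α : F, α ≠ 0 ∧ ∀ x, (T : Equiv.Perm (ι → F)) x = α • x := by
  obtain ⟨T, σ, κ, H⟩ := T
  obtain ⟨g, H', hg⟩ := H.matrix C.h C.nd
  rw [Th_of_matrix C.h C.nd H' hg] at h1
  have hσ := C.sigma_of_cP H' h1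
  subst hσ
  have key := C.eigen_of_cP H' h1
  obtain ⟨α, hα⟩ := scalar_of_eigen' (φ := T) H.hadd H.hsmul (fun v Qv hv0 => by
    obtain ⟨c, hc⟩ := key v Qv hv0
    exact ⟨c, by rw [hg, hc]⟩) C.h C.ht C.hm
  refine ⟨α, ?_, hα⟩
  rintro rfl
  obtain ⟨e, f, e1, f1, e2, f2, T3⟩ := C.exists_T3
  have h0 : T e = T 0 := by
    rw [hα, zero_smul]
    have := H.hsmul 0 0
    simpa using this.symm
  have h2 := T.injective h0
  have := T3.e0f0
  rw [h2, C.h.zero_left] at this
  exact zero_ne_one this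

/-- the scalar similarities -/
def scalarT (c : Fˣ) : Equiv.Perm (ι → F) where
  toFun x := (c : F) • x
  invFun x := ((c⁻¹ : Fˣ) : F) • x
  left_inv x := by simp [smul_smul]
  right_inv x := by simp [smul_smul]

omit C in
lemma scalarT_apply (c : Fˣ) (x : ι → F) : scalarT c x = (c : F) • x := rfl

lemma isSemi_scalar (c : Fˣ) : IsSemi Q (scalarT c) 1 ((c : F) ^ 2) where
  hκ := pow_ne_zero _ c.ne_zero
  hadd x y := by
    change (c : F) • (x + y) = (c : F) • x + (c : F) • y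
    exact smul_add _ _ _
  hsmul a x := by
    change (c : F) • (a • x) = a • ((c : F) • x)
    exact smul_comm _ _ _
  hQ x := by
    change Q ((c : F) • x) = _ * Q x
    rw [C.h.smul]

/-- the scalars as similarities -/
noncomputable def Cx.scalarG (c : Fˣ) : GS Q := ⟨scalarT c, _, _, isSemi_scalar C c⟩

lemma Cx.Th_scalar (c : Fˣ) : Th C.h C.nd (C.scalarG c) = 1 := by
  unfold Th
  rw [MonoidHom.comp_apply]
  have : conjA C.h C.nd (C.scalarG c) = 1 := by
    ext s : 1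
    apply og_ext
    intro z
    rw [act_conjA]
    change (c : F) • act s (((c⁻¹ : Fˣ) : F) • z) = _
    rw [act_smul, smul_smul]
    simp
  rw [this, map_one]

/-- the order of the kernel -/
lemma Cx.card_ker_Th : Nat.card (Th C.h C.nd).ker = Nat.card Fˣ := by
  obtain ⟨e, f, e1, f1, e2, f2, T3⟩ := C.exists_T3
  have he : e ≠ 0 := by
    rintro rfl
    have := T3.e0f0
    rw [C.h.zero_left] at this
    exact zero_ne_one this
  symm
  apply Nat.card_congr
  refine Equiv.ofBijective (fun c => (⟨C.scalarG c, C.Th_scalar c⟩ : (Th C.h C.nd).ker)) ⟨?_, ?_⟩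
  · intro c c' hc
    have e3 : (C.scalarG c : Equiv.Perm (ι → F)) e = (C.scalarG c' : Equiv.Perm (ι → F)) e := by
      have : (C.scalarG c) = (C.scalarG c') := congrArg Subtype.val hc
      rw [this]
    have e4 : (c : F) • e = (c' : F) • e := e3
    exact Units.ext (smul_left_injective F he e4)
  · rintro ⟨T, hT⟩
    obtain ⟨α, hα, hT'⟩ := C.scalar_of_Th T hT
    refine ⟨Units.mk0 α hα, ?_⟩
    apply Subtype.ext
    apply Subtype.ext
    ext1 x
    rw [hT']
    rfl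

/-- uniqueness of the field automorphism and multiplier -/
lemma Cx.semi_unique {T : Equiv.Perm (ι → F)} {σ σ' : F ≃+* F} {κ κ' : F} (H : IsSemi Q T σ κ) (H' : IsSemi Q T σ' κ') :
    σ = σ' ∧ κ = κ' := by
  obtain ⟨e, f, e1, f1, e2, f2, T3⟩ := C.exists_T3
  have he : e ≠ 0 := by
    rintro rfl
    have := T3.e0f0
    rw [C.h.zero_left] at this
    exact zero_ne_one this
  have hT0 : T 0 = 0 := by
    have := H.hsmul 0 0
    simpa using this
  have hTe : T e ≠ 0 := by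
    intro h0
    exact he (T.injective (h0.trans hT0.symm))
  constructor
  · ext c
    have e3 := (H.hsmul c e).symm.trans (H'.hsmul c e)
    exact smul_left_injective F hTe e3
  · have Qx : Q (e + f) = 1 := by
      rw [C.h.add, T3.Qe0, T3.Qf0, T3.e0f0]
      ring
    have e3 := (H.hQ (e + f)).symm.trans (H'.hQ (e + f))
    rw [Qx, map_one, map_one, mul_one, mul_one] at e3
    exact e3

/-- similarities with trivial data are isometries -/
lemma Cx.isSemi_one_eq {P : Equiv.Perm (ι → F)} (H : IsSemi Q P 1 1) : ∃ s : OG F Q, permO s = P := by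
  obtain ⟨g, H', hg⟩ := H.matrix C.h C.nd
  have hg' : ∀ x, P x = (g : Matrix ι ι F) *ᵥ x := fun x => hg x
  have hmem : g ∈ Cfsg.isometryGroup F Q := by
    intro u _
    change Q ((g : Matrix ι ι F) *ᵥ u) = Q u
    rw [← hg', H.hQ, one_mul]
    rfl
  refine ⟨⟨g, hmem⟩, ?_⟩
  ext1 x
  rw [hg']
  rfl

/-- **The order of the group of semilinear similarities.** -/
theorem Cx.card_GS (hT : ∀ (σ : F ≃+* F) (κ : Fˣ), ∃ T, IsSemi Q T σ κ) :
    Nat.card (GS Q) = Nat.card (OG F Q) * Nat.card (F ≃+* F) * Nat.card Fˣ := by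
  choose T₀ hT₀ using hT
  rw [← Nat.card_prod, ← Nat.card_prod]
  symm
  apply Nat.card_congr
  have hmem : ∀ p : (OG F Q × (F ≃+* F)) × Fˣ, IsSemi Q (T₀ p.1.2 p.2 * permO p.1.1) p.1.2 p.2 := by
    intro p
    have := (hT₀ p.1.2 p.2).mul (isSemi_permO p.1.1)
    simpa using this
  refine Equiv.ofBijective (fun p => (⟨T₀ p.1.2 p.2 * permO p.1.1, _, _, hmem p⟩ : GS Q)) ⟨?_, ?_⟩
  · rintro ⟨⟨s, σ⟩, κ⟩ ⟨⟨s', σ'⟩, κ'⟩ e
    have e1 : T₀ σ κ * permO s = T₀ σ' κ' * permO s' := congrArg Subtype.val e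
    have e2 := hmem ((s, σ), κ)
    have e3 := hmem ((s', σ'), κ')
    simp only at e2 e3
    rw [← e1] at e3
    obtain ⟨e4, e5⟩ := C.semi_unique e2 e3
    have e6 : κ = κ' := Units.ext e5
    subst e4
    subst e6
    have e7 := mul_left_cancel e1
    have e8 := permO_inj e7
    subst e8
    rfl
  · rintro ⟨T, σ, κ, H⟩
    have hκ := H.hκ
    have e1 := (hT₀ σ (Units.mk0 κ hκ)).inv.mul H
    have e2 : (σ⁻¹ * σ : F ≃+* F) = 1 := inv_mul_cancel σ
    have e3 : σ⁻¹ (((Units.mk0 κ hκ : Fˣ) : F)⁻¹) * σ⁻¹ κ = 1 := by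
      rw [← map_mul]
      simp [hκ]
    rw [e2, e3] at e1
    obtain ⟨s, hs⟩ := C.isSemi_one_eq e1
    refine ⟨((s, σ), Units.mk0 κ hκ), ?_⟩
    apply Subtype.ext
    change T₀ σ (Units.mk0 κ hκ) * permO s = T
    rw [hs]
    group

/-- **The order of the automorphism group.** -/
theorem Cx.card_aut (hΓ : Cfsg.gammaPOmega F Q = ⊤) (hT : ∀ (σ : F ≃+* F) (κ : Fˣ), ∃ T, IsSemi Q T σ κ) :
    Nat.card (MulAut (Cfsg.POmega F Q)) = Nat.card (F ≃+* F) * Nat.card (OG F Q) := by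
  have hsurj : Function.Surjective (Th C.h C.nd) := by
    intro α
    have : α ∈ (Th C.h C.nd).range := by
      apply gamma_le_range C.h C.nd
      rw [hΓ]
      exact Subgroup.mem_top α
    exact this
  have e1 := Subgroup.card_eq_card_quotient_mul_card_subgroup (Th C.h C.nd).ker
  rw [Nat.card_congr (QuotientGroup.quotientKerEquivOfSurjective _ hsurj).toEquiv, C.card_ker_Th, C.card_GS hT] at e1
  have hpos : 0 < Nat.card Fˣ := Nat.card_pos
  have e2 := Nat.eq_of_mul_eq_mul_right hpos e1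
  rw [← e2]
  ring

end Cxx

end Cfsg.Agent.H01.Om
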