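import Mathlib

/-! Isomorphisms between generated subgroups, from a common action on points.

If matrices `a s` and elements `b s` act compatibly on a family of vectors `O x` (the points), the family spans, and `b` acts
faithfully on the points, then the generated subgroups are isomorphic. -/

set_option autoImplicit false
open Matrix

namespace Cfsg.Agent.H01.PtIso

/-- A subgroup of a product which is the graph of a partial isomorphism identifies the generated subgroups. -/
theorem graph_iso {A B S : Type*} [Group A] [Group B] (P : Subgroup (A × B))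
    (h1 : ∀ x ∈ P, x.1 = 1 → x = 1) (h2 : ∀ x ∈ P, x.2 = 1 → x = 1)
    (a : S → A) (b : S → B) (hab : ∀ s, (a s, b s) ∈ P) :
    Nonempty (↥(Subgroup.closure (Set.range a)) ≃* ↥(Subgroup.closure (Set.range b))) := by
  classical
  let D : Subgroup (A × B) := Subgroup.closure (Set.range fun s => (a s, b s))
  have hD : D ≤ P := (Subgroup.closure_le _).2 (by rintro _ ⟨s, rfl⟩; exact hab s)
  let f : ↥D →* A := (MonoidHom.fst A B).comp D.subtype
  let g : ↥D →* B := (MonoidHom.snd A B).comp D.subtype
  have hf : Function.Injective f := by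
    rw [injective_iff_map_eq_one]
    rintro ⟨x, hx⟩ h
    exact Subtype.ext (h1 x (hD hx) h)
  have hg : Function.Injective g := by
    rw [injective_iff_map_eq_one]
    rintro ⟨x, hx⟩ h
    exact Subtype.ext (h2 x (hD hx) h)
  have hrf : f.range = Subgroup.closure (Set.range a) := by
    rw [MonoidHom.range_eq_map, ← Subgroup.map_map, ← MonoidHom.range_eq_map, Subgroup.range_subtype,
      MonoidHom.map_closure, ← Set.range_comp]
    rfl
  have hrg : g.range = Subgroup.closure (Set.range b) := by
    rw [MonoidHom.range_eq_map, ← Subgroup.map_map, ← MonoidHom.range_eq_map, Subgroup.range_subtype,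
      MonoidHom.map_closure, ← Set.range_comp]
    rfl
  exact ⟨(MulEquiv.subgroupCongr hrf.symm).trans (((MonoidHom.ofInjective hf).symm).trans
    ((MonoidHom.ofInjective hg).trans (MulEquiv.subgroupCongr hrg)))⟩

/-- The graph subgroup of a compatible action. -/
def graphP {ι X B : Type*} [Fintype ι] [DecidableEq ι] {K : Type*} [Field K] [Group B] [MulAction B X]
    (O : X → ι → K) : Subgroup (GL ι K × B) where
  carrier := {p | ∀ x, p.1.val *ᵥ O x = O (p.2 • x)}
  one_mem' := by
    intro x
    simp
  mul_mem' := by
    rintro ⟨g, b⟩ ⟨g', b'⟩ hp hp' x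
    show (g * g').val *ᵥ O x = O ((b * b') • x)
    rw [Units.val_mul, ← Matrix.mulVec_mulVec, hp' x, mul_smul]
    exact hp _
  inv_mem' := by
    rintro ⟨g, b⟩ hp x
    show (g⁻¹).val *ᵥ O x = O (b⁻¹ • x)
    have h := hp (b⁻¹ • x)
    change g.val *ᵥ O (b⁻¹ • x) = O (b • b⁻¹ • x) at h
    rw [smul_inv_smul] at h
    rw [← h, Matrix.mulVec_mulVec, ← Units.val_mul, inv_mul_cancel]
    simp

theorem iso_of_points {ι X B S : Type*} [Fintype ι] [DecidableEq ι] {K : Type*} [Field K] [Group B] [MulAction B X]
    (O : X → ι → K)
    (hspan : ∀ g : GL ι K, (∀ x, g.val *ᵥ O x = O x) → g = 1)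
    (hfaith : ∀ b : B, (∀ x, O (b • x) = O x) → b = 1)
    (a : S → GL ι K) (b : S → B) (hab : ∀ s x, (a s).val *ᵥ O x = O (b s • x)) :
    Nonempty (↥(Subgroup.closure (Set.range a)) ≃* ↥(Subgroup.closure (Set.range b))) := by
  apply graph_iso (graphP O) ?_ ?_ a b (fun s x => hab s x)
  · rintro ⟨g, c⟩ hp h
    change g = 1 at h
    subst h
    have hc : c = 1 := by
      apply hfaith
      intro x
      have := hp x
      simpa using this.symm
    rw [hc]
    rfl
  · rintro ⟨g, c⟩ hp h
    change c = 1 at h
    subst h
    have hg : g = 1 := by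
      apply hspan
      intro x
      have := hp x
      simpa using this
    rw [hg]
    rfl

/-- Spanning, from an expression of the basis vectors in terms of the points. -/
theorem span_of_lists {ι X : Type*} [Fintype ι] [DecidableEq ι] {K : Type*} [Field K] (O : X → ι → K)
    (L : ι → List X) (hL : ∀ k, ((L k).map O).sum = Pi.single k 1) (g : GL ι K) (hg : ∀ x, g.val *ᵥ O x = O x) : g = 1 := by
  have h1 : ∀ l : List X, g.val *ᵥ (l.map O).sum = (l.map O).sum := by
    intro l
    induction l with
    | nil => simp
    | cons a l ih => rw [List.map_cons, List.sum_cons, Matrix.mulVec_add, hg, ih]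
  apply Units.ext
  ext i j
  have h2 := congrFun (h1 (L j)) i
  rw [hL j, Matrix.mulVec_single_one] at h2
  simpa [Matrix.one_apply, Pi.single_apply, eq_comm] using h2

end Cfsg.Agent.H01.PtIso
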