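import Mathlib

/-! A homomorphism from a table: a function `F` on a group generated by `a s`, with values in a monoid, satisfying
`F (x * a s) = F x * ρ (b s)`, comes from a homomorphism to the group containing the `b s`. -/

set_option autoImplicit false

namespace Cfsg.Agent.H01.PtIso

theorem hom_of_table {A B S M : Type*} [Group A] [Group B] [Monoid M] (ρ : B →* M) (hρ : Function.Injective ρ)
    (a : S → A) (b : S → B) (hgen : Subgroup.closure (Set.range a) = ⊤) (F : A → M) (h1 : F 1 = 1)
    (hF : ∀ x s, F (x * a s) = F x * ρ (b s)) : ∃ φ : A →* B, ∀ x, ρ (φ x) = F x := by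
  classical
  let D : Subgroup (A × B) := Subgroup.closure (Set.range fun s => (a s, b s))
  have hD : ∀ p ∈ D, F p.1 = ρ p.2 := by
    intro p hp
    induction hp using Subgroup.closure_induction_right with
    | one => simpa using h1
    | mul_right x y _ hy ih =>
      obtain ⟨s, rfl⟩ := hy
      show F (x.1 * a s) = ρ (x.2 * b s)
      rw [hF, ih, map_mul]
    | mul_inv_cancel x y _ hy ih =>
      obtain ⟨s, rfl⟩ := hy
      show F (x.1 * (a s)⁻¹) = ρ (x.2 * (b s)⁻¹)
      have h2 := hF (x.1 * (a s)⁻¹) s
      rw [inv_mul_cancel_right, ih] at h2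
      have h3 : ρ (b s) * ρ (b s)⁻¹ = 1 := by rw [← map_mul, mul_inv_cancel, map_one]
      rw [map_mul, h2, mul_assoc, h3, mul_one]
  have hsurj : ∀ x : A, ∃ y : B, (x, y) ∈ D := by
    intro x
    have hx : x ∈ Subgroup.closure (Set.range a) := by rw [hgen]; trivial
    have hm : (D.map (MonoidHom.fst A B)) = Subgroup.closure (Set.range a) := by
      rw [MonoidHom.map_closure, ← Set.range_comp]
      rfl
    rw [← hm] at hx
    obtain ⟨⟨x', y⟩, hy, e⟩ := hx
    change x' = x at e
    subst e
    exact ⟨y, hy⟩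
  choose y hy using hsurj
  have hyv : ∀ x, ρ (y x) = F x := fun x => (hD _ (hy x)).symm
  refine ⟨MonoidHom.mk' y ?_, hyv⟩
  intro x x'
  apply hρ
  have hm := D.mul_mem (hy x) (hy x')
  have h3 := hD _ hm
  rw [hyv]
  exact h3

end Cfsg.Agent.H01.PtIso
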