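import Mathlib
import Cfsg.Agent.Lib.H01.PtIso

/-! Isomorphisms between small subgroups given by tables, and between their Sylow overgroups. -/

set_option autoImplicit false

namespace Cfsg.Agent.H01.TabIso

open Subgroup

variable {A B : Type*} [Group A] [Group B] {n k : ℕ}

theorem mem_closure_table (fa : Fin n → A) (a : Fin k → A) (T : Fin n → Fin k → Fin n) (i0 : Fin n)
    (h0a : fa i0 = 1) (hma : ∀ i s, fa i * a s = fa (T i s)) (hinv : ∀ s, a s * a s = 1)
    {x : A} (hx : x ∈ closure (Set.range a)) : ∃ i, x = fa i := by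
  induction hx using Subgroup.closure_induction_right with
  | one => exact ⟨i0, h0a.symm⟩
  | mul_right x hx y hy ih =>
    obtain ⟨s, rfl⟩ := hy
    obtain ⟨i, rfl⟩ := ih
    exact ⟨T i s, hma i s⟩
  | mul_inv_cancel x hx y hy ih =>
    obtain ⟨s, rfl⟩ := hy
    obtain ⟨i, rfl⟩ := ih
    have : (a s)⁻¹ = a s := inv_eq_of_mul_eq_one_left (hinv s)
    rw [this]
    exact ⟨T i s, hma i s⟩

/-- The subgroups generated by corresponding generators, from a table of the pairs. -/
theorem table_iso (fa : Fin n → A) (fb : Fin n → B) (a : Fin k → A) (b : Fin k → B)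
    (T : Fin n → Fin k → Fin n) (i0 : Fin n)
    (h0a : fa i0 = 1) (h0b : fb i0 = 1)
    (hma : ∀ i s, fa i * a s = fa (T i s)) (hmb : ∀ i s, fb i * b s = fb (T i s))
    (hinv : ∀ s, a s * a s = 1) (hinvb : ∀ s, b s * b s = 1)
    (h1 : ∀ i, fa i = 1 → fb i = 1) (h2 : ∀ i, fb i = 1 → fa i = 1) :
    Nonempty (↥(closure (Set.range a)) ≃* ↥(closure (Set.range b))) := by
  let P : Subgroup (A × B) := closure (Set.range fun s => (a s, b s))
  have hP : ∀ x ∈ P, ∃ i, x = (fa i, fb i) := by
    intro x hx
    refine mem_closure_table (fun i => (fa i, fb i)) (fun s => (a s, b s)) T i0 ?_ ?_ ?_ hx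
    · exact Prod.ext h0a h0b
    · intro i s
      exact Prod.ext (hma i s) (hmb i s)
    · intro s
      exact Prod.ext (hinv s) (hinvb s)
  refine Cfsg.Agent.H01.PtIso.graph_iso P ?_ ?_ a b (fun s => subset_closure ⟨s, rfl⟩)
  · intro x hx hx1
    obtain ⟨i, rfl⟩ := hP x hx
    exact Prod.ext hx1 (h1 i hx1)
  · intro x hx hx1
    obtain ⟨i, rfl⟩ := hP x hx
    exact Prod.ext (h2 i hx1) hx1

/-- The order of a subgroup generated by involutions from its table. -/
theorem card_closure_table (fa : Fin n → A) (a : Fin k → A) (T : Fin n → Fin k → Fin n) (i0 : Fin n)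
    (h0a : fa i0 = 1) (hma : ∀ i s, fa i * a s = fa (T i s)) (hinv : ∀ s, a s * a s = 1)
    (hinj : Function.Injective fa)
    (hpar : ∀ i : Fin n, i = i0 ∨ ∃ j, ∃ s, j < i ∧ T j s = i) :
    Nat.card (closure (Set.range a)) = n := by
  have hmem : ∀ i, fa i ∈ closure (Set.range a) := by
    intro i
    induction i using WellFoundedLT.induction with
    | ind i ih =>
      rcases hpar i with rfl | ⟨j, s, hj, rfl⟩
      · rw [h0a]
        exact one_mem _
      · rw [← hma]
        exact mul_mem (ih j hj) (subset_closure ⟨s, rfl⟩)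
  let f : Fin n → closure (Set.range a) := fun i => ⟨fa i, hmem i⟩
  have hf : Function.Bijective f := by
    constructor
    · intro i j h
      exact hinj (congrArg Subtype.val h)
    · rintro ⟨x, hx⟩
      obtain ⟨i, rfl⟩ := mem_closure_table fa a T i0 h0a hma hinv hx
      exact ⟨i, rfl⟩
  rw [← Nat.card_congr (Equiv.ofBijective f hf), Nat.card_fin]

/-- Sylow subgroups are isomorphic when they are both isomorphic to subgroups of the right order. -/
theorem syl_iso {G H A' B' : Type*} [Group G] [Group H] [Group A'] [Group B'] [Finite G] [Finite H]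
    (p : ℕ) [Fact p.Prime] {e : ℕ} (ia : A' →* G) (ib : B' →* H) (hia : Function.Injective ia)
    (hib : Function.Injective ib) (E : A' ≃* B') (hcard : Nat.card A' = p ^ e)
    (hG : (Nat.card G).factorization p = e) (hH : (Nat.card H).factorization p = e)
    (P : Sylow p G) (Q : Sylow p H) : Nonempty (↥(P : Subgroup G) ≃* ↥(Q : Subgroup H)) := by
  have e1 : ↥ia.range ≃* A' := (MonoidHom.ofInjective hia).symm
  have e2 : ↥ib.range ≃* B' := (MonoidHom.ofInjective hib).symm
  have c1 : Nat.card ia.range = p ^ (Nat.card G).factorization p := by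
    rw [Nat.card_congr e1.toEquiv, hcard, hG]
  have c2 : Nat.card ib.range = p ^ (Nat.card H).factorization p := by
    rw [Nat.card_congr e2.toEquiv, Nat.card_congr E.symm.toEquiv, hcard, hH]
  let SA : Sylow p G := Sylow.ofCard ia.range c1
  let SB : Sylow p H := Sylow.ofCard ib.range c2
  have e3 : ↥(P : Subgroup G) ≃* ↥(SA : Subgroup G) := P.equiv SA
  have e4 : ↥(SB : Subgroup H) ≃* ↥(Q : Subgroup H) := SB.equiv Q
  exact ⟨e3.trans (e1.trans (E.trans (e2.symm.trans e4)))⟩

/-- Computing the multiplicity of a prime. -/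
lemma factorization_of_mul {p a m : ℕ} (hp : p.Prime) (hm : ¬ p ∣ m) :
    (p ^ a * m).factorization p = a := by
  have hm0 : m ≠ 0 := by
    rintro rfl
    exact hm (dvd_zero _)
  rw [Nat.factorization_mul (pow_ne_zero _ hp.ne_zero) hm0, Finsupp.add_apply, hp.factorization_pow,
    Nat.factorization_eq_zero_of_not_dvd hm]
  simp

end Cfsg.Agent.H01.TabIso
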