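import Mathlib
import Cfsg.Agent.Lib.Lead.PSUBase
import Cfsg.Agent.Lib.H10.CommInv

/-! The involutions of `SU₃(q)`, `q` odd: they correspond to the non-isotropic points of the unitary plane. -/

set_option autoImplicit false
set_option linter.unusedSectionVars false

namespace Cfsg.Agent.H01.U3Inv

open Matrix Cfsg.Agent.Lead Cfsg.Agent.Lead.PSU
open scoped MatrixGroups

variable {F : Type*} [Field F] [Fintype F] {q : ℕ}

local notation "herm" => Cfsg.hermForm 3 F q

/-- The matrix of the involution with fixed point `v`. -/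
def invM (q : ℕ) (v : Fin 3 → F) : Matrix (Fin 3) (Fin 3) F :=
  Matrix.of fun i j => 2 * v i * v j ^ q - (1 : Matrix (Fin 3) (Fin 3) F) i j

lemma invM_mulVec (v z : Fin 3 → F) : invM q v *ᵥ z = (2 * herm z v) • v - z := by
  ext i
  simp only [invM, Matrix.mulVec, dotProduct, Fin.sum_univ_three, Cfsg.hermForm, Matrix.of_apply, Pi.sub_apply,
    Pi.smul_apply, smul_eq_mul]
  fin_cases i <;> simp [Matrix.one_apply] <;> ring

lemma invM_det {v : Fin 3 → F} (hv : herm v v = 1) : (invM q v).det = 1 := by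
  have h := hv
  simp only [Cfsg.hermForm, Fin.sum_univ_three] at h
  rw [Matrix.det_fin_three]
  simp [invM, Matrix.one_apply]
  linear_combination 2 * h

variable (hF : Fintype.card F = q ^ 2)
include hF

lemma two_pow_q : (2 : F) ^ q = 2 := by
  have h := pow_add_q hF (1 : F) 1
  rw [one_pow] at h
  rwa [one_add_one_eq_two] at h

lemma herm_inv {v : Fin 3 → F} (hv : herm v v = 1) (a b : Fin 3 → F) :
    herm (invM q v *ᵥ a) (invM q v *ᵥ b) = herm a b := by
  have e : herm v b = herm b v ^ q := herm_conj hF b v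
  rw [invM_mulVec, invM_mulVec, herm_sub_left hF, herm_sub_right hF, herm_sub_right hF, herm_smul_left, herm_smul_left,
    herm_smul_right hF, herm_smul_right hF, hv, e, mul_pow, two_pow_q hF]
  ring

/-- The involution with fixed point `v`. -/
def invS (v : Fin 3 → F) (hv : herm v v = 1) : Cfsg.SU 3 F q :=
  ⟨⟨invM q v, invM_det hv⟩, fun a b => herm_inv hF hv a b⟩

lemma act_invS (v : Fin 3 → F) (hv : herm v v = 1) (z : Fin 3 → F) :
    act (invS hF v hv) z = (2 * herm z v) • v - z :=
  invM_mulVec v z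

lemma act_invS_self (v : Fin 3 → F) (hv : herm v v = 1) : act (invS hF v hv) v = v := by
  rw [act_invS, hv, mul_one, two_smul]
  abel

lemma invS_sq (v : Fin 3 → F) (hv : herm v v = 1) : invS hF v hv * invS hF v hv = 1 := by
  apply su_ext
  intro z
  rw [act_mul, act_one, act_invS hF v hv z, act_sub, act_smul, act_invS_self, act_invS hF v hv z]
  abel

lemma invS_ne_one (h2 : (2 : F) ≠ 0) (v : Fin 3 → F) (hv : herm v v = 1) : invS hF v hv ≠ 1 := by
  intro h
  have h5' : invM q v = 1 := by
    have h6 : (invS hF v hv).1.val = 1 := by rw [h]; rfl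
    exact h6
  have h1 : ∀ i, (invM q v) i i = 1 := by
    intro i
    rw [h5']
    simp
  have h3 := hv
  simp only [Cfsg.hermForm, Fin.sum_univ_three] at h3
  have h00 := h1 0
  have h11 := h1 1
  have h22 := h1 2
  simp [invM] at h00 h11 h22
  apply h2
  have h5 : (2 : F) * 2 = 0 := by
    linear_combination (-1 : F) * h00 - h11 - h22 + 2 * h3
  simpa using h5

/-- Conjugation of the involutions. -/
lemma conj_invS (g : Cfsg.SU 3 F q) (v : Fin 3 → F) (hv : herm v v = 1) :
    g * invS hF v hv * g⁻¹ = invS hF (act g v) (by rw [herm_act]; exact hv) := by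
  apply su_ext
  intro z
  rw [act_mul, act_mul, act_invS, act_invS, act_sub, act_smul, act_act_inv]
  have h := herm_act g (act g⁻¹ z) v
  rw [act_act_inv] at h
  rw [h]

/-- The structure of an involution. -/
theorem exists_vec (h2 : (2 : F) ≠ 0) (x : Cfsg.SU 3 F q) (hx : x ≠ 1) (hx2 : x * x = 1) :
    ∃ v, ∃ hv : herm v v = 1, x = invS hF v hv := by
  classical
  have hq2 := two_le_q hF
  set A : Matrix (Fin 3) (Fin 3) F := x.1.val with hA
  have hAA : A * A = 1 := by
    have := congrArg (fun g : Cfsg.SU 3 F q => g.1.val) hx2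
    exact this
  have hdetA : A.det = 1 := x.1.2
  let f : Module.End F (Fin 3 → F) := Matrix.toLin' A
  have hff : f * f = 1 := by
    apply LinearMap.ext
    intro z
    show A *ᵥ (A *ᵥ z) = z
    rw [Matrix.mulVec_mulVec, hAA, Matrix.one_mulVec]
  obtain ⟨b₀, hb₀⟩ := Cfsg.Agent.H10.exists_basis_of_comm_invol h2 {f} (by simpa using hff) (by simp)
  have hfin : Module.finrank F (Fin 3 → F) = 3 := by simp
  let b : Module.Basis (Fin 3) F (Fin 3 → F) := b₀.reindex (finCongr hfin)
  have hb : ∀ i, A *ᵥ b i = b i ∨ A *ᵥ b i = - b i := by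
    intro i
    have := hb₀ f rfl ((finCongr hfin).symm i)
    have e : b i = b₀ ((finCongr hfin).symm i) := by simp [b]
    rw [e]
    exact this
  let u : Fin 3 → ℤˣ := fun i => if A *ᵥ b i = b i then 1 else -1
  have hu : ∀ i, A *ᵥ b i = Cfsg.Agent.H10.signF F (u i) • b i := by
    intro i
    by_cases h : A *ᵥ b i = b i
    · have e : u i = 1 := if_pos h
      rw [e, h]
      simp
    · have e : u i = -1 := if_neg h
      rw [e, (hb i).resolve_left h]
      simp
  have hprod := Cfsg.Agent.H10.det_of_signs A b u hu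
  rw [hdetA] at hprod
  have hprod' : ∏ i, u i = 1 := by
    apply Cfsg.Agent.H10.signF_inj (F := F) h2
    rw [← hprod]
    simp
  rw [Fin.prod_univ_three] at hprod'
  have hnot : ¬ (u 0 = 1 ∧ u 1 = 1 ∧ u 2 = 1) := by
    rintro ⟨h0, h1, h2'⟩
    apply hx
    have hall : ∀ i, u i = 1 := by
      intro i
      fin_cases i
      · exact h0
      · exact h1
      · exact h2'
    have hfb : f = LinearMap.id := by
      apply b.ext
      intro i
      show A *ᵥ b i = b i
      rw [hu i, hall i]
      simp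
    apply Subtype.ext
    apply Subtype.ext
    have : A = 1 := by
      have h3 : Matrix.toLin' A = Matrix.toLin' (1 : Matrix (Fin 3) (Fin 3) F) := by
        rw [Matrix.toLin'_one]
        exact hfb
      exact Matrix.toLin'.injective h3
    exact this
  obtain ⟨i₀, hi₀, hj⟩ : ∃ i₀, u i₀ = 1 ∧ ∀ j, j ≠ i₀ → u j = -1 := by
    rcases Int.units_eq_one_or (u 0) with h0 | h0 <;> rcases Int.units_eq_one_or (u 1) with h1 | h1 <;>
      rcases Int.units_eq_one_or (u 2) with h2' | h2'
    · exact absurd ⟨h0, h1, h2'⟩ hnot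
    · rw [h0, h1, h2'] at hprod'
      exact absurd hprod' (by decide)
    · rw [h0, h1, h2'] at hprod'
      exact absurd hprod' (by decide)
    · refine ⟨0, h0, fun j hj => ?_⟩
      fin_cases j
      · exact absurd rfl hj
      · exact h1
      · exact h2'
    · rw [h0, h1, h2'] at hprod'
      exact absurd hprod' (by decide)
    · refine ⟨1, h1, fun j hj => ?_⟩
      fin_cases j
      · exact h0
      · exact absurd rfl hj
      · exact h2'
    · refine ⟨2, h2', fun j hj => ?_⟩
      fin_cases j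
      · exact h0
      · exact h1
      · exact absurd rfl hj
    · rw [h0, h1, h2'] at hprod'
      exact absurd hprod' (by decide)
  set v₀ := b i₀ with hv₀
  have hv₀0 : v₀ ≠ 0 := b.ne_zero i₀
  have hAv : A *ᵥ v₀ = v₀ := by
    rw [hu i₀, hi₀]
    simp [hv₀]
  have hAj : ∀ j, j ≠ i₀ → A *ᵥ b j = - b j := by
    intro j hj'
    rw [hu j, hj j hj']
    simp
  have hcl : ∀ z, ∃ c : F, A *ᵥ z + z = c • v₀ := by
    intro z
    refine ⟨2 * b.repr z i₀, ?_⟩
    have hz := b.sum_repr z
    let g' : Module.End F (Fin 3 → F) := f + LinearMap.id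
    have h3 : g' z = ∑ j, b.repr z j • g' (b j) := by
      conv_lhs => rw [← hz]
      rw [map_sum]
      simp only [map_smul]
    have h4 : g' z = A *ᵥ z + z := rfl
    rw [← h4, h3, Finset.sum_eq_single i₀]
    · show b.repr z i₀ • (A *ᵥ v₀ + v₀) = _
      rw [hAv, ← two_smul F v₀, smul_smul, mul_comm]
    · intro j _ hj'
      show b.repr z j • (A *ᵥ b j + b j) = 0
      rw [hAj j hj']
      simp
    · simp
  have hself : ∀ a c : Fin 3 → F, herm (A *ᵥ a) c = herm a (A *ᵥ c) := by
    intro a c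
    have h3 := x.2 a (A *ᵥ c)
    have h4 : herm (A *ᵥ a) (A *ᵥ (A *ᵥ c)) = herm a (A *ᵥ c) := h3
    rwa [Matrix.mulVec_mulVec, hAA, Matrix.one_mulVec] at h4
  have hkey : ∀ z c, A *ᵥ z + z = c • v₀ → 2 * herm z v₀ = c * herm v₀ v₀ := by
    intro z c hc
    have h3 := congrArg (fun y => herm y v₀) hc
    simp only [herm_add_left, herm_smul_left] at h3
    rw [hself, hAv] at h3
    rw [← h3]
    ring
  set ν := herm v₀ v₀ with hν
  have hν0 : ν ≠ 0 := by
    intro h0
    have h3 : ∀ z, herm z v₀ = 0 := by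
      intro z
      obtain ⟨c, hc⟩ := hcl z
      have h4 := hkey z c hc
      rw [h0, mul_zero] at h4
      exact (mul_eq_zero.1 h4).resolve_left h2
    obtain ⟨y, hy⟩ := herm_nondeg hF hv₀0
    exact hy (herm_eq_zero_symm hF (h3 y))
  have hνq : ν ^ q = ν := herm_self_fixed hF v₀
  obtain ⟨μ, hμ0, hμ⟩ := exists_norm_eq hF ν⁻¹ (inv_ne_zero hν0) (by rw [inv_pow, hνq])
  have hvv : herm (μ • v₀) (μ • v₀) = 1 := by
    rw [herm_smul_left, herm_smul_right hF, ← mul_assoc, ← pow_succ', hμ]
    exact inv_mul_cancel₀ hν0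
  refine ⟨μ • v₀, hvv, su_ext fun z => ?_⟩
  rw [act_invS, herm_smul_right hF]
  obtain ⟨c, hc⟩ := hcl z
  have h3 := hkey z c hc
  show A *ᵥ z = _
  have h4 : A *ᵥ z = c • v₀ - z := by rw [← hc]; abel
  rw [h4, smul_smul]
  congr 2
  have h5 : μ ^ q * μ = ν⁻¹ := by rw [← pow_succ]; exact hμ
  calc c = c * ν * ν⁻¹ := by field_simp
    _ = 2 * herm z v₀ * ν⁻¹ := by rw [h3]
    _ = 2 * (μ ^ q * herm z v₀) * μ := by rw [← h5]; ring

end Cfsg.Agent.H01.U3Inv
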