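import Mathlib
import Cfsg.Agent.Lib.H01.U3Inv

/-! The involutions of `SU₃(q)`, `q` odd: counting and commuting. -/

set_option autoImplicit false
set_option linter.unusedSectionVars false

namespace Cfsg.Agent.H01.U3Inv

open Matrix Cfsg.Agent.Lead Cfsg.Agent.Lead.PSU
open scoped MatrixGroups

variable {F : Type*} [Field F] [Fintype F] {q : ℕ}

local notation "herm" => Cfsg.hermForm 3 F q

variable (hF : Fintype.card F = q ^ 2)
include hF

lemma herm_smul_smul (c : F) (v : Fin 3 → F) : herm (c • v) (c • v) = c ^ (q + 1) * herm v v := by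
  rw [herm_smul_left, herm_smul_right hF, pow_succ]
  ring

/-- Proportional vectors give the same involution. -/
lemma invS_smul {v : Fin 3 → F} (hv : herm v v = 1) {c : F} (hc : c ^ (q + 1) = 1) :
    invS hF (c • v) (by rw [herm_smul_smul hF, hc, hv, one_mul]) = invS hF v hv := by
  apply su_ext
  intro z
  rw [act_invS, act_invS, herm_smul_right hF, smul_smul]
  congr 2
  rw [pow_succ] at hc
  linear_combination (2 * herm z v) * hc

lemma eq_smul_of_invS_eq (h2 : (2 : F) ≠ 0) {v w : Fin 3 → F} (hv : herm v v = 1) (hw : herm w w = 1)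
    (h : invS hF v hv = invS hF w hw) : ∃ c : F, c ^ (q + 1) = 1 ∧ w = c • v := by
  have h1 := act_invS_self hF v hv
  rw [h, act_invS] at h1
  have h3 : herm v w • w = v := by
    have h4 : (2 : F) • (herm v w • w) = (2 : F) • v := by
      rw [smul_smul, two_smul F v]
      nth_rw 3 [← h1]
      abel
    exact (smul_right_injective _ h2) h4
  have h5 : herm v w ^ (q + 1) = 1 := by
    have h6 := congrArg (fun y => herm y y) h3
    simp only [herm_smul_smul hF, hv, hw, mul_one] at h6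
    exact h6
  have h0 : herm v w ≠ 0 := by
    intro h0
    rw [h0, zero_pow (by omega)] at h5
    exact zero_ne_one h5
  refine ⟨(herm v w)⁻¹, by rw [inv_pow, h5, inv_one], ?_⟩
  rw [← h3, smul_smul, h3, inv_mul_cancel₀ h0, one_smul]

/-- The special unitary group is transitive on vectors of norm one. -/
theorem exists_map {v w : Fin 3 → F} (hv : herm v v = 1) (hw : herm w w = 1) : ∃ g : Cfsg.SU 3 F q, act g v = w := by
  classical
  have hq2 := two_le_q hF
  have hON : ∀ a : Fin 3 → F, herm a a = 1 → Cfsg.Agent.Lead.IsON q ![a] := by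
    intro a ha i j
    fin_cases i
    fin_cases j
    simpa using ha
  obtain ⟨e₂, he₂, h22⟩ := Cfsg.Agent.H12.UTrans.exists_unit_perp hF ![v] (hON v hv) (by norm_num)
  obtain ⟨e₂', he₂', h22'⟩ := Cfsg.Agent.H12.UTrans.exists_unit_perp hF ![w] (hON w hw) (by norm_num)
  have h12 : herm v e₂ = 0 := herm_eq_zero_symm hF (he₂ 0)
  have h12' : herm w e₂' = 0 := herm_eq_zero_symm hF (he₂' 0)
  obtain ⟨A, hA1, hA2⟩ := Cfsg.Agent.H12.UTrans.exists_frame_GU hF (by omega) v e₂ hv h22 h12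
  obtain ⟨B, hB1, hB2⟩ := Cfsg.Agent.H12.UTrans.exists_frame_GU hF (by omega) w e₂' hw h22' h12'
  have hAdet := det_pow_of_GU hF A
  have hBdet := det_pow_of_GU hF B
  set dA := ((A : GL (Fin 3) F) : Matrix (Fin 3) (Fin 3) F).det with hdA
  set dB := ((B : GL (Fin 3) F) : Matrix (Fin 3) (Fin 3) F).det with hdB
  have hdA0 : dA ≠ 0 := by
    rintro h
    rw [h, zero_pow (by omega)] at hAdet
    exact zero_ne_one hAdet
  have hdB0 : dB ≠ 0 := by
    rintro h
    rw [h, zero_pow (by omega)] at hBdet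
    exact zero_ne_one hBdet
  set lam : F := dA / dB with hlam
  have hlamn : lam ^ (q + 1) = 1 := by
    rw [hlam, div_pow, hAdet, hBdet, one_div_one]
  let i₂ : Fin 3 := 2
  let D : Matrix (Fin 3) (Fin 3) F := Matrix.diagonal (fun i => if i = i₂ then lam else 1)
  have hD : D.det = lam := by
    rw [Matrix.det_diagonal, Finset.prod_ite_eq' Finset.univ i₂ (fun _ => lam)]
    simp
  have hDpres : ∀ v w : Fin 3 → F, herm (D *ᵥ v) (D *ᵥ w) = herm v w := by
    intro v w
    simp only [Cfsg.hermForm, D, Matrix.mulVec_diagonal]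
    refine Finset.sum_congr rfl fun i _ => ?_
    by_cases hi : i = i₂
    · simp only [hi, if_true, mul_pow]
      rw [pow_succ] at hlamn
      linear_combination (v i₂ * w i₂ ^ q) * hlamn
    · simp [hi]
  have hDfix : D *ᵥ Pi.single ⟨0, by omega⟩ 1 = Pi.single ⟨0, by omega⟩ 1 := by
    rw [Matrix.mulVec_single_one]
    ext i
    simp only [D, Matrix.diagonal_apply, Pi.single_apply]
    fin_cases i <;> simp [i₂]
  let Ainv : Matrix (Fin 3) (Fin 3) F := ((A⁻¹ : Cfsg.GU 3 F q) : GL (Fin 3) F).1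
  have hAinv1 : Ainv * ((A : GL (Fin 3) F) : Matrix (Fin 3) (Fin 3) F) = 1 := by
    have h : (((A⁻¹ * A : Cfsg.GU 3 F q) : GL (Fin 3) F) : Matrix (Fin 3) (Fin 3) F) = 1 := by
      rw [inv_mul_cancel]; rfl
    exact h
  have hAinvdet : Ainv.det * dA = 1 := by
    rw [hdA, ← Matrix.det_mul, hAinv1, Matrix.det_one]
  let M : Matrix (Fin 3) (Fin 3) F := ((B : GL (Fin 3) F) : Matrix (Fin 3) (Fin 3) F) * D * Ainv
  have hMdet : M.det = 1 := by
    simp only [M]
    rw [Matrix.det_mul, Matrix.det_mul, hD, ← hdB, hlam]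
    field_simp
    linear_combination hAinvdet
  have hMpres : ∀ v w : Fin 3 → F, herm (M *ᵥ v) (M *ᵥ w) = herm v w := by
    intro v w
    simp only [M]
    rw [← Matrix.mulVec_mulVec, ← Matrix.mulVec_mulVec, ← Matrix.mulVec_mulVec,
      ← Matrix.mulVec_mulVec]
    have hB := B.2 (D *ᵥ (Ainv *ᵥ v)) (D *ᵥ (Ainv *ᵥ w))
    have hAi := (A⁻¹ : Cfsg.GU 3 F q).2 v w
    simp only [Units.coeHom_apply] at hB hAi
    rw [hB, hDpres]
    exact hAi
  have hMe : ∀ x : Fin 3 → F, Ainv *ᵥ (((A : GL (Fin 3) F) : Matrix (Fin 3) (Fin 3) F) *ᵥ x) = x := by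
    intro x
    rw [Matrix.mulVec_mulVec, hAinv1, Matrix.one_mulVec]
  refine ⟨⟨⟨M, hMdet⟩, fun v w => hMpres v w⟩, ?_⟩
  show M *ᵥ v = w
  simp only [M]
  rw [← hA1, ← Matrix.mulVec_mulVec, ← Matrix.mulVec_mulVec, hMe, hDfix]
  exact hB1

/-- The involutions. -/
abbrev Inv₂ (F : Type*) [Field F] (q : ℕ) := {x : Cfsg.SU 3 F q // x ≠ 1 ∧ x * x = 1}

/-- The vectors of norm one. -/
abbrev Nm₁ (F : Type*) [Field F] [Fintype F] (q : ℕ) := {v : Fin 3 → F // Cfsg.hermForm 3 F q v v = 1}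

/-- The map from vectors of norm one to the involutions. -/
def phi (h2 : (2 : F) ≠ 0) (v : Nm₁ F q) : Inv₂ F q :=
  ⟨invS hF v.1 v.2, invS_ne_one hF h2 v.1 v.2, invS_sq hF v.1 v.2⟩

lemma card_units_norm : Nat.card (rootsOfUnity (q + 1) F) = q + 1 := by
  have hq2 := two_le_q hF
  rw [card_rootsOfUnity_field, hF]
  apply Nat.gcd_eq_left
  refine ⟨q - 1, ?_⟩
  obtain ⟨r, rfl⟩ : ∃ r, q = r + 1 := ⟨q - 1, by omega⟩
  simp only [Nat.add_sub_cancel]
  have : (r + 1) ^ 2 = (r + 1 + 1) * r + 1 := by ring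
  omega

lemma ne_zero_of_norm {v : Fin 3 → F} (hv : herm v v = 1) : v ≠ 0 := by
  rintro rfl
  rw [herm_zero_left hF] at hv
  exact zero_ne_one hv

lemma card_fibre (h2 : (2 : F) ≠ 0) (y : Inv₂ F q) : Nat.card {v : Nm₁ F q // phi hF h2 v = y} = q + 1 := by
  obtain ⟨v₀, hv₀, hy⟩ := exists_vec hF h2 y.1 y.2.1 y.2.2
  rw [← card_units_norm hF]
  symm
  apply Nat.card_congr
  refine Equiv.ofBijective (fun ζ => ⟨⟨((ζ : Fˣ) : F) • v₀, ?_⟩, ?_⟩) ⟨?_, ?_⟩
  · have h := (mem_rootsOfUnity _ _).1 ζ.2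
    have h3 : (((ζ : Fˣ) : F)) ^ (q + 1) = 1 := by
      have := congrArg Units.val h
      simpa using this
    rw [herm_smul_smul hF, h3, hv₀, one_mul]
  · have h := (mem_rootsOfUnity _ _).1 ζ.2
    have h3 : (((ζ : Fˣ) : F)) ^ (q + 1) = 1 := by
      have := congrArg Units.val h
      simpa using this
    apply Subtype.ext
    exact (invS_smul hF hv₀ h3).trans hy.symm
  · intro ζ ζ' h
    have h3 : ((ζ : Fˣ) : F) • v₀ = ((ζ' : Fˣ) : F) • v₀ := congrArg (fun p => p.1.1) h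
    have h4 := smul_left_injective F (ne_zero_of_norm hF hv₀) h3
    exact Subtype.ext (Units.ext h4)
  · rintro ⟨⟨w, hw⟩, hwy⟩
    have h3 : invS hF v₀ hv₀ = invS hF w hw := by
      rw [← hy]
      exact (congrArg Subtype.val hwy).symm
    obtain ⟨c, hc, rfl⟩ := eq_smul_of_invS_eq hF h2 hv₀ hw h3
    have hc0 : c ≠ 0 := by
      intro h0
      rw [h0, zero_pow (by omega)] at hc
      exact zero_ne_one hc
    refine ⟨⟨Units.mk0 c hc0, (mem_rootsOfUnity _ _).2 (Units.ext (by simpa using hc))⟩, ?_⟩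
    rfl

theorem card_mul (h2 : (2 : F) ≠ 0) : (q + 1) * Nat.card (Inv₂ F q) = q ^ 2 * (q ^ 3 + 1) := by
  classical
  have hN : Nat.card (Nm₁ F q) = q ^ 2 * (q ^ 3 + 1) := by
    have := herm_card_one hF 3
    rw [if_neg (by decide)] at this
    exact this
  rw [← hN, Nat.card_congr (Equiv.sigmaFiberEquiv (phi hF h2)).symm, Nat.card_sigma]
  simp only [card_fibre hF h2]
  simp [Finset.card_univ, mul_comm]

lemma cube_factor : q ^ 3 + 1 = (q + 1) * (q ^ 2 - q + 1) := by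
  have h : q ≤ q ^ 2 := by nlinarith [two_le_q hF]
  zify [h]
  ring

theorem card_inv (h2 : (2 : F) ≠ 0) : Nat.card (Inv₂ F q) = q ^ 2 * (q ^ 2 - q + 1) := by
  have h1 := card_mul hF h2
  rw [cube_factor hF] at h1
  have h3 : (q + 1) * Nat.card (Inv₂ F q) = (q + 1) * (q ^ 2 * (q ^ 2 - q + 1)) := by
    rw [h1]
    ring
  exact Nat.eq_of_mul_eq_mul_left (by omega) h3

theorem card_SU3 : Nat.card (Cfsg.SU 3 F q) = q ^ 3 * (q ^ 2 - 1) * (q ^ 3 + 1) := by
  have h1 := card_GU_eq (n := 3) hF (by norm_num)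
  have h2 := card_GU (n := 3) hF
  rw [h1] at h2
  simp [Finset.prod_range_succ] at h2
  have h3 : (q + 1) * Nat.card (Cfsg.SU 3 F q) = (q + 1) * (q ^ 3 * (q ^ 2 - 1) * (q ^ 3 + 1)) := by
    rw [h2]
    ring
  exact Nat.eq_of_mul_eq_mul_left (by omega) h3

end Cfsg.Agent.H01.U3Inv
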