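import Mathlib
import Cfsg.Agent.Lib.H01.U3Inv2

/-! The involutions of `SU₃(q)`, `q` odd: commuting involutions, and the orthogonal complement. -/

set_option autoImplicit false
set_option linter.unusedSectionVars false

namespace Cfsg.Agent.H01.U3Inv

open Matrix Cfsg.Agent.Lead Cfsg.Agent.Lead.PSU
open scoped MatrixGroups

variable {F : Type*} [Field F] [Fintype F] {q : ℕ}

local notation "herm" => Cfsg.hermForm 3 F q

variable (hF : Fintype.card F = q ^ 2)
include hF

lemma commute_of_perp {v w : Fin 3 → F} (hv : herm v v = 1) (hw : herm w w = 1) (h : herm v w = 0) :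
    Commute (invS hF v hv) (invS hF w hw) := by
  have h' : herm w v = 0 := herm_eq_zero_symm hF h
  have key : ∀ (a b : Fin 3 → F) (ha : herm a a = 1) (hb : herm b b = 1), herm b a = 0 → ∀ z,
      act (invS hF a ha * invS hF b hb) z = z - (2 * herm z a) • a - (2 * herm z b) • b := by
    intro a b ha hb hab z
    rw [act_mul, act_invS hF b hb z, act_invS hF a ha, herm_sub_left hF, herm_smul_left, hab]
    module
  apply su_ext
  intro z
  rw [key v w hv hw h', key w v hw hv h]
  abel

lemma perp_of_commute (h2 : (2 : F) ≠ 0) {v w : Fin 3 → F} (hv : herm v v = 1) (hw : herm w w = 1)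
    (hc : Commute (invS hF v hv) (invS hF w hw)) (hne : invS hF v hv ≠ invS hF w hw) : herm v w = 0 := by
  set y := act (invS hF v hv) w with hy
  have h1 : act (invS hF w hw) y = y := by
    rw [hy, ← act_mul, hc.symm.eq, act_mul, act_invS_self]
  rw [act_invS] at h1
  have h3 : herm y w • w = y := by
    have h4 : (2 : F) • (herm y w • w) = (2 : F) • y := by
      rw [smul_smul, two_smul F y]
      nth_rw 3 [← h1]
      abel
    exact (smul_right_injective _ h2) h4
  have hy2 : y = (2 * herm w v) • v - w := by rw [hy, act_invS]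
  by_contra hne0
  have hwv : herm w v ≠ 0 := fun h0 => hne0 (herm_eq_zero_symm hF h0)
  have h5 : v = ((herm y w + 1) * (2 * herm w v)⁻¹) • w := by
    have h6 : (2 * herm w v) • v = (herm y w + 1) • w := by
      have h7 : (2 * herm w v) • v = herm y w • w + w := by
        rw [h3, hy2]
        abel
      rw [h7, add_smul, one_smul]
    have h8 : v = (2 * herm w v)⁻¹ • ((2 * herm w v) • v) := by
      rw [smul_smul, inv_mul_cancel₀ (mul_ne_zero h2 hwv), one_smul]
    rw [mul_comm, mul_smul, ← h6, ← h8]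
  set c := (herm y w + 1) * (2 * herm w v)⁻¹ with hc'
  have hcn : c ^ (q + 1) = 1 := by
    have h9 := congrArg (fun a => herm a a) h5
    simp only [herm_smul_smul hF, hv, hw, mul_one] at h9
    exact h9.symm
  apply hne
  have e := invS_smul hF hw hcn
  have e2 : invS hF v hv = invS hF (c • w) (by rw [herm_smul_smul hF, hcn, hw, one_mul]) := by
    congr 1
  rw [e2, e]

/-- The third vector of an orthonormal frame. -/
def cr (q : ℕ) (v w : Fin 3 → F) : Fin 3 → F :=
  ![(v 1 * w 2 - v 2 * w 1) ^ q, (v 2 * w 0 - v 0 * w 2) ^ q, (v 0 * w 1 - v 1 * w 0) ^ q]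

lemma herm_v_cr (v w : Fin 3 → F) : herm v (cr q v w) = 0 := by
  simp only [Cfsg.hermForm, Fin.sum_univ_three, cr, Matrix.cons_val_zero, Matrix.cons_val_one, Matrix.cons_val_two,
    Matrix.head_cons, Matrix.tail_cons, pow_q_sq hF]
  ring

lemma herm_w_cr (v w : Fin 3 → F) : herm w (cr q v w) = 0 := by
  simp only [Cfsg.hermForm, Fin.sum_univ_three, cr, Matrix.cons_val_zero, Matrix.cons_val_one, Matrix.cons_val_two,
    Matrix.head_cons, Matrix.tail_cons, pow_q_sq hF]
  ring

lemma herm_cr_cr {v w : Fin 3 → F} (hv : herm v v = 1) (hw : herm w w = 1) (h : herm v w = 0) :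
    herm (cr q v w) (cr q v w) = 1 := by
  have hv' := hv
  have hw' := hw
  have h' := h
  simp only [Cfsg.hermForm, Fin.sum_univ_three] at hv' hw' h'
  simp only [Cfsg.hermForm, Fin.sum_univ_three, cr, Matrix.cons_val_zero, Matrix.cons_val_one, Matrix.cons_val_two,
    Matrix.head_cons, Matrix.tail_cons, pow_q_sq hF]
  rw [pow_sub_q hF, pow_sub_q hF, pow_sub_q hF]
  simp only [mul_pow]
  linear_combination (w 0 * w 0 ^ q + w 1 * w 1 ^ q + w 2 * w 2 ^ q) * hv' + hw' -
    (w 0 * v 0 ^ q + w 1 * v 1 ^ q + w 2 * v 2 ^ q) * h'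

lemma eq_smul_cr {v w z : Fin 3 → F} (hv : herm v v = 1) (hw : herm w w = 1) (h : herm v w = 0)
    (hzv : herm z v = 0) (hzw : herm z w = 0) : ∃ c : F, z = c • cr q v w := by
  have hzv' := hzv
  have hzw' := hzw
  simp only [Cfsg.hermForm, Fin.sum_univ_three] at hzv' hzw'
  have hne : cr q v w ≠ 0 := by
    intro h0
    have := herm_cr_cr hF hv hw h
    rw [h0, herm_zero_left hF] at this
    exact zero_ne_one this
  set u := cr q v w with hu
  have hu0 : u 0 = v 1 ^ q * w 2 ^ q - v 2 ^ q * w 1 ^ q := by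
    rw [hu]
    show (v 1 * w 2 - v 2 * w 1) ^ q = _
    rw [pow_sub_q hF, mul_pow, mul_pow]
  have hu1 : u 1 = v 2 ^ q * w 0 ^ q - v 0 ^ q * w 2 ^ q := by
    rw [hu]
    show (v 2 * w 0 - v 0 * w 2) ^ q = _
    rw [pow_sub_q hF, mul_pow, mul_pow]
  have hu2 : u 2 = v 0 ^ q * w 1 ^ q - v 1 ^ q * w 0 ^ q := by
    rw [hu]
    show (v 0 * w 1 - v 1 * w 0) ^ q = _
    rw [pow_sub_q hF, mul_pow, mul_pow]
  have h12 : z 1 * u 2 = z 2 * u 1 := by
    rw [hu1, hu2]
    linear_combination v 0 ^ q * hzw' - w 0 ^ q * hzv'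
  have h20 : z 2 * u 0 = z 0 * u 2 := by
    rw [hu0, hu2]
    linear_combination v 1 ^ q * hzw' - w 1 ^ q * hzv'
  have h01 : z 0 * u 1 = z 1 * u 0 := by
    rw [hu0, hu1]
    linear_combination v 2 ^ q * hzw' - w 2 ^ q * hzv'
  have hall : ∀ i k, z i * u k = z k * u i := by
    intro i k
    fin_cases i <;> fin_cases k <;> simp <;> first | rfl | ring_nf | skip
    all_goals first
      | (linear_combination h01) | (linear_combination -h01) | (linear_combination h20) | (linear_combination -h20)
      | (linear_combination h12) | (linear_combination -h12)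
  obtain ⟨k, hk⟩ : ∃ k, u k ≠ 0 := by
    by_contra hno
    push Not at hno
    exact hne (funext hno)
  refine ⟨z k / u k, ?_⟩
  ext i
  simp only [Pi.smul_apply, smul_eq_mul]
  field_simp
  exact hall i k

end Cfsg.Agent.H01.U3Inv
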