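import Mathlib
import Cfsg.Agent.Lib.H01.U3Inv3

/-! The involutions of `SU₃(q)`, `q` odd: the main statement. -/

set_option autoImplicit false
set_option linter.unusedSectionVars false

namespace Cfsg.Agent.H01.U3Inv

open Matrix Cfsg.Agent.Lead Cfsg.Agent.Lead.PSU
open scoped MatrixGroups

variable {F : Type*} [Field F] [Fintype F] {q : ℕ}

local notation "herm" => Cfsg.hermForm 3 F q

lemma two_ne_of_odd' (hF : Odd (Fintype.card F)) : (2 : F) ≠ 0 := by
  intro h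
  have h1 : ringChar F ∣ 2 := (ringChar.spec F 2).1 (by exact_mod_cast h)
  have h3 : ringChar F = 1 ∨ ringChar F = 2 := (Nat.dvd_prime Nat.prime_two).1 h1
  rcases h3 with h3 | h3
  · exact CharP.ringChar_ne_one h3
  · have := FiniteField.even_card_of_char_two h3
    rcases hF with ⟨k, hk⟩
    omega

variable (hF : Fintype.card F = q ^ 2)
include hF

lemma invS_ne_of_perp (h2 : (2 : F) ≠ 0) {v u : Fin 3 → F} (hv : herm v v = 1) (hu : herm u u = 1) (h : herm v u = 0) :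
    invS hF v hv ≠ invS hF u hu := by
  intro he
  obtain ⟨c, hc, rfl⟩ := eq_smul_of_invS_eq hF h2 hv hu he
  rw [herm_smul_right hF, hv, mul_one] at h
  have hq := two_le_q hF
  have h0 : c = 0 := by simpa [show q ≠ 0 by omega] using h
  rw [h0, zero_pow (by omega)] at hc
  exact zero_ne_one hc

theorem conj_all (h2 : (2 : F) ≠ 0) {v : Fin 3 → F} (hv : herm v v = 1) (x : Cfsg.SU 3 F q) (hx : x ≠ 1)
    (hx2 : x * x = 1) : ∃ g : Cfsg.SU 3 F q, g * invS hF v hv * g⁻¹ = x := by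
  obtain ⟨w, hw, rfl⟩ := exists_vec hF h2 x hx hx2
  obtain ⟨g, hg⟩ := exists_map hF hv hw
  refine ⟨g, ?_⟩
  rw [conj_invS]
  subst hg
  rfl

theorem card_centralizer (h2 : (2 : F) ≠ 0) {v : Fin 3 → F} (hv : herm v v = 1) :
    Nat.card ↥(Subgroup.centralizer ({invS hF v hv} : Set ↥(Cfsg.SU 3 F q))) = q * (q + 1) * (q ^ 2 - 1) := by
  have hq := two_le_q hF
  set t := invS hF v hv with ht
  have horb : Nat.card (MulAction.orbit (ConjAct (Cfsg.SU 3 F q)) t) = q ^ 2 * (q ^ 2 - q + 1) := by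
    rw [← card_inv hF h2]
    symm
    apply Nat.card_congr
    apply Equiv.subtypeEquivRight
    intro x
    constructor
    · rintro ⟨hx, hx2⟩
      obtain ⟨g, hg⟩ := conj_all hF h2 hv x hx hx2
      refine MulAction.mem_orbit_iff.2 ⟨ConjAct.toConjAct g, ?_⟩
      rw [ConjAct.smul_def]
      simpa using hg
    · intro hx
      obtain ⟨a, rfl⟩ := MulAction.mem_orbit_iff.1 hx
      rw [ConjAct.smul_def]
      have hne := invS_ne_one hF h2 v hv
      have hsq := invS_sq hF v hv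
      constructor
      · intro h
        apply hne
        have : ConjAct.ofConjAct a * t = ConjAct.ofConjAct a := by
          rw [← mul_one (ConjAct.ofConjAct a * t), ← inv_mul_cancel (ConjAct.ofConjAct a), ← mul_assoc, h, one_mul]
        simpa using this
      · have : ConjAct.ofConjAct a * t * (ConjAct.ofConjAct a)⁻¹ * (ConjAct.ofConjAct a * t * (ConjAct.ofConjAct a)⁻¹) =
            ConjAct.ofConjAct a * (t * t) * (ConjAct.ofConjAct a)⁻¹ := by group
        rw [this, hsq]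
        simp
  have h1 := Subgroup.card_eq_card_quotient_mul_card_subgroup (MulAction.stabilizer (ConjAct (Cfsg.SU 3 F q)) t)
  rw [← Nat.card_congr (MulAction.orbitEquivQuotientStabilizer (ConjAct (Cfsg.SU 3 F q)) t), horb,
    ← Subgroup.nat_card_centralizer_nat_card_stabilizer] at h1
  have h3 : Nat.card (ConjAct (Cfsg.SU 3 F q)) = q ^ 3 * (q ^ 2 - 1) * (q ^ 3 + 1) := card_SU3 hF
  rw [h3, cube_factor hF] at h1
  have hpos : 0 < q ^ 2 * (q ^ 2 - q + 1) := by
    have : 0 < q ^ 2 := by positivity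
    positivity
  apply Nat.eq_of_mul_eq_mul_left hpos
  rw [← h1]
  ring

theorem third (h2 : (2 : F) ≠ 0) {v : Fin 3 → F} (hv : herm v v = 1) (x : Cfsg.SU 3 F q) (hx : x ≠ 1)
    (hx2 : x * x = 1) (hne : x ≠ invS hF v hv) (hc : Commute (invS hF v hv) x) :
    Nat.card {y : Cfsg.SU 3 F q // y ≠ 1 ∧ y * y = 1 ∧ y ≠ invS hF v hv ∧ y ≠ x ∧ Commute (invS hF v hv) y ∧ Commute x y} = 1 := by
  obtain ⟨w, hw, rfl⟩ := exists_vec hF h2 x hx hx2
  have hp : herm v w = 0 := perp_of_commute hF h2 hv hw hc (Ne.symm hne)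
  have hu := herm_cr_cr hF hv hw hp
  have hvu := herm_v_cr (q := q) hF v w
  have hwu := herm_w_cr (q := q) hF v w
  rw [Nat.card_eq_one_iff_unique]
  constructor
  · constructor
    rintro ⟨y, hy1, hy2, hy3, hy4, hy5, hy6⟩ ⟨y', hy1', hy2', hy3', hy4', hy5', hy6'⟩
    apply Subtype.ext
    have key : ∀ y : Cfsg.SU 3 F q, y ≠ 1 → y * y = 1 → y ≠ invS hF v hv → y ≠ invS hF w hw → Commute (invS hF v hv) y →
        Commute (invS hF w hw) y → y = invS hF (cr q v w) hu := by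
      intro y hy1 hy2 hy3 hy4 hy5 hy6
      obtain ⟨z, hz, rfl⟩ := exists_vec hF h2 y hy1 hy2
      have h3 := perp_of_commute hF h2 hv hz hy5 (Ne.symm hy3)
      have h4 := perp_of_commute hF h2 hw hz hy6 (Ne.symm hy4)
      obtain ⟨c, rfl⟩ := eq_smul_cr hF hv hw hp (herm_eq_zero_symm hF h3) (herm_eq_zero_symm hF h4)
      have hcn : c ^ (q + 1) = 1 := by
        have := herm_smul_smul hF c (cr q v w)
        rw [hz, hu, mul_one] at this
        exact this.symm
      exact invS_smul hF hu hcn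
    exact (key y hy1 hy2 hy3 hy4 hy5 hy6).trans (key y' hy1' hy2' hy3' hy4' hy5' hy6').symm
  · exact ⟨⟨invS hF _ hu, invS_ne_one hF h2 _ hu, invS_sq hF _ hu, (invS_ne_of_perp hF h2 hv hu hvu).symm,
      (invS_ne_of_perp hF h2 hw hu hwu).symm, commute_of_perp hF hv hu hvu, commute_of_perp hF hw hu hwu⟩⟩

theorem main (hq : Odd q) (t : ↥(Cfsg.SU 3 F q)) (ht : t ≠ 1) (ht2 : t * t = 1) :
    (∀ x : ↥(Cfsg.SU 3 F q), x ≠ 1 → x * x = 1 → ∃ g : ↥(Cfsg.SU 3 F q), g * t * g⁻¹ = x) ∧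
    Nat.card {x : ↥(Cfsg.SU 3 F q) // x ≠ 1 ∧ x * x = 1} = q ^ 2 * (q ^ 2 - q + 1) ∧
    Nat.card ↥(Subgroup.centralizer ({t} : Set ↥(Cfsg.SU 3 F q))) = q * (q + 1) * (q ^ 2 - 1) ∧
    ∀ x : ↥(Cfsg.SU 3 F q), x ≠ 1 → x * x = 1 → x ≠ t → Commute t x →
      Nat.card {y : ↥(Cfsg.SU 3 F q) // y ≠ 1 ∧ y * y = 1 ∧ y ≠ t ∧ y ≠ x ∧ Commute t y ∧ Commute x y} = 1 := by
  have h2 : (2 : F) ≠ 0 := two_ne_of_odd' (by rw [hF]; exact hq.pow)
  obtain ⟨v, hv, rfl⟩ := exists_vec hF h2 t ht ht2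
  exact ⟨fun x hx hx2 => conj_all hF h2 hv x hx hx2, card_inv hF h2, card_centralizer hF h2 hv,
    fun x hx hx2 hne hc => third hF h2 hv x hx hx2 hne hc⟩

end Cfsg.Agent.H01.U3Inv
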