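import Mathlib
import Cfsg.Agent.Lib.H01.U3Inv4

/-! The commuting involution graph of `SU₃(q)`, `q` odd: preparations. -/

set_option autoImplicit false
set_option linter.unusedSectionVars false

namespace Cfsg.Agent.H01.U3Inv

open Matrix Cfsg.Agent.Lead Cfsg.Agent.Lead.PSU
open scoped MatrixGroups

variable {F : Type*} [Field F] [Fintype F] {q : ℕ}

local notation "herm" => Cfsg.hermForm 3 F q

variable (hF : Fintype.card F = q ^ 2)
include hF

/-- Counting involutions with a property through vectors of norm one. -/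
theorem card_pred (h2 : (2 : F) ≠ 0) (P : Cfsg.SU 3 F q → Prop) :
    (q + 1) * Nat.card {x : Cfsg.SU 3 F q // x ≠ 1 ∧ x * x = 1 ∧ P x} =
      Nat.card {w : Nm₁ F q // P (invS hF w.1 w.2)} := by
  classical
  let ψ : {w : Nm₁ F q // P (invS hF w.1 w.2)} → {x : Cfsg.SU 3 F q // x ≠ 1 ∧ x * x = 1 ∧ P x} := fun w =>
    ⟨invS hF w.1.1 w.1.2, invS_ne_one hF h2 _ _, invS_sq hF _ _, w.2⟩
  rw [Nat.card_congr (Equiv.sigmaFiberEquiv ψ).symm, Nat.card_sigma]
  have hf : ∀ y, Nat.card {w // ψ w = y} = q + 1 := by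
    intro y
    rw [← card_fibre hF h2 (⟨y.1, y.2.1, y.2.2.1⟩ : Inv₂ F q)]
    apply Nat.card_congr
    refine ⟨fun w => ⟨w.1.1, ?_⟩, fun w => ⟨⟨w.1, ?_⟩, ?_⟩, ?_, ?_⟩
    · apply Subtype.ext
      have e : (ψ w.1).1 = y.1 := by rw [w.2]
      exact e
    · have : (phi hF h2 w.1).1 = y.1 := by rw [w.2]
      show P (phi hF h2 w.1).1
      rw [this]
      exact y.2.2.2
    · apply Subtype.ext
      have e : (phi hF h2 w.1).1 = y.1 := by rw [w.2]
      exact e
    · intro w
      rfl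
    · intro w
      rfl
  simp only [hf]
  simp [Finset.card_univ, mul_comm]

lemma herm_cr_cr' (v w : Fin 3 → F) :
    herm (cr q v w) (cr q v w) = herm v v * herm w w - herm v w * herm w v := by
  simp only [Cfsg.hermForm, Fin.sum_univ_three, cr, Matrix.cons_val_zero, Matrix.cons_val_one, Matrix.cons_val_two,
    Matrix.head_cons, Matrix.tail_cons, pow_q_sq hF]
  rw [pow_sub_q hF, pow_sub_q hF, pow_sub_q hF]
  simp only [mul_pow]
  ring

lemma eq_smul_cr' {v w z : Fin 3 → F} (hne : cr q v w ≠ 0)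
    (hzv : herm z v = 0) (hzw : herm z w = 0) : ∃ c : F, z = c • cr q v w := by
  have hzv' := hzv
  have hzw' := hzw
  simp only [Cfsg.hermForm, Fin.sum_univ_three] at hzv' hzw'
  set u := cr q v w with hu
  have hu0 : u 0 = v 1 ^ q * w 2 ^ q - v 2 ^ q * w 1 ^ q := by
    rw [hu]
    show (v 1 * w 2 - v 2 * w 1) ^ q = _
    rw [pow_sub_q hF, mul_pow, mul_pow]
  have hu1 : u 1 = v 2 ^ q * w 0 ^ q - v 0 ^ q * w 2 ^ q := by
    rw [hu]
    show (v 2 * w 0 - v 0 * w 2) ^ q = _
    rw [pow_sub_q hF, mul_pow, mul_pow]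
  have hu2 : u 2 = v 0 ^ q * w 1 ^ q - v 1 ^ q * w 0 ^ q := by
    rw [hu]
    show (v 0 * w 1 - v 1 * w 0) ^ q = _
    rw [pow_sub_q hF, mul_pow, mul_pow]
  have h12 : z 1 * u 2 = z 2 * u 1 := by
    rw [hu1, hu2]
    linear_combination v 0 ^ q * hzw' - w 0 ^ q * hzv'
  have h20 : z 2 * u 0 = z 0 * u 2 := by
    rw [hu0, hu2]
    linear_combination v 1 ^ q * hzw' - w 1 ^ q * hzv'
  have h01 : z 0 * u 1 = z 1 * u 0 := by
    rw [hu0, hu1]
    linear_combination v 2 ^ q * hzw' - w 2 ^ q * hzv'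
  have hall : ∀ i k, z i * u k = z k * u i := by
    intro i k
    fin_cases i <;> fin_cases k <;> simp <;> first | rfl | ring_nf | skip
    all_goals first
      | (linear_combination h01) | (linear_combination -h01) | (linear_combination h20) | (linear_combination -h20)
      | (linear_combination h12) | (linear_combination -h12)
  obtain ⟨k, hk⟩ : ∃ k, u k ≠ 0 := by
    by_contra hno
    push Not at hno
    exact hne (funext hno)
  refine ⟨z k / u k, ?_⟩
  ext i
  simp only [Pi.smul_apply, smul_eq_mul]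
  field_simp
  exact hall i k

/-- The component of `w` orthogonal to `v`. -/
def pj (q : ℕ) (v w : Fin 3 → F) : Fin 3 → F := w - Cfsg.hermForm 3 F q w v • v

lemma herm_pj (v w : Fin 3 → F) (hv : herm v v = 1) : herm (pj q v w) v = 0 := by
  rw [pj, herm_sub_left hF, herm_smul_left, hv, mul_one, sub_self]

lemma pj_smul (v : Fin 3 → F) (c : F) (hv : herm v v = 1) : pj q v (c • v) = 0 := by
  rw [pj, herm_smul_left, hv, mul_one, sub_self]

lemma cr_ne_zero {v w : Fin 3 → F} (hv : herm v v = 1) (h : pj q v w ≠ 0) : cr q v w ≠ 0 := by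
  intro h0
  apply h
  have hq := two_le_q hF
  have hq0 : q ≠ 0 := by omega
  have c0 : v 1 * w 2 - v 2 * w 1 = 0 := by
    have := congrFun h0 0
    simpa [cr, hq0] using this
  have c1 : v 2 * w 0 - v 0 * w 2 = 0 := by
    have := congrFun h0 1
    simpa [cr, hq0] using this
  have c2 : v 0 * w 1 - v 1 * w 0 = 0 := by
    have := congrFun h0 2
    simpa [cr, hq0] using this
  have hv' := hv
  simp only [Cfsg.hermForm, Fin.sum_univ_three] at hv'
  ext i
  simp only [pj, Pi.sub_apply, Pi.smul_apply, smul_eq_mul, Pi.zero_apply, Cfsg.hermForm, Fin.sum_univ_three]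
  fin_cases i
  · show w 0 - (w 0 * v 0 ^ q + w 1 * v 1 ^ q + w 2 * v 2 ^ q) * v 0 = 0
    linear_combination (- w 0) * hv' - (v 1 ^ q) * c2 + (v 2 ^ q) * c1
  · show w 1 - (w 0 * v 0 ^ q + w 1 * v 1 ^ q + w 2 * v 2 ^ q) * v 1 = 0
    linear_combination (- w 1) * hv' + (v 0 ^ q) * c2 - (v 2 ^ q) * c0
  · show w 2 - (w 0 * v 0 ^ q + w 1 * v 1 ^ q + w 2 * v 2 ^ q) * v 2 = 0
    linear_combination (- w 2) * hv' - (v 0 ^ q) * c1 + (v 1 ^ q) * c0

lemma herm_self_fixed' (x : Fin 3 → F) : (herm x x) ^ q = herm x x := herm_self_fixed hF x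

/-- Normalising a non-isotropic vector. -/
lemma exists_normalise {u : Fin 3 → F} (hu : herm u u ≠ 0) : ∃ c : F, c ≠ 0 ∧ herm (c • u) (c • u) = 1 := by
  obtain ⟨c, hc0, hc⟩ := exists_norm_eq hF (herm u u)⁻¹ (inv_ne_zero hu) (by rw [inv_pow, herm_self_fixed hF])
  refine ⟨c, hc0, ?_⟩
  rw [herm_smul_smul hF, hc]
  exact inv_mul_cancel₀ hu

/-- A common orthogonal vector of norm one. -/
lemma exists_perp {v w : Fin 3 → F} (hD : herm (cr q v w) (cr q v w) ≠ 0) :
    ∃ u, herm u u = 1 ∧ herm v u = 0 ∧ herm w u = 0 := by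
  obtain ⟨c, hc0, hc⟩ := exists_normalise hF hD
  refine ⟨c • cr q v w, hc, ?_, ?_⟩
  · rw [herm_smul_right hF, herm_v_cr hF, mul_zero]
  · rw [herm_smul_right hF, herm_w_cr hF, mul_zero]

/-- The tangency condition. -/
lemma no_perp {v w u : Fin 3 → F} (hv : herm v v = 1) (hw : herm w w = 1)
    (hj : pj q v w ≠ 0) (hD : herm w v ^ (q + 1) = 1) (hu : herm u u = 1) (hvu : herm v u = 0) (hwu : herm w u = 0) :
    False := by
  obtain ⟨c, rfl⟩ := eq_smul_cr' hF (cr_ne_zero hF hv hj) (herm_eq_zero_symm hF hvu) (herm_eq_zero_symm hF hwu)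
  rw [herm_smul_smul hF, herm_cr_cr' hF, hv, hw, one_mul, herm_conj hF w v, ← pow_succ, hD, sub_self, mul_zero] at hu
  exact zero_ne_one hu

/-- Commuting involutions with a fixed one. -/
lemma perp_or_eq (h2 : (2 : F) ≠ 0) {v w : Fin 3 → F} (hv : herm v v = 1) (hw : herm w w = 1)
    (hc : Commute (invS hF v hv) (invS hF w hw)) : herm v w = 0 ∨ pj q v w = 0 := by
  by_cases he : invS hF v hv = invS hF w hw
  · right
    obtain ⟨c, -, rfl⟩ := eq_smul_of_invS_eq hF h2 hv hw he
    exact pj_smul hF v c hv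
  · left
    exact perp_of_commute hF h2 hv hw hc he

/-- When `w` has no orthogonal component, the involutions agree. -/
lemma invS_eq_of_pj {v w : Fin 3 → F} (hv : herm v v = 1) (hw : herm w w = 1) (h : pj q v w = 0) :
    invS hF w hw = invS hF v hv := by
  have h1 : w = herm w v • v := sub_eq_zero.1 h
  have hn : herm w v ^ (q + 1) = 1 := by
    have h3 := herm_smul_smul hF (herm w v) v
    rw [← h1, hw, hv, mul_one] at h3
    exact h3.symm
  have e := invS_smul hF hv hn
  have e2 : invS hF w hw = invS hF (herm w v • v) (by rw [herm_smul_smul hF, hn, hv, one_mul]) := by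
    congr 1
  rw [e2, e]

/-- A non-commuting involution with no common commuting involution: the tangent case. -/
theorem tangent_iff (h2 : (2 : F) ≠ 0) {v w : Fin 3 → F} (hv : herm v v = 1) (hw : herm w w = 1) :
    (¬ Commute (invS hF v hv) (invS hF w hw) ∧
      ∀ y : Cfsg.SU 3 F q, y ≠ 1 → y * y = 1 → ¬ (Commute (invS hF v hv) y ∧ Commute y (invS hF w hw))) ↔
    (pj q v w ≠ 0 ∧ herm w v ^ (q + 1) = 1) := by
  have hq := two_le_q hF
  constructor
  · rintro ⟨h1, h3⟩
    have hj : pj q v w ≠ 0 := by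
      intro h0
      apply h1
      rw [invS_eq_of_pj hF hv hw h0]
    refine ⟨hj, ?_⟩
    by_contra hD
    have hD' : herm (cr q v w) (cr q v w) ≠ 0 := by
      rw [herm_cr_cr' hF, hv, hw, one_mul, herm_conj hF w v, ← pow_succ]
      exact fun h => hD (sub_eq_zero.1 h).symm
    obtain ⟨u, hu, hvu, hwu⟩ := exists_perp hF hD'
    apply h3 (invS hF u hu) (invS_ne_one hF h2 u hu) (invS_sq hF u hu)
    exact ⟨commute_of_perp hF hv hu hvu, (commute_of_perp hF hw hu hwu).symm⟩
  · rintro ⟨hj, hD⟩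
    have hc0 : herm w v ≠ 0 := by
      intro h0
      rw [h0, zero_pow (by omega)] at hD
      exact zero_ne_one hD
    have hnc : ¬ Commute (invS hF v hv) (invS hF w hw) := by
      intro hc
      rcases perp_or_eq hF h2 hv hw hc with h0 | h0
      · exact hc0 (herm_eq_zero_symm hF h0)
      · exact hj h0
    refine ⟨hnc, ?_⟩
    rintro y hy1 hy2 ⟨hy3, hy4⟩
    obtain ⟨u, hu, rfl⟩ := exists_vec hF h2 y hy1 hy2
    rcases perp_or_eq hF h2 hv hu hy3 with h0 | h0
    · rcases perp_or_eq hF h2 hu hw hy4 with h5 | h5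
      · exact no_perp hF hv hw hj hD hu h0 (herm_eq_zero_symm hF h5)
      · rw [← invS_eq_of_pj hF hu hw h5] at hy3
        exact hnc hy3
    · rw [invS_eq_of_pj hF hv hu h0] at hy4
      exact hnc hy4

end Cfsg.Agent.H01.U3Inv
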