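import Mathlib
import Cfsg.Agent.Lib.H01.U3Inv5

/-! The commuting involution graph of `SU₃(q)`, `q` odd: the counts. -/

set_option autoImplicit false
set_option linter.unusedSectionVars false

namespace Cfsg.Agent.H01.U3Inv

open Matrix Cfsg.Agent.Lead Cfsg.Agent.Lead.PSU
open scoped MatrixGroups

variable {F : Type*} [Field F] [Fintype F] {q : ℕ}

local notation "herm" => Cfsg.hermForm 3 F q

/-- Splitting a count by a predicate. -/
lemma card_split {α : Type*} [Finite α] (p r : α → Prop) :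
    Nat.card {x // p x} = Nat.card {x // p x ∧ r x} + Nat.card {x // p x ∧ ¬ r x} := by
  classical
  haveI := Fintype.ofFinite α
  simp only [Nat.card_eq_fintype_card, Fintype.card_subtype]
  have := Finset.card_filter_add_card_filter_not (s := Finset.univ.filter p) r
  rw [Finset.filter_filter, Finset.filter_filter] at this
  exact this.symm

variable (hF : Fintype.card F = q ^ 2)
include hF

lemma mem_perp_iff {v a : Fin 3 → F} : a ∈ perpOf hF ![v] ↔ herm a v = 0 := by
  constructor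
  · intro h
    exact h 0
  · intro h i
    fin_cases i
    exact h

lemma isON_single {v : Fin 3 → F} (hv : herm v v = 1) : Cfsg.Agent.Lead.IsON q ![v] := by
  intro i j
  fin_cases i
  fin_cases j
  simpa using hv

theorem card_A (h2 : (2 : F) ≠ 0) {v : Fin 3 → F} (hv : herm v v = 1) :
    Nat.card {x : Cfsg.SU 3 F q // x ≠ 1 ∧ x * x = 1 ∧ x ≠ invS hF v hv ∧ Commute (invS hF v hv) x} = q * (q - 1) := by
  have hq := two_le_q hF
  have h1 := card_pred hF h2 (fun x => x ≠ invS hF v hv ∧ Commute (invS hF v hv) x)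
  have h3 : Nat.card {w : Nm₁ F q // invS hF w.1 w.2 ≠ invS hF v hv ∧ Commute (invS hF v hv) (invS hF w.1 w.2)} =
      q * (q ^ 2 - 1) := by
    have h4 := (cnt_perpOf hF ![v] (isON_single hF hv) (by norm_num)).2
    have h5 := herm_card_one hF 2
    rw [if_pos (by decide)] at h5
    change hermCnt F q 2 1 = _ at h5
    have h6 : cnt F q 3 (perpOf hF ![v]) 1 = q * (q ^ 2 - 1) := by
      rw [h4]
      show hermCnt F q 2 1 = _
      rw [h5]
      simp
    rw [← h6]
    apply Nat.card_congr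
    refine ⟨fun w => ⟨w.1.1, ?_, w.1.2⟩, fun a => ⟨⟨a.1, a.2.2⟩, ?_⟩, ?_, ?_⟩
    · rcases perp_or_eq hF h2 hv w.1.2 w.2.2 with h0 | h0
      · exact (mem_perp_iff hF).2 (herm_eq_zero_symm hF h0)
      · exact absurd (invS_eq_of_pj hF hv w.1.2 h0) w.2.1
    · have h0 : herm v a.1 = 0 := herm_eq_zero_symm hF ((mem_perp_iff hF).1 a.2.1)
      exact ⟨(invS_ne_of_perp hF h2 hv a.2.2 h0).symm, commute_of_perp hF hv a.2.2 h0⟩
    · intro w
      rfl
    · intro a
      rfl
  rw [h3] at h1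
  have h7 : q ^ 2 - 1 = (q + 1) * (q - 1) := by
    obtain ⟨r, rfl⟩ : ∃ r, q = r + 1 := ⟨q - 1, by omega⟩
    simp only [Nat.add_sub_cancel]
    have : (r + 1) ^ 2 = (r + 1 + 1) * r + 1 := by ring
    omega
  rw [h7] at h1
  apply Nat.eq_of_mul_eq_mul_left (show 0 < q + 1 by omega)
  rw [h1]
  ring

/-- The elements of norm one in the field. -/
lemma card_norm_one : Nat.card {c : F // c ^ (q + 1) = 1} = q + 1 := by
  have e : Nat.card {c : F // c ^ (q + 1) = 1} = Nat.card (rootsOfUnity (q + 1) F) := by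
    symm
    apply Nat.card_congr
    refine ⟨fun ζ => ⟨((ζ : Fˣ) : F), ?_⟩, fun c => ⟨Units.mk0 c.1 ?_, ?_⟩, ?_, ?_⟩
    · have h := (mem_rootsOfUnity _ _).1 ζ.2
      have := congrArg Units.val h
      simpa using this
    · intro h0
      have := c.2
      rw [h0, zero_pow (Nat.succ_ne_zero q)] at this
      exact zero_ne_one this
    · exact (mem_rootsOfUnity _ _).2 (Units.ext (by simpa using c.2))
    · intro ζ
      apply Subtype.ext
      apply Units.ext
      rfl
    · intro c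
      rfl
  rw [e]
  exact card_units_norm hF

/-- The nonzero isotropic vectors orthogonal to `v`. -/
abbrev IsoP (hF : Fintype.card F = q ^ 2) (v : Fin 3 → F) :=
  {a : Fin 3 → F // (a ∈ perpOf hF ![v] ∧ Cfsg.hermForm 3 F q a a = 0) ∧ a ≠ 0}

lemma card_IsoP {v : Fin 3 → F} (hv : herm v v = 1) : Nat.card (IsoP hF v) = (q + 1) * (q ^ 2 - 1) := by
  have h4 := (cnt_perpOf hF ![v] (isON_single hF hv) (by norm_num)).1
  have h5 := herm_card_zero hF 2
  rw [if_pos (by decide)] at h5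
  change hermCnt F q 2 0 = _ at h5
  have h6 : cnt F q 3 (perpOf hF ![v]) 0 = (q ^ 2 - 1) * (q + 1) + 1 := by
    rw [h4]
    show hermCnt F q 2 0 = _
    rw [h5]
    simp
  have h7 := card_split (α := Fin 3 → F) (fun a => a ∈ perpOf hF ![v] ∧ herm a a = 0) (fun a => a = 0)
  have h8 : Nat.card {a : Fin 3 → F // (a ∈ perpOf hF ![v] ∧ herm a a = 0) ∧ a = 0} = 1 := by
    rw [Nat.card_eq_one_iff_unique]
    refine ⟨⟨?_⟩, ⟨⟨0, ⟨Submodule.zero_mem _, herm_zero_left hF 0⟩, rfl⟩⟩⟩
    rintro ⟨a, -, ha⟩ ⟨b, -, hb⟩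
    apply Subtype.ext
    exact ha.trans hb.symm
  rw [h8] at h7
  have h9 : cnt F q 3 (perpOf hF ![v]) 0 = Nat.card {a : Fin 3 → F // a ∈ perpOf hF ![v] ∧ herm a a = 0} := rfl
  rw [h9] at h6
  have h10 : Nat.card (IsoP hF v) = Nat.card {a : Fin 3 → F // (a ∈ perpOf hF ![v] ∧ herm a a = 0) ∧ ¬ a = 0} := rfl
  rw [h10]
  rw [h6] at h7
  have h11 : (q + 1) * (q ^ 2 - 1) = (q ^ 2 - 1) * (q + 1) := mul_comm _ _
  omega

theorem card_tan {v : Fin 3 → F} (hv : herm v v = 1) :
    Nat.card {w : Nm₁ F q // pj q v w.1 ≠ 0 ∧ herm w.1 v ^ (q + 1) = 1} = (q + 1) * ((q + 1) * (q ^ 2 - 1)) := by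
  have hq := two_le_q hF
  have hE : (q + 1) * ((q + 1) * (q ^ 2 - 1)) =
      Nat.card ({c : F // c ^ (q + 1) = 1} × IsoP hF v) := by
    rw [Nat.card_prod, card_norm_one hF, card_IsoP hF hv]
  rw [hE]
  apply Nat.card_congr
  have hconj : ∀ w : Fin 3 → F, herm v w = herm w v ^ q := fun w => herm_conj hF w v
  refine ⟨fun w => (⟨herm w.1.1 v, w.2.2⟩, ⟨pj q v w.1.1, ⟨(mem_perp_iff hF).2 (herm_pj hF v _ hv), ?_⟩, w.2.1⟩),
    fun p => ⟨⟨p.1.1 • v + p.2.1, ?_⟩, ?_, ?_⟩, ?_, ?_⟩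
  · -- the orthogonal part is isotropic
    have hw := w.1.2
    have hD := w.2.2
    have e : herm (pj q v w.1.1) (pj q v w.1.1) = 1 - herm w.1.1 v ^ (q + 1) := by
      rw [pj, herm_sub_left hF, herm_sub_right hF, herm_sub_right hF, herm_smul_left, herm_smul_right hF,
        herm_smul_left, herm_smul_right hF, hw, hv, hconj w.1.1, pow_succ]
      ring
    rw [e, hD, sub_self]
  · -- the vector has norm one
    have h0 : herm p.2.1 v = 0 := (mem_perp_iff hF).1 p.2.2.1.1
    have h0' : herm v p.2.1 = 0 := herm_eq_zero_symm hF h0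
    rw [herm_add_left, herm_add_right hF, herm_add_right hF, herm_smul_left, herm_smul_left, herm_smul_right hF,
      herm_smul_right hF, hv, h0, h0', p.2.2.1.2, mul_zero, mul_zero, add_zero, add_zero, mul_one, add_zero,
      mul_comm, ← pow_succ]
    exact p.1.2
  · -- the projection is not zero
    have h0 : herm p.2.1 v = 0 := (mem_perp_iff hF).1 p.2.2.1.1
    have e : pj q v (p.1.1 • v + p.2.1) = p.2.1 := by
      rw [pj, herm_add_left, herm_smul_left, hv, h0, mul_one, add_zero]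
      abel
    rw [e]
    exact p.2.2.2
  · have h0 : herm p.2.1 v = 0 := (mem_perp_iff hF).1 p.2.2.1.1
    have e : herm (p.1.1 • v + p.2.1) v = p.1.1 := by
      rw [herm_add_left, herm_smul_left, hv, h0, mul_one, add_zero]
    rw [e]
    exact p.1.2
  · intro w
    apply Subtype.ext
    apply Subtype.ext
    show herm w.1.1 v • v + pj q v w.1.1 = w.1.1
    rw [pj]
    abel
  · intro p
    have h0 : herm p.2.1 v = 0 := (mem_perp_iff hF).1 p.2.2.1.1
    have e : herm (p.1.1 • v + p.2.1) v = p.1.1 := by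
      rw [herm_add_left, herm_smul_left, hv, h0, mul_one, add_zero]
    have e2 : pj q v (p.1.1 • v + p.2.1) = p.2.1 := by
      rw [pj, herm_add_left, herm_smul_left, hv, h0, mul_one, add_zero]
      abel
    apply Prod.ext
    · exact Subtype.ext e
    · exact Subtype.ext e2

theorem card_C (h2 : (2 : F) ≠ 0) {v : Fin 3 → F} (hv : herm v v = 1) :
    Nat.card {x : Cfsg.SU 3 F q // x ≠ 1 ∧ x * x = 1 ∧ ¬ Commute (invS hF v hv) x ∧
        ∀ y : Cfsg.SU 3 F q, y ≠ 1 → y * y = 1 → ¬ (Commute (invS hF v hv) y ∧ Commute y x)} = (q + 1) * (q ^ 2 - 1) := by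
  have h1 := card_pred hF h2 (fun x => ¬ Commute (invS hF v hv) x ∧
    ∀ y : Cfsg.SU 3 F q, y ≠ 1 → y * y = 1 → ¬ (Commute (invS hF v hv) y ∧ Commute y x))
  have h3 : Nat.card {w : Nm₁ F q // ¬ Commute (invS hF v hv) (invS hF w.1 w.2) ∧
      ∀ y : Cfsg.SU 3 F q, y ≠ 1 → y * y = 1 → ¬ (Commute (invS hF v hv) y ∧ Commute y (invS hF w.1 w.2))} =
      (q + 1) * ((q + 1) * (q ^ 2 - 1)) := by
    rw [← card_tan hF hv]
    apply Nat.card_congr
    apply Equiv.subtypeEquivRight
    intro w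
    exact tangent_iff hF h2 hv w.2
  rw [h3] at h1
  exact Nat.eq_of_mul_eq_mul_left (show 0 < q + 1 by omega) h1

end Cfsg.Agent.H01.U3Inv
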