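import Mathlib
import Cfsg.Agent.Lib.H01.U3Inv6

/-! The commuting involution graph of `SU₃(q)`, `q` odd: the partition and the diameter. -/

set_option autoImplicit false
set_option linter.unusedSectionVars false

namespace Cfsg.Agent.H01.U3Inv

open Matrix Cfsg.Agent.Lead Cfsg.Agent.Lead.PSU
open Cfsg.Agent.H12.UTrans
open scoped MatrixGroups

variable {F : Type*} [Field F] [Fintype F] {q : ℕ}

local notation "herm" => Cfsg.hermForm 3 F q

variable (hF : Fintype.card F = q ^ 2)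
include hF

/-- The tangent case of the diameter bound: a unit vector orthogonal to `w`, with norm of its
inner product with `v` different from one. -/
lemma exists_tangent_step (h2 : (2 : F) ≠ 0) {v w : Fin 3 → F} (hv : herm v v = 1) (hw : herm w w = 1)
    (hj : pj q v w ≠ 0) (hD : herm w v ^ (q + 1) = 1) :
    ∃ u₂, herm u₂ u₂ = 1 ∧ herm u₂ w = 0 ∧ herm u₂ v ^ (q + 1) ≠ 1 := by
  have hq := two_le_q hF
  set c := herm w v with hc
  have hconj : herm v w = c ^ q := herm_conj hF w v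
  set a := pj q v w with ha
  have hav : herm a v = 0 := herm_pj hF v w hv
  have hva : herm v a = 0 := herm_eq_zero_symm hF hav
  have haa : herm a a = 0 := by
    have e : herm a a = 1 - c ^ (q + 1) := by
      rw [ha, pj, herm_sub_left hF, herm_sub_right hF, herm_sub_right hF, herm_smul_left, herm_smul_right hF,
        herm_smul_left, herm_smul_right hF, hw, hv, hconj, pow_succ, ← hc]
      ring
    rw [e, hD, sub_self]
  obtain ⟨x₀, hx₀⟩ := exists_herm_one hF hj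
  set d := herm x₀ v with hd
  set r₀ := pj q v x₀ with hr₀
  have hr₀v : herm r₀ v = 0 := herm_pj hF v x₀ hv
  have har₀ : herm a r₀ = 1 := by
    rw [hr₀, pj, herm_sub_right hF, herm_smul_right hF, hav, hx₀, mul_zero, sub_zero]
  have hr₀a : herm r₀ a = 1 := by
    rw [herm_conj hF a r₀, har₀, one_pow]
  have hfix : (1 - herm r₀ r₀) ^ q = 1 - herm r₀ r₀ := by
    rw [pow_sub_q hF, one_pow, herm_self_fixed hF]
  obtain ⟨τ, hτ⟩ := exists_trace_eq hF _ hfix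
  set r := r₀ + τ • a with hr
  have hrr : herm r r = 1 := by
    rw [hr, herm_add_left, herm_add_right hF, herm_add_right hF, herm_smul_left, herm_smul_left,
      herm_smul_right hF, herm_smul_right hF, hr₀a, har₀, haa]
    linear_combination hτ
  have hrv : herm r v = 0 := by
    rw [hr, herm_add_left, herm_smul_left, hr₀v, hav, mul_zero, add_zero]
  have hvr : herm v r = 0 := herm_eq_zero_symm hF hrv
  have hra : herm r a = 1 := by
    rw [hr, herm_add_left, herm_smul_left, hr₀a, haa, mul_zero, add_zero]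
  have hwdec : w = a + c • v := by
    rw [ha, pj]
    abel
  have hrw : herm r w = 1 := by
    rw [hwdec, herm_add_right hF, herm_smul_right hF, hra, hrv, mul_zero, add_zero]
  clear_value r
  have hc0 : c ≠ 0 := by
    intro h0
    rw [h0, zero_pow (Nat.succ_ne_zero q)] at hD
    exact zero_ne_one hD
  have hcq0 : c ^ q ≠ 0 := pow_ne_zero _ hc0
  set α := -(c ^ q)⁻¹ with hα
  have hαq : α ^ q = -(c)⁻¹ := by
    rw [hα, pow_neg_q hF, inv_pow, pow_q_sq hF]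
  have hαc : α * c ^ q = -1 := by
    rw [hα]
    field_simp
  have hcq : c ^ q * c = 1 := by
    rw [← pow_succ]
    exact hD
  have hNα : α ^ (q + 1) = 1 := by
    rw [pow_succ, hαq, hα]
    have h3 : c ^ q * c ≠ 0 := mul_ne_zero hcq0 hc0
    field_simp
    linear_combination -hcq
  set u₀ := α • v + r with hu₀
  have hu₀u₀ : herm u₀ u₀ = 2 := by
    rw [hu₀, herm_add_left, herm_add_right hF, herm_add_right hF, herm_smul_left, herm_smul_left,
      herm_smul_right hF, herm_smul_right hF, hv, hrr, hvr, hrv]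
    have : α * α ^ q = α ^ (q + 1) := by rw [pow_succ]; ring
    rw [mul_one, this, hNα]
    ring
  have hu₀w : herm u₀ w = 0 := by
    rw [hu₀, herm_add_left, herm_smul_left, hconj, hαc, hrw]
    ring
  have hu₀v : herm u₀ v = α := by
    rw [hu₀, herm_add_left, herm_smul_left, hv, hrv, mul_one, add_zero]
  obtain ⟨μ, hμ0, hμ⟩ := exists_normalise hF (u := u₀) (by rw [hu₀u₀]; exact h2)
  have hN : μ ^ (q + 1) * 2 = 1 := by
    rw [herm_smul_smul hF, hu₀u₀] at hμ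
    exact hμ
  refine ⟨μ • u₀, hμ, ?_, ?_⟩
  · rw [herm_smul_left, hu₀w, mul_zero]
  · rw [herm_smul_left, hu₀v, mul_pow, hNα, mul_one]
    intro h1
    rw [h1] at hN
    apply h2
    linear_combination 2 * hN

/-- The commuting involution graph has diameter at most three. -/
theorem diam_le (h2 : (2 : F) ≠ 0) {v : Fin 3 → F} (hv : herm v v = 1) (x : Cfsg.SU 3 F q) (hx : x ≠ 1)
    (hx2 : x * x = 1) :
    ∃ y z : Cfsg.SU 3 F q, y ≠ 1 ∧ y * y = 1 ∧ z ≠ 1 ∧ z * z = 1 ∧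
      Commute (invS hF v hv) y ∧ Commute y z ∧ Commute z x := by
  have hq := two_le_q hF
  obtain ⟨w, hw, rfl⟩ := exists_vec hF h2 x hx hx2
  have ht1 := invS_ne_one hF h2 v hv
  have ht2 := invS_sq hF v hv
  by_cases hj : pj q v w = 0
  · refine ⟨invS hF v hv, invS hF v hv, ht1, ht2, ht1, ht2, Commute.refl _, Commute.refl _, ?_⟩
    rw [invS_eq_of_pj hF hv hw hj]
  by_cases h0 : herm w v = 0
  · refine ⟨invS hF v hv, invS hF w hw, ht1, ht2, hx, hx2, Commute.refl _, ?_, Commute.refl _⟩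
    exact commute_of_perp hF hv hw (herm_eq_zero_symm hF h0)
  by_cases hD : herm w v ^ (q + 1) = 1
  · obtain ⟨u₂, hu₂, hu₂w, hu₂v⟩ := exists_tangent_step hF h2 hv hw hj hD
    have hD' : herm (cr q v u₂) (cr q v u₂) ≠ 0 := by
      rw [herm_cr_cr' hF, hv, hu₂, one_mul, herm_conj hF u₂ v, ← pow_succ]
      intro h3
      exact hu₂v (sub_eq_zero.1 h3).symm
    obtain ⟨u₁, hu₁, hvu₁, hu₂u₁⟩ := exists_perp hF hD'
    refine ⟨invS hF u₁ hu₁, invS hF u₂ hu₂, invS_ne_one hF h2 u₁ hu₁, invS_sq hF u₁ hu₁,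
      invS_ne_one hF h2 u₂ hu₂, invS_sq hF u₂ hu₂, ?_, ?_, ?_⟩
    · exact commute_of_perp hF hv hu₁ hvu₁
    · exact commute_of_perp hF hu₁ hu₂ (herm_eq_zero_symm hF hu₂u₁)
    · exact commute_of_perp hF hu₂ hw hu₂w
  · have hD' : herm (cr q v w) (cr q v w) ≠ 0 := by
      rw [herm_cr_cr' hF, hv, hw, one_mul, herm_conj hF w v, ← pow_succ]
      intro h3
      exact hD (sub_eq_zero.1 h3).symm
    obtain ⟨u, hu, hvu, hwu⟩ := exists_perp hF hD'
    refine ⟨invS hF u hu, invS hF u hu, invS_ne_one hF h2 u hu, invS_sq hF u hu, invS_ne_one hF h2 u hu,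
      invS_sq hF u hu, commute_of_perp hF hv hu hvu, Commute.refl _, ?_⟩
    exact commute_of_perp hF hu hw (herm_eq_zero_symm hF hwu)

/-- The count of the middle class by difference. -/
theorem card_B (h2 : (2 : F) ≠ 0) {v : Fin 3 → F} (hv : herm v v = 1) :
    Nat.card {x : Cfsg.SU 3 F q // x ≠ 1 ∧ x * x = 1 ∧ ¬ Commute (invS hF v hv) x ∧
        ∃ y : Cfsg.SU 3 F q, y ≠ 1 ∧ y * y = 1 ∧ Commute (invS hF v hv) y ∧ Commute y x} =
      q * (q - 2) * (q ^ 2 - 1) := by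
  have hq := two_le_q hF
  set t := invS hF v hv with ht
  have hI := card_inv hF h2
  have hA := card_A hF h2 hv
  have hC := card_C hF h2 hv
  rw [← ht] at hA hC
  have ht1 : t ≠ 1 := invS_ne_one hF h2 v hv
  have ht2 : t * t = 1 := invS_sq hF v hv
  clear_value t
  have h1 := card_split (α := Cfsg.SU 3 F q) (fun x => x ≠ 1 ∧ x * x = 1) (fun x => Commute t x)
  have h3 := card_split (α := Cfsg.SU 3 F q) (fun x => (x ≠ 1 ∧ x * x = 1) ∧ Commute t x) (fun x => x = t)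
  have h4 := card_split (α := Cfsg.SU 3 F q) (fun x => (x ≠ 1 ∧ x * x = 1) ∧ ¬ Commute t x)
    (fun x => ∃ y : Cfsg.SU 3 F q, y ≠ 1 ∧ y * y = 1 ∧ Commute t y ∧ Commute y x)
  have e1 : Nat.card {x : Cfsg.SU 3 F q // ((x ≠ 1 ∧ x * x = 1) ∧ Commute t x) ∧ x = t} = 1 := by
    rw [Nat.card_eq_one_iff_unique]
    refine ⟨⟨?_⟩, ⟨⟨t, ⟨⟨ht1, ht2⟩, Commute.refl _⟩, rfl⟩⟩⟩
    rintro ⟨a, -, ha⟩ ⟨b, -, hb⟩
    apply Subtype.ext
    exact ha.trans hb.symm
  have e2 : Nat.card {x : Cfsg.SU 3 F q // ((x ≠ 1 ∧ x * x = 1) ∧ Commute t x) ∧ ¬ x = t} =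
      Nat.card {x : Cfsg.SU 3 F q // x ≠ 1 ∧ x * x = 1 ∧ x ≠ t ∧ Commute t x} := by
    apply Nat.card_congr
    apply Equiv.subtypeEquivRight
    intro x
    constructor
    · rintro ⟨⟨⟨h5, h6⟩, h7⟩, h8⟩
      exact ⟨h5, h6, h8, h7⟩
    · rintro ⟨h5, h6, h7, h8⟩
      exact ⟨⟨⟨h5, h6⟩, h8⟩, h7⟩
  have e3 : Nat.card {x : Cfsg.SU 3 F q // ((x ≠ 1 ∧ x * x = 1) ∧ ¬ Commute t x) ∧
        ∃ y : Cfsg.SU 3 F q, y ≠ 1 ∧ y * y = 1 ∧ Commute t y ∧ Commute y x} =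
      Nat.card {x : Cfsg.SU 3 F q // x ≠ 1 ∧ x * x = 1 ∧ ¬ Commute t x ∧
        ∃ y : Cfsg.SU 3 F q, y ≠ 1 ∧ y * y = 1 ∧ Commute t y ∧ Commute y x} := by
    apply Nat.card_congr
    apply Equiv.subtypeEquivRight
    intro x
    constructor
    · rintro ⟨⟨⟨h5, h6⟩, h7⟩, h8⟩
      exact ⟨h5, h6, h7, h8⟩
    · rintro ⟨h5, h6, h7, h8⟩
      exact ⟨⟨⟨h5, h6⟩, h7⟩, h8⟩
  have e4 : Nat.card {x : Cfsg.SU 3 F q // ((x ≠ 1 ∧ x * x = 1) ∧ ¬ Commute t x) ∧
        ¬ ∃ y : Cfsg.SU 3 F q, y ≠ 1 ∧ y * y = 1 ∧ Commute t y ∧ Commute y x} =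
      Nat.card {x : Cfsg.SU 3 F q // x ≠ 1 ∧ x * x = 1 ∧ ¬ Commute t x ∧
        ∀ y : Cfsg.SU 3 F q, y ≠ 1 → y * y = 1 → ¬ (Commute t y ∧ Commute y x)} := by
    apply Nat.card_congr
    apply Equiv.subtypeEquivRight
    intro x
    constructor
    · rintro ⟨⟨⟨h5, h6⟩, h7⟩, h8⟩
      refine ⟨h5, h6, h7, fun y hy hy2 hc => h8 ⟨y, hy, hy2, hc.1, hc.2⟩⟩
    · rintro ⟨h5, h6, h7, h8⟩
      refine ⟨⟨⟨h5, h6⟩, h7⟩, ?_⟩
      rintro ⟨y, hy, hy2, hc1, hc2⟩
      exact h8 y hy hy2 ⟨hc1, hc2⟩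
  rw [e1, e2, hA] at h3
  rw [e3, e4, hC] at h4
  rw [h3, h4] at h1
  change Nat.card (Inv₂ F q) = _ at h1
  rw [hI] at h1
  obtain ⟨r, rfl⟩ : ∃ r, q = r + 2 := ⟨q - 2, by omega⟩
  have a1 : (r + 2) ^ 2 - (r + 2) + 1 = r ^ 2 + 3 * r + 3 := by
    have : (r + 2) ^ 2 = r ^ 2 + 3 * r + 2 + (r + 2) := by ring
    omega
  have a2 : (r + 2) ^ 2 - 1 = r ^ 2 + 4 * r + 3 := by
    have : (r + 2) ^ 2 = r ^ 2 + 4 * r + 3 + 1 := by ring
    omega
  have a3 : r + 2 - 1 = r + 1 := by omega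
  have a4 : r + 2 - 2 = r := by omega
  rw [a1, a2, a3] at h1
  rw [a2, a4]
  have : (r + 2) ^ 2 * (r ^ 2 + 3 * r + 3) =
      (r + 2) * r * (r ^ 2 + 4 * r + 3) + (1 + (r + 2) * (r + 1) + (r + 2 + 1) * (r ^ 2 + 4 * r + 3)) := by ring
  omega

end Cfsg.Agent.H01.U3Inv
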