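import Mathlib
import Cfsg.Agent.Lib.H14.ZJMap
import Cfsg.Agent.Lib.H14.ZJ
import Cfsg.Agent.Lib.H14.Class2
import Cfsg.Agent.Lib.H14.GT2

/-! The centre of the elementary Thompson subgroup is normal in the presence of stability. -/

set_option autoImplicit false

namespace Cfsg.Agent.H01.ZE

open Cfsg Cfsg.Agent.H14 Cfsg.Agent.H14.ZJFam

open scoped commutatorElement

section Defs

variable {G : Type*} [Group G]

/-- The centre of the elementary Thompson subgroup `J_e(D)`. -/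
def ze (p : ℕ) (D : Subgroup G) : Subgroup G :=
  (elFam G p).jj D ⊓ Subgroup.centralizer (((elFam G p).jj D : Subgroup G) : Set G)

theorem centerThompsonOf_eq_ze (p : ℕ) (D : Subgroup G) : Cfsg.centerThompsonOf p D = ze p D := by
  unfold Cfsg.centerThompsonOf ze
  rw [thompsonSubgroupOf_eq_jj]

theorem ze_le_jj (p : ℕ) (D : Subgroup G) : ze p D ≤ (elFam G p).jj D := inf_le_left

theorem ze_le (p : ℕ) (D : Subgroup G) : ze p D ≤ D := (ze_le_jj p D).trans (jj_le D)

theorem zz_le_ze (p : ℕ) (D : Subgroup G) : (elFam G p).zz D ≤ ze p D := fun _ hz => ⟨hz.1, hz.2.1⟩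

theorem ze_comm {p : ℕ} {D : Subgroup G} {a b : G} (ha : a ∈ ze p D) (hb : b ∈ ze p D) : a * b = b * a :=
  (Subgroup.mem_centralizer_iff.mp hb.2) a ha.1

theorem ze_conj {p : ℕ} [Finite G] {X : Subgroup G} {h : G} (hh : h ∈ Subgroup.normalizer (X : Set G)) {z : G}
    (hz : z ∈ ze p X) : h * z * h⁻¹ ∈ ze p X := by
  refine ⟨jj_conj hh hz.1, Subgroup.mem_centralizer_iff.mpr ?_⟩
  intro j hj
  have hj' : h⁻¹ * j * h ∈ (elFam G p).jj X := by
    have := jj_conj (Subgroup.inv_mem _ hh) hj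
    simpa using this
  have h1 := (Subgroup.mem_centralizer_iff.mp hz.2) _ hj'
  calc j * (h * z * h⁻¹) = h * ((h⁻¹ * j * h) * z) * h⁻¹ := by group
    _ = h * (z * (h⁻¹ * j * h)) * h⁻¹ := by rw [h1]
    _ = _ := by group

theorem ze_normalizer_ge {p : ℕ} {X : Subgroup G} [Finite G] {h : G}
    (hh : h ∈ Subgroup.normalizer (X : Set G)) : h ∈ Subgroup.normalizer ((ze p X : Subgroup G) : Set G) := by
  rw [Subgroup.mem_normalizer_iff]
  intro x
  constructor
  · exact fun hx => ze_conj hh hx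
  · intro hx
    have := ze_conj (Subgroup.inv_mem _ hh) hx
    simpa [mul_assoc] using this

theorem ze_ne_bot {p : ℕ} [Finite G] [Fact p.Prime] {D : Subgroup G} (hDp : IsPGroup p D) (hD : D ≠ ⊥) :
    ze p D ≠ ⊥ := by
  intro h
  apply zz_ne_bot (p := p) p (Or.inr rfl) hDp hD
  rw [eq_bot_iff, ← h]
  exact zz_le_ze p D

/-- `ze` is compatible with homomorphisms injective on `D`. -/
theorem ze_map {H : Type*} [Group H] (p : ℕ) (f : G →* H) (D : Subgroup G) (hf : ∀ x ∈ D, f x = 1 → x = 1) :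
    ze p (D.map f) = (ze p D).map f := by
  have hjD : (elFam G p).jj D ≤ D := jj_le D
  apply le_antisymm
  · rintro y ⟨h1, h2⟩
    rw [SetLike.mem_coe, jj_map p f D hf] at h1
    rw [jj_map p f D hf] at h2
    obtain ⟨z, hz, rfl⟩ := h1
    refine ⟨z, ⟨hz, Subgroup.mem_centralizer_iff.mpr ?_⟩, rfl⟩
    intro a ha
    have h4 := (Subgroup.mem_centralizer_iff.mp h2) (f a) ⟨a, ha, rfl⟩
    apply injOn_of_ker f D hf (D.mul_mem (hjD ha) (hjD hz)) (D.mul_mem (hjD hz) (hjD ha))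
    rw [map_mul, map_mul]
    exact h4
  · rintro _ ⟨z, ⟨h1, h2⟩, rfl⟩
    refine ⟨?_, ?_⟩
    · rw [SetLike.mem_coe, jj_map p f D hf]
      exact ⟨z, h1, rfl⟩
    · show f z ∈ Subgroup.centralizer _
      rw [jj_map p f D hf, Subgroup.mem_centralizer_iff]
      rintro _ ⟨a, ha, rfl⟩
      rw [← map_mul, ← map_mul, (Subgroup.mem_centralizer_iff.mp h2) a ha]

/-- A commuting element of order dividing `p` lies in all elementary abelian members of largest order. -/
theorem mem_of_comm {p : ℕ} [Finite G] {A D : Subgroup G} (hA : A ∈ (elFam G p).mx D) {x : G} (hxD : x ∈ D)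
    (hxp : x ^ p = 1) (hx : ∀ a ∈ A, a * x = x * a) : x ∈ A := by
  have hsup : A ⊔ Subgroup.zpowers x ≤ D :=
    sup_le hA.1 ((Subgroup.zpowers_le).mpr hxD)
  have hF := (elFam G p).F_sup A x hA.2.1 hxp hx
  have hc := hA.2.2 _ hsup hF
  have heq := Subgroup.eq_of_le_of_card_ge (le_sup_left : A ≤ A ⊔ Subgroup.zpowers x) hc
  rw [heq]
  exact Subgroup.mem_sup_right (Subgroup.mem_zpowers x)

end Defs

section Coprime

variable {G : Type*} [Group G] [Finite G] {p : ℕ} [Fact p.Prime]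

/-- `p' `-elements centralizing `Ω₁` of a group of class two centralize the group. -/
theorem centralizes_of_omega (hp2 : p ≠ 2) {B C : Subgroup G} (hc : C2 B C) (hBp : IsPGroup p B) {y : G}
    (hyN : ∀ x ∈ B, y * x * y⁻¹ ∈ B) (hyc : (orderOf y).Coprime p)
    (hy : ∀ x ∈ B, x ^ p = 1 → y * x * y⁻¹ = x) : ∀ x ∈ B, y * x * y⁻¹ = x := by
  have hpr : p.Prime := Fact.out
  have hdvd : p ∣ p.choose 2 := hpr.dvd_choose_self (by norm_num) (lt_of_le_of_ne hpr.two_le (Ne.symm hp2))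
  have key : ∀ k : ℕ, ∀ x ∈ B, x ^ p ^ k = 1 → y * x * y⁻¹ = x := by
    intro k
    induction k with
    | zero =>
      intro x _ h
      rw [pow_zero, pow_one] at h
      rw [h]
      group
    | succ k ih =>
      intro x hx h
      have hxp : (x ^ p) ^ p ^ k = 1 := by
        rw [← pow_mul, ← pow_succ']
        exact h
      have h1 := ih _ (B.pow_mem hx p) hxp
      set u := y * x * y⁻¹ with hu
      have huB : u ∈ B := hyN x hx
      have hup : u ^ p = x ^ p := by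
        rw [hu, conj_pow, h1]
      have hx'B : x⁻¹ ∈ B := B.inv_mem hx
      set v := x⁻¹ * u with hv
      have hvB : v ∈ B := B.mul_mem hx'B huB
      have hvp : v ^ p = 1 := by
        rw [hv, hc.mul_pow' hx'B huB p, inv_pow, hup, inv_mul_cancel, one_mul]
        obtain ⟨q, hq⟩ := hdvd
        rw [hq, pow_mul, ← hc.pow_left huB hx'B p, hup]
        have : ⁅x ^ p, x⁻¹⁆ = 1 := by
          rw [commutatorElement_eq_one_iff_mul_comm]
          exact ((Commute.refl x).pow_left p).inv_right.eq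
        rw [this, one_pow]
      have hyv : y * v * y⁻¹ = v := hy v hvB hvp
      have hstep : ∀ j : ℕ, y ^ j * x * (y ^ j)⁻¹ = x * v ^ j := by
        intro j
        induction j with
        | zero => simp
        | succ j ih2 =>
          have e1 : y * x * y⁻¹ = x * v := by
            show u = x * v
            rw [hv, mul_inv_cancel_left]
          have e2 : y * v ^ j * y⁻¹ = v ^ j := by
            rw [← conj_pow, hyv]
          calc y ^ (j + 1) * x * (y ^ (j + 1))⁻¹ = y * (y ^ j * x * (y ^ j)⁻¹) * y⁻¹ := by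
                rw [pow_succ']
                group
            _ = y * (x * v ^ j) * y⁻¹ := by rw [ih2]
            _ = (y * x * y⁻¹) * (y * v ^ j * y⁻¹) := by simp only [mul_assoc, inv_mul_cancel_left]
            _ = x * v * v ^ j := by rw [e1, e2]
            _ = x * v ^ (j + 1) := by rw [pow_succ', mul_assoc]
      have hm := hstep (orderOf y)
      rw [pow_orderOf_eq_one] at hm
      have hvm : v ^ orderOf y = 1 := by
        have : x = x * v ^ orderOf y := by simpa using hm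
        exact (mul_eq_left.mp this.symm)
      have hv1 : v = 1 := by
        have h2 : orderOf v = 1 := Nat.eq_one_of_dvd_coprimes hyc.symm
          (orderOf_dvd_of_pow_eq_one hvp) (orderOf_dvd_of_pow_eq_one hvm)
        exact orderOf_eq_one_iff.mp h2
      have : u = x := by
        rw [hv] at hv1
        exact (inv_mul_eq_one.mp hv1).symm
      exact this
  intro x hx
  obtain ⟨k, hk⟩ := hBp ⟨x, hx⟩
  exact key k x hx (congrArg Subtype.val hk)

end Coprime

section Main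

variable {G : Type*} [Group G] [Finite G] {p : ℕ} [Fact p.Prime]

/-- The centre of `J_e(D)` is normal when `C(O_p(G)) ≤ O_p(G)` and stability holds. -/
theorem ze_normal' (hp : p ≠ 2) (P : Sylow p G) {D : Subgroup G}
    (hD : Cfsg.IsStronglyClosed D (P : Subgroup G)) (hst : NormalStable p (P : Subgroup G))
    (hc : Subgroup.centralizer (Cfsg.pCore p G : Set G) ≤ Cfsg.pCore p G) : (ze p D).Normal := by
  classical
  have hpr : p.Prime := Fact.out
  set Fm := elFam G p with hFm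
  set Z := ze p D with hZ
  have hDP : D ≤ (P : Subgroup G) := hD.1
  have hDp : IsPGroup p D := P.isPGroup'.to_le hDP
  have hZD : Z ≤ D := ze_le p D
  have hZP : Z ≤ (P : Subgroup G) := hZD.trans hDP
  have hfin : Set.Finite {B : Subgroup G | B.Normal ∧ B ≤ Z} := Set.toFinite _
  have hne : {B : Subgroup G | B.Normal ∧ B ≤ Z}.Nonempty := ⟨⊥, inferInstance, bot_le⟩
  obtain ⟨B₀, hB₀⟩ := hfin.exists_maximal hne
  obtain ⟨⟨hB₀n, hB₀Z⟩, hmax⟩ := hB₀
  by_cases hEq : B₀ = Z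
  · rw [← hEq]
    exact hB₀n
  exfalso
  have hnle : ¬ Z ≤ B₀ := fun h => hEq (le_antisymm hB₀Z h)
  have hB₀p : IsPGroup p B₀ := P.isPGroup'.to_le (hB₀Z.trans hZP)
  -- `P` normalizes `D`
  have hPD : ∀ g ∈ (P : Subgroup G), g ∈ Subgroup.normalizer (D : Set G) := by
    intro g hg
    rw [Subgroup.mem_normalizer_iff]
    intro x
    constructor
    · intro hx
      exact hD.2 x hx g (Subgroup.mul_mem _ (Subgroup.mul_mem _ hg (hDP hx)) (Subgroup.inv_mem _ hg))
    · intro hx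
      have h1 := hD.2 _ hx g⁻¹ (by
        have : g⁻¹ * (g * x * g⁻¹) * g⁻¹⁻¹ = x := by group
        rw [this]
        have h2 := Subgroup.mul_mem _ (Subgroup.mul_mem _ (Subgroup.inv_mem _ hg) (hDP hx)) hg
        have e : g⁻¹ * (g * x * g⁻¹) * g = x := by group
        rwa [e] at h2)
      have e : g⁻¹ * (g * x * g⁻¹) * g⁻¹⁻¹ = x := by group
      rwa [e] at h1
  -- the central element modulo `B₀`
  obtain ⟨w, hwZ, hwB₀, hwc⟩ : ∃ w ∈ Z, w ∉ B₀ ∧ ∀ g ∈ (P : Subgroup G), w * g * w⁻¹ * g⁻¹ ∈ B₀ := by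
    haveI : Group.IsNilpotent (P : Subgroup G) := P.isPGroup'.isNilpotent
    have hZPn : (Z.subgroupOf (P : Subgroup G)).Normal := by
      refine ⟨fun n hn g => ?_⟩
      rw [Subgroup.mem_subgroupOf] at hn ⊢
      exact ze_conj (hPD g g.2) hn
    have hnle' : ¬ Z.subgroupOf (P : Subgroup G) ≤ B₀.subgroupOf (P : Subgroup G) := by
      intro h
      apply hnle
      intro z hz
      have := h (Subgroup.mem_subgroupOf.mpr (show ((⟨z, hZP hz⟩ : (P : Subgroup G)) : G) ∈ Z from hz))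
      exact Subgroup.mem_subgroupOf.mp this
    obtain ⟨⟨w, hwP⟩, hwZ, hwB, hw⟩ := exists_commutator_mem hZPn hnle'
    refine ⟨w, Subgroup.mem_subgroupOf.mp hwZ, fun h => hwB (Subgroup.mem_subgroupOf.mpr h), ?_⟩
    intro g hg
    have := (hw ⟨g, hg⟩).2
    exact Subgroup.mem_subgroupOf.mp this
  have hcommZ : ∀ a ∈ Z, ∀ b ∈ Z, a * b = b * a := fun a ha b hb => ze_comm ha hb
  set V := Cfsg.pCore p G with hV
  have hVn : V.Normal := Cfsg.Agent.H01.pCore_normal p
  have hVp : IsPGroup p V := Cfsg.Agent.H01.pCore_isPGroup p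
  have hVP : V ≤ (P : Subgroup G) := Cfsg.Agent.H01.pCore_le_sylow p P
  have hwV : w ∈ V := mem_pCore_of_stability hVn hVp hB₀n hB₀p hc
    (fun c hc => hcommZ w hwZ c (hB₀Z hc)) (fun v hv => hwc v (hVP hv))
  have hB₀V : B₀ ≤ V := Cfsg.Agent.H01.le_pCore hB₀n hB₀p
  -- the next member
  set X : Set G := (B₀ : Set G) ∪ {y | ∃ g : G, y = g * w * g⁻¹} with hX
  set B₁ : Subgroup G := Subgroup.closure X with hB₁
  have hXconj : ∀ x ∈ X, ∀ g : G, g * x * g⁻¹ ∈ X := by
    rintro x (hx | ⟨k, rfl⟩) g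
    · exact Or.inl (hB₀n.conj_mem x hx g)
    · exact Or.inr ⟨g * k, by group⟩
  have hB₁n : B₁.Normal := by
    refine ⟨fun n hn g => ?_⟩
    induction hn using Subgroup.closure_induction with
    | mem x hx => exact Subgroup.subset_closure (hXconj x hx g)
    | one =>
      have : g * 1 * g⁻¹ = 1 := by group
      rw [this]
      exact B₁.one_mem
    | mul a b _ _ ha hb =>
      have : g * (a * b) * g⁻¹ = (g * a * g⁻¹) * (g * b * g⁻¹) := by group
      rw [this]
      exact B₁.mul_mem ha hb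
    | inv a _ ha =>
      have : g * a⁻¹ * g⁻¹ = (g * a * g⁻¹)⁻¹ := by group
      rw [this]
      exact B₁.inv_mem ha
  have hconjV : ∀ g : G, g * w * g⁻¹ ∈ V := fun g => hVn.conj_mem w hwV g
  have hB₁V : B₁ ≤ V := by
    rw [hB₁, Subgroup.closure_le]
    rintro x (hx | ⟨k, rfl⟩)
    · exact hB₀V hx
    · exact hconjV k
  have hB₁p : IsPGroup p B₁ := hVp.to_le hB₁V
  have hB₁D : B₁ ≤ D := by
    rw [hB₁, Subgroup.closure_le]
    rintro x (hx | ⟨k, rfl⟩)
    · exact hZD (hB₀Z hx)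
    · exact hD.2 w (hZD hwZ) k (hVP (hconjV k))
  have hwB₁ : w ∈ B₁ := Subgroup.subset_closure (Or.inr ⟨1, by group⟩)
  have hB₀B₁ : B₀ ≤ B₁ := fun b hb => Subgroup.subset_closure (Or.inl hb)
  -- class two
  have hcentB₀ : ∀ z ∈ B₀, ∀ g ∈ B₁, z * g = g * z := by
    have hle : B₁ ≤ Subgroup.centralizer (B₀ : Set G) := by
      rw [hB₁, Subgroup.closure_le]
      rintro x (hx | ⟨k, rfl⟩)
      · rw [SetLike.mem_coe, Subgroup.mem_centralizer_iff]
        intro c hc
        exact hcommZ c (hB₀Z hc) x (hB₀Z hx)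
      · rw [SetLike.mem_coe, Subgroup.mem_centralizer_iff]
        intro c hc
        have hc' : k⁻¹ * c * k ∈ B₀ := by
          have := hB₀n.conj_mem c hc k⁻¹
          simpa using this
        have h1 := hcommZ _ (hB₀Z hc') w hwZ
        calc c * (k * w * k⁻¹) = k * ((k⁻¹ * c * k) * w) * k⁻¹ := by group
          _ = k * (w * (k⁻¹ * c * k)) * k⁻¹ := by rw [h1]
          _ = _ := by group
    intro z hz g hg
    exact (Subgroup.mem_centralizer_iff.mp (hle hg)) z hz
  have hcomm1 : ∀ g ∈ B₁, ∀ k ∈ B₁, ⁅g, k⁆ ∈ B₀ := by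
    apply commutator_mem_of_closure hcentB₀
    have hXB : ∀ x ∈ X, x ∈ B₁ := fun x hx => Subgroup.subset_closure hx
    rintro x (hx | ⟨k, rfl⟩) y hy
    · rw [commutatorElement_eq_one_iff_mul_comm.mpr (hcentB₀ x hx y (hXB y hy))]
      exact B₀.one_mem
    · rcases hy with hy | ⟨l, rfl⟩
      · rw [commutatorElement_eq_one_iff_mul_comm.mpr (hcentB₀ y hy _ (hXB _ (Or.inr ⟨k, rfl⟩))).symm]
        exact B₀.one_mem
      · have h1 : k⁻¹ * (l * w * l⁻¹) * k ∈ V := by
          have := hVn.conj_mem _ (hconjV l) k⁻¹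
          simpa using this
        have h2 := hwc _ (hVP h1)
        have h3 := hB₀n.conj_mem _ h2 k
        have e : ⁅k * w * k⁻¹, l * w * l⁻¹⁆ =
            k * (w * (k⁻¹ * (l * w * l⁻¹) * k) * w⁻¹ * (k⁻¹ * (l * w * l⁻¹) * k)⁻¹) * k⁻¹ := by
          rw [commutatorElement_def]
          group
        rw [e]
        exact h3
  have hC2 : C2 B₁ B₀ := ⟨hcentB₀, hcomm1⟩
  -- `Ω₁(B₁)`
  have hdvd : p ∣ p.choose 2 := hpr.dvd_choose_self (by norm_num) (lt_of_le_of_ne hpr.two_le (Ne.symm hp))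
  let V₁ : Subgroup G :=
    { carrier := {x | x ∈ B₁ ∧ x ^ p = 1}
      mul_mem' := by
        rintro a b ⟨ha, ha'⟩ ⟨hb, hb'⟩
        refine ⟨B₁.mul_mem ha hb, ?_⟩
        rw [hC2.mul_pow' ha hb p, ha', hb', one_mul, one_mul]
        obtain ⟨q, hq⟩ := hdvd
        rw [hq, pow_mul, ← hC2.pow_left hb ha p, hb', commutatorElement_one_left, one_pow]
      one_mem' := ⟨B₁.one_mem, one_pow _⟩
      inv_mem' := by
        rintro a ⟨ha, ha'⟩
        exact ⟨B₁.inv_mem ha, by rw [inv_pow, ha', inv_one]⟩ }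
  have hV₁mem : ∀ x, x ∈ V₁ ↔ x ∈ B₁ ∧ x ^ p = 1 := fun x => Iff.rfl
  have hV₁B₁ : V₁ ≤ B₁ := fun x hx => hx.1
  have hV₁n : V₁.Normal := by
    refine ⟨fun n hn g => ⟨hB₁n.conj_mem n hn.1 g, ?_⟩⟩
    rw [conj_pow, hn.2]
    group
  have hV₁p : IsPGroup p V₁ := hB₁p.to_le hV₁B₁
  have hV₁D : V₁ ≤ D := hV₁B₁.trans hB₁D
  -- commutators of `V₁`
  have hV₁comm : ∀ x ∈ V₁, ∀ y ∈ V₁, ⁅x, y⁆ ∈ Fm.zz D := by
    intro x hx y hy
    have h1 : ⁅x, y⁆ ∈ Z := hB₀Z (hcomm1 x hx.1 y hy.1)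
    refine ⟨h1.1, h1.2, ?_⟩
    show ⁅x, y⁆ ^ p = 1
    rw [← hC2.pow_left hx.1 hy.1 p, hx.2, commutatorElement_one_left]
  have hV₁sub : ⁅V₁, V₁⁆ ≤ Fm.zz D := by
    rw [Subgroup.commutator_le]
    exact hV₁comm
  have hV₂ : ⁅⁅V₁, V₁⁆, V₁⁆ = ⊥ := by
    rw [eq_bot_iff, Subgroup.commutator_le]
    intro a ha b hb
    rw [Subgroup.mem_bot, commutatorElement_eq_one_iff_mul_comm]
    have hle : ⁅V₁, V₁⁆ ≤ B₀ := by
      rw [Subgroup.commutator_le]
      exact fun x hx y hy => hcomm1 x hx.1 y hy.1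
    exact hcentB₀ a (hle ha) b hb.1
  have hV₁normalizer : ∀ A : Subgroup G, A ≤ Subgroup.normalizer (V₁ : Set G) := by
    intro A
    rw [Subgroup.normalizer_eq_top_iff.mpr hV₁n]
    exact le_top
  -- stability for `V₁`
  obtain ⟨T, hTn, hCT, ⟨m, hm⟩, hTq⟩ := hst V₁ hV₁p hV₁n
  haveI := hTn
  set C₁ := Subgroup.centralizer (V₁ : Set G) with hC₁
  have hC₁n : C₁.Normal := Subgroup.normal_centralizer
  set C := Subgroup.centralizer (B₁ : Set G) with hC
  have hCn : C.Normal := Subgroup.normal_centralizer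
  have hCC₁ : C ≤ C₁ := Subgroup.centralizer_le hV₁B₁
  have hCT2 : C ≤ T := hCC₁.trans hCT
  -- `T / C` is a `p`-group
  have hm2 : ∃ k : ℕ, C.relIndex T = p ^ k := by
    haveI : (C.subgroupOf T).Normal := hCn.subgroupOf T
    haveI : (C₁.subgroupOf T).Normal := hC₁n.subgroupOf T
    have hpg : IsPGroup p (↥T ⧸ C.subgroupOf T) := by
      intro q
      obtain ⟨t, rfl⟩ := QuotientGroup.mk_surjective q
      obtain ⟨a, ha⟩ := exists_pprime_part (p := p) (t : G)
      refine ⟨a, ?_⟩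
      rw [← QuotientGroup.mk_pow, QuotientGroup.eq_one_iff, Subgroup.mem_subgroupOf]
      set s : G := (t : G) ^ p ^ a with hs
      have hsT : s ∈ T := T.pow_mem t.2 _
      have h1 : s ^ p ^ m ∈ C₁ := by
        have h2 : Nat.card (↥T ⧸ C₁.subgroupOf T) = p ^ m := hm
        have h3 : ((⟨s, hsT⟩ : T) : ↥T ⧸ C₁.subgroupOf T) ^ p ^ m = 1 := by
          rw [← h2]
          exact pow_card_eq_one'
        rw [← QuotientGroup.mk_pow, QuotientGroup.eq_one_iff, Subgroup.mem_subgroupOf] at h3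
        exact h3
      have h2 : s ∈ C₁ := mem_of_pow_mem_coprime h1 (Nat.Coprime.pow_left m ha.symm)
      have hcen := centralizes_of_omega hp hC2 hB₁p (y := s) (fun x hx => hB₁n.conj_mem x hx s) ha
        (fun x hx hxp => by
          have h3 := (Subgroup.mem_centralizer_iff.mp h2) x ⟨hx, hxp⟩
          rw [← h3]
          group)
      show (⟨s, hsT⟩ : T).1 ∈ C
      rw [Subgroup.mem_centralizer_iff]
      intro x hx
      have h3 := hcen x hx
      have h4 : s * x = x * s := by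
        calc s * x = (s * x * s⁻¹) * s := by group
          _ = x * s := by rw [h3]
      exact h4.symm
    obtain ⟨k, hk⟩ := IsPGroup.iff_card.mp hpg
    exact ⟨k, hk⟩
  obtain ⟨k₁, hk₁⟩ := hm2
  set Q₁ : Subgroup G := (P : Subgroup G) ⊓ T with hQ₁
  have hfrat := frattini_inf P T
  -- `T ≤ Q₁ C`
  have hTQC : T ≤ Q₁ ⊔ C := by
    have h1 : (Q₁ ⊔ C).relIndex T ∣ C.relIndex T := Subgroup.relIndex_dvd_of_le_left T le_sup_right
    have h2 : (Q₁ ⊔ C).relIndex T ∣ Q₁.relIndex T := Subgroup.relIndex_dvd_of_le_left T le_sup_left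
    have h3 : ¬ p ∣ Q₁.relIndex T := by
      rw [hQ₁, Subgroup.inf_relIndex_right]
      exact fun h => P.not_dvd_index
        (h.trans (Cfsg.Agent.H18.relIndex_dvd_index_of_normal_right (P : Subgroup G) T))
    rw [hk₁] at h1
    obtain ⟨j, -, hj⟩ := (Nat.dvd_prime_pow (Fact.out : p.Prime)).mp h1
    rcases j with _ | j
    · have : (Q₁ ⊔ C).relIndex T = 1 := by simpa using hj
      exact Subgroup.relIndex_eq_one.mp this
    · exfalso
      apply h3
      refine dvd_trans ?_ h2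
      rw [hj]
      exact dvd_pow_self p (by omega)
  have hsupC : Subgroup.normalizer (Q₁ : Set G) ⊔ C = ⊤ := by
    rw [eq_top_iff, ← hfrat]
    refine sup_le le_sup_left (hTQC.trans (sup_le ?_ le_sup_right))
    exact Subgroup.le_normalizer.trans le_sup_left
  have hdecomp : ∀ g : G, ∃ h ∈ Subgroup.normalizer (Q₁ : Set G), ∃ c ∈ C, g = h * c := by
    intro g
    have hg : g ∈ ((Subgroup.normalizer (Q₁ : Set G) ⊔ C : Subgroup G) : Set G) := by
      rw [hsupC]
      trivial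
    rw [Subgroup.mul_normal] at hg
    obtain ⟨h, hh, c, hc, e⟩ := Set.mem_mul.mp hg
    exact ⟨h, hh, c, hc, e.symm⟩
  set D₁ : Subgroup G := D ⊓ T with hD₁
  have hD₁Q : D₁ ≤ Q₁ := fun x hx => ⟨hDP hx.1, hx.2⟩
  have hNorm : ∀ h ∈ Subgroup.normalizer (Q₁ : Set G), h ∈ Subgroup.normalizer (D₁ : Set G) := by
    have key : ∀ h ∈ Subgroup.normalizer (Q₁ : Set G), ∀ x ∈ D₁, h * x * h⁻¹ ∈ D₁ := by
      intro h hh x hx
      have h1 : h * x * h⁻¹ ∈ Q₁ := (Subgroup.mem_normalizer_iff.mp hh x).mp (hD₁Q hx)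
      exact ⟨hD.2 x hx.1 h h1.1, h1.2⟩
    intro h hh
    rw [Subgroup.mem_normalizer_iff]
    intro x
    refine ⟨key h hh x, fun hx => ?_⟩
    have := key h⁻¹ (Subgroup.inv_mem _ hh) _ hx
    simpa [mul_assoc] using this
  -- conjugates of `w`
  have hconj : ∀ k : G, ∃ h ∈ Subgroup.normalizer (D₁ : Set G), k * w * k⁻¹ = h * w * h⁻¹ := by
    intro k
    obtain ⟨h, hh, c, hc, rfl⟩ := hdecomp k
    refine ⟨h, hNorm h hh, ?_⟩
    have h1 : c * w * c⁻¹ = w := by
      have := (Subgroup.mem_centralizer_iff.mp hc) w hwB₁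
      rw [← this]
      group
    have e : h * c * w * (h * c)⁻¹ = h * (c * w * c⁻¹) * h⁻¹ := by group
    rw [e, h1]
  -- members of largest order inside `T`
  have hkey : ∀ A ∈ Fm.mx D, A ≤ T → ∀ a ∈ A, ∀ x ∈ B₁, a * x = x * a := by
    intro A hA hAT
    have hAD₁ : A ≤ D₁ := le_inf hA.1 hAT
    have hmono : ∀ Y ∈ Fm.mx D₁, Y ∈ Fm.mx D := by
      intro Y hY
      refine ⟨hY.1.trans inf_le_left, hY.2.1, fun B hB hFB => ?_⟩
      exact (hA.2.2 B hB hFB).trans (hY.2.2 A hAD₁ hA.2.1)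
    have hAmx₁ : A ∈ Fm.mx D₁ :=
      ⟨hAD₁, hA.2.1, fun B hB hFB => hA.2.2 B (hB.trans inf_le_left) hFB⟩
    have hJ : Fm.jj D₁ ≤ Fm.jj D := sSup_le fun Y hY => le_jj (hmono Y hY)
    have hcomJ : ∀ z ∈ Z, ∀ j ∈ Fm.jj D₁, j * z = z * j := fun z hz j hj =>
      (Subgroup.mem_centralizer_iff.mp hz.2) j (hJ hj)
    have hle : B₁ ≤ Subgroup.centralizer ((Fm.jj D₁ : Subgroup G) : Set G) := by
      rw [hB₁, Subgroup.closure_le]
      rintro x (hx | ⟨k, rfl⟩)
      · rw [SetLike.mem_coe, Subgroup.mem_centralizer_iff]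
        exact fun j hj => hcomJ x (hB₀Z hx) j hj
      · obtain ⟨h, hh, e⟩ := hconj k
        rw [e, SetLike.mem_coe, Subgroup.mem_centralizer_iff]
        intro j hj
        have hj' : h⁻¹ * j * h ∈ Fm.jj D₁ := by
          have := jj_conj (Subgroup.inv_mem _ hh) hj
          simpa using this
        have h1 := hcomJ w hwZ _ hj'
        calc j * (h * w * h⁻¹) = h * ((h⁻¹ * j * h) * w) * h⁻¹ := by group
          _ = h * (w * (h⁻¹ * j * h)) * h⁻¹ := by rw [h1]
          _ = _ := by group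
    intro a ha x hx
    exact (Subgroup.mem_centralizer_iff.mp (hle hx)) a (le_jj hAmx₁ ha)
  -- the main claim
  have hclaim : ∀ A ∈ Fm.mx D, V₁ ≤ A := by
    by_contra hcon
    push Not at hcon
    obtain ⟨A₀, hA₀, hA₀B⟩ := hcon
    have hfinS : Set.Finite {A : Subgroup G | A ∈ Fm.mx D ∧ ¬ V₁ ≤ A} := Set.toFinite _
    obtain ⟨A, ⟨hA, hAB⟩, hAmax⟩ := Set.exists_max_image _
      (fun A : Subgroup G => Nat.card ↥(A ⊓ V₁)) hfinS ⟨A₀, hA₀, hA₀B⟩
    have hAab : ∀ a ∈ A, ∀ b ∈ A, a * b = b * a := Fm.F_ab A hA.2.1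
    have hAcomm : IsMulCommutative A :=
      ⟨⟨fun a b => Subtype.ext (hAab a a.2 b b.2)⟩⟩
    have hQ : IsPGroup p ↥(A ⊔ V₁) := hDp.to_le (sup_le hA.1 hV₁D)
    have hzzA : Fm.zz D ≤ A := fun b hb => mem_of_zz hA hb
    -- step 1
    have hBnorm : V₁ ≤ Subgroup.normalizer (A : Set G) := by
      by_contra hn
      obtain ⟨Astar, h1, h2, h3, h4, h5, -, h6, -⟩ := replacement hp A V₁ hQ hAcomm hV₂
        (hV₁sub.trans hzzA) (hV₁normalizer A) hn
      have hAsD : Astar ≤ D := h5.trans (sup_le hA.1 hV₁D)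
      have hAsab : ∀ a ∈ Astar, ∀ b ∈ Astar, a * b = b * a := fun a ha b hb =>
        congrArg Subtype.val (h1.is_comm.comm ⟨a, ha⟩ ⟨b, hb⟩)
      have hF : Fm.F Astar := by
        refine Fm.F_rep A Astar hA.2.1 hAsab ?_
        intro n hn a ha
        have h7 : Monoid.exponent A ∣ n := by
          apply Monoid.exponent_dvd_of_forall_pow_eq_one
          rintro ⟨x, hx⟩
          exact Subtype.ext (by simpa using hn x hx)
        have h8 : Monoid.exponent Astar ∣ n := h6.trans h7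
        have h9 := Monoid.exponent_dvd_iff_forall_pow_eq_one.mp h8 ⟨a, ha⟩
        exact congrArg Subtype.val h9
      have hmem : Astar ∈ Fm.mx D :=
        ⟨hAsD, hF, fun B hB hFB => by rw [h2]; exact hA.2.2 B hB hFB⟩
      by_cases hB₁As : V₁ ≤ Astar
      · exact hn (hB₁As.trans h4)
      · have h7 := hAmax Astar ⟨hmem, hB₁As⟩
        have h8 : Nat.card ↥(A ⊓ V₁) < Nat.card ↥(Astar ⊓ V₁) :=
          lt_of_le_of_ne (Subgroup.card_le_of_le h3.le)
            (fun e => h3.ne (Subgroup.eq_of_le_of_card_ge h3.le e.ge))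
        exact absurd h7 (not_le.mpr h8)
    -- step 2: quadratic action
    have hquad : ∀ a ∈ A, ⁅⁅V₁, Subgroup.zpowers a⁆, Subgroup.zpowers a⁆ = ⊥ := by
      intro a ha
      have h1 : ⁅V₁, Subgroup.zpowers a⁆ ≤ A := by
        rw [Subgroup.commutator_le]
        intro x hx y hy
        have hyA : y ∈ A := (Subgroup.zpowers_le.mpr ha) hy
        have h2 := (Subgroup.mem_normalizer_iff.mp (hBnorm hx) y).mp hyA
        rw [commutatorElement_def]
        exact A.mul_mem h2 (A.inv_mem hyA)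
      rw [eq_bot_iff, Subgroup.commutator_le]
      intro x hx y hy
      rw [Subgroup.mem_bot, commutatorElement_eq_one_iff_mul_comm]
      exact hAab x (h1 hx) y ((Subgroup.zpowers_le.mpr ha) hy)
    have hAT : A ≤ T := fun a ha => hTq a (hDP (hA.1 ha)) (hquad a ha)
    have hcomAB := hkey A hA hAT
    apply hAB
    intro x hx
    exact mem_of_comm hA (hV₁D hx) hx.2 (fun a ha => hcomAB a ha x hx.1)
  -- all members lie in `T`
  have hallT : ∀ A ∈ Fm.mx D, A ≤ T := by
    intro A hA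
    refine le_trans ?_ hCT
    intro a ha
    rw [Subgroup.mem_centralizer_iff]
    intro x hx
    exact Fm.F_ab A hA.2.1 x (hclaim A hA hx) a ha
  have hmxeq : Fm.mx D₁ = Fm.mx D := by
    ext Y
    constructor
    · intro hY
      obtain ⟨A, hA⟩ := Fm.exists_mx D
      have hAD₁ : A ≤ D₁ := le_inf hA.1 (hallT A hA)
      refine ⟨hY.1.trans inf_le_left, hY.2.1, fun B hB hFB => ?_⟩
      exact (hA.2.2 B hB hFB).trans (hY.2.2 A hAD₁ hA.2.1)
    · intro hY
      exact ⟨le_inf hY.1 (hallT Y hY), hY.2.1, fun B hB hFB => hY.2.2 B (hB.trans inf_le_left) hFB⟩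
  have hjjeq : Fm.jj D₁ = Fm.jj D := by
    unfold ZJFam.jj
    rw [hmxeq]
  have hzeeq : ze p D₁ = Z := by
    rw [hZ]
    unfold ze
    rw [hjjeq]
  have hB₁Z : B₁ ≤ Z := by
    rw [hB₁, Subgroup.closure_le]
    rintro x (hx | ⟨k, rfl⟩)
    · exact hB₀Z hx
    · obtain ⟨h, hh, e⟩ := hconj k
      rw [e, SetLike.mem_coe, ← hzeeq]
      apply ze_conj hh
      rw [hzeeq]
      exact hwZ
  have h1 := hmax ⟨hB₁n, hB₁Z⟩ hB₀B₁
  exact hwB₀ (h1 hwB₁)

/-- The `p`-stable form. -/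
theorem ze_normal (hp : p ≠ 2) (P : Sylow p G) {D : Subgroup G}
    (hD : Cfsg.IsStronglyClosed D (P : Subgroup G)) (hst : Cfsg.IsNormalizerPStable p G)
    (hc : Subgroup.centralizer (Cfsg.pCore p G : Set G) ≤ Cfsg.pCore p G) : (ze p D).Normal :=
  ze_normal' hp P hD (fun _ hB hBn =>
    let ⟨T, h1, h2, h3, h4⟩ := stable_data hst hB hBn
    ⟨T, h1, h2, h3, fun g _ hg => h4 g hg⟩) hc

end Main

end Cfsg.Agent.H01.ZE
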